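import Mathlib
import Cfsg.Agent.H675.Nd.Cliff
import Cfsg.Agent.OddOrderCharacters.SplitExtension
import Cfsg.Agent.S0173
import Cfsg.Agent.S0033

/-!
# The hypothesis on `N` after the reduction

`Hyp N J x p`: `J = ⁅N, N⁆`, `x ∈ N` of order `p` prime to `|J|` moves all nontrivial irreducible
characters of `J`; the nonlinear irreducible characters of `N` are `G`-invariant, of degrees prime to
`|G : N|`, forming an antichain under divisibility; `x J` is not central in `G / J`.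
-/

set_option autoImplicit false
set_option linter.style.haveILetI false
set_option linter.unusedSectionVars false
open Cfsg

namespace Cfsg.Agent.H675.Nd

open Cfsg.Agent.Characters.Core Cfsg.Agent.Characters.Clifford Cfsg.Agent.H672 Cfsg.Agent.H672.RM
open scoped ComplexConjugate commutatorElement

universe u v

theorem mem_nrm {G : Type u} [Group G] (K : Subgroup G) [K.Normal] (g : G) :
    g ∈ Subgroup.normalizer (K : Set G) := by
  rw [Subgroup.normalizer_eq_top]; exact Subgroup.mem_top g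

theorem le_nrm {G : Type u} [Group G] (K U : Subgroup G) [K.Normal] :
    U ≤ Subgroup.normalizer (K : Set G) := fun g _ => mem_nrm K g

structure Hyp {G : Type u} [Group G] [Finite G] (N J : Subgroup G) (x : G) (p : ℕ) : Prop where
  nN : N.Normal
  eJ : J = ⁅N, N⁆
  pr : p.Prime
  xN : x ∈ N
  xp : x ^ p = 1
  pJ : ¬ p ∣ Nat.card J
  hx : ∀ μ : J → ℂ, IsIrrCharacter J μ → x ∈ stab μ → μ = 1
  inv : ∀ ψ : N → ℂ, IsIrrCharacter N ψ → charDegree ψ ≠ 1 → ∀ g : G, tw N g ψ = ψ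
  cop : ∀ ψ : N → ℂ, IsIrrCharacter N ψ → charDegree ψ ≠ 1 → (charDegree ψ).Coprime N.index
  anti : ∀ ψ ψ' : N → ℂ, IsIrrCharacter N ψ → IsIrrCharacter N ψ' → charDegree ψ ≠ 1 →
    charDegree ψ' ≠ 1 → charDegree ψ ∣ charDegree ψ' → charDegree ψ = charDegree ψ'
  nc : ∃ g : G, x * g * x⁻¹ * g⁻¹ ∉ J

section basic

variable {G : Type u} [Group G] [Finite G] {N J : Subgroup G} {x : G} {p : ℕ}

theorem Hyp.nJ (h : Hyp N J x p) : J.Normal := by
  haveI := h.nN
  rw [h.eJ]; infer_instance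

theorem Hyp.JN (h : Hyp N J x p) : J ≤ N := by
  haveI := h.nN
  rw [h.eJ]; exact Subgroup.commutator_le_left N N

theorem Hyp.ab (h : Hyp N J x p) : ⁅N, N⁆ ≤ J := h.eJ.ge

/-- a linear character of `N` is trivial on `J`. -/
theorem Hyp.lin_one (h : Hyp N J x p) (l : N →* ℂˣ) (j : J) : l ⟨j, h.JN j.2⟩ = 1 := by
  have h1 : ∀ y : G, y ∈ ⁅N, N⁆ → ∀ hy : y ∈ N, l ⟨y, hy⟩ = 1 := by
    intro y hy
    have h2 : ⁅N, N⁆ ≤ (l.ker).map N.subtype := by
      rw [Subgroup.commutator_le]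
      intro a ha b hb
      refine ⟨⁅(⟨a, ha⟩ : N), (⟨b, hb⟩ : N)⁆, ?_, rfl⟩
      rw [SetLike.mem_coe, MonoidHom.mem_ker, map_commutatorElement]
      exact commutatorElement_eq_one_iff_mul_comm.2 (mul_comm _ _)
    intro hy'
    obtain ⟨z, hz, hzy⟩ := h2 hy
    have : z = ⟨y, hy'⟩ := Subtype.ext hzy
    rw [← this]
    exact hz
  exact h1 j (h.eJ ▸ j.2) _

/-- A character of `N` over a nontrivial character of `J` is not linear. -/
theorem Hyp.nonlin (h : Hyp N J x p) {ψ : N → ℂ} (hψ : IsIrrCharacter N ψ) {μ : J → ℂ}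
    (hμ : IsIrrCharacter J μ) (hμ1 : μ ≠ 1) (ho : Over (Subgroup.inclusion h.JN) ψ μ) :
    charDegree ψ ≠ 1 := by
  classical
  intro h1
  obtain ⟨l, rfl⟩ := exists_hom_of_degree_one hψ h1
  letI := Fintype.ofFinite J
  rw [over_iff] at ho
  apply ho
  have e : lf l ∘ Subgroup.inclusion h.JN = (1 : J → ℂ) := by
    funext j
    change ((l _ : ℂˣ) : ℂ) = 1
    have := h.lin_one l j
    rw [show Subgroup.inclusion h.JN j = ⟨j, h.JN j.2⟩ from rfl, this]
    rfl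
  rw [e]
  exact classInner_irr_ne isIrr_one hμ (Ne.symm hμ1)

/-- a nonlinear character of `N` lies over a nontrivial character of `J`. -/
theorem Hyp.under_ne_one (h : Hyp N J x p) {ψ : N → ℂ} (hψ : IsIrrCharacter N ψ)
    (h1 : charDegree ψ ≠ 1) {μ : J → ℂ} (_hμ : IsIrrCharacter J μ)
    (ho : Over (Subgroup.inclusion h.JN) ψ μ) : μ ≠ 1 := by
  rintro rfl
  haveI := h.nJ
  haveI := h.nN
  have h2 := (over_one_iff h.JN (le_nrm J N) hψ).1 ho
  apply h1
  have h3 : ∀ k ∈ commutator N, ψ k = ψ 1 := by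
    intro k hk
    have hk' : (k : G) ∈ J := by
      apply h.ab
      rw [← Subgroup.map_subtype_commutator]
      exact ⟨k, hk, rfl⟩
    exact h2 ⟨k, hk'⟩
  obtain ⟨l, rfl⟩ := OddOrderCharacters.PF9.CliffGen.exists_hom_of_ker hψ h3
  exact charDegree_lf l

/-- `C_J(x) = 1`. -/
theorem Hyp.fix (h : Hyp N J x p) {j : G} (hj : j ∈ J) (hc : x * j = j * x) : j = 1 := by
  classical
  haveI := h.nJ
  let α : J ≃* J := cj (mem_nrm J x)
  have hα : ∀ k : J, ((α k : J) : G) = x * k * x⁻¹ := fun _ => rfl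
  have h1 := S0173.result α
  have h2 : Nat.card {χ : IrrCharacter J // (χ : J → ℂ) ∘ α = (χ : J → ℂ)} = 1 := by
    rw [Nat.card_eq_one_iff_unique]
    refine ⟨⟨fun a b => ?_⟩, ⟨⟨⟨1, isIrr_one⟩, rfl⟩⟩⟩
    have key : ∀ a : {χ : IrrCharacter J // (χ : J → ℂ) ∘ α = (χ : J → ℂ)},
        ((a : IrrCharacter J) : J → ℂ) = 1 := by
      intro a
      refine h.hx _ a.1.2 ⟨mem_nrm J x, ?_⟩
      rw [tw_eq_comp (mem_nrm J x)]
      exact a.2
    exact Subtype.ext (Subtype.ext ((key a).trans (key b).symm))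
  rw [h2, Nat.card_eq_one_iff_unique] at h1
  obtain ⟨h3, -⟩ := h1
  have h4 : ConjClasses.map α.toMonoidHom (ConjClasses.mk (⟨j, hj⟩ : J)) =
      ConjClasses.mk (⟨j, hj⟩ : J) := by
    change ConjClasses.mk (α ⟨j, hj⟩) = _
    congr 1
    apply Subtype.ext
    rw [hα]
    change x * j * x⁻¹ = j
    rw [hc, mul_inv_cancel_right]
  have h5 : ConjClasses.map α.toMonoidHom (ConjClasses.mk (1 : J)) =
      ConjClasses.mk (1 : J) := by
    change ConjClasses.mk (α 1) = _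
    rw [map_one]
  have h6 := h3.elim (⟨_, h4⟩ : {C : ConjClasses J // ConjClasses.map α.toMonoidHom C = C}) ⟨_, h5⟩
  have h7 : ConjClasses.mk (⟨j, hj⟩ : J) = ConjClasses.mk 1 := congrArg Subtype.val h6
  rw [ConjClasses.mk_eq_mk_iff_isConj, isConj_comm, isConj_iff] at h7
  obtain ⟨c, hc'⟩ := h7
  have h8 : (⟨j, hj⟩ : J) = 1 := by rw [← hc']; group
  exact congrArg Subtype.val h8

/-- Every element of `N` is the product of an element of `J` and an element centralizing `x`. -/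
theorem Hyp.exists_mul (h : Hyp N J x p) {n : G} (hn : n ∈ N) :
    ∃ j ∈ J, ∃ c ∈ N, x * c = c * x ∧ n = c * j := by
  haveI := h.nJ
  haveI := h.nN
  -- `j ↦ x⁻¹ j⁻¹ x j` is injective, hence surjective, on `J`
  let f : J → J := fun j => ⟨x⁻¹ * (j : G)⁻¹ * x * j, by
    have h1 := h.nJ.conj_mem (j : G)⁻¹ (J.inv_mem j.2) x⁻¹
    rw [inv_inv] at h1
    exact J.mul_mem h1 j.2⟩
  have hf : Function.Injective f := by
    intro a b hab
    have h1 : x⁻¹ * (a : G)⁻¹ * x * a = x⁻¹ * (b : G)⁻¹ * x * b := congrArg Subtype.val hab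
    have h2 : x * ((b : G) * (a : G)⁻¹) = ((b : G) * (a : G)⁻¹) * x := by
      have h3 : (a : G)⁻¹ * x * a = (b : G)⁻¹ * x * b := by
        have := congrArg (fun y => x * y) h1
        simpa [mul_assoc] using this
      have h4 : (b : G) * ((a : G)⁻¹ * x * a) * (a : G)⁻¹ = (b : G) * ((b : G)⁻¹ * x * b) * (a : G)⁻¹ := by
        rw [h3]
      have h5 : (b : G) * ((a : G)⁻¹ * x * a) * (a : G)⁻¹ = (b : G) * (a : G)⁻¹ * x := by group
      have h6 : (b : G) * ((b : G)⁻¹ * x * b) * (a : G)⁻¹ = x * ((b : G) * (a : G)⁻¹) := by group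
      rw [h5, h6] at h4
      exact h4.symm
    have h3 := h.fix (J.mul_mem b.2 (J.inv_mem a.2)) h2
    exact Subtype.ext (mul_inv_eq_one.1 h3).symm
  have hs := Finite.surjective_of_injective hf
  have h1 : x⁻¹ * (n⁻¹ * x * n) ∈ J := by
    have h2 : ⁅x⁻¹, n⁻¹⁆ ∈ J := h.ab (Subgroup.commutator_mem_commutator (N.inv_mem h.xN) (N.inv_mem hn))
    rw [commutatorElement_def, inv_inv, inv_inv] at h2
    simpa [mul_assoc] using h2
  obtain ⟨j, hj⟩ := hs ⟨_, h1⟩
  have h2 : x⁻¹ * (j : G)⁻¹ * x * j = x⁻¹ * (n⁻¹ * x * n) := congrArg Subtype.val hj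
  have h3 : (j : G)⁻¹ * x * j = n⁻¹ * x * n := by
    have := congrArg (fun y => x * y) h2
    simpa [mul_assoc] using this
  refine ⟨j, j.2, n * (j : G)⁻¹, N.mul_mem hn (N.inv_mem (h.JN j.2)), ?_, by group⟩
  have h4 : n * ((j : G)⁻¹ * x * j) * (j : G)⁻¹ = n * (n⁻¹ * x * n) * (j : G)⁻¹ := by rw [h3]
  have h5 : n * ((j : G)⁻¹ * x * j) * (j : G)⁻¹ = n * (j : G)⁻¹ * x := by group
  have h6 : n * (n⁻¹ * x * n) * (j : G)⁻¹ = x * (n * (j : G)⁻¹) := by group
  rw [h5, h6] at h4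
  exact h4.symm

/-- Elements of `N` centralizing `x` commute. -/
theorem Hyp.comm_cent (h : Hyp N J x p) {a b : G} (ha : a ∈ N) (hb : b ∈ N) (hxa : x * a = a * x)
    (hxb : x * b = b * x) : a * b = b * a := by
  have h1 : ⁅a, b⁆ ∈ J := h.ab (Subgroup.commutator_mem_commutator ha hb)
  have h2 := h.fix h1 (by
    have e1 : Commute x a := hxa
    have e2 : Commute x b := hxb
    rw [commutatorElement_def]
    exact ((e1.mul_right e2).mul_right e1.inv_right).mul_right e2.inv_right)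
  exact commutatorElement_eq_one_iff_mul_comm.1 h2

end basic

section lin

variable {G : Type u} [Group G] [Finite G] {N J : Subgroup G} {x : G} {p : ℕ}

theorem mem_stab_lf {J : Subgroup G} [hJ : J.Normal] {l : J →* ℂˣ} {g : G} :
    g ∈ stab (lf l : J → ℂ) ↔ ∀ j : J, l ⟨g * j * g⁻¹, hJ.conj_mem j j.2 g⟩ = l j := by
  rw [mem_stab, tw_eq_comp (mem_nrm J g)]
  constructor
  · rintro ⟨-, h⟩ j
    exact Units.ext (congrFun h j)
  · intro h
    exact ⟨mem_nrm J g, funext fun j => congrArg Units.val (h j)⟩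

/-- An invariant linear character of `J` extends. -/
theorem Hyp.lin_ext (h : Hyp N J x p) {T : Subgroup G} (hTN : T ≤ N) (hJT : J ≤ T)
    (l : J →* ℂˣ) (hT : T ≤ stab (lf l : J → ℂ)) :
    ∃ m : T →* ℂˣ, ∀ j : J, m (Subgroup.inclusion hJT j) = l j := by
  haveI := h.nJ
  let W : Subgroup T := (Subgroup.centralizer ({x} : Set G)).subgroupOf T
  have hW : ∀ t : T, t ∈ W ↔ x * t = t * x := by
    intro t
    rw [Subgroup.mem_subgroupOf, Subgroup.mem_centralizer_singleton_iff]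
    exact eq_comm
  have h1 : J.subgroupOf T ⊓ W = ⊥ := by
    rw [eq_bot_iff]
    rintro t ⟨h1, h2⟩
    exact Subtype.ext (h.fix h1 ((hW t).1 h2))
  have h2 : J.subgroupOf T ⊔ W = ⊤ := by
    rw [eq_top_iff]
    intro t _
    obtain ⟨j, hj, c, hc, hxc, e⟩ := h.exists_mul (hTN t.2)
    have hcT : c ∈ T := by
      have : c = t * j⁻¹ := by rw [e]; group
      rw [this]
      exact T.mul_mem t.2 (T.inv_mem (hJT hj))
    have e' : t = (⟨c, hcT⟩ : T) * ⟨j, hJT hj⟩ := Subtype.ext e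
    rw [e']
    refine Subgroup.mul_mem _ (Subgroup.mem_sup_right ((hW _).2 hxc)) (Subgroup.mem_sup_left ?_)
    exact hj
  obtain ⟨F, hF, -⟩ := OddOrderCharacters.SplitExtension.exists_hom_of_complement
    (J.subgroupOf T) W h1 h2 (l.comp (Subgroup.subgroupOfEquivOfLe hJT).toMonoidHom) 1 (by
      intro w n
      rw [MonoidHom.one_apply, one_mul, inv_one, mul_one]
      exact (mem_stab_lf.1 (hT w.1.2)) ⟨n, n.2⟩)
  exact ⟨F, fun j => hF ⟨⟨j, hJT j.2⟩, j.2⟩⟩

/-- The stabilizer in `N` of a linear character of `J`. -/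
noncomputable def TL (N : Subgroup G) {J : Subgroup G} (l : J →* ℂˣ) : Subgroup G :=
  N ⊓ stab (lf l : J → ℂ)

theorem Hyp.inert (h : Hyp N J x p) {μ : J → ℂ} (hμ : IsIrrCharacter J μ) :
    Inert J (N ⊓ stab μ) N μ := by
  haveI := h.nJ
  exact ⟨h.JN, le_nrm J N, hμ, rfl⟩

theorem Hyp.inertL (h : Hyp N J x p) (l : J →* ℂˣ) : Inert J (TL N l) N (lf l) :=
  h.inert (isIrr_lf l)

theorem lf_ne_one {K : Type v} [Group K] [Finite K] {l : K →* ℂˣ} (hl : l ≠ 1) : lf l ≠ 1 := by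
  intro e
  apply hl
  apply lf_injective
  rw [e]
  rfl

/-- For an extendible nontrivial `μ`: centrality of `T / J`. -/
theorem Hyp.central (h : Hyp N J x p) {μ : J → ℂ} (hμ : IsIrrCharacter J μ) (hμ1 : μ ≠ 1)
    {χ : (N ⊓ stab μ : Subgroup G) → ℂ} (hχ : IsIrrCharacter _ χ)
    (hext : ∀ j : J, χ (Subgroup.inclusion (h.inert hμ).KT j) = μ j) :
    ∀ t ∈ N ⊓ stab μ, ∀ g : G, t * g * t⁻¹ * g⁻¹ ∈ J := by
  haveI := h.nJ
  haveI := h.nN
  exact central_of_inv h.ab (h.inert hμ) hχ hext (fun ψ hψ ho g =>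
    h.inv ψ hψ (h.nonlin hψ hμ hμ1 ho) g)

/-- For an extendible nontrivial `μ`: the degree `|N : T| μ(1)`. -/
theorem Hyp.deg (h : Hyp N J x p) {μ : J → ℂ} (hμ : IsIrrCharacter J μ) (hμ1 : μ ≠ 1)
    {χ : (N ⊓ stab μ : Subgroup G) → ℂ} (hχ : IsIrrCharacter _ χ)
    (hext : ∀ j : J, χ (Subgroup.inclusion (h.inert hμ).KT j) = μ j) :
    ∃ ψ : N → ℂ, IsIrrCharacter N ψ ∧ charDegree ψ ≠ 1 ∧ Over (Subgroup.inclusion h.JN) ψ μ ∧
      charDegree ψ = (N ⊓ stab μ).relIndex N * charDegree μ := by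
  haveI := h.nJ
  have ho : Over (Subgroup.inclusion (h.inert hμ).KT) χ μ := by
    classical
    letI := Fintype.ofFinite J
    rw [over_iff]
    have e : χ ∘ Subgroup.inclusion (h.inert hμ).KT = μ := funext hext
    rw [e, classInner_irr_self hμ]
    exact one_ne_zero
  obtain ⟨ψ, hψ, -, h2, h3⟩ := (h.inert hμ).lift hχ ho
  refine ⟨ψ, hψ, h.nonlin hψ hμ hμ1 h2, h2, ?_⟩
  rw [h3]
  congr 1
  have e : χ ∘ Subgroup.inclusion (h.inert hμ).KT = μ := funext hext
  exact (charDegree_comp_one (Subgroup.inclusion (h.inert hμ).KT) χ).symm.trans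
    (congrArg charDegree e)

theorem Hyp.centralL (h : Hyp N J x p) {l : J →* ℂˣ} (hl : l ≠ 1) :
    ∀ t ∈ TL N l, ∀ g : G, t * g * t⁻¹ * g⁻¹ ∈ J := by
  obtain ⟨m, hm⟩ := h.lin_ext (h.inertL l).TU (h.inertL l).KT l (h.inertL l).Tstab
  exact h.central (isIrr_lf l) (lf_ne_one hl) (isIrr_lf m) (fun j => congrArg Units.val (hm j))

theorem Hyp.degL (h : Hyp N J x p) {l : J →* ℂˣ} (hl : l ≠ 1) :
    ∃ ψ : N → ℂ, IsIrrCharacter N ψ ∧ charDegree ψ ≠ 1 ∧
      Over (Subgroup.inclusion h.JN) ψ (lf l) ∧ charDegree ψ = (TL N l).relIndex N := by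
  obtain ⟨m, hm⟩ := h.lin_ext (h.inertL l).TU (h.inertL l).KT l (h.inertL l).Tstab
  obtain ⟨ψ, h1, h2, h3, h4⟩ := h.deg (isIrr_lf l) (lf_ne_one hl) (isIrr_lf m)
    (fun j => congrArg Units.val (hm j))
  refine ⟨ψ, h1, h2, h3, ?_⟩
  rw [h4, charDegree_lf, mul_one]
  rfl

end lin

end Cfsg.Agent.H675.Nd
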