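import Mathlib
import Cfsg.Agent.H675.Nd.Hyp
import Cfsg.Agent.H672.RM.SM

/-!
# The stabilizers of the linear characters of `J` coincide
-/

set_option autoImplicit false
set_option linter.style.haveILetI false
set_option linter.unusedSectionVars false
open Cfsg

namespace Cfsg.Agent.H675.Nd

open Cfsg.Agent.Characters.Core Cfsg.Agent.Characters.Clifford Cfsg.Agent.H672 Cfsg.Agent.H672.RM
open scoped ComplexConjugate commutatorElement

universe u v

section twist

variable {G : Type u} [Group G] {J : Subgroup G} [hJ : J.Normal]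

/-- the conjugate of a linear character -/
def cl (g : G) (l : J →* ℂˣ) : J →* ℂˣ := l.comp (cj (mem_nrm J g)).toMonoidHom

theorem cl_apply (g : G) (l : J →* ℂˣ) (j : J) :
    cl g l j = l ⟨g * j * g⁻¹, hJ.conj_mem j j.2 g⟩ := rfl

theorem cl_one (l : J →* ℂˣ) : cl (1 : G) l = l := by
  apply MonoidHom.ext
  intro j
  rw [cl_apply]
  congr 1
  apply Subtype.ext
  simp

theorem cl_mul (a b : G) (l : J →* ℂˣ) : cl (a * b) l = cl b (cl a l) := by
  apply MonoidHom.ext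
  intro j
  rw [cl_apply, cl_apply, cl_apply]
  congr 1
  apply Subtype.ext
  simp [mul_assoc]

theorem cl_hmul (g : G) (l m : J →* ℂˣ) : cl g (l * m) = cl g l * cl g m := rfl

theorem cl_hinv (g : G) (l : J →* ℂˣ) : cl g l⁻¹ = (cl g l)⁻¹ := rfl

theorem cl_hone (g : G) : cl g (1 : J →* ℂˣ) = 1 := rfl

theorem cl_of_mem {g : G} (hg : g ∈ J) (l : J →* ℂˣ) : cl g l = l := by
  apply MonoidHom.ext
  intro j
  rw [cl_apply]
  have e : (⟨g * j * g⁻¹, hJ.conj_mem j j.2 g⟩ : J) = ⟨g, hg⟩ * j * ⟨g, hg⟩⁻¹ := rfl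
  rw [e, map_mul, map_mul, map_inv, mul_right_comm, mul_inv_cancel, one_mul]

/-- elements acting trivially on `J` -/
theorem cl_of_comm {g : G} (hg : ∀ j ∈ J, g * j = j * g) (l : J →* ℂˣ) : cl g l = l := by
  apply MonoidHom.ext
  intro j
  rw [cl_apply]
  congr 1
  apply Subtype.ext
  change g * j * g⁻¹ = j
  rw [hg j j.2, mul_inv_cancel_right]

theorem mem_stab_iff {g : G} {l : J →* ℂˣ} : g ∈ stab (lf l : J → ℂ) ↔ cl g l = l := by
  constructor
  · rintro ⟨-, h⟩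
    apply MonoidHom.ext
    intro j
    have h1 := congrFun h j
    rw [tw_apply (mem_nrm J g)] at h1
    exact Units.ext h1
  · intro h
    refine ⟨mem_nrm J g, funext fun j => ?_⟩
    rw [tw_apply (mem_nrm J g)]
    exact congrArg Units.val (DFunLike.congr_fun h j)

theorem mem_TL {N : Subgroup G} {g : G} {l : J →* ℂˣ} : g ∈ TL N l ↔ g ∈ N ∧ cl g l = l := by
  rw [TL, Subgroup.mem_inf, mem_stab_iff]

theorem TL_inv {N : Subgroup G} (l : J →* ℂˣ) : TL N l⁻¹ = TL N l := by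
  have key : ∀ m : J →* ℂˣ, TL N m ≤ TL N m⁻¹ := by
    intro m g hg
    rw [mem_TL] at hg ⊢
    exact ⟨hg.1, by rw [cl_hinv, hg.2]⟩
  refine le_antisymm ?_ (key l)
  have h := key l⁻¹
  have e : (l⁻¹)⁻¹ = l := by
    apply MonoidHom.ext
    intro j
    exact inv_inv (l j)
  rwa [e] at h

theorem finite_lin (K : Type v) [Group K] [Finite K] : Finite (K →* ℂˣ) := by
  haveI := finite_irr (G := K)
  exact Finite.of_injective (fun l : K →* ℂˣ => (⟨lf l, isIrr_lf l⟩ : IrrCharacter K))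
    fun a b hab => lf_injective (congrArg Subtype.val hab)

/-- The action of `G` on the linear characters of `J`. -/
@[reducible] def clAct (J : Subgroup G) [hJ : J.Normal] : MulAction G (J →* ℂˣ) where
  smul g l := cl g⁻¹ l
  one_smul l := by
    change cl (1 : G)⁻¹ l = l
    rw [inv_one, cl_one]
  mul_smul a b l := by
    change cl (a * b)⁻¹ l = cl a⁻¹ (cl b⁻¹ l)
    rw [mul_inv_rev, cl_mul]

/-- For an `r`-group `J`, an `r`-element fixes a nontrivial linear character. -/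
theorem exists_fixed_lin [Finite G] {r : ℕ} (hr : r.Prime) (hJr : IsPGroup r J) {u : G} {k : ℕ}
    (huk : u ^ r ^ k = 1) {l : J →* ℂˣ} (hl : l ≠ 1) : ∃ m : J →* ℂˣ, m ≠ 1 ∧ cl u m = m := by
  classical
  haveI := Fact.mk hr
  haveI := finite_lin J
  letI := clAct J
  have hZ : IsPGroup r (Subgroup.zpowers u) := by
    rintro ⟨_, i, rfl⟩
    refine ⟨k, Subtype.ext ?_⟩
    change (u ^ i) ^ r ^ k = 1
    rw [← zpow_natCast, ← zpow_mul, mul_comm, zpow_mul, zpow_natCast, huk, one_zpow]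
  have hΛ : IsPGroup r (J →* ℂˣ) := by
    obtain ⟨a, ha⟩ := IsPGroup.iff_card.1 hJr
    intro m
    refine ⟨a, MonoidHom.ext fun j => ?_⟩
    rw [MonoidHom.pow_apply, ← map_pow, ← ha, pow_card_eq_one', map_one]
    rfl
  have hdvd : r ∣ Nat.card (J →* ℂˣ) := by
    obtain ⟨b, hb⟩ := IsPGroup.iff_card.1 hΛ
    have : b ≠ 0 := by
      rintro rfl
      rw [pow_zero, Nat.card_eq_one_iff_unique] at hb
      exact hl (hb.1.elim l 1)
    rw [hb]
    exact dvd_pow_self r this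
  have h1 : (1 : J →* ℂˣ) ∈ MulAction.fixedPoints (Subgroup.zpowers u) (J →* ℂˣ) := fun g => rfl
  obtain ⟨m, hm, hm1⟩ := hZ.exists_fixed_point_of_prime_dvd_card_of_fixed_point (J →* ℂˣ)
    hdvd h1
  refine ⟨m, Ne.symm hm1, ?_⟩
  have h2 : cl u⁻¹ m = m := hm ⟨u, Subgroup.mem_zpowers u⟩
  conv_lhs => rw [← h2]
  rw [← cl_mul, inv_mul_cancel, cl_one]

end twist

section Y3

variable {G : Type u} [Group G] [Finite G] {N J : Subgroup G} {x : G} {p : ℕ} [hJn : J.Normal]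

theorem Hyp.cl_comm (h : Hyp N J x p) {a b : G} (ha : a ∈ N) (hb : b ∈ N) (l : J →* ℂˣ) :
    cl (a * b) l = cl (b * a) l := by
  have e : a * b = ⁅a, b⁆ * (b * a) := by rw [commutatorElement_def]; group
  rw [e, cl_mul, cl_of_mem (h.ab (Subgroup.commutator_mem_commutator ha hb))]

theorem Hyp.TL_le_diff (h : Hyp N J x p) {t : G} (ht : t ∈ N) (m : J →* ℂˣ) :
    TL N m ≤ TL N (cl t m * m⁻¹) := by
  intro n hn
  rw [mem_TL] at hn ⊢
  refine ⟨hn.1, ?_⟩
  rw [cl_hmul, cl_hinv, hn.2, ← cl_mul, h.cl_comm ht hn.1, cl_mul, hn.2]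

theorem Hyp.TL_of_le (h : Hyp N J x p) {l m : J →* ℂˣ} (hl : l ≠ 1) (hm : m ≠ 1)
    (hle : TL N l ≤ TL N m) : TL N l = TL N m := by
  obtain ⟨ψ, h1, h2, -, h4⟩ := h.degL hl
  obtain ⟨ψ', h1', h2', -, h4'⟩ := h.degL hm
  have h5 : (TL N m).relIndex N ∣ (TL N l).relIndex N := Subgroup.relIndex_dvd_of_le_left N hle
  have h6 := h.anti ψ' ψ h1' h1 h2' h2 (by rw [h4, h4']; exact h5)
  rw [h4, h4'] at h6
  have h7 := Subgroup.relIndex_mul_relIndex (TL N l) (TL N m) N hle (h.inertL m).TU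
  rw [h6] at h7
  have h8 : (TL N l).relIndex (TL N m) = 1 := by
    have h9 : 0 < (TL N l).relIndex N := Nat.pos_of_ne_zero Subgroup.index_ne_zero_of_finite
    exact Nat.eq_of_mul_eq_mul_right h9 (by rw [h7, one_mul])
  exact le_antisymm hle (Subgroup.relIndex_eq_one.1 h8)

/-- **All stabilizers of nontrivial linear characters of `J` coincide.** -/
theorem Hyp.TL_eq (h : Hyp N J x p) {l m : J →* ℂˣ} (hl : l ≠ 1) (hm : m ≠ 1) :
    TL N l = TL N m := by
  by_contra hne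
  have hex : ∃ t ∈ TL N l, t ∉ TL N m := by
    by_contra hcon
    push Not at hcon
    exact hne (h.TL_of_le hl hm hcon)
  obtain ⟨t, ht, htm⟩ := hex
  have ht' := mem_TL.1 ht
  have hκ : cl t m * m⁻¹ ≠ 1 := by
    intro e
    exact htm (mem_TL.2 ⟨ht'.1, mul_inv_eq_one.1 e⟩)
  have h2 : TL N m = TL N (cl t m * m⁻¹) := h.TL_of_le hm hκ (h.TL_le_diff ht'.1 m)
  have hν : l * m ≠ 1 := by
    intro e
    apply hne
    have e2 : l = m⁻¹ := by
      apply MonoidHom.ext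
      intro j
      have := DFunLike.congr_fun e j
      rw [MonoidHom.mul_apply, MonoidHom.one_apply] at this
      exact eq_inv_of_mul_eq_one_left this
    rw [e2, TL_inv]
  have h3 : TL N (l * m) ≤ TL N (cl t m * m⁻¹) := by
    have h4 := h.TL_le_diff ht'.1 (l * m)
    have e : cl t (l * m) * (l * m)⁻¹ = cl t m * m⁻¹ := by
      apply MonoidHom.ext
      intro j
      have e1 := DFunLike.congr_fun ht'.2 j
      change cl t l j * cl t m j * (l j * m j)⁻¹ = cl t m j * (m j)⁻¹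
      rw [e1, mul_inv, mul_mul_mul_comm, mul_inv_cancel, one_mul]
    rwa [e] at h4
  have h4 : TL N (l * m) = TL N m := (h.TL_of_le hν hκ h3).trans h2.symm
  have h5 : TL N m ≤ TL N l := by
    intro n hn
    have h6 := mem_TL.1 hn
    rw [← h4] at hn
    have h7 := mem_TL.1 hn
    refine mem_TL.2 ⟨h6.1, ?_⟩
    have h8 := h7.2
    rw [cl_hmul, h6.2] at h8
    exact mul_right_cancel h8
  exact hne (h.TL_of_le hm hl h5).symm

theorem Hyp.mem_TL_of_pow (h : Hyp N J x p) {r : ℕ} (hr : r.Prime) (hJr : IsPGroup r J) {u : G}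
    (hu : u ∈ N) {k : ℕ} (huk : u ^ r ^ k = 1) {l : J →* ℂˣ} (hl : l ≠ 1) : u ∈ TL N l := by
  obtain ⟨m, hm, hm'⟩ := exists_fixed_lin hr hJr huk hl
  rw [h.TL_eq hl hm]
  exact mem_TL.2 ⟨hu, hm'⟩

/-- `r` does not divide `|N : N₁|` if `J` is an `r`-group. -/
theorem Hyp.not_dvd_relIndex (h : Hyp N J x p) {r : ℕ} (hr : r.Prime) (hJr : IsPGroup r J)
    {l : J →* ℂˣ} (hl : l ≠ 1) : ¬ r ∣ (TL N l).relIndex N := by
  haveI := Fact.mk hr
  obtain ⟨S, hS⟩ := exists_sylIn (p := r) N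
  intro hd
  apply hS.ndvd
  refine hd.trans (Subgroup.relIndex_dvd_of_le_left N ?_)
  intro u hu
  obtain ⟨k, hk⟩ := hS.pg ⟨u, hu⟩
  exact h.mem_TL_of_pow hr hJr (hS.le hu) (k := k) (by simpa using congrArg Subtype.val hk) hl

end Y3

end Cfsg.Agent.H675.Nd
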