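import Mathlib
import Cfsg.Agent.H675.Nd.Lin
import Cfsg.Agent.S0002

/-!
# Counting the linear characters of a normal subgroup by their stabilizers
-/

set_option autoImplicit false
set_option linter.style.haveILetI false
set_option linter.unusedSectionVars false
open Cfsg

namespace Cfsg.Agent.H675.Nd

open Cfsg.Agent.H672 Cfsg.Agent.H672.RM
open scoped commutatorElement Pointwise

universe u v

/-- Complements to `N / M` in `G / M` are conjugate. -/
theorem conj_compl {G : Type u} [Group G] [Finite G] {M N T₁ T₂ : Subgroup G} [hMn : M.Normal]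
    [N.Normal] (hMN : M ≤ N) (hab : ⁅N, N⁆ ≤ M) (h1 : N ⊓ T₁ = M)
    (h1' : ∀ g : G, ∃ s ∈ T₁, ∃ n ∈ N, g = s * n) (h2 : N ⊓ T₂ = M)
    (h2' : ∀ g : G, ∃ s ∈ T₂, ∃ n ∈ N, g = s * n) (hcop : (M.relIndex N).Coprime N.index) :
    ∃ n ∈ N, ∀ t, t ∈ T₁ ↔ n * t * n⁻¹ ∈ T₂ := by
  classical
  let π := QuotientGroup.mk' M
  have hπ : Function.Surjective π := QuotientGroup.mk'_surjective M
  have hπ1 : ∀ g : G, π g = 1 ↔ g ∈ M := fun g => QuotientGroup.eq_one_iff g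
  have hπ2 : ∀ a b : G, π a = π b → a⁻¹ * b ∈ M := fun a b h => QuotientGroup.eq.1 h
  let A := N.map π
  haveI hA : A.Normal := Subgroup.Normal.map inferInstance π hπ
  haveI hAc : IsMulCommutative A := by
    refine ⟨⟨?_⟩⟩
    rintro ⟨_, a, ha, rfl⟩ ⟨_, b, hb, rfl⟩
    apply Subtype.ext
    change π a * π b = π b * π a
    have h3 := (hπ1 _).2 (hab (Subgroup.commutator_mem_commutator ha hb))
    rw [map_commutatorElement, commutatorElement_eq_one_iff_mul_comm] at h3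
    exact h3
  have hcA : Nat.card A = M.relIndex N := by
    rw [← Subgroup.relIndex_ker, QuotientGroup.ker_mk']
  have hiA : A.index = N.index := by
    rw [Subgroup.index_map, QuotientGroup.ker_mk', sup_of_le_left hMN,
      MonoidHom.range_eq_top.2 hπ, Subgroup.index_top, mul_one]
  have hcompl : ∀ T : Subgroup G, N ⊓ T = M → (∀ g : G, ∃ s ∈ T, ∃ n ∈ N, g = s * n) →
      Subgroup.IsComplement' A (T.map π) := by
    intro T hT hT'
    have hMT : M ≤ T := hT ▸ inf_le_right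
    refine Subgroup.isComplement'_of_disjoint_and_mul_eq_univ ?_ ?_
    · rw [Subgroup.disjoint_def]
      rintro _ ⟨n, hn, rfl⟩ ⟨t, ht, htn⟩
      have h3 := hπ2 t n htn
      have h4 : n ∈ T := by
        have := T.mul_mem ht (hMT h3)
        rwa [mul_inv_cancel_left] at this
      have h5 : n ∈ N ⊓ T := ⟨hn, h4⟩
      rw [hT] at h5
      exact (hπ1 n).2 h5
    · rw [Set.eq_univ_iff_forall]
      intro q
      obtain ⟨g, rfl⟩ := hπ q
      obtain ⟨s, hs, n, hn, e⟩ := hT' g⁻¹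
      refine ⟨π n⁻¹, ⟨n⁻¹, N.inv_mem hn, rfl⟩, π s⁻¹, ⟨s⁻¹, T.inv_mem hs, rfl⟩, ?_⟩
      change π n⁻¹ * π s⁻¹ = π g
      rw [← map_mul, ← mul_inv_rev, ← e, inv_inv]
  obtain ⟨a, ⟨n, hn, rfl⟩, ha⟩ := S0002.result A (by rw [hcA, hiA]; exact hcop) (T₁.map π) (T₂.map π)
    (hcompl T₁ h1 h1') (hcompl T₂ h2 h2')
  have hmem : ∀ T : Subgroup G, N ⊓ T = M → ∀ g, g ∈ T ↔ π g ∈ T.map π := by
    intro T hT g
    refine ⟨fun h => ⟨g, h, rfl⟩, ?_⟩
    rintro ⟨t, ht, htg⟩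
    have hMT : M ≤ T := hT ▸ inf_le_right
    have := T.mul_mem ht (hMT (hπ2 t g htg))
    rwa [mul_inv_cancel_left] at this
  refine ⟨n, hn, fun t => ?_⟩
  rw [hmem T₁ h1, hmem T₂ h2, ← ha, Subgroup.mem_pointwise_smul_iff_inv_smul_mem]
  have e : (MulAut.conj (π n))⁻¹ • π (n * t * n⁻¹) = π t := by
    rw [← map_inv]
    change (π n)⁻¹ * π (n * t * n⁻¹) * ((π n)⁻¹)⁻¹ = π t
    rw [map_mul, map_mul, map_inv]
    group
  rw [e]

/-- The elements of `N` central modulo `J`. -/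
def NZ {G : Type u} [Group G] (N J : Subgroup G) [J.Normal] : Subgroup G :=
  N ⊓ (Subgroup.center (G ⧸ J)).comap (QuotientGroup.mk' J)

theorem mem_NZ {G : Type u} [Group G] {N J : Subgroup G} [J.Normal] {n : G} :
    n ∈ NZ N J ↔ n ∈ N ∧ ∀ g : G, n * g * n⁻¹ * g⁻¹ ∈ J := by
  rw [NZ, Subgroup.mem_inf, Subgroup.mem_comap, Subgroup.mem_center_iff]
  refine and_congr_right fun _ => ?_
  constructor
  · intro h g
    have h1 := h (g : G ⧸ J)
    rw [QuotientGroup.mk'_apply] at h1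
    rw [← QuotientGroup.eq_one_iff]
    simp only [QuotientGroup.mk_mul, QuotientGroup.mk_inv]
    rw [← h1]
    group
  · intro h q
    obtain ⟨g, rfl⟩ := QuotientGroup.mk_surjective q
    have h1 := h g
    rw [← QuotientGroup.eq_one_iff] at h1
    simp only [QuotientGroup.mk_mul, QuotientGroup.mk_inv] at h1
    rw [mul_inv_eq_one, mul_inv_eq_iff_eq_mul] at h1
    exact h1.symm

/-- Powers of a central commutator. -/
theorem comm_pow_left {Q : Type u} [Group Q] {a b c : Q} (hc : a * b * a⁻¹ = c * b)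
    (hca : a * c = c * a) (k : ℕ) : a ^ k * b * (a ^ k)⁻¹ = c ^ k * b := by
  induction k with
  | zero => simp
  | succ k ih =>
    have h1 : Commute a c := hca
    calc a ^ (k + 1) * b * (a ^ (k + 1))⁻¹ = a * (a ^ k * b * (a ^ k)⁻¹) * a⁻¹ := by
          rw [pow_succ']; group
      _ = (a * c ^ k) * b * a⁻¹ := by rw [ih]; group
      _ = c ^ k * (a * b * a⁻¹) := by rw [(h1.pow_right k).eq]; group
      _ = c ^ (k + 1) * b := by rw [hc, pow_succ]; group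

theorem comm_pow_right {Q : Type u} [Group Q] {a b c : Q} (hc : a * b * a⁻¹ = c * b)
    (hcb : c * b = b * c) (k : ℕ) : a * b ^ k * a⁻¹ = c ^ k * b ^ k := by
  have h1 : Commute c b := hcb
  rw [← h1.mul_pow, ← hc, conj_pow]

variable {G : Type u} [Group G] [Finite G]

/-- **The count.** -/
theorem card_lin_mul {N J K M : Subgroup G} [hN : N.Normal] [hJ : J.Normal] [hK : K.Normal]
    [hMn : M.Normal] (hJM : J ≤ M) (hMN : M ≤ N) (hab : ⁅N, N⁆ ≤ J)
    (hJK : ∀ j ∈ J, ∀ l : K →* ℂˣ, cl j l = l) (hM : ∀ t ∈ M, ∀ g : G, t * g * t⁻¹ * g⁻¹ ∈ J)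
    (hst : ∀ l : K →* ℂˣ, l ≠ 1 → N ⊓ stab (lf l : K → ℂ) = M)
    (hG : ∀ l : K →* ℂˣ, l ≠ 1 → ∀ g : G, ∃ s ∈ stab (lf l : K → ℂ), ∃ n ∈ N, g = s * n)
    (hcop : (M.relIndex N).Coprime N.index) (hne : ∃ l : K →* ℂˣ, l ≠ 1) :
    ∃ F : Subgroup (K →* ℂˣ), Nat.card (K →* ℂˣ) - 1 =
      (NZ N J).relIndex N * (Nat.card F - 1) := by
  classical
  haveI := finite_lin K
  obtain ⟨l₀, hl₀⟩ := hne
  set T₀ : Subgroup G := stab (lf l₀ : K → ℂ) with hT₀
  let F : Subgroup (K →* ℂˣ) :=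
    { carrier := {l | ∀ t ∈ T₀, cl t l = l}
      one_mem' := fun t _ => cl_hone t
      mul_mem' := fun {a b} ha hb t ht => by rw [cl_hmul, ha t ht, hb t ht]
      inv_mem' := fun {a} ha t ht => by rw [cl_hinv, ha t ht] }
  have hF : ∀ l, l ∈ F ↔ ∀ t ∈ T₀, cl t l = l := fun l => Iff.rfl
  have hB1 : ∀ l ∈ F, l ≠ 1 → stab (lf l : K → ℂ) = T₀ := by
    intro l hl hl1
    refine le_antisymm ?_ ?_
    · intro s hs
      obtain ⟨s₀, hs₀, n, hn, rfl⟩ := hG l₀ hl₀ s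
      have h1 : s₀ ∈ stab (lf l : K → ℂ) := mem_stab_iff.2 ((hF l).1 hl s₀ hs₀)
      have h2 : n ∈ stab (lf l : K → ℂ) := by
        have := (stab (lf l : K → ℂ)).mul_mem ((stab (lf l : K → ℂ)).inv_mem h1) hs
        rwa [inv_mul_cancel_left] at this
      have h3 : n ∈ N ⊓ stab (lf l : K → ℂ) := ⟨hn, h2⟩
      rw [hst l hl1, ← hst l₀ hl₀] at h3
      exact T₀.mul_mem hs₀ h3.2
    · intro t ht
      exact mem_stab_iff.2 ((hF l).1 hl t ht)
  have hne1 : ∀ (n : G) (l : K →* ℂˣ), l ≠ 1 → cl n l ≠ 1 := by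
    intro n l hl e
    apply hl
    have : cl n⁻¹ (cl n l) = 1 := by rw [e, cl_hone]
    rwa [← cl_mul, mul_inv_cancel, cl_one] at this
  have hB2 : ∀ l ∈ F, l ≠ 1 → ∀ n ∈ N, cl n l ∈ F → n ∈ NZ N J := by
    intro l hl hl1 n hn hnl
    have h1 : ∀ t ∈ T₀, n * t * n⁻¹ ∈ T₀ := by
      intro t ht
      rw [← hB1 l hl hl1, mem_stab_iff]
      have h2 := (hF _).1 hnl t ht
      rw [cl_mul, cl_mul, h2, ← cl_mul, mul_inv_cancel, cl_one]
    have h2 : ∀ t ∈ T₀, n * t * n⁻¹ * t⁻¹ ∈ M := by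
      intro t ht
      rw [← hst l₀ hl₀]
      refine ⟨?_, T₀.mul_mem (h1 t ht) (T₀.inv_mem ht)⟩
      have h3 := hN.conj_mem n⁻¹ (N.inv_mem hn) t
      have e : n * t * n⁻¹ * t⁻¹ = n * (t * n⁻¹ * t⁻¹) := by group
      rw [e]
      exact N.mul_mem hn h3
    have h3 : ∀ g : G, n * g * n⁻¹ * g⁻¹ ∈ M := by
      intro g
      obtain ⟨s, hs, m, hm, rfl⟩ := hG l₀ hl₀ g
      have e : n * (s * m) * n⁻¹ * (s * m)⁻¹ =
          (n * s * n⁻¹ * s⁻¹) * (s * ⁅n, m⁆ * s⁻¹) := by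
        rw [commutatorElement_def]; group
      rw [e]
      exact M.mul_mem (h2 s hs) (hMn.conj_mem _ (hJM (hab
        (Subgroup.commutator_mem_commutator hn hm))) s)
    rw [mem_NZ]
    refine ⟨hn, fun g => ?_⟩
    -- coprimality, in `G / J`
    set c : G := n * g * n⁻¹ * g⁻¹ with hc
    have hcM : c ∈ M := h3 g
    have hcen : ∀ y : G, (c : G ⧸ J) * (y : G ⧸ J) = (y : G ⧸ J) * (c : G ⧸ J) := by
      intro y
      have h4 := hM c hcM y
      rw [← QuotientGroup.eq_one_iff] at h4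
      simp only [QuotientGroup.mk_mul, QuotientGroup.mk_inv] at h4
      rw [mul_inv_eq_one, mul_inv_eq_iff_eq_mul] at h4
      exact h4
    have e1 : (n : G ⧸ J) * (g : G ⧸ J) * (n : G ⧸ J)⁻¹ = (c : G ⧸ J) * (g : G ⧸ J) := by
      rw [← QuotientGroup.mk_mul, ← QuotientGroup.mk_inv, ← QuotientGroup.mk_mul,
        ← QuotientGroup.mk_mul, hc]
      congr 1
      group
    have h5 : (c : G ⧸ J) ^ (M.relIndex N) = 1 := by
      have h6 : n ^ (M.relIndex N) ∈ M := by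
        have h7 := Subgroup.pow_index_mem (M.subgroupOf N) (⟨n, hn⟩ : N)
        rw [Subgroup.mem_subgroupOf] at h7
        exact h7
      have h8 := hM _ h6 g
      rw [← QuotientGroup.eq_one_iff] at h8
      simp only [QuotientGroup.mk_mul, QuotientGroup.mk_inv, QuotientGroup.mk_pow] at h8
      rw [comm_pow_left e1 (hcen n).symm, mul_inv_cancel_right] at h8
      exact h8
    have h6 : (c : G ⧸ J) ^ N.index = 1 := by
      have h7 : g ^ N.index ∈ N := Subgroup.pow_index_mem N g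
      have h8 := hab (Subgroup.commutator_mem_commutator hn h7)
      rw [← QuotientGroup.eq_one_iff, commutatorElement_def] at h8
      simp only [QuotientGroup.mk_mul, QuotientGroup.mk_inv, QuotientGroup.mk_pow] at h8
      rw [comm_pow_right e1 (hcen g), mul_inv_cancel_right] at h8
      exact h8
    have h7 : (c : G ⧸ J) = 1 := by
      have h8 := pow_gcd_eq_one.2 ⟨h5, h6⟩
      rwa [hcop.gcd_eq_one, pow_one] at h8
    exact (QuotientGroup.eq_one_iff c).1 h7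
  have hB3 : ∀ l ∈ F, ∀ n ∈ NZ N J, cl n l ∈ F := by
    intro l hl n hn
    rw [hF]
    intro t ht
    have h1 := (mem_NZ.1 hn).2 t
    have e : n * t = (n * t * n⁻¹ * t⁻¹) * (t * n) := by group
    rw [← cl_mul, e, cl_mul, hJK _ h1, cl_mul, (hF l).1 hl t ht]
  have hA : ∀ l : K →* ℂˣ, l ≠ 1 → ∃ n ∈ N, cl n l ∈ F := by
    intro l hl
    obtain ⟨n, hn, h1⟩ := conj_compl hMN (hab.trans hJM) (hst l₀ hl₀) (hG l₀ hl₀) (hst l hl)
      (hG l hl) hcop
    refine ⟨n, hn, (hF _).2 fun t ht => ?_⟩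
    have h2 := mem_stab_iff.1 ((h1 t).1 ht)
    have e : n * t = (n * t * n⁻¹) * n := by group
    rw [← cl_mul, e, cl_mul, h2]
  choose! ν hνN hνF using hA
  -- the bijection
  let X := {l : K →* ℂˣ // l ≠ 1}
  let F' := {l : K →* ℂˣ // l ∈ F ∧ l ≠ 1}
  let Φ : X × NZ N J → N × F' := fun yz =>
    (⟨ν yz.1.1 * yz.2, N.mul_mem (hνN _ yz.1.2) (mem_NZ.1 yz.2.2).1⟩,
      ⟨cl (ν yz.1.1 * yz.2) yz.1.1, by
        rw [cl_mul]
        exact hB3 _ (hνF _ yz.1.2) _ yz.2.2, hne1 _ _ yz.1.2⟩)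
  have hΦ : Function.Bijective Φ := by
    constructor
    · rintro ⟨⟨y, hy⟩, ⟨z, hz⟩⟩ ⟨⟨y', hy'⟩, ⟨z', hz'⟩⟩ he
      have h1 : ν y * z = ν y' * z' := congrArg (fun q => ((q.1 : N) : G)) he
      have h2 : cl (ν y * z) y = cl (ν y' * z') y' := congrArg (fun q => (q.2 : F').1) he
      have h3 : y = y' := by
        rw [← h1] at h2
        have := congrArg (cl (ν y * z)⁻¹) h2
        rwa [← cl_mul, ← cl_mul, mul_inv_cancel, cl_one, cl_one] at this
      subst h3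
      have h4 : z = z' := mul_left_cancel h1
      subst h4
      rfl
    · rintro ⟨⟨n, hn⟩, ⟨l, hl, hl1⟩⟩
      have hy : cl n⁻¹ l ≠ 1 := hne1 _ _ hl1
      have hz : (ν (cl n⁻¹ l))⁻¹ * n ∈ NZ N J := by
        refine hB2 (cl (ν (cl n⁻¹ l)) (cl n⁻¹ l)) (hνF _ hy) (hne1 _ _ hy) _
          (N.mul_mem (N.inv_mem (hνN _ hy)) hn) ?_
        have e : cl ((ν (cl n⁻¹ l))⁻¹ * n) (cl (ν (cl n⁻¹ l)) (cl n⁻¹ l)) = l := by
          rw [← cl_mul, ← cl_mul]
          have : n⁻¹ * (ν (cl n⁻¹ l) * ((ν (cl n⁻¹ l))⁻¹ * n)) = 1 := by group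
          rw [this, cl_one]
        rw [e]
        exact hl
      refine ⟨(⟨cl n⁻¹ l, hy⟩, ⟨_, hz⟩), ?_⟩
      have e1 : ν (cl n⁻¹ l) * ((ν (cl n⁻¹ l))⁻¹ * n) = n := by group
      refine Prod.ext (Subtype.ext e1) (Subtype.ext ?_)
      change cl (ν (cl n⁻¹ l) * ((ν (cl n⁻¹ l))⁻¹ * n)) (cl n⁻¹ l) = l
      rw [e1, ← cl_mul, inv_mul_cancel, cl_one]
  have hcard := Nat.card_congr (Equiv.ofBijective Φ hΦ)
  rw [Nat.card_prod, Nat.card_prod] at hcard
  have hX : Nat.card X = Nat.card (K →* ℂˣ) - 1 := by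
    letI := Fintype.ofFinite (K →* ℂˣ)
    rw [Nat.card_eq_fintype_card, Nat.card_eq_fintype_card]
    have := Fintype.card_subtype_compl (fun l : K →* ℂˣ => l = 1)
    rw [Fintype.card_subtype_eq] at this
    exact this
  have hF' : Nat.card F' = Nat.card F - 1 := by
    letI := Fintype.ofFinite F
    have e : F' ≃ {l : F // l ≠ 1} :=
      { toFun := fun l => ⟨⟨l.1, l.2.1⟩, fun e => l.2.2 (congrArg Subtype.val e)⟩
        invFun := fun l => ⟨l.1.1, l.1.2, fun e => l.2 (Subtype.ext e)⟩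
        left_inv := fun _ => rfl
        right_inv := fun _ => rfl }
    rw [Nat.card_congr e, Nat.card_eq_fintype_card, Nat.card_eq_fintype_card]
    have := Fintype.card_subtype_compl (fun l : F => l = 1)
    rw [Fintype.card_subtype_eq] at this
    exact this
  rw [hX, hF'] at hcard
  refine ⟨F, ?_⟩
  have hN' : Nat.card (NZ N J) * (NZ N J).relIndex N = Nat.card N := by
    have := Subgroup.relIndex_mul_relIndex (⊥ : Subgroup G) (NZ N J) N bot_le inf_le_left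
    rwa [Subgroup.relIndex_bot_left, Subgroup.relIndex_bot_left] at this
  rw [← hN', mul_assoc, mul_comm (Nat.card (K →* ℂˣ) - 1)] at hcard
  exact Nat.eq_of_mul_eq_mul_left Nat.card_pos hcard

/-- The arithmetic of the count. -/
theorem pow_eq_of_count {r c n m n' m' : ℕ} (hr : r.Prime) (hc : 1 < c) (hn : n ≠ 0) (hn' : n' ≠ 0)
    (h : r ^ n - 1 = c * (r ^ m - 1)) (h' : r ^ n' - 1 = c * (r ^ m' - 1)) : n = n' := by
  -- it suffices to show `m = m'`
  have hr1 := hr.one_lt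
  have key : ∀ n m : ℕ, n ≠ 0 → r ^ n - 1 = c * (r ^ m - 1) → m ≠ 0 ∧ m < n ∧
      ((c : ℤ) - 1 = (r : ℤ) ^ m * ((c : ℤ) - (r : ℤ) ^ (n - m))) := by
    intro n m hn h
    have hp1 : 1 ≤ r ^ m := Nat.one_le_pow _ _ hr.pos
    have hp2 : 1 < r ^ n := Nat.one_lt_pow hn hr1
    have hm : m ≠ 0 := by
      rintro rfl
      rw [pow_zero, Nat.sub_self, mul_zero] at h
      omega
    have hp3 : 1 < r ^ m := Nat.one_lt_pow hm hr1
    have hlt : m < n := by
      by_contra hge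
      have h1 : r ^ n ≤ r ^ m := Nat.pow_le_pow_right hr.pos (not_lt.1 hge)
      have h2 : c * (r ^ m - 1) ≥ 2 * (r ^ m - 1) := Nat.mul_le_mul_right _ hc
      omega
    refine ⟨hm, hlt, ?_⟩
    have h1 : ((r : ℤ) ^ n - 1) = c * ((r : ℤ) ^ m - 1) := by
      have h2 : ((r ^ n - 1 : ℕ) : ℤ) = ((c * (r ^ m - 1) : ℕ) : ℤ) := by rw [h]
      rw [Nat.cast_sub hp2.le, Nat.cast_mul, Nat.cast_sub hp1] at h2
      push_cast at h2
      exact h2
    have h3 : (r : ℤ) ^ n = (r : ℤ) ^ m * (r : ℤ) ^ (n - m) := by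
      rw [← pow_add, Nat.add_sub_cancel' hlt.le]
    rw [h3] at h1
    linear_combination h1
  have key2 : ∀ n m n' m' : ℕ, n ≠ 0 → n' ≠ 0 → r ^ n - 1 = c * (r ^ m - 1) →
      r ^ n' - 1 = c * (r ^ m' - 1) → ¬ m < m' := by
    intro n m n' m' hn hn' h h' hlt
    obtain ⟨hm, hmn, e⟩ := key n m hn h
    obtain ⟨hm', hmn', e'⟩ := key n' m' hn' h'
    have hr0 : (r : ℤ) ≠ 0 := by exact_mod_cast hr.ne_zero
    -- `r ∣ c - r ^ (n - m)`, so `r ∣ c`
    have h1 : (r : ℤ) ∣ (c : ℤ) - (r : ℤ) ^ (n - m) := by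
      have h2 : (r : ℤ) ^ m * ((c : ℤ) - (r : ℤ) ^ (n - m)) =
          (r : ℤ) ^ m * ((r : ℤ) ^ (m' - m) * ((c : ℤ) - (r : ℤ) ^ (n' - m'))) := by
        rw [← e, e', ← mul_assoc, ← pow_add, Nat.add_sub_cancel' hlt.le]
      have h3 := mul_left_cancel₀ (pow_ne_zero m hr0) h2
      rw [h3]
      exact (dvd_pow_self _ (Nat.sub_ne_zero_of_lt hlt)).mul_right _
    have h2 : (r : ℤ) ∣ (c : ℤ) := by
      have h3 : (r : ℤ) ∣ (r : ℤ) ^ (n - m) := dvd_pow_self _ (Nat.sub_ne_zero_of_lt hmn)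
      have := dvd_add h1 h3
      rwa [sub_add_cancel] at this
    have h3 : (r : ℤ) ∣ (c : ℤ) - 1 := by
      rw [e]
      exact (dvd_pow_self _ hm).mul_right _
    have h4 : (r : ℤ) ∣ 1 := by
      have := dvd_sub h2 h3
      rwa [sub_sub_cancel] at this
    have h5 : r ∣ 1 := by exact_mod_cast h4
    exact hr.one_lt.ne' (Nat.dvd_one.1 h5)
  have hmm : m = m' :=
    le_antisymm (not_lt.1 (key2 n' m' n m hn' hn h' h)) (not_lt.1 (key2 n m n' m' hn hn' h h'))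
  subst hmm
  have hp2 : 1 < r ^ n := Nat.one_lt_pow hn hr1
  have hp2' : 1 < r ^ n' := Nat.one_lt_pow hn' hr1
  have h3 : r ^ n = r ^ n' := by omega
  exact Nat.pow_right_injective hr.two_le h3

end Cfsg.Agent.H675.Nd
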