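import Mathlib
import Cfsg.Agent.H675.Nd.Lin

/-!
# A minimal counterexample: `J` is an `r`-group of class two and `r` does not divide `|N : J|`
-/

set_option autoImplicit false
set_option linter.style.haveILetI false
set_option linter.unusedSectionVars false
open Cfsg

namespace Cfsg.Agent.H675.Nd

open Cfsg.Agent.Characters.Core Cfsg.Agent.Characters.Clifford Cfsg.Agent.H672 Cfsg.Agent.H672.RM
open scoped ComplexConjugate commutatorElement

universe u v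

structure Min {G : Type u} [Group G] [Finite G] (N J : Subgroup G) (x : G) (p : ℕ) : Prop where
  hyp : Hyp N J x p
  hne : ⁅J, J⁆ ≠ ⊥
  hmin : ∀ M : Subgroup G, M.Normal → M ≠ ⊥ → M ≤ J → ⁅J, J⁆ ≤ M
  hcen : ∀ u ∈ N, u ∈ Subgroup.center G → ∀ r : ℕ, r.Prime → r ≠ p → u ^ r = 1 → u = 1

variable {G : Type u} [Group G] [Finite G] {N J : Subgroup G} {x : G} {p : ℕ} [hJn : J.Normal]

theorem Hyp.nil (h : Hyp N J x p) : Group.IsNilpotent J := by
  classical
  by_cases hJ : J = ⊥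
  · subst hJ
    haveI : Subsingleton (⊥ : Subgroup G) := inferInstance
    exact Group.isNilpotent_of_subsingleton
  let φ : J ≃* J := cj (mem_nrm J x)
  have hφ : ∀ j : J, ((φ j : J) : G) = x * j * x⁻¹ := fun _ => rfl
  have hfix : ∀ j : J, φ j = j → j = 1 := by
    intro j hj
    have h1 := congrArg Subtype.val hj
    rw [hφ] at h1
    exact Subtype.ext (h.fix j.2 (mul_inv_eq_iff_eq_mul.1 h1))
  have hpow : ∀ (k : ℕ) (j : J), (((φ ^ k : MulAut J) j : J) : G) = x ^ k * j * (x ^ k)⁻¹ := by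
    intro k
    induction k with
    | zero => intro j; simp
    | succ k ih =>
      intro j
      rw [pow_succ, MulAut.mul_apply, ih]
      change x ^ k * (x * j * x⁻¹) * (x ^ k)⁻¹ = _
      rw [pow_succ]
      group
  refine S0033.result φ (fun j hj => hfix j hj) p h.pr ?_
  haveI := Fact.mk h.pr
  refine orderOf_eq_prime ?_ ?_
  · apply MulEquiv.ext
    intro j
    apply Subtype.ext
    refine (hpow p j).trans ?_
    rw [h.xp]
    simp
  · intro e
    apply hJ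
    rw [eq_bot_iff]
    intro j hj
    have h1 : φ ⟨j, hj⟩ = ⟨j, hj⟩ := by
      rw [show (φ : MulAut J) = 1 from e]
      rfl
    exact Subgroup.mem_bot.2 (congrArg Subtype.val (hfix _ h1))

theorem Min.isPGroup (h : Min N J x p) : ∃ r : ℕ, r.Prime ∧ IsPGroup r J := by
  classical
  have hcard : Nat.card (⁅J, J⁆ : Subgroup G) ≠ 1 := fun e => h.hne (Subgroup.card_eq_one.1 e)
  obtain ⟨r, hr, hrd⟩ := Nat.exists_prime_and_dvd hcard
  refine ⟨r, hr, ?_⟩
  haveI := Fact.mk hr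
  have hnil := h.hyp.nil
  rw [IsPGroup.iff_card]
  refine ⟨_, Nat.eq_prime_pow_of_unique_prime_dvd Nat.card_pos.ne' ?_⟩
  intro q hq hqd
  by_contra hqr
  haveI := Fact.mk hq
  let Q : Sylow q J := default
  have htf := (Group.isNilpotent_of_finite_tfae (G := J)).out 0 3
  have hQn : (Q : Subgroup J).Normal := htf.1 hnil q inferInstance Q
  have hQc : (Q : Subgroup J).Characteristic := Q.characteristic_of_normal hQn
  have hM : ((Q : Subgroup J).map J.subtype).Normal := inferInstance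
  have hM1 : (Q : Subgroup J).map J.subtype ≠ ⊥ := by
    intro e
    rw [Subgroup.map_eq_bot_iff_of_injective _ J.subtype_injective] at e
    have h1 := Q.dvd_card_of_dvd_card hqd
    rw [e, Subgroup.card_bot] at h1
    exact hq.one_lt.ne' (Nat.dvd_one.1 h1)
  have h1 := h.hmin _ hM hM1 (Subgroup.map_subtype_le _)
  have h2 : Nat.card (⁅J, J⁆ : Subgroup G) ∣ Nat.card ((Q : Subgroup J).map J.subtype) :=
    Subgroup.card_dvd_of_le h1
  rw [Subgroup.card_map_of_injective J.subtype_injective] at h2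
  obtain ⟨k, hk⟩ := IsPGroup.iff_card.1 Q.isPGroup'
  have h3 : r ∣ q ^ k := by rw [← hk]; exact hrd.trans h2
  exact hqr ((Nat.prime_dvd_prime_iff_eq hr hq).1 (hr.dvd_of_dvd_pow h3)).symm

/-- The derived subgroup of `J` is central in `J`. -/
theorem Min.central' (h : Min N J x p) : ∀ z ∈ ⁅J, J⁆, ∀ j ∈ J, z * j = j * z := by
  obtain ⟨r, hr, hJr⟩ := h.isPGroup
  haveI := Fact.mk hr
  have hJ : Nontrivial J := by
    rw [Subgroup.nontrivial_iff_ne_bot]
    intro e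
    apply h.hne
    rw [e, Subgroup.commutator_bot_left]
  have hc := hJr.center_nontrivial
  have hM1 : (Subgroup.center J).map J.subtype ≠ ⊥ := by
    intro e
    rw [Subgroup.map_eq_bot_iff_of_injective _ J.subtype_injective] at e
    rw [Subgroup.nontrivial_iff_ne_bot] at hc
    exact hc e
  have h1 := h.hmin ((Subgroup.center J).map J.subtype) inferInstance hM1
    (Subgroup.map_subtype_le _)
  intro z hz j hj
  obtain ⟨w, hw, rfl⟩ := h1 hz
  have h2 := Subgroup.mem_center_iff.1 hw ⟨j, hj⟩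
  exact (congrArg Subtype.val h2).symm

theorem Min.exists_not_mem (h : Min N J x p) : ∃ j ∈ J, j ∉ ⁅J, J⁆ := by
  by_contra hcon
  push Not at hcon
  apply h.hne
  rw [eq_bot_iff, Subgroup.commutator_le]
  intro a ha b hb
  rw [Subgroup.mem_bot, commutatorElement_eq_one_iff_mul_comm]
  exact h.central' a (hcon a ha) b hb

theorem comm_le (J : Subgroup G) [J.Normal] : ⁅J, J⁆ ≤ J := Subgroup.commutator_le_left J J

theorem Min.exists_lin (h : Min N J x p) : ∃ l : J →* ℂˣ, l ≠ 1 := by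
  obtain ⟨j, hj, hj'⟩ := h.exists_not_mem
  obtain ⟨β, -, hβ⟩ := exists_lin_ne (x := (⟨j, hj⟩ : J)) (comm_le J) le_rfl hj'
  exact ⟨β, fun e => hβ (by rw [e]; rfl)⟩

theorem Min.GG (h : Min N J x p) : ⁅(⁅J, J⁆ : Subgroup G), ⁅J, J⁆⁆ ≤ ⊥ := by
  rw [Subgroup.commutator_le]
  intro a ha b hb
  rw [Subgroup.mem_bot, commutatorElement_eq_one_iff_mul_comm]
  exact h.central' a ha b (comm_le J hb)

/-- Elements of `N` acting trivially on the linear characters of `J` act trivially on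
`J / J'`. -/
theorem diff_mem {g : G} (hg : ∀ l : J →* ℂˣ, cl g l = l) {j : G} (hj : j ∈ J) :
    g * j * g⁻¹ * j⁻¹ ∈ ⁅J, J⁆ := by
  by_contra hcon
  have hm : g * j * g⁻¹ * j⁻¹ ∈ J := J.mul_mem (hJn.conj_mem j hj g) (J.inv_mem hj)
  obtain ⟨β, -, hβ⟩ := exists_lin_ne (x := (⟨_, hm⟩ : J)) (comm_le J) le_rfl hcon
  apply hβ
  have h1 := DFunLike.congr_fun (hg β) ⟨j, hj⟩
  rw [cl_apply] at h1
  have e : (⟨g * j * g⁻¹ * j⁻¹, hm⟩ : J) = ⟨g * j * g⁻¹, hJn.conj_mem j hj g⟩ * ⟨j, hj⟩⁻¹ := rfl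
  rw [e, map_mul, map_inv, h1, mul_inv_cancel]

/-- **Step 7.** `r`-elements of `N` centralizing `x` centralize `J`. -/
theorem Min.comm_of_pow (h : Min N J x p) {r : ℕ} (hr : r.Prime) (hJr : IsPGroup r J) {u : G}
    (hu : u ∈ N) (hxu : x * u = u * x) {k : ℕ} (huk : u ^ r ^ k = 1) : ∀ j ∈ J, u * j = j * u := by
  classical
  haveI : (⁅J, J⁆ : Subgroup G).Normal := inferInstance
  have hΓc := h.central'
  have hyp := h.hyp
  have hut : ∀ l : J →* ℂˣ, cl u l = l := by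
    intro l
    by_cases hl : l = 1
    · rw [hl, cl_hone]
    · exact (mem_TL.1 (hyp.mem_TL_of_pow hr hJr hu huk hl)).2
  let δ : J →* (⁅J, J⁆ : Subgroup G) := MonoidHom.mk'
    (fun j => ⟨u * j * u⁻¹ * (j : G)⁻¹, diff_mem hut j.2⟩) (by
      intro a b
      apply Subtype.ext
      change u * (a * b) * u⁻¹ * ((a : G) * b)⁻¹ = u * a * u⁻¹ * (a : G)⁻¹ * (u * b * u⁻¹ * (b : G)⁻¹)
      have h1 := hΓc _ (diff_mem hut b.2) (a : G)⁻¹ (J.inv_mem a.2)
      calc u * (a * b) * u⁻¹ * ((a : G) * b)⁻¹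
          = u * a * u⁻¹ * ((u * b * u⁻¹ * (b : G)⁻¹) * (a : G)⁻¹) := by group
        _ = u * a * u⁻¹ * ((a : G)⁻¹ * (u * b * u⁻¹ * (b : G)⁻¹)) := by rw [h1]
        _ = _ := by group)
  have hδ : ∀ j : J, ((δ j : (⁅J, J⁆ : Subgroup G)) : G) = u * j * u⁻¹ * (j : G)⁻¹ := fun _ => rfl
  intro j₀ hj₀
  by_contra hcon
  have hδ0 : ((δ ⟨j₀, hj₀⟩ : (⁅J, J⁆ : Subgroup G)) : G) ∉ (⊥ : Subgroup G) := by
    rw [hδ, Subgroup.mem_bot]
    intro e
    apply hcon
    have := mul_inv_eq_one.1 e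
    exact mul_inv_eq_iff_eq_mul.1 this
  obtain ⟨γ, -, hγ⟩ := exists_lin_ne (x := δ ⟨j₀, hj₀⟩) bot_le h.GG hδ0
  have hγ1 : γ ≠ 1 := fun e => hγ (by rw [e]; rfl)
  have hl1 : γ.comp δ ≠ 1 := fun e => hγ (DFunLike.congr_fun e ⟨j₀, hj₀⟩)
  have hst : N ⊓ stab (lf γ : (⁅J, J⁆ : Subgroup G) → ℂ) ≤ TL N (γ.comp δ) := by
    intro n hn0
    obtain ⟨hn, hn'⟩ := Subgroup.mem_inf.1 hn0
    rw [mem_stab_iff] at hn'
    obtain ⟨j, hj, c, hc, hxc, rfl⟩ := hyp.exists_mul hn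
    have h1 : ∀ ξ : (⁅J, J⁆ : Subgroup G) →* ℂˣ, cl j ξ = ξ := fun ξ =>
      cl_of_comm (fun z hz => (hΓc z hz j hj).symm) ξ
    rw [cl_mul, h1] at hn'
    refine mem_TL.2 ⟨hn, ?_⟩
    rw [cl_mul, cl_of_mem hj]
    apply MonoidHom.ext
    intro k
    rw [cl_apply]
    have huc := hyp.comm_cent hu hc hxu hxc
    have e : (δ ⟨c * k * c⁻¹, hJn.conj_mem k k.2 c⟩ : (⁅J, J⁆ : Subgroup G)) =
        ⟨c * (δ k : G) * c⁻¹, Subgroup.Normal.conj_mem inferInstance _ (δ k).2 c⟩ := by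
      apply Subtype.ext
      rw [hδ]
      change u * (c * k * c⁻¹) * u⁻¹ * (c * k * c⁻¹)⁻¹ = c * (u * k * u⁻¹ * (k : G)⁻¹) * c⁻¹
      have huc' : c⁻¹ * u⁻¹ = u⁻¹ * c⁻¹ := by
        rw [← mul_inv_rev, ← mul_inv_rev, huc]
      calc u * (c * k * c⁻¹) * u⁻¹ * (c * k * c⁻¹)⁻¹
          = (u * c) * k * (c⁻¹ * u⁻¹) * c * (k : G)⁻¹ * c⁻¹ := by group
        _ = (c * u) * k * (u⁻¹ * c⁻¹) * c * (k : G)⁻¹ * c⁻¹ := by rw [huc, huc']
        _ = _ := by group
    rw [MonoidHom.comp_apply, e]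
    exact DFunLike.congr_fun hn' (δ k)
  -- characters over `γ`
  obtain ⟨μ, hμ, hμo⟩ := exists_over_incl (comm_le J) (isIrr_lf γ)
  have hμ1 := nonlin_of_over (comm_le J) le_rfl hμ (isIrr_lf γ) (lf_ne_one hγ1) hμo
  obtain ⟨ψ, hψ, hψo⟩ := exists_over_incl hyp.JN hμ
  have hμne : μ ≠ 1 := by
    rintro rfl
    apply hμ1
    exact charDegree_of_eq (by simp)
  have hψ1 := hyp.nonlin hψ hμ hμne hψo
  have hψγ : Over (Subgroup.inclusion ((comm_le J).trans hyp.JN)) ψ (lf γ) := by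
    have e : Subgroup.inclusion ((comm_le J).trans hyp.JN) =
        (Subgroup.inclusion hyp.JN).comp (Subgroup.inclusion (comm_le J)) := rfl
    rw [e]
    exact (over_comp_iff _ _ (isIrr_isCharacter hψ) (isIrr_lf γ)).2 ⟨μ, hμ, hψo, hμo⟩
  have hd1 := dvd_of_over ((comm_le J).trans hyp.JN) (le_nrm _ N) hψ (isIrr_lf γ) hψγ
  rw [charDegree_lf, mul_one] at hd1
  have hd2 : (TL N (γ.comp δ)).relIndex N ∣ charDegree ψ := by
    refine dvd_trans ?_ hd1
    have h1 := Subgroup.relIndex_dvd_of_le_left N hst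
    rwa [inf_comm, Subgroup.inf_relIndex_right] at h1
  obtain ⟨ψ', hψ', hψ'1, -, hψ'd⟩ := hyp.degL hl1
  have heq := hyp.anti ψ' ψ hψ' hψ hψ'1 hψ1 (by rw [hψ'd]; exact hd2)
  have hrμ : r ∣ charDegree μ := by
    haveI := Fact.mk hr
    obtain ⟨a, ha⟩ := IsPGroup.iff_card.1 hJr
    have h1 := degree_dvd_card hμ
    rw [ha] at h1
    obtain ⟨b, -, hb⟩ := (Nat.dvd_prime_pow hr).1 h1
    rw [hb]
    refine dvd_pow_self r ?_
    rintro rfl
    rw [pow_zero] at hb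
    exact hμ1 hb
  apply hyp.not_dvd_relIndex hr hJr hl1
  rw [← hψ'd, heq]
  exact hrμ.trans (div_dvd_of_over hyp.JN (le_nrm _ N) hψ hμ hψo).1

end Cfsg.Agent.H675.Nd
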