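import Mathlib
import Cfsg.Agent.H675.Nd.Min
import Cfsg.Agent.H566.Glaub
import Cfsg.Agent.H594.GlauUp

/-!
# A minimal counterexample: the characters over `J'`
-/

set_option autoImplicit false
set_option linter.style.haveILetI false
set_option linter.unusedSectionVars false
open Cfsg

namespace Cfsg.Agent.H675.Nd

open Cfsg.Agent.Characters.Core Cfsg.Agent.Characters.Clifford Cfsg.Agent.H672 Cfsg.Agent.H672.RM
open scoped ComplexConjugate commutatorElement

universe u v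

variable {G : Type u} [Group G] [Finite G] {N J : Subgroup G} {x : G} {p : ℕ} [hJn : J.Normal]

theorem Min.ne_p (h : Min N J x p) {r : ℕ} (hr : r.Prime) (hJr : IsPGroup r J) : r ≠ p := by
  rintro rfl
  haveI := Fact.mk hr
  obtain ⟨a, ha⟩ := IsPGroup.iff_card.1 hJr
  apply h.hyp.pJ
  rw [ha]
  refine dvd_pow_self r ?_
  rintro rfl
  rw [pow_zero] at ha
  apply h.hne
  rw [Subgroup.card_eq_one.1 ha, Subgroup.commutator_bot_left]

theorem Min.eq_one_of_pow (h : Min N J x p) {r : ℕ} (hr : r.Prime) (hJr : IsPGroup r J) {u : G}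
    (hu : u ∈ N) (hxu : x * u = u * x) (hur : u ^ r = 1) : u = 1 := by
  have hcJ := h.comm_of_pow hr hJr hu hxu (k := 1) (by rwa [pow_one])
  have hcN : ∀ n ∈ N, u * n = n * u := by
    intro n hn
    obtain ⟨j, hj, c, hc, hxc, rfl⟩ := h.hyp.exists_mul hn
    have h1 := h.hyp.comm_cent hu hc hxu hxc
    rw [← mul_assoc, h1, mul_assoc, hcJ j hj, mul_assoc]
  obtain ⟨l, hl⟩ := h.exists_lin
  have huT := h.hyp.mem_TL_of_pow hr hJr hu (k := 1) (by rwa [pow_one]) hl
  have hcen : u ∈ Subgroup.center G := by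
    rw [Subgroup.mem_center_iff]
    intro g
    have h1 := h.hyp.centralL hl u huT g
    have h2 : u * g * u⁻¹ * g⁻¹ = 1 := by
      apply h.hyp.fix h1
      have e1 : Commute x u := hxu
      have e2 : Commute x (g * u * g⁻¹) := by
        have h3 := hcN (g⁻¹ * x * g) (by
          have := h.hyp.nN.conj_mem x h.hyp.xN g⁻¹
          rwa [inv_inv] at this)
        have h4 : Commute (g⁻¹ * x * g) u := h3.symm
        have h5 := h4.map (MulAut.conj g).toMonoidHom
        have e3 : (MulAut.conj g).toMonoidHom (g⁻¹ * x * g) = x := by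
          change g * (g⁻¹ * x * g) * g⁻¹ = x
          group
        rw [e3] at h5
        exact h5
      have e4 : u * g * u⁻¹ * g⁻¹ = u * (g * u * g⁻¹)⁻¹ := by group
      rw [e4]
      exact e1.mul_right e2.inv_right
    have h3 : u * g = g * u := by
      have := mul_inv_eq_one.1 h2
      exact mul_inv_eq_iff_eq_mul.1 this
    exact h3.symm
  exact h.hcen u hu hcen r hr (h.ne_p hr hJr) hur

theorem Min.not_dvd (h : Min N J x p) {r : ℕ} (hr : r.Prime) (hJr : IsPGroup r J) :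
    ¬ r ∣ J.relIndex N := by
  haveI := Fact.mk hr
  haveI := h.hyp.nN
  intro hd
  have hd' : r ∣ Nat.card (N ⧸ J.subgroupOf N) := hd
  obtain ⟨q, hq⟩ := exists_prime_orderOf_dvd_card' r hd'
  obtain ⟨n, rfl⟩ := QuotientGroup.mk_surjective q
  obtain ⟨j, hj, c, hc, hxc, e⟩ := h.hyp.exists_mul n.2
  have h1 : (n : G) ^ r ∈ J := by
    have h2 := pow_orderOf_eq_one (n : N ⧸ J.subgroupOf N)
    rw [hq, ← QuotientGroup.mk_pow, QuotientGroup.eq_one_iff, Subgroup.mem_subgroupOf] at h2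
    exact h2
  have h2 : c ^ r ∈ J := by
    rw [← QuotientGroup.eq_one_iff] at h1 ⊢
    have h3 : ((n : G) : G ⧸ J) = (c : G ⧸ J) := by
      rw [e, QuotientGroup.mk_mul, (QuotientGroup.eq_one_iff j).2 hj, mul_one]
    rw [QuotientGroup.mk_pow] at h1 ⊢
    rw [← h3, h1]
  have h3 : c ^ r = 1 := h.hyp.fix h2 ((show Commute x c from hxc).pow_right r)
  have h4 := h.eq_one_of_pow hr hJr hc hxc h3
  rw [h4, one_mul] at e
  have h5 : (n : N ⧸ J.subgroupOf N) = 1 := by
    rw [QuotientGroup.eq_one_iff, Subgroup.mem_subgroupOf, e]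
    exact hj
  rw [h5, orderOf_one] at hq
  exact hr.one_lt.ne hq

/-- Every irreducible character of `J` extends to its stabilizer in `N`. -/
theorem Min.exists_extn (h : Min N J x p) (μ : J → ℂ) (hμ : IsIrrCharacter J μ) :
    ∃ χ : (N ⊓ stab μ : Subgroup G) → ℂ, IsIrrCharacter _ χ ∧
      ∀ j : J, χ (Subgroup.inclusion (h.hyp.inert hμ).KT j) = μ j := by
  obtain ⟨r, hr, hJr⟩ := h.isPGroup
  haveI := Fact.mk hr
  obtain ⟨a, ha⟩ := IsPGroup.iff_card.1 hJr
  refine exists_ext (h.hyp.inert hμ).KT hμ inf_le_right ?_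
  rw [ha]
  refine Nat.Coprime.pow_left a ((Nat.Prime.coprime_iff_not_dvd hr).2 fun hd => ?_)
  exact h.not_dvd hr hJr (hd.trans (Dvd.intro _ (Subgroup.relIndex_mul_relIndex J _ N
    (h.hyp.inert hμ).KT inf_le_left)))

theorem over_trans {A B C : Subgroup G} (hAB : A ≤ B) (hBC : B ≤ C) {ψ : C → ℂ}
    (hψ : IsIrrCharacter C ψ) {μ : B → ℂ} (hμ : IsIrrCharacter B μ) {γ : A → ℂ}
    (hγ : IsIrrCharacter A γ) (h1 : Over (Subgroup.inclusion hBC) ψ μ)
    (h2 : Over (Subgroup.inclusion hAB) μ γ) : Over (Subgroup.inclusion (hAB.trans hBC)) ψ γ := by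
  have e : Subgroup.inclusion (hAB.trans hBC) =
      (Subgroup.inclusion hBC).comp (Subgroup.inclusion hAB) := rfl
  rw [e]
  exact (over_comp_iff _ _ (isIrr_isCharacter hψ) hγ).2 ⟨μ, hμ, h1, h2⟩

/-- The stabilizer in `N` of a linear character of `J'`. -/
theorem Min.J_le_stab (h : Min N J x p) (γ : (⁅J, J⁆ : Subgroup G) →* ℂˣ) :
    J ≤ stab (lf γ : (⁅J, J⁆ : Subgroup G) → ℂ) := by
  intro j hj
  rw [mem_stab_iff]
  exact cl_of_comm (fun z hz => (h.central' z hz j hj).symm) γ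

theorem Min.res (h : Min N J x p) (γ : (⁅J, J⁆ : Subgroup G) →* ℂˣ) {μ : J → ℂ}
    (hμ : IsIrrCharacter J μ) (ho : Over (Subgroup.inclusion (comm_le J)) μ (lf γ)) :
    ∀ z : (⁅J, J⁆ : Subgroup G), μ ⟨z, comm_le J z.2⟩ = μ 1 * γ z := by
  obtain ⟨c, hc, hc'⟩ := res_of_inv (comm_le J) (isIrr_lf γ) (h.J_le_stab γ) hμ ho
  have h1 := hc' 1
  rw [map_one, lf_apply, map_one, Units.val_one, mul_one] at h1
  intro z
  have h2 := hc' z
  rw [← h1] at h2
  exact h2

theorem Min.over_of_res (_h : Min N J x p) (γ : (⁅J, J⁆ : Subgroup G) →* ℂˣ) {μ : J → ℂ}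
    (hμ : IsIrrCharacter J μ)
    (hres : ∀ z : (⁅J, J⁆ : Subgroup G), μ ⟨z, comm_le J z.2⟩ = μ 1 * γ z) :
    Over (Subgroup.inclusion (comm_le J)) μ (lf γ) := by
  classical
  letI := Fintype.ofFinite (⁅J, J⁆ : Subgroup G)
  rw [over_iff]
  have e : μ ∘ Subgroup.inclusion (comm_le J) = μ 1 • lf γ := funext fun z => hres z
  rw [e, classInner_smul_left, classInner_irr_self (isIrr_lf γ), mul_one]
  exact isIrr_apply_one_ne_zero hμ

theorem Min.ne_one (_h : Min N J x p) {γ : (⁅J, J⁆ : Subgroup G) →* ℂˣ} (hγ : γ ≠ 1) {μ : J → ℂ}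
    (hμ : IsIrrCharacter J μ) (ho : Over (Subgroup.inclusion (comm_le J)) μ (lf γ)) :
    charDegree μ ≠ 1 := nonlin_of_over (comm_le J) le_rfl hμ (isIrr_lf γ) (lf_ne_one hγ) ho

theorem ne_one_of_deg {K : Type v} [Group K] [Finite K] {μ : K → ℂ} (h : charDegree μ ≠ 1) :
    μ ≠ 1 := by
  rintro rfl
  apply h
  exact charDegree_of_eq (by simp)

/-- The stabilizer of `μ` fixes `γ`. -/
theorem Min.stab_le (h : Min N J x p) (γ : (⁅J, J⁆ : Subgroup G) →* ℂˣ) {μ : J → ℂ}
    (hμ : IsIrrCharacter J μ) (ho : Over (Subgroup.inclusion (comm_le J)) μ (lf γ)) :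
    stab μ ≤ stab (lf γ : (⁅J, J⁆ : Subgroup G) → ℂ) := by
  intro g hg
  rw [mem_stab_iff]
  apply MonoidHom.ext
  intro z
  rw [cl_apply]
  have hres := h.res γ hμ ho
  have h1 := congrFun hg.2 ⟨z, comm_le J z.2⟩
  rw [tw_apply (mem_nrm J g)] at h1
  have hz : g * (z : G) * g⁻¹ ∈ ⁅J, J⁆ := Subgroup.Normal.conj_mem inferInstance _ z.2 g
  have h2 := hres ⟨g * (z : G) * g⁻¹, hz⟩
  have h3 := hres z
  have h4 : μ 1 * (γ ⟨g * (z : G) * g⁻¹, hz⟩ : ℂ) = μ 1 * (γ z : ℂ) := by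
    rw [← h2, ← h3]
    exact h1
  exact Units.ext (mul_left_cancel₀ (isIrr_apply_one_ne_zero hμ) h4)

theorem tw_lf_mul (g : G) (l : J →* ℂˣ) (μ : J → ℂ) : tw J g (lf l * μ) = lf (cl g l) * tw J g μ := by
  rw [tw_eq_comp (mem_nrm J g), tw_eq_comp (mem_nrm J g)]
  rfl

/-- Transitivity of the linear characters of `J` on the characters over `γ`. -/
theorem Min.trans (_h : Min N J x p) (γ : (⁅J, J⁆ : Subgroup G) →* ℂˣ) {μ μ' : J → ℂ}
    (hμ : IsIrrCharacter J μ) (ho : Over (Subgroup.inclusion (comm_le J)) μ (lf γ))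
    (hμ' : IsIrrCharacter J μ') (ho' : Over (Subgroup.inclusion (comm_le J)) μ' (lf γ)) :
    ∃ l : J →* ℂˣ, μ' = lf l * μ := by
  classical
  letI := Fintype.ofFinite J
  letI := Fintype.ofFinite ((⁅J, J⁆ : Subgroup G).subgroupOf J)
  obtain ⟨l, -, hl⟩ := Cfsg.Agent.H594.Glau.exists_linear_mul ((⁅J, J⁆ : Subgroup G).subgroupOf J)
    (fun a b => by
      rw [Subgroup.mem_subgroupOf]
      have := Subgroup.commutator_mem_commutator a.2 b.2
      rwa [commutatorElement_def] at this) hμ hμ' (isIrr_sub (comm_le J) (isIrr_lf γ))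
    ((over_subtype_iff _ _ _).1 ((over_iff_sub (comm_le J) μ (lf γ)).1 ho))
    ((over_subtype_iff _ _ _).1 ((over_iff_sub (comm_le J) μ' (lf γ)).1 ho'))
  exact ⟨l, hl⟩

theorem Min.over_mul (h : Min N J x p) (γ : (⁅J, J⁆ : Subgroup G) →* ℂˣ) {μ : J → ℂ}
    (hμ : IsIrrCharacter J μ) (ho : Over (Subgroup.inclusion (comm_le J)) μ (lf γ))
    (l : J →* ℂˣ) : Over (Subgroup.inclusion (comm_le J)) (lf l * μ) (lf γ) := by
  have hi : IsIrrCharacter J (lf l * μ) := isIrr_mul_lf l hμ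
  refine h.over_of_res γ hi fun z => ?_
  have h1 := h.res γ hμ ho z
  have h2 : l ⟨z, comm_le J z.2⟩ = 1 := hom_commutator l z.2 _
  simp only [Pi.mul_apply, lf_apply, map_one, Units.val_one, one_mul]
  rw [h2, h1, Units.val_one, one_mul]

/-- **An invariant character over `γ`** (Glauberman's lemma). -/
theorem Min.exists_inv (h : Min N J x p) (γ : (⁅J, J⁆ : Subgroup G) →* ℂˣ) :
    ∃ μ : J → ℂ, IsIrrCharacter J μ ∧ Over (Subgroup.inclusion (comm_le J)) μ (lf γ) ∧
      N ⊓ stab (lf γ : (⁅J, J⁆ : Subgroup G) → ℂ) ≤ stab μ := by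
  classical
  obtain ⟨r, hr, hJr⟩ := h.isPGroup
  haveI := Fact.mk hr
  haveI := finite_lin J
  let T : Subgroup G := N ⊓ stab (lf γ : (⁅J, J⁆ : Subgroup G) → ℂ)
  let A : Subgroup G := T ⊓ Subgroup.centralizer ({x} : Set G)
  have hAx : ∀ a ∈ A, x * a = a * x := fun a ha =>
    (Subgroup.mem_centralizer_singleton_iff.1 ha.2).symm
  let φ : A →* MulAut (J →* ℂˣ) :=
    { toFun := fun a =>
        { toFun := fun l => cl (a : G)⁻¹ l
          invFun := fun l => cl (a : G) l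
          left_inv := fun l => by
            change cl (a : G) (cl (a : G)⁻¹ l) = l
            rw [← cl_mul, inv_mul_cancel, cl_one]
          right_inv := fun l => by
            change cl (a : G)⁻¹ (cl (a : G) l) = l
            rw [← cl_mul, mul_inv_cancel, cl_one]
          map_mul' := fun l m => rfl }
      map_one' := by
        apply MulEquiv.ext
        intro l
        change cl ((1 : A) : G)⁻¹ l = l
        rw [Subgroup.coe_one, inv_one, cl_one]
      map_mul' := by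
        intro a b
        apply MulEquiv.ext
        intro l
        change cl ((a * b : A) : G)⁻¹ l = cl (a : G)⁻¹ (cl (b : G)⁻¹ l)
        rw [Subgroup.coe_mul, mul_inv_rev, cl_mul] }
  let ρ : A →* Equiv.Perm (IrrCharacter J) :=
    { toFun := fun a =>
        { toFun := fun μ => ⟨tw J (a : G)⁻¹ (μ : J → ℂ), isIrr_tw (mem_nrm J _) μ.2⟩
          invFun := fun μ => ⟨tw J (a : G) (μ : J → ℂ), isIrr_tw (mem_nrm J _) μ.2⟩
          left_inv := fun μ => Subtype.ext (by
            change tw J (a : G) (tw J (a : G)⁻¹ (μ : J → ℂ)) = μ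
            rw [← tw_mul (mem_nrm J _) (mem_nrm J _), inv_mul_cancel, tw_one])
          right_inv := fun μ => Subtype.ext (by
            change tw J (a : G)⁻¹ (tw J (a : G) (μ : J → ℂ)) = μ
            rw [← tw_mul (mem_nrm J _) (mem_nrm J _), mul_inv_cancel, tw_one]) }
      map_one' := by
        apply Equiv.ext
        intro μ
        apply Subtype.ext
        change tw J ((1 : A) : G)⁻¹ (μ : J → ℂ) = μ
        rw [Subgroup.coe_one, inv_one, tw_one]
      map_mul' := by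
        intro a b
        apply Equiv.ext
        intro μ
        apply Subtype.ext
        change tw J ((a * b : A) : G)⁻¹ (μ : J → ℂ) = tw J (a : G)⁻¹ (tw J (b : G)⁻¹ (μ : J → ℂ))
        rw [Subgroup.coe_mul, mul_inv_rev, tw_mul (mem_nrm J _) (mem_nrm J _)] }
  let σ : (J →* ℂˣ) →* Equiv.Perm (IrrCharacter J) :=
    { toFun := fun l =>
        { toFun := fun μ => ⟨lf l * (μ : J → ℂ), isIrr_mul_lf l μ.2⟩
          invFun := fun μ => ⟨lf l⁻¹ * (μ : J → ℂ), isIrr_mul_lf l⁻¹ μ.2⟩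
          left_inv := fun μ => Subtype.ext (by
            funext j
            change ((l⁻¹ j : ℂˣ) : ℂ) * ((l j : ℂ) * (μ : J → ℂ) j) = (μ : J → ℂ) j
            rw [← mul_assoc, ← Units.val_mul, MonoidHom.inv_apply, inv_mul_cancel, Units.val_one,
              one_mul])
          right_inv := fun μ => Subtype.ext (by
            funext j
            change ((l j : ℂˣ) : ℂ) * ((l⁻¹ j : ℂˣ) * (μ : J → ℂ) j) = (μ : J → ℂ) j
            rw [← mul_assoc, ← Units.val_mul, MonoidHom.inv_apply, mul_inv_cancel, Units.val_one,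
              one_mul]) }
      map_one' := by
        apply Equiv.ext
        intro μ
        apply Subtype.ext
        funext j
        change (((1 : J →* ℂˣ) j : ℂˣ) : ℂ) * (μ : J → ℂ) j = (μ : J → ℂ) j
        rw [MonoidHom.one_apply, Units.val_one, one_mul]
      map_mul' := by
        intro l m
        apply Equiv.ext
        intro μ
        apply Subtype.ext
        funext j
        change (((l * m) j : ℂˣ) : ℂ) * (μ : J → ℂ) j = (l j : ℂ) * ((m j : ℂ) * (μ : J → ℂ) j)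
        rw [MonoidHom.mul_apply, Units.val_mul, mul_assoc] }
  have hφ : ∀ (a : A) (l : J →* ℂˣ), φ a l = cl (a : G)⁻¹ l := fun _ _ => rfl
  have hρ : ∀ (a : A) (μ : IrrCharacter J), ((ρ a μ : IrrCharacter J) : J → ℂ) =
      tw J (a : G)⁻¹ (μ : J → ℂ) := fun _ _ => rfl
  have hσ : ∀ (l : J →* ℂˣ) (μ : IrrCharacter J), ((σ l μ : IrrCharacter J) : J → ℂ) =
      lf l * (μ : J → ℂ) := fun _ _ => rfl
  have hcop : (Nat.card A).Coprime (Nat.card (J →* ℂˣ)) := by
    obtain ⟨a, ha⟩ := IsPGroup.iff_card.1 hJr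
    have hΛ : IsPGroup r (J →* ℂˣ) := by
      intro m
      refine ⟨a, MonoidHom.ext fun j => ?_⟩
      rw [MonoidHom.pow_apply, ← map_pow, ← ha, pow_card_eq_one', map_one]
      rfl
    obtain ⟨b, hb⟩ := IsPGroup.iff_card.1 hΛ
    rw [hb]
    refine Nat.Coprime.pow_right b ((Nat.Prime.coprime_iff_not_dvd hr).2 fun hd => ?_).symm
    obtain ⟨a, ha⟩ := exists_prime_orderOf_dvd_card' r hd
    have h1 : (a : G) ^ r = 1 := by
      have h2 := pow_orderOf_eq_one a
      rw [ha] at h2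
      have := congrArg Subtype.val h2
      simpa using this
    have h2 := h.eq_one_of_pow hr hJr a.2.1.1 (hAx a a.2) h1
    have h3 : a = 1 := Subtype.ext h2
    rw [h3, orderOf_one] at ha
    exact hr.one_lt.ne ha
  obtain ⟨μ₀, hμ₀, hμ₀o⟩ := exists_over_incl (comm_le J) (isIrr_lf γ)
  obtain ⟨⟨μ, hμS, hμ⟩, -⟩ := H566.glaub hcop (Or.inr inferInstance) φ ρ σ (by
      intro a l μ
      apply Subtype.ext
      rw [hρ, hσ, hσ, hρ, hφ]
      exact tw_lf_mul _ _ _)
    {μ : IrrCharacter J | Over (Subgroup.inclusion (comm_le J)) (μ : J → ℂ) (lf γ)}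
    ⟨⟨μ₀, hμ₀⟩, hμ₀o⟩ (by
      intro a μ hμ
      change Over _ _ _
      rw [hρ]
      have h1 : tw (⁅J, J⁆ : Subgroup G) (a : G)⁻¹ (lf γ) = lf γ :=
        (Subgroup.inv_mem (stab (lf γ : (⁅J, J⁆ : Subgroup G) → ℂ)) a.2.1.2).2
      rw [← h1]
      exact (over_tw_tw (comm_le J) (mem_nrm _ _) (mem_nrm _ _) _ _).2 hμ) (by
      intro l μ hμ
      exact h.over_mul γ μ.2 hμ l) (by
      intro μ hμ μ' hμ'
      obtain ⟨l, hl⟩ := h.trans γ μ.2 hμ μ'.2 hμ'
      exact ⟨l, Subtype.ext hl.symm⟩)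
  refine ⟨μ, μ.2, hμS, ?_⟩
  intro t ht
  obtain ⟨j, hj, c, hc, hxc, rfl⟩ := h.hyp.exists_mul ht.1
  have hjs : j ∈ stab (μ : J → ℂ) := le_stab (isIrr_isClassFunction μ.2) hj
  have hcT : c ∈ T := by
    have e : c = (c * j) * j⁻¹ := by group
    rw [e]
    exact T.mul_mem ht (T.inv_mem ⟨h.hyp.JN hj, h.J_le_stab γ hj⟩)
  have hcA : c ∈ A := ⟨hcT, Subgroup.mem_centralizer_singleton_iff.2 hxc.symm⟩
  refine (stab (μ : J → ℂ)).mul_mem ⟨mem_nrm J c, ?_⟩ hjs
  have h1 := congrArg (Subtype.val : IrrCharacter J → (J → ℂ)) (hμ (⟨c, hcA⟩⁻¹ : A))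
  rw [hρ] at h1
  simpa using h1

end Cfsg.Agent.H675.Nd
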