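import Mathlib
import Cfsg.Agent.H675.Nd.Gam
import Cfsg.Agent.H597.Norm

/-!
# A minimal counterexample: stabilizers of the characters of `J'`, and `|J'| < |J : J'|`
-/

set_option autoImplicit false
set_option linter.style.haveILetI false
set_option linter.unusedSectionVars false
open Cfsg

namespace Cfsg.Agent.H675.Nd

open Cfsg.Agent.Characters.Core Cfsg.Agent.Characters.Clifford Cfsg.Agent.H672 Cfsg.Agent.H672.RM
open scoped ComplexConjugate commutatorElement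

universe u v

variable {G : Type u} [Group G] [Finite G] {N J : Subgroup G} {x : G} {p : ℕ} [hJn : J.Normal]

/-- The stabilizer in `N` of `γ`. -/
theorem Min.TG (h : Min N J x p) {γ : (⁅J, J⁆ : Subgroup G) →* ℂˣ} (hγ : γ ≠ 1) {μ : J → ℂ}
    (hμ : IsIrrCharacter J μ) (ho : Over (Subgroup.inclusion (comm_le J)) μ (lf γ)) :
    N ⊓ stab μ = N ⊓ stab (lf γ : (⁅J, J⁆ : Subgroup G) → ℂ) := by
  obtain ⟨μ₀, hμ₀, ho₀, hT⟩ := h.exists_inv γ
  have e0 : N ⊓ stab μ₀ = N ⊓ stab (lf γ : (⁅J, J⁆ : Subgroup G) → ℂ) :=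
    le_antisymm (inf_le_inf_left N (h.stab_le γ hμ₀ ho₀)) (le_inf inf_le_left hT)
  have hle : N ⊓ stab μ ≤ N ⊓ stab (lf γ : (⁅J, J⁆ : Subgroup G) → ℂ) :=
    inf_le_inf_left N (h.stab_le γ hμ ho)
  obtain ⟨χ₀, hχ₀, hχ₀'⟩ := h.exists_extn μ₀ hμ₀
  obtain ⟨ψ₀, hψ₀, hψ₀1, -, hd₀⟩ := h.hyp.deg hμ₀ (ne_one_of_deg (h.ne_one hγ hμ₀ ho₀)) hχ₀ hχ₀'
  obtain ⟨χ, hχ, hχ'⟩ := h.exists_extn μ hμ
  obtain ⟨ψ, hψ, hψ1, -, hd⟩ := h.hyp.deg hμ (ne_one_of_deg (h.ne_one hγ hμ ho)) hχ hχ'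
  have hdeg : charDegree μ = charDegree μ₀ := by
    obtain ⟨l, rfl⟩ := h.trans γ hμ₀ ho₀ hμ ho
    exact charDegree_mul_lf l μ₀
  rw [e0] at hd₀
  rw [hdeg] at hd
  have h1 : (N ⊓ stab (lf γ : (⁅J, J⁆ : Subgroup G) → ℂ)).relIndex N ∣ (N ⊓ stab μ).relIndex N :=
    Subgroup.relIndex_dvd_of_le_left N hle
  have h2 := h.hyp.anti ψ₀ ψ hψ₀ hψ hψ₀1 hψ1 (by rw [hd₀, hd]; exact Nat.mul_dvd_mul_right h1 _)
  rw [hd₀, hd] at h2
  have h3 := Nat.eq_of_mul_eq_mul_right (charDegree_pos hμ₀) h2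
  have h4 := Subgroup.relIndex_mul_relIndex _ _ N hle inf_le_left
  rw [h3] at h4
  have h5 : (N ⊓ stab μ).relIndex (N ⊓ stab (lf γ : (⁅J, J⁆ : Subgroup G) → ℂ)) = 1 := by
    have h9 : 0 < (N ⊓ stab μ).relIndex N := Nat.pos_of_ne_zero Subgroup.index_ne_zero_of_finite
    exact Nat.eq_of_mul_eq_mul_right h9 (by rw [h4, one_mul])
  exact le_antisymm hle (Subgroup.relIndex_eq_one.1 h5)

theorem Min.centralG (h : Min N J x p) {γ : (⁅J, J⁆ : Subgroup G) →* ℂˣ} (hγ : γ ≠ 1) :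
    ∀ t ∈ N ⊓ stab (lf γ : (⁅J, J⁆ : Subgroup G) → ℂ), ∀ g : G, t * g * t⁻¹ * g⁻¹ ∈ J := by
  obtain ⟨μ, hμ, ho⟩ := exists_over_incl (comm_le J) (isIrr_lf γ)
  obtain ⟨χ, hχ, hχ'⟩ := h.exists_extn μ hμ
  rw [← h.TG hγ hμ ho]
  exact h.hyp.central hμ (ne_one_of_deg (h.ne_one hγ hμ ho)) hχ hχ'

/-- `N ∩ stab γ` centralizes `J'`. -/
theorem Min.TG_comm (h : Min N J x p) {γ : (⁅J, J⁆ : Subgroup G) →* ℂˣ} (hγ : γ ≠ 1) {t : G}
    (ht : t ∈ N ⊓ stab (lf γ : (⁅J, J⁆ : Subgroup G) → ℂ)) :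
    ∀ z ∈ ⁅J, J⁆, t * z = z * t := by
  set T : Subgroup G := N ⊓ stab (lf γ : (⁅J, J⁆ : Subgroup G) → ℂ) with hT
  haveI := h.hyp.nN
  have hJT : J ≤ T := le_inf h.hyp.JN (h.J_le_stab γ)
  have hTn : T.Normal := by
    constructor
    intro t ht g
    have h1 := h.centralG hγ t⁻¹ (T.inv_mem ht) g
    rw [inv_inv] at h1
    have e : g * t * g⁻¹ = t * (t⁻¹ * g * t * g⁻¹) := by group
    rw [e]
    exact T.mul_mem ht (hJT h1)
  by_contra hcon
  have hM : ⁅T, (⁅J, J⁆ : Subgroup G)⁆ ≠ ⊥ := by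
    intro e
    apply hcon
    intro z hz
    have h1 := Subgroup.commutator_mem_commutator ht hz
    rw [e, Subgroup.mem_bot, commutatorElement_eq_one_iff_mul_comm] at h1
    exact h1
  have hle : ⁅T, (⁅J, J⁆ : Subgroup G)⁆ ≤ ⁅J, J⁆ := Subgroup.commutator_le_right T _
  have h1 := h.hmin _ inferInstance hM (hle.trans (comm_le J))
  apply hγ
  have h2 : ⁅T, (⁅J, J⁆ : Subgroup G)⁆ ≤ (γ.ker).map (⁅J, J⁆ : Subgroup G).subtype := by
    rw [Subgroup.commutator_le]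
    intro t ht z hz
    have hz' : t * z * t⁻¹ ∈ ⁅J, J⁆ := Subgroup.Normal.conj_mem inferInstance z hz t
    refine ⟨⟨t * z * t⁻¹, hz'⟩ * ⟨z, hz⟩⁻¹, ?_, by
      rw [commutatorElement_def]; rfl⟩
    rw [SetLike.mem_coe, MonoidHom.mem_ker, map_mul, map_inv]
    have h3 := DFunLike.congr_fun (mem_stab_iff.1 ht.2) ⟨z, hz⟩
    rw [cl_apply] at h3
    rw [h3, mul_inv_cancel]
  apply MonoidHom.ext
  intro z
  obtain ⟨w, hw, hw'⟩ := h2 (h1 z.2)
  have e : w = z := Subtype.ext hw'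
  rw [← e]
  exact hw

/-- The elements of `N` acting trivially on the linear characters of `J` centralize `J'`. -/
theorem Min.N1_comm (_h : Min N J x p) {n : G} (hn : ∀ l : J →* ℂˣ, cl n l = l)
    (hc : ∀ z ∈ ⁅J, J⁆, ∀ j ∈ J, z * j = j * z) : ∀ z ∈ ⁅J, J⁆, n * z = z * n := by
  have h1 : ⁅J, J⁆ ≤ Subgroup.centralizer ({n} : Set G) := by
    rw [Subgroup.commutator_le]
    intro a ha b hb
    rw [Subgroup.mem_centralizer_singleton_iff]
    have ha' := diff_mem hn ha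
    have hb' := diff_mem hn hb
    set z := n * a * n⁻¹ * a⁻¹ with hz
    set w := n * b * n⁻¹ * b⁻¹ with hw
    have e1 : n * a * n⁻¹ = z * a := by rw [hz]; group
    have e2 : n * b * n⁻¹ = w * b := by rw [hw]; group
    have hzC : ∀ j ∈ J, z * j = j * z := hc z ha'
    have hwC : ∀ j ∈ J, w * j = j * w := hc w hb'
    have hwJ : w ∈ J := comm_le J hb'
    have e3 : n * ⁅a, b⁆ * n⁻¹ = ⁅a, b⁆ := by
      have e4 : n * ⁅a, b⁆ * n⁻¹ = ⁅n * a * n⁻¹, n * b * n⁻¹⁆ := by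
        rw [commutatorElement_def, commutatorElement_def]; group
      rw [e4, e1, e2, commutatorElement_def, commutatorElement_def]
      have c1 : Commute z a := hzC a ha
      have c2 : Commute z b := hzC b hb
      have c3 : Commute z w := hzC w hwJ
      have c4 : Commute w a := hwC a ha
      have c5 : Commute w b := hwC b hb
      calc z * a * (w * b) * (z * a)⁻¹ * (w * b)⁻¹
          = z * (a * w) * b * a⁻¹ * z⁻¹ * b⁻¹ * w⁻¹ := by group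
        _ = z * (w * a) * b * a⁻¹ * z⁻¹ * b⁻¹ * w⁻¹ := by rw [c4.eq]
        _ = z * w * (a * b * a⁻¹) * (z⁻¹ * b⁻¹) * w⁻¹ := by group
        _ = z * w * (a * b * a⁻¹) * (b⁻¹ * z⁻¹) * w⁻¹ := by rw [c2.inv_left.inv_right.eq]
        _ = z * w * ((a * b * a⁻¹ * b⁻¹) * (z⁻¹ * w⁻¹)) := by group
        _ = z * w * ((z⁻¹ * w⁻¹) * (a * b * a⁻¹ * b⁻¹)) := by
            have c6 : Commute (a * b * a⁻¹ * b⁻¹) (z⁻¹ * w⁻¹) := by
              refine Commute.mul_right ?_ ?_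
              · exact (((c1.symm.mul_left c2.symm).mul_left c1.symm.inv_left).mul_left
                  c2.symm.inv_left).inv_right
              · exact (((c4.symm.mul_left c5.symm).mul_left c4.symm.inv_left).mul_left
                  c5.symm.inv_left).inv_right
            rw [c6.eq]
        _ = z * (w * z⁻¹) * w⁻¹ * (a * b * a⁻¹ * b⁻¹) := by group
        _ = z * (z⁻¹ * w) * w⁻¹ * (a * b * a⁻¹ * b⁻¹) := by rw [c3.symm.inv_right.eq]
        _ = a * b * a⁻¹ * b⁻¹ := by group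
    exact (mul_inv_eq_iff_eq_mul.1 e3).symm
  intro z hz
  exact (Subgroup.mem_centralizer_singleton_iff.1 (h1 hz)).symm

/-- `N₁ < N ∩ stab γ`. -/
theorem Min.exists_outside (h : Min N J x p) {γ : (⁅J, J⁆ : Subgroup G) →* ℂˣ} (hγ : γ ≠ 1)
    {l : J →* ℂˣ} (hl : l ≠ 1) :
    ∃ n ∈ N ⊓ stab (lf γ : (⁅J, J⁆ : Subgroup G) → ℂ), n ∉ TL N l := by
  by_contra hcon
  push Not at hcon
  obtain ⟨μ, hμ, ho⟩ := exists_over_incl (comm_le J) (isIrr_lf γ)
  obtain ⟨χ, hχ, hχ'⟩ := h.exists_extn μ hμ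
  obtain ⟨ψ, hψ, hψ1, -, hd⟩ := h.hyp.deg hμ (ne_one_of_deg (h.ne_one hγ hμ ho)) hχ hχ'
  rw [h.TG hγ hμ ho] at hd
  obtain ⟨ψ', hψ', hψ'1, -, hd'⟩ := h.hyp.degL hl
  have hdvd : (TL N l).relIndex N ∣ charDegree ψ := by
    rw [hd]
    exact (Subgroup.relIndex_dvd_of_le_left N hcon).mul_right _
  have heq := h.hyp.anti ψ' ψ hψ' hψ hψ'1 hψ1 (by rw [hd']; exact hdvd)
  obtain ⟨r, hr, hJr⟩ := h.isPGroup
  apply h.hyp.not_dvd_relIndex hr hJr hl
  rw [← hd', heq, hd]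
  haveI := Fact.mk hr
  obtain ⟨a, ha⟩ := IsPGroup.iff_card.1 hJr
  have h1 := degree_dvd_card hμ
  rw [ha] at h1
  obtain ⟨b, -, hb⟩ := (Nat.dvd_prime_pow hr).1 h1
  rw [hb]
  refine (dvd_pow_self r ?_).mul_left _
  rintro rfl
  rw [pow_zero] at hb
  exact h.ne_one hγ hμ ho hb

/-- Characters over `γ ≠ 1` vanish on `J ∖ J'`. -/
theorem Min.vanish (h : Min N J x p) {γ : (⁅J, J⁆ : Subgroup G) →* ℂˣ} (hγ : γ ≠ 1) {μ : J → ℂ}
    (hμ : IsIrrCharacter J μ) (ho : Over (Subgroup.inclusion (comm_le J)) μ (lf γ)) {j : J}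
    (hj : (j : G) ∉ ⁅J, J⁆) : μ j = 0 := by
  obtain ⟨l₀, hl₀⟩ := h.exists_lin
  obtain ⟨n, hn, hn'⟩ := h.exists_outside hγ hl₀
  haveI := finite_lin J
  let f : (J →* ℂˣ) →* (J →* ℂˣ) :=
    { toFun := fun l => cl n l * l⁻¹
      map_one' := by
        apply MonoidHom.ext
        intro j
        change (1 : ℂˣ) * (1 : ℂˣ)⁻¹ = 1
        rw [inv_one, one_mul]
      map_mul' := fun l m => by
        apply MonoidHom.ext
        intro j
        change cl n l j * cl n m j * (l j * m j)⁻¹ = cl n l j * (l j)⁻¹ * (cl n m j * (m j)⁻¹)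
        rw [mul_inv, mul_mul_mul_comm] }
  have hf : Function.Injective f := by
    rw [injective_iff_map_eq_one]
    intro l hl
    by_contra hl1
    apply hn'
    rw [h.hyp.TL_eq hl₀ hl1]
    refine mem_TL.2 ⟨hn.1, ?_⟩
    apply MonoidHom.ext
    intro j
    have h1 := DFunLike.congr_fun hl j
    change cl n l j * (l j)⁻¹ = 1 at h1
    exact mul_inv_eq_one.1 h1
  have hs := Finite.surjective_of_injective hf
  obtain ⟨κ, -, hκ⟩ := exists_lin_ne (x := j) (comm_le J) le_rfl hj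
  obtain ⟨l, rfl⟩ := hs κ
  have hst : ∀ μ' : J → ℂ, IsIrrCharacter J μ' →
      Over (Subgroup.inclusion (comm_le J)) μ' (lf γ) → tw J n μ' = μ' := by
    intro μ' hμ' ho'
    rw [← h.TG hγ hμ' ho'] at hn
    exact hn.2.2
  have h1 := hst μ hμ ho
  have h2 := hst (lf l * μ) (isIrr_mul_lf l hμ) (h.over_mul γ hμ ho l)
  rw [tw_lf_mul, h1] at h2
  have h3 := congrFun h2 j
  simp only [Pi.mul_apply, lf_apply] at h3
  by_contra hμj
  have h4 := mul_right_cancel₀ hμj h3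
  have h5 : cl n l j = l j := Units.ext h4
  apply hκ
  change cl n l j * (l j)⁻¹ = 1
  rw [h5, mul_inv_cancel]

/-- For `g ∈ J ∖ J'` and `γ ≠ 1` there is `k` with `γ ⁅g, k⁆ ≠ 1`. -/
theorem Min.exists_comm_ne (h : Min N J x p) {γ : (⁅J, J⁆ : Subgroup G) →* ℂˣ} (hγ : γ ≠ 1) {g : G}
    (hg : g ∈ J) (hg' : g ∉ ⁅J, J⁆) :
    ∃ (k : G) (hk : k ∈ J), γ ⟨⁅g, k⁆, Subgroup.commutator_mem_commutator hg hk⟩ ≠ 1 := by
  by_contra hcon
  push Not at hcon
  obtain ⟨μ, hμ, ho⟩ := exists_over_incl (comm_le J) (isIrr_lf γ)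
  have h1 := h.vanish hγ hμ ho (j := ⟨g, hg⟩) hg'
  have h2 := Cfsg.Agent.H597.Norm.normSq_eq_of_central hμ (z := (⟨g, hg⟩ : J)) (by
    intro k
    have hm : (k : G) * g * (k : G)⁻¹ * g⁻¹ ∈ ⁅J, J⁆ := by
      have := Subgroup.commutator_mem_commutator k.2 hg
      rwa [commutatorElement_def] at this
    have h3 := h.res γ hμ ho ⟨_, hm⟩
    have h4 := hcon k k.2
    have e : (⟨(k : G) * g * (k : G)⁻¹ * g⁻¹, hm⟩ : (⁅J, J⁆ : Subgroup G)) =
        (⟨⁅g, (k : G)⁆, Subgroup.commutator_mem_commutator hg k.2⟩ : (⁅J, J⁆ : Subgroup G))⁻¹ := by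
      apply Subtype.ext
      change _ = ⁅g, (k : G)⁆⁻¹
      rw [commutatorElement_def]
      group
    rw [e, map_inv, h4, inv_one, Units.val_one, mul_one, ← e] at h3
    exact h3)
  rw [h1, map_zero] at h2
  have h3 : (charDegree μ : ℝ) = 0 := by
    have := h2.symm
    exact pow_eq_zero_iff (two_ne_zero) |>.1 this
  exact (charDegree_pos hμ).ne' (by exact_mod_cast h3)

/-- `|J'| < |J : J'|`, in terms of linear characters. -/
theorem Min.card_lt (h : Min N J x p) :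
    Nat.card ((⁅J, J⁆ : Subgroup G) →* ℂˣ) < Nat.card (J →* ℂˣ) := by
  classical
  haveI := finite_lin J
  haveI := finite_lin (⁅J, J⁆ : Subgroup G)
  obtain ⟨g, hg, hg'⟩ := h.exists_not_mem
  have hc := h.central'
  let D : J →* (⁅J, J⁆ : Subgroup G) := MonoidHom.mk'
    (fun k => ⟨⁅g, (k : G)⁆, Subgroup.commutator_mem_commutator hg k.2⟩) (by
      intro a b
      apply Subtype.ext
      change ⁅g, (a : G) * b⁆ = ⁅g, (a : G)⁆ * ⁅g, (b : G)⁆
      have h1 := hc _ (Subgroup.commutator_mem_commutator hg b.2) (a : G)⁻¹ (J.inv_mem a.2)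
      calc ⁅g, (a : G) * b⁆ = g * a * g⁻¹ * (⁅g, (b : G)⁆ * (a : G)⁻¹) := by
            rw [commutatorElement_def, commutatorElement_def]; group
        _ = g * a * g⁻¹ * ((a : G)⁻¹ * ⁅g, (b : G)⁆) := by rw [h1]
        _ = _ := by rw [commutatorElement_def, commutatorElement_def]; group)
  let F : ((⁅J, J⁆ : Subgroup G) →* ℂˣ) → (J →* ℂˣ) := fun γ => γ.comp D
  have hF : Function.Injective F := by
    intro γ γ' hγ
    by_contra hne
    have h1 : γ * γ'⁻¹ ≠ 1 := by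
      intro e
      apply hne
      apply MonoidHom.ext
      intro z
      have h2 := DFunLike.congr_fun e z
      change γ z * (γ' z)⁻¹ = 1 at h2
      exact mul_inv_eq_one.1 h2
    obtain ⟨k, hk, h2⟩ := h.exists_comm_ne h1 hg hg'
    apply h2
    have h3 := DFunLike.congr_fun hγ ⟨k, hk⟩
    change γ (D ⟨k, hk⟩) = γ' (D ⟨k, hk⟩) at h3
    change γ (D ⟨k, hk⟩) * (γ' (D ⟨k, hk⟩))⁻¹ = 1
    rw [h3, mul_inv_cancel]
  obtain ⟨κ, -, hκ⟩ := exists_lin_ne (x := (⟨g, hg⟩ : J)) (comm_le J) le_rfl hg'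
  have hns : κ ∉ Set.range F := by
    rintro ⟨γ, rfl⟩
    apply hκ
    change γ (D ⟨g, hg⟩) = 1
    have e : D ⟨g, hg⟩ = 1 := by
      apply Subtype.ext
      change ⁅g, g⁆ = 1
      exact commutatorElement_self g
    rw [e, map_one]
  have h1 : Nat.card ((⁅J, J⁆ : Subgroup G) →* ℂˣ) = (Set.range F).ncard :=
    (Set.ncard_range_of_injective hF).symm
  rw [h1, ← Set.ncard_univ]
  refine Set.ncard_lt_ncard ?_ (Set.toFinite _)
  rw [Set.ssubset_univ_iff]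
  intro e
  exact hns (e ▸ Set.mem_univ κ)

end Cfsg.Agent.H675.Nd
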