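import Mathlib
import Cfsg.Agent.H675.Nd.Gam2
import Cfsg.Agent.H675.Nd.Count

/-!
# `J` is abelian
-/

set_option autoImplicit false
set_option linter.style.haveILetI false
set_option linter.unusedSectionVars false
open Cfsg

namespace Cfsg.Agent.H675.Nd

open Cfsg.Agent.Characters.Core Cfsg.Agent.Characters.Clifford Cfsg.Agent.H672 Cfsg.Agent.H672.RM
open scoped commutatorElement

universe u v

section map

variable {G : Type u} {G' : Type v} [Group G] [Group G'] [Finite G] [Finite G']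

theorem isIrr_map (f : G →* G') (K : Subgroup G) {θ : K.map f → ℂ}
    (hθ : IsIrrCharacter (K.map f) θ) : IsIrrCharacter K (θ ∘ f.subgroupMap K) :=
  isIrr_comp (f.subgroupMap K) (f.subgroupMap_surjective K) hθ

theorem tw_map (f : G →* G') (K : Subgroup G) (θ : K.map f → ℂ) {g : G}
    (hg : g ∈ Subgroup.normalizer (K : Set G))
    (hg' : f g ∈ Subgroup.normalizer ((K.map f : Subgroup G') : Set G')) :
    tw K g (θ ∘ f.subgroupMap K) = (tw (K.map f) (f g) θ) ∘ f.subgroupMap K := by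
  funext k
  rw [tw_apply hg, Function.comp, Function.comp, tw_apply hg']
  congr 1
  apply Subtype.ext
  change f (g * k * g⁻¹) = f g * f k * (f g)⁻¹
  rw [map_mul, map_mul, map_inv]

end map

variable {G : Type u} [Group G] [Finite G] {N J : Subgroup G} {x : G} {p : ℕ}

theorem Hyp.quot (h : Hyp N J x p) (M : Subgroup G) [hM : M.Normal] (hMN : M ≤ N)
    (hnc : ∃ g : G, x * g * x⁻¹ * g⁻¹ ∉ J ⊔ M) :
    Hyp (N.map (QuotientGroup.mk' M)) (J.map (QuotientGroup.mk' M)) (QuotientGroup.mk' M x) p := by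
  haveI := h.nN
  haveI := h.nJ
  have hπ := QuotientGroup.mk'_surjective M
  haveI hNn : (N.map (QuotientGroup.mk' M)).Normal := Subgroup.Normal.map inferInstance _ hπ
  haveI hJn : (J.map (QuotientGroup.mk' M)).Normal := Subgroup.Normal.map inferInstance _ hπ
  have hdeg : ∀ ψ : N.map (QuotientGroup.mk' M) → ℂ,
      charDegree (ψ ∘ (QuotientGroup.mk' M).subgroupMap N) = charDegree ψ := fun ψ =>
    charDegree_comp_one _ ψ
  have hidx : (N.map (QuotientGroup.mk' M)).index = N.index := by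
    rw [Subgroup.index_map, QuotientGroup.ker_mk', sup_of_le_left hMN,
      MonoidHom.range_eq_top.2 hπ, Subgroup.index_top, mul_one]
  refine ⟨hNn, ?_, h.pr, ⟨x, h.xN, rfl⟩, ?_, ?_, ?_, ?_, ?_, ?_, ?_⟩
  · rw [← Subgroup.map_commutator, ← h.eJ]
  · rw [← map_pow, h.xp, map_one]
  · intro hd
    exact h.pJ (hd.trans (Subgroup.card_dvd_of_surjective _
      ((QuotientGroup.mk' M).subgroupMap_surjective J)))
  · intro μ hμ hx
    have h1 := h.hx _ (isIrr_map (QuotientGroup.mk' M) J hμ) (by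
      refine ⟨mem_nrm J x, ?_⟩
      rw [tw_map _ _ _ (mem_nrm J x) (mem_nrm _ _), hx.2])
    exact ((QuotientGroup.mk' M).subgroupMap_surjective J).injective_comp_right (h1.trans rfl)
  · intro ψ hψ hψ1 q
    obtain ⟨g, rfl⟩ := hπ q
    have h1 := h.inv _ (isIrr_map (QuotientGroup.mk' M) N hψ) (by rw [hdeg]; exact hψ1) g
    rw [tw_map _ _ _ (mem_nrm N g) (mem_nrm _ _)] at h1
    exact ((QuotientGroup.mk' M).subgroupMap_surjective N).injective_comp_right h1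
  · intro ψ hψ hψ1
    have h1 := h.cop _ (isIrr_map (QuotientGroup.mk' M) N hψ) (by rw [hdeg]; exact hψ1)
    rw [hidx]
    rwa [hdeg] at h1
  · intro ψ ψ' hψ hψ' hψ1 hψ'1 hd
    have h1 := h.anti _ _ (isIrr_map (QuotientGroup.mk' M) N hψ)
      (isIrr_map (QuotientGroup.mk' M) N hψ') (by rw [hdeg]; exact hψ1) (by rw [hdeg]; exact hψ'1)
      (by rw [hdeg, hdeg]; exact hd)
    rwa [hdeg, hdeg] at h1
  · obtain ⟨g, hg⟩ := hnc
    refine ⟨QuotientGroup.mk' M g, ?_⟩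
    rintro ⟨j, hj, e⟩
    apply hg
    rw [← map_inv, ← map_inv, ← map_mul, ← map_mul, ← map_mul] at e
    have h1 := QuotientGroup.eq.1 e
    have h2 := (J ⊔ M).mul_mem (Subgroup.mem_sup_left hj) (Subgroup.mem_sup_right h1)
    rwa [mul_inv_cancel_left] at h2

theorem normal_of_central' {J T : Subgroup G} (hJT : J ≤ T)
    (h : ∀ t ∈ T, ∀ g : G, t * g * t⁻¹ * g⁻¹ ∈ J) : T.Normal := by
  constructor
  intro t ht g
  have h1 := h t⁻¹ (T.inv_mem ht) g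
  rw [inv_inv] at h1
  have e : g * t * g⁻¹ = t * (t⁻¹ * g * t * g⁻¹) := by group
  rw [e]
  exact T.mul_mem ht (hJT h1)

theorem card_lin_pow {K : Type u} [Group K] [Finite K] {r : ℕ} (hr : r.Prime) (hK : IsPGroup r K)
    (hne : ∃ l : K →* ℂˣ, l ≠ 1) : (∃ a, a ≠ 0 ∧ Nat.card (K →* ℂˣ) = r ^ a) ∧
      ∀ F : Subgroup (K →* ℂˣ), ∃ b, Nat.card F = r ^ b := by
  haveI := Fact.mk hr
  haveI := finite_lin K
  obtain ⟨a, ha⟩ := IsPGroup.iff_card.1 hK
  have hΛ : IsPGroup r (K →* ℂˣ) := by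
    intro m
    refine ⟨a, MonoidHom.ext fun j => ?_⟩
    rw [MonoidHom.pow_apply, ← map_pow, ← ha, pow_card_eq_one', map_one]
    rfl
  obtain ⟨b, hb⟩ := IsPGroup.iff_card.1 hΛ
  refine ⟨⟨b, ?_, hb⟩, fun F => ?_⟩
  · rintro rfl
    rw [pow_zero, Nat.card_eq_one_iff_unique] at hb
    obtain ⟨l, hl⟩ := hne
    exact hl (hb.1.elim l 1)
  · have h1 : Nat.card F ∣ r ^ b := by rw [← hb]; exact Subgroup.card_subgroup_dvd_card F
    obtain ⟨c, -, hc⟩ := (Nat.dvd_prime_pow hr).1 h1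
    exact ⟨c, hc⟩

theorem Min.false (h : Min N J x p) : False := by
  haveI := h.hyp.nJ
  haveI := h.hyp.nN
  obtain ⟨r, hr, hJr⟩ := h.isPGroup
  haveI := Fact.mk hr
  obtain ⟨l₀, hl₀⟩ := h.exists_lin
  have hx : x ∉ NZ N J := by
    intro hx
    obtain ⟨g, hg⟩ := h.hyp.nc
    exact hg ((mem_NZ.1 hx).2 g)
  have hc : 1 < (NZ N J).relIndex N := by
    have h1 : (NZ N J).relIndex N ≠ 0 := Subgroup.index_ne_zero_of_finite
    have h2 : (NZ N J).relIndex N ≠ 1 := by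
      intro e
      exact hx (Subgroup.relIndex_eq_one.1 e h.hyp.xN)
    omega
  -- the count for `J`
  obtain ⟨F, hF⟩ : ∃ F : Subgroup (J →* ℂˣ), Nat.card (J →* ℂˣ) - 1 =
      (NZ N J).relIndex N * (Nat.card F - 1) := by
    haveI hMn : (TL N l₀).Normal := normal_of_central' (h.hyp.inertL l₀).KT (h.hyp.centralL hl₀)
    refine card_lin_mul (M := TL N l₀) (h.hyp.inertL l₀).KT (h.hyp.inertL l₀).TU h.hyp.ab
      (fun j hj l => cl_of_mem hj l) (h.hyp.centralL hl₀) (fun l hl => h.hyp.TL_eq hl hl₀) ?_ ?_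
      ⟨l₀, hl₀⟩
    · intro l hl g
      obtain ⟨ψ, hψ, hψ1, ho, -⟩ := h.hyp.degL hl
      exact exists_mul_stab h.hyp.JN (isIrr_lf l) hψ ho (h.hyp.inv ψ hψ hψ1) g
    · obtain ⟨ψ, hψ, hψ1, ho, hd⟩ := h.hyp.degL hl₀
      rw [← hd]
      exact h.hyp.cop ψ hψ hψ1
  -- the count for `J'`
  obtain ⟨z, hz, hz1⟩ : ∃ z ∈ ⁅J, J⁆, z ≠ 1 := by
    by_contra hcon
    push Not at hcon
    exact h.hne (by rw [eq_bot_iff]; exact fun z hz => Subgroup.mem_bot.2 (hcon z hz))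
  obtain ⟨γ₀, -, hγ₀'⟩ := exists_lin_ne (x := (⟨z, hz⟩ : (⁅J, J⁆ : Subgroup G))) bot_le h.GG
    (by rw [Subgroup.mem_bot]; exact hz1)
  have hγ₀ : γ₀ ≠ 1 := fun e => hγ₀' (by rw [e]; rfl)
  obtain ⟨F', hF'⟩ : ∃ F : Subgroup ((⁅J, J⁆ : Subgroup G) →* ℂˣ),
      Nat.card ((⁅J, J⁆ : Subgroup G) →* ℂˣ) - 1 =
        (NZ N J).relIndex N * (Nat.card F - 1) := by
    have hJM : J ≤ N ⊓ stab (lf γ₀ : (⁅J, J⁆ : Subgroup G) → ℂ) :=
      le_inf h.hyp.JN (h.J_le_stab γ₀)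
    haveI hMn : (N ⊓ stab (lf γ₀ : (⁅J, J⁆ : Subgroup G) → ℂ)).Normal :=
      normal_of_central' hJM (h.centralG hγ₀)
    have hle : ∀ γ γ' : (⁅J, J⁆ : Subgroup G) →* ℂˣ, γ ≠ 1 →
        N ⊓ stab (lf γ : (⁅J, J⁆ : Subgroup G) → ℂ) ≤
        N ⊓ stab (lf γ' : (⁅J, J⁆ : Subgroup G) → ℂ) := by
      intro γ γ' hγ t ht
      exact ⟨ht.1, mem_stab_iff.2 (cl_of_comm (h.TG_comm hγ ht) γ')⟩
    have hψ : ∀ γ : (⁅J, J⁆ : Subgroup G) →* ℂˣ, γ ≠ 1 → ∃ ψ : N → ℂ, IsIrrCharacter N ψ ∧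
        charDegree ψ ≠ 1 ∧ Over (Subgroup.inclusion ((comm_le J).trans h.hyp.JN)) ψ (lf γ) := by
      intro γ hγ
      obtain ⟨μ, hμ, hμo⟩ := exists_over_incl (comm_le J) (isIrr_lf γ)
      obtain ⟨ψ, hψ, hψo⟩ := exists_over_incl h.hyp.JN hμ
      exact ⟨ψ, hψ, h.hyp.nonlin hψ hμ (ne_one_of_deg (h.ne_one hγ hμ hμo)) hψo,
        over_trans (comm_le J) h.hyp.JN hψ hμ (isIrr_lf γ) hψo hμo⟩
    refine card_lin_mul (M := N ⊓ stab (lf γ₀ : (⁅J, J⁆ : Subgroup G) → ℂ)) hJM inf_le_left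
      h.hyp.ab (fun j hj γ => mem_stab_iff.1 (h.J_le_stab γ hj)) (h.centralG hγ₀)
      (fun γ hγ => le_antisymm (hle γ γ₀ hγ) (hle γ₀ γ hγ₀)) ?_ ?_ ⟨γ₀, hγ₀⟩
    · intro γ hγ g
      obtain ⟨ψ, hψ, hψ1, ho⟩ := hψ γ hγ
      exact exists_mul_stab ((comm_le J).trans h.hyp.JN) (isIrr_lf γ) hψ ho (h.hyp.inv ψ hψ hψ1) g
    · obtain ⟨ψ, hψ, hψ1, ho⟩ := hψ γ₀ hγ₀
      have h1 := dvd_of_over ((comm_le J).trans h.hyp.JN) (le_nrm _ N) hψ (isIrr_lf γ₀) ho
      rw [charDegree_lf, mul_one] at h1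
      rw [inf_comm, Subgroup.inf_relIndex_right]
      exact (h.hyp.cop ψ hψ hψ1).coprime_dvd_left h1
  have hΓr : IsPGroup r (⁅J, J⁆ : Subgroup G) := hJr.to_le (comm_le J)
  obtain ⟨⟨a, ha0, ha⟩, hsub⟩ := card_lin_pow hr hJr ⟨l₀, hl₀⟩
  obtain ⟨⟨a', ha0', ha'⟩, hsub'⟩ := card_lin_pow hr hΓr ⟨γ₀, hγ₀⟩
  obtain ⟨b, hb⟩ := hsub F
  obtain ⟨b', hb'⟩ := hsub' F'
  rw [ha, hb] at hF
  rw [ha', hb'] at hF'
  have h1 := pow_eq_of_count hr hc ha0 ha0' hF hF'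
  have h2 := h.card_lt
  rw [ha, ha', h1] at h2
  exact lt_irrefl _ h2

/-- **Theorem Y.** -/
theorem thmY (n : ℕ) : ∀ (G : Type u) [Group G] [Finite G] (N J : Subgroup G) (x : G) (p : ℕ),
    Nat.card G = n → Hyp N J x p → ⁅J, J⁆ = ⊥ := by
  induction n using Nat.strong_induction_on with
  | _ n ih =>
  intro G _ _ N J x p hn h
  by_contra hne
  haveI := h.nJ
  haveI := h.nN
  have hq : ∀ M : Subgroup G, M.Normal → M ≠ ⊥ → M ≤ N →
      (∃ g : G, x * g * x⁻¹ * g⁻¹ ∉ J ⊔ M) → ⁅J, J⁆ ≤ M := by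
    intro M hM hM1 hMN hnc
    have h1 := h.quot M hMN hnc
    have hlt : Nat.card (G ⧸ M) < n := by
      rw [← hn, ← Subgroup.index_eq_card, ← M.index_mul_card]
      refine lt_mul_of_one_lt_right (Nat.pos_of_ne_zero Subgroup.index_ne_zero_of_finite) ?_
      rw [Subgroup.one_lt_card_iff_ne_bot]
      exact hM1
    have h2 := ih _ hlt (G ⧸ M) _ _ _ p rfl h1
    rw [← Subgroup.map_commutator, Subgroup.map_eq_bot_iff, QuotientGroup.ker_mk'] at h2
    exact h2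
  refine Min.false (N := N) (J := J) (x := x) (p := p) ⟨h, hne, ?_, ?_⟩
  · intro M hM hM1 hMJ
    obtain ⟨g, hg⟩ := h.nc
    exact hq M hM hM1 (hMJ.trans h.JN) ⟨g, by rwa [sup_of_le_left hMJ]⟩
  · intro u hu huc r hr hrp hur
    by_contra hu1
    have hun : (Subgroup.zpowers u).Normal := by
      constructor
      rintro _ ⟨i, rfl⟩ g
      have h1 : g * u ^ i = u ^ i * g :=
        Subgroup.mem_center_iff.1 ((Subgroup.center G).zpow_mem huc i) g
      change g * u ^ i * g⁻¹ ∈ _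
      rw [h1, mul_inv_cancel_right]
      exact Subgroup.zpow_mem_zpowers u i
    have hnc : ∃ g : G, x * g * x⁻¹ * g⁻¹ ∉ J ⊔ Subgroup.zpowers u := by
      obtain ⟨g, hg⟩ := h.nc
      refine ⟨g, fun hmem => hg ?_⟩
      obtain ⟨j, hj, w, ⟨i, hw⟩, e⟩ := Subgroup.mem_sup_of_normal_left.1 hmem
      have hw' : u ^ i = w := hw
      have h1 : (w : G ⧸ J) ^ r = 1 := by
        rw [← QuotientGroup.mk_pow, ← hw', ← zpow_natCast, ← zpow_mul, mul_comm, zpow_mul,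
          zpow_natCast, hur, one_zpow]
        rfl
      have h2 : ((x * g * x⁻¹ * g⁻¹ : G) : G ⧸ J) = w := by
        rw [← e, QuotientGroup.mk_mul, (QuotientGroup.eq_one_iff j).2 hj, one_mul]
      have h3 : (w : G ⧸ J) ^ p = 1 := by
        have hy : g * x⁻¹ * g⁻¹ ∈ N := h.nN.conj_mem _ (N.inv_mem h.xN) g
        have h4 : Commute (x : G ⧸ J) ((g * x⁻¹ * g⁻¹ : G) : G ⧸ J) := by
          have h5 := h.ab (Subgroup.commutator_mem_commutator h.xN hy)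
          rw [← QuotientGroup.eq_one_iff] at h5
          change QuotientGroup.mk' J ⁅x, g * x⁻¹ * g⁻¹⁆ = 1 at h5
          rw [map_commutatorElement, commutatorElement_eq_one_iff_mul_comm] at h5
          exact h5
        have h5 : (w : G ⧸ J) = (x : G ⧸ J) * ((g * x⁻¹ * g⁻¹ : G) : G ⧸ J) := by
          rw [← h2, ← QuotientGroup.mk_mul]
          congr 1
          group
        rw [h5, h4.mul_pow, ← QuotientGroup.mk_pow, ← QuotientGroup.mk_pow, h.xp, conj_pow,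
          inv_pow, h.xp, inv_one, mul_one, mul_inv_cancel]
        simp
      have h4 : (w : G ⧸ J) = 1 := by
        have h5 := pow_gcd_eq_one.2 ⟨h1, h3⟩
        rwa [((Nat.coprime_primes hr h.pr).2 hrp).gcd_eq_one, pow_one] at h5
      rw [← QuotientGroup.eq_one_iff, h2, h4]
    have h1 := hq (Subgroup.zpowers u) hun (by rwa [Ne, Subgroup.zpowers_eq_bot])
      (Subgroup.zpowers_le.2 hu) hnc
    apply hne
    rw [eq_bot_iff]
    intro z hz
    rw [Subgroup.mem_bot]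
    refine h.fix (comm_le J hz) ?_
    obtain ⟨i, hi⟩ := h1 hz
    have hi' : u ^ i = z := hi
    rw [← hi']
    exact Subgroup.mem_center_iff.1 ((Subgroup.center G).zpow_mem huc i) x

end Cfsg.Agent.H675.Nd
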