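import Mathlib
import Cfsg.Agent.H675.Nd.Cliff
import Cfsg.Agent.H597.Degrees

/-!
# The case of a nonabelian Sylow subgroup
-/

set_option autoImplicit false
set_option linter.style.haveILetI false
set_option linter.unusedSectionVars false
open Cfsg

namespace Cfsg.Agent.H675.Nd

open Cfsg.Agent.Characters.Core Cfsg.Agent.Characters.Clifford Cfsg.Agent.H672 Cfsg.Agent.H672.RM
open Cfsg.Agent.OddOrderCharacters
open scoped commutatorElement

universe u v

variable {G : Type u} [Group G] [Finite G] {N H T : Subgroup G}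

/-- A nonlinear irreducible character of `T` trivial on `H`. -/
theorem exists_nonlin (hHT : H ≤ T) (hT : T ≤ Subgroup.normalizer (H : Set G))
    (hna : ¬ ⁅T, T⁆ ≤ H) : ∃ β : T → ℂ, IsIrrCharacter T β ∧
      (∀ k : H, β (Subgroup.inclusion hHT k) = β 1) ∧ charDegree β ≠ 1 := by
  by_contra hcon
  push Not at hcon
  apply hna
  haveI := normal_subgroupOf hT
  rw [Subgroup.commutator_le]
  intro a ha b hb
  have key : ∀ q q' : T ⧸ H.subgroupOf T, q * q' = q' * q := by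
    refine H597.Degrees.comm_of_forall_one fun χ hχ => ?_
    have h1 := hcon (χ ∘ QuotientGroup.mk' (H.subgroupOf T))
      (isIrr_comp _ (QuotientGroup.mk'_surjective _) hχ) (fun k => by
        have h2 : QuotientGroup.mk' (H.subgroupOf T) (Subgroup.inclusion hHT k) = 1 := by
          rw [QuotientGroup.mk'_apply, QuotientGroup.eq_one_iff, Subgroup.mem_subgroupOf]
          exact k.2
        rw [Function.comp, Function.comp, h2, map_one])
    exact h1
  have h1 := key (⟨a, ha⟩ : T) (⟨b, hb⟩ : T)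
  have h2 : QuotientGroup.mk' (H.subgroupOf T) ⁅(⟨a, ha⟩ : T), (⟨b, hb⟩ : T)⁆ = 1 := by
    rw [map_commutatorElement, commutatorElement_eq_one_iff_mul_comm]
    exact h1
  rw [QuotientGroup.mk'_apply, QuotientGroup.eq_one_iff, Subgroup.mem_subgroupOf] at h2
  exact h2

theorem lin_of_comm (hHT : H ≤ T) (hab : ⁅T, T⁆ ≤ H) {β : T → ℂ} (hβ : IsIrrCharacter T β)
    (hβH : ∀ k : H, β (Subgroup.inclusion hHT k) = β 1) : charDegree β = 1 := by
  obtain ⟨l, rfl⟩ := PF9.CliffGen.exists_hom_of_ker hβ (by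
    intro y hy
    have h1 : (y : G) ∈ ⁅T, T⁆ := by
      rw [← Subgroup.map_subtype_commutator]
      exact ⟨y, hy, rfl⟩
    exact hβH ⟨y, hab h1⟩)
  exact charDegree_lf l

theorem charDegree_one (K : Type v) [Group K] [Finite K] : charDegree (1 : K → ℂ) = 1 :=
  charDegree_of_eq (by simp)

theorem deg_dvd_relIndex (hHT : H ≤ T) (hT : T ≤ Subgroup.normalizer (H : Set G)) {β : T → ℂ}
    (hβ : IsIrrCharacter T β) (hβH : ∀ k : H, β (Subgroup.inclusion hHT k) = β 1) :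
    charDegree β ∣ H.relIndex T := by
  have h1 := (div_dvd_of_over hHT hT hβ isIrr_one ((over_one_iff hHT hT hβ).2 hβH)).2
  rwa [charDegree_one, Nat.div_one] at h1

theorem deg_le_relIndex (hTN : T ≤ N) (hHT : H ≤ T) (hab : ⁅T, T⁆ ≤ H) {β : N → ℂ}
    (hβ : IsIrrCharacter N β) (hβH : ∀ k : H, β (Subgroup.inclusion (hHT.trans hTN) k) = β 1) :
    charDegree β ≤ T.relIndex N := by
  classical
  letI := Fintype.ofFinite N
  obtain ⟨k, hk, hk'⟩ := PF9.CliffGen.degree_le_index (T.subgroupOf N) hβ (by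
    intro y hy
    have h1 : (y : G) ∈ ⁅T, T⁆ := by
      have h2 : (y : G) ∈ (⁅T.subgroupOf N, T.subgroupOf N⁆ : Subgroup N).map N.subtype :=
        ⟨y, hy, rfl⟩
      rw [Subgroup.map_commutator, Subgroup.map_subgroupOf_eq_of_le hTN] at h2
      exact h2
    exact hβH ⟨y, hab h1⟩)
  rw [charDegree_of_eq hk]
  exact hk'

/-- **The nonabelian case**: all nonlinear degrees of `N` coincide. -/
theorem case_nonab [N.Normal] [H.Normal] (hHN : H ≤ N) {p : ℕ} (hp : p.Prime)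
    (hcop : (Nat.card H).Coprime p) (hidx : ∃ k, H.relIndex N = p ^ k) (hna : ¬ ⁅N, N⁆ ≤ H)
    (anti : ∀ ψ ψ' : N → ℂ, IsIrrCharacter N ψ → IsIrrCharacter N ψ' → charDegree ψ ≠ 1 →
      charDegree ψ' ≠ 1 → charDegree ψ ∣ charDegree ψ' → charDegree ψ = charDegree ψ') :
    ∃ m, ∀ ψ : N → ℂ, IsIrrCharacter N ψ → charDegree ψ ≠ 1 → charDegree ψ = m := by
  have hnrm : ∀ U : Subgroup G, U ≤ Subgroup.normalizer (H : Set G) := fun U g _ => by
    rw [Subgroup.normalizer_eq_top]; exact Subgroup.mem_top g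
  obtain ⟨k, hk⟩ := hidx
  obtain ⟨β₀, hβ₀, hβ₀H, hβ₀1⟩ := exists_nonlin hHN (hnrm N) hna
  have hm : ∃ i, charDegree β₀ = p ^ i := by
    have h1 := deg_dvd_relIndex hHN (hnrm N) hβ₀ hβ₀H
    rw [hk] at h1
    obtain ⟨i, -, hi⟩ := (Nat.dvd_prime_pow hp).1 h1
    exact ⟨i, hi⟩
  obtain ⟨i, hi⟩ := hm
  refine ⟨charDegree β₀, fun ψ hψ hψ1 => ?_⟩
  obtain ⟨θ, hθ, ho⟩ := exists_under (f := Subgroup.inclusion hHN) hψ
  have hI : Inert H (N ⊓ stab θ) N θ := ⟨hHN, hnrm N, hθ, rfl⟩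
  set T : Subgroup G := N ⊓ stab θ with hT
  have hTidx : H.relIndex T ∣ p ^ k := by
    rw [← hk]
    exact Dvd.intro _ (Subgroup.relIndex_mul_relIndex H T N hI.KT hI.TU)
  obtain ⟨χ, hχ, hχθ⟩ := exists_ext hI.KT hθ hI.Tstab
    ((hcop.pow_right k).coprime_dvd_right hTidx)
  obtain ⟨η, hη, hηθ, hψη, hd⟩ := hI.exists_eta hψ ho
  obtain ⟨β, ⟨hβ, hβH⟩, hβη⟩ := (gal hI.KT (hnrm T) hθ hχ hχθ).surjOn ⟨hη, hηθ⟩
  have hβη' : β * χ = η := hβη
  have hdη : charDegree η = charDegree β * charDegree χ := by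
    rw [← hβη', H597.FrobC.charDegree_mul hχ hβ]
  by_cases hTab : ⁅T, T⁆ ≤ H
  · have h1 := deg_le_relIndex hI.TU hI.KT hTab hβ₀ hβ₀H
    have h2 : T.relIndex N ∣ p ^ k := by
      rw [← hk]
      exact Dvd.intro_left _ (Subgroup.relIndex_mul_relIndex H T N hI.KT hI.TU)
    obtain ⟨j, -, hj⟩ := (Nat.dvd_prime_pow hp).1 h2
    rw [hi, hj] at h1
    have h3 : i ≤ j := (Nat.pow_le_pow_iff_right hp.one_lt).1 h1
    have h4 : charDegree β₀ ∣ charDegree ψ := by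
      rw [hd, hi, hj]
      exact (Nat.pow_dvd_pow p h3).mul_right _
    exact (anti β₀ ψ hβ₀ hψ hβ₀1 hψ1 h4).symm
  · obtain ⟨β', hβ', hβ'H, hβ'1⟩ := exists_nonlin hI.KT (hnrm T) hTab
    have hg1 : IsIrrCharacter T (β' * χ) ∧ Over (Subgroup.inclusion hI.KT) (β' * χ) θ :=
      (gal hI.KT (hnrm T) hθ hχ hχθ).mapsTo ⟨hβ', hβ'H⟩
    have hg2 : Over (Subgroup.inclusion hI.KT) χ θ := by
      have h1 : IsIrrCharacter T (1 * χ) ∧ Over (Subgroup.inclusion hI.KT) (1 * χ) θ :=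
        (gal hI.KT (hnrm T) hθ hχ hχθ).mapsTo ⟨isIrr_one, fun _ => rfl⟩
      rw [one_mul] at h1
      exact h1.2
    obtain ⟨ψ₁, hψ₁, -, -, hd₁⟩ := hI.lift hχ hg2
    obtain ⟨ψ₂, hψ₂, -, -, hd₂⟩ := hI.lift hg1.1 hg1.2
    rw [H597.FrobC.charDegree_mul hχ hβ'] at hd₂
    have hpos1 : 0 < T.relIndex N := Nat.pos_of_ne_zero Subgroup.index_ne_zero_of_finite
    have hpos2 := charDegree_pos hχ
    have hpos3 := charDegree_pos hβ'
    have hψ₁1 : charDegree ψ₁ = 1 := by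
      by_contra hne
      have h2 : charDegree ψ₂ = charDegree ψ₁ * charDegree β' := by rw [hd₁, hd₂]; ring
      have h3 : charDegree ψ₂ ≠ 1 := by
        rw [h2]
        intro e
        exact hne (Nat.eq_one_of_mul_eq_one_right e)
      have h4 := anti ψ₁ ψ₂ hψ₁ hψ₂ hne h3 (by rw [h2]; exact dvd_mul_right _ _)
      rw [h2] at h4
      apply hβ'1
      have h5 := charDegree_pos hψ₁
      exact Nat.eq_of_mul_eq_mul_left h5 (by rw [← h4, mul_one])
    rw [hψ₁1] at hd₁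
    have e1 : T.relIndex N = 1 := Nat.eq_one_of_mul_eq_one_right hd₁.symm
    have e2 : charDegree χ = 1 := Nat.eq_one_of_mul_eq_one_left hd₁.symm
    rw [e1, one_mul, hdη, e2, mul_one] at hd
    have h5 : charDegree β ∣ p ^ k := (deg_dvd_relIndex hI.KT (hnrm T) hβ hβH).trans hTidx
    obtain ⟨j, -, hj⟩ := (Nat.dvd_prime_pow hp).1 h5
    rcases le_total i j with h6 | h6
    · exact (anti β₀ ψ hβ₀ hψ hβ₀1 hψ1 (by rw [hd, hi, hj]; exact Nat.pow_dvd_pow p h6)).symm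
    · exact anti ψ β₀ hψ hβ₀ hψ1 hβ₀1 (by rw [hd, hi, hj]; exact Nat.pow_dvd_pow p h6)

end Cfsg.Agent.H675.Nd
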