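import Mathlib
import Cfsg.Agent.H675.Nd.Count
import Cfsg.Agent.H675.Nd.PN
import Cfsg.Agent.H597.RelThompson

/-!
# The case of an abelian Sylow subgroup: construction of `Hyp`
-/

set_option autoImplicit false
set_option linter.style.haveILetI false
set_option linter.unusedSectionVars false
open Cfsg

namespace Cfsg.Agent.H675.Nd

open Cfsg.Agent.Characters.Core Cfsg.Agent.Characters.Clifford Cfsg.Agent.H672 Cfsg.Agent.H672.RM
open scoped commutatorElement

universe u v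

variable {G : Type u} [Group G] [Finite G] {N H : Subgroup G}

/-- An element `x` of order `p` of `N`, not central modulo `H`. -/
theorem exists_elt [hN : N.Normal] [hH : H.Normal] {p : ℕ} (hp : p.Prime)
    (hcop : (Nat.card H).Coprime p) (hidx : ∃ k, H.relIndex N = p ^ k) (hab : ⁅N, N⁆ ≤ H)
    (hpf : ¬ p ∣ N.index) (hnc : ∃ n ∈ N, ∃ g : G, n * g * n⁻¹ * g⁻¹ ∉ H) :
    ∃ x ∈ N, x ^ p = 1 ∧ ∃ g : G, x * g * x⁻¹ * g⁻¹ ∉ H := by
  -- commutation modulo `H`
  have hcN : ∀ a ∈ N, ∀ b ∈ N, Commute (a : G ⧸ H) (b : G ⧸ H) := by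
    intro a ha b hb
    have h1 := hab (Subgroup.commutator_mem_commutator ha hb)
    rw [← QuotientGroup.eq_one_iff] at h1
    change QuotientGroup.mk' H ⁅a, b⁆ = 1 at h1
    rw [map_commutatorElement, commutatorElement_eq_one_iff_mul_comm] at h1
    exact h1
  have hcom : ∀ a g : G, a * g * a⁻¹ * g⁻¹ ∈ H ↔ Commute (a : G ⧸ H) (g : G ⧸ H) := by
    intro a g
    rw [← QuotientGroup.eq_one_iff]
    simp only [QuotientGroup.mk_mul, QuotientGroup.mk_inv]
    rw [mul_inv_eq_one, mul_inv_eq_iff_eq_mul]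
    exact Iff.rfl
  -- first, `x₀` with `x₀ ^ p ∈ H`
  obtain ⟨x₀, hx₀, hx₀p, g₀, hg₀⟩ : ∃ x ∈ N, x ^ p ∈ H ∧ ∃ g : G, x * g * x⁻¹ * g⁻¹ ∉ H := by
    by_contra hcon
    push Not at hcon
    obtain ⟨n, hn, g, hg⟩ := hnc
    set d : G := n * g * n⁻¹ * g⁻¹ with hd
    have hdN : d ∈ N := by
      have h1 := hN.conj_mem n⁻¹ (N.inv_mem hn) g
      have e : d = n * (g * n⁻¹ * g⁻¹) := by rw [hd]; group
      rw [e]
      exact N.mul_mem hn h1
    obtain ⟨k, hk⟩ := hidx
    have hdk : (d : G ⧸ H) ^ p ^ k = 1 := by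
      have h7 := Subgroup.pow_index_mem (H.subgroupOf N) (⟨d, hdN⟩ : N)
      rw [Subgroup.mem_subgroupOf] at h7
      have h8 : d ^ H.relIndex N ∈ H := h7
      rw [hk, ← QuotientGroup.eq_one_iff, QuotientGroup.mk_pow] at h8
      exact h8
    have hd1 : (d : G ⧸ H) ≠ 1 := fun e => hg ((QuotientGroup.eq_one_iff d).1 e)
    obtain ⟨j, hj, hj'⟩ : ∃ j, (d : G ⧸ H) ^ p ^ j ≠ 1 ∧ (d : G ⧸ H) ^ p ^ (j + 1) = 1 := by
      by_contra hcon2
      push Not at hcon2
      have h1 : ∀ j, (d : G ⧸ H) ^ p ^ j ≠ 1 := by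
        intro j
        induction j with
        | zero => simpa using hd1
        | succ j ih => exact hcon2 j ih
      exact h1 k hdk
    have e1 : (n : G ⧸ H) * (g : G ⧸ H) * (n : G ⧸ H)⁻¹ = (d : G ⧸ H) * (g : G ⧸ H) := by
      rw [← QuotientGroup.mk_mul, ← QuotientGroup.mk_inv, ← QuotientGroup.mk_mul,
        ← QuotientGroup.mk_mul, hd]
      congr 1
      group
    have e2 := comm_pow_left e1 (hcN n hn d hdN).eq (p ^ j)
    have hy1 : ((d ^ p ^ j : G) : G ⧸ H) ≠ 1 := by rw [QuotientGroup.mk_pow]; exact hj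
    have hyp' : ((d ^ p ^ j : G) : G ⧸ H) ^ p = 1 := by
      rw [QuotientGroup.mk_pow, ← pow_mul, ← pow_succ]
      exact hj'
    have hyH : (d ^ p ^ j) ^ p ∈ H := by
      rw [← QuotientGroup.eq_one_iff, QuotientGroup.mk_pow]
      exact hyp'
    have hyg : Commute ((d ^ p ^ j : G) : G ⧸ H) (g : G ⧸ H) :=
      (hcom _ _).1 (hcon _ (N.pow_mem hdN _) hyH g)
    rw [← QuotientGroup.mk_pow, ← QuotientGroup.mk_pow] at e2
    have e3 := comm_pow_right e2 hyg.eq N.index
    have hgf : g ^ N.index ∈ N := Subgroup.pow_index_mem N g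
    have hc2 : Commute ((n ^ p ^ j : G) : G ⧸ H) ((g : G ⧸ H) ^ N.index) :=
      hcN (n ^ p ^ j) (N.pow_mem hn _) _ hgf
    rw [hc2.eq, mul_inv_cancel_right] at e3
    have h4 : ((d ^ p ^ j : G) : G ⧸ H) ^ N.index = 1 := by
      have := e3.symm
      rwa [mul_eq_right] at this
    apply hy1
    have h5 := pow_gcd_eq_one.2 ⟨hyp', h4⟩
    rwa [((Nat.Prime.coprime_iff_not_dvd hp).2 hpf).gcd_eq_one, pow_one] at h5
  -- now the `p`-part
  obtain ⟨t, ht⟩ := Nat.exists_mul_mod_eq_one_of_coprime hcop hp.one_lt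
  refine ⟨x₀ ^ (Nat.card H * t), N.pow_mem hx₀ _, ?_, g₀, ?_⟩
  · have h1 : (x₀ ^ p) ^ Nat.card H = 1 := by
      have := pow_card_eq_one' (x := (⟨x₀ ^ p, hx₀p⟩ : H))
      exact congrArg Subtype.val this
    rw [← pow_mul, show Nat.card H * t * p = p * Nat.card H * t by ring, pow_mul, pow_mul, h1,
      one_pow]
  · rw [hcom]
    rw [hcom] at hg₀
    intro h1
    apply hg₀
    have h2 : ((x₀ ^ (Nat.card H * t) : G) : G ⧸ H) = x₀ := by
      rw [QuotientGroup.mk_pow]
      have h3 : (x₀ : G ⧸ H) ^ p = 1 := by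
        rw [← QuotientGroup.mk_pow]
        exact (QuotientGroup.eq_one_iff _).2 hx₀p
      have h4 : Nat.card H * t ≡ 1 [MOD p] := by
        rw [Nat.ModEq, ht.2, Nat.mod_eq_of_lt hp.one_lt]
      have h5 : Nat.card H * t ≡ 1 [MOD orderOf (x₀ : G ⧸ H)] :=
        h4.of_dvd (orderOf_dvd_of_pow_eq_one h3)
      rw [pow_eq_pow_iff_modEq.2 h5, pow_one]
    rwa [h2] at h1

/-- Restriction of a character of `U` to a smaller group and class functions. -/
theorem mem_stab_of_res {K U : Subgroup G} [K.Normal] (hKU : K ≤ U) {χ : U → ℂ}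
    (hχ : IsIrrCharacter U χ) {θ : K → ℂ} (hθ : ∀ k : K, χ (Subgroup.inclusion hKU k) = θ k) {x : G}
    (hx : x ∈ U) : x ∈ stab θ := by
  refine ⟨mem_nrm K x, ?_⟩
  funext k
  rw [tw_apply (mem_nrm K x), ← hθ, ← hθ]
  exact isIrr_isClassFunction hχ (Subgroup.inclusion hKU k) ⟨x, hx⟩

/-- **The abelian case**: the hypothesis `Hyp` holds. -/
theorem exists_hyp [hN : N.Normal] [hH : H.Normal] (hHN : H ≤ N) {p : ℕ} (hp : p.Prime)
    (hcop : (Nat.card H).Coprime p) (hidx : ∃ k, H.relIndex N = p ^ k) (hab : ⁅N, N⁆ ≤ H)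
    (hpf : ¬ p ∣ N.index) (hnc : ∃ n ∈ N, ∃ g : G, n * g * n⁻¹ * g⁻¹ ∉ H)
    (hdvd : ∀ ψ : N → ℂ, IsIrrCharacter N ψ → charDegree ψ ≠ 1 → p ∣ charDegree ψ)
    (inv : ∀ ψ : N → ℂ, IsIrrCharacter N ψ → charDegree ψ ≠ 1 → ∀ g : G, tw N g ψ = ψ)
    (cop : ∀ ψ : N → ℂ, IsIrrCharacter N ψ → charDegree ψ ≠ 1 → (charDegree ψ).Coprime N.index)
    (anti : ∀ ψ ψ' : N → ℂ, IsIrrCharacter N ψ → IsIrrCharacter N ψ' → charDegree ψ ≠ 1 →
      charDegree ψ' ≠ 1 → charDegree ψ ∣ charDegree ψ' → charDegree ψ = charDegree ψ') :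
    ∃ x, Hyp N ⁅N, N⁆ x p := by
  classical
  haveI := Fact.mk hp
  obtain ⟨x, hxN, hxp, g₀, hg₀⟩ := exists_elt hp hcop hidx hab hpf hnc
  have hxH : x ∉ H := by
    intro h
    apply hg₀
    have h1 := hH.conj_mem _ (H.inv_mem h) g₀
    have e : x * g₀ * x⁻¹ * g₀⁻¹ = x * (g₀ * x⁻¹ * g₀⁻¹) := by group
    rw [e]
    exact H.mul_mem h h1
  have hJN : ⁅N, N⁆ ≤ N := hab.trans hHN
  obtain ⟨k, hk⟩ := hidx
  -- invariant characters of `H` are linear and trivial on `J`
  have hfix : ∀ θ : H → ℂ, IsIrrCharacter H θ → x ∈ stab θ →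
      charDegree θ = 1 ∧ ∀ j (hj : j ∈ ⁅N, N⁆), θ ⟨j, hab hj⟩ = 1 := by
    intro θ hθ hxθ
    have hI : Inert H (N ⊓ stab θ) N θ := ⟨hHN, le_nrm H N, hθ, rfl⟩
    have hNst : N ≤ stab θ := by
      have hTidx : H.relIndex (N ⊓ stab θ) ∣ p ^ k := by
        rw [← hk]
        exact Dvd.intro _ (Subgroup.relIndex_mul_relIndex H _ N hI.KT hI.TU)
      obtain ⟨χ, hχ, hχθ⟩ := exists_ext hI.KT hθ hI.Tstab
        ((hcop.pow_right k).coprime_dvd_right hTidx)
      by_contra hne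
      apply hg₀
      refine central_of_inv hab hI hχ hχθ (fun ψ hψ ho g => inv ψ hψ ?_ g) x ⟨hxN, hxθ⟩ g₀
      intro h1
      apply hne
      have h2 := dvd_of_over hHN (le_nrm H N) hψ hθ ho
      rw [h1] at h2
      have h3 := Nat.eq_one_of_mul_eq_one_right (Nat.dvd_one.1 h2)
      exact Subgroup.relIndex_eq_one.1 h3
    obtain ⟨χ, hχ, hχθ⟩ := exists_ext hHN hθ hNst (by rw [hk]; exact hcop.pow_right k)
    have hdeg : charDegree χ = charDegree θ := by
      apply charDegree_of_eq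
      rw [coe_charDegree hθ, ← hχθ 1, map_one]
    have h1 : charDegree χ = 1 := by
      by_contra hne
      have h2 := hdvd χ hχ hne
      rw [hdeg] at h2
      have h3 := Nat.Coprime.coprime_dvd_left (degree_dvd_card hθ) hcop
      have h4 := Nat.eq_one_of_dvd_coprimes h3 h2 dvd_rfl
      exact hp.one_lt.ne' h4
    refine ⟨by rw [← hdeg]; exact h1, fun j hj => ?_⟩
    obtain ⟨l, rfl⟩ := exists_hom_of_degree_one hχ h1
    rw [← hχθ]
    have h2 := hom_commutator l hj (hJN hj)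
    change ((l ⟨j, hJN hj⟩ : ℂˣ) : ℂ) = 1
    rw [h2, Units.val_one]
  have hJH : Nat.card (⁅N, N⁆ : Subgroup G) ∣ Nat.card H := Subgroup.card_dvd_of_le hab
  have hx : ∀ μ : (⁅N, N⁆ : Subgroup G) → ℂ, IsIrrCharacter _ μ → x ∈ stab μ → μ = 1 := by
    intro μ hμ hxμ
    have hD : Nat.card (Subgroup.zpowers x) ∣ p := by
      rw [Nat.card_zpowers]; exact orderOf_dvd_of_pow_eq_one hxp
    -- extension to `S = J ⟨x⟩`
    set S : Subgroup G := ⁅N, N⁆ ⊔ Subgroup.zpowers x with hS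
    have hJS : ⁅N, N⁆ ≤ S := le_sup_left
    have hSst : S ≤ stab μ :=
      sup_le (le_stab (isIrr_isClassFunction hμ)) (Subgroup.zpowers_le.2 hxμ)
    have hSidx : (⁅N, N⁆ : Subgroup G).relIndex S ∣ p := by
      rw [hS, sup_comm, Subgroup.relIndex_sup_right]
      exact (Subgroup.relIndex_dvd_card _ _).trans hD
    obtain ⟨μ', hμ', hμ'μ⟩ := exists_ext hJS hμ hSst
      ((hcop.coprime_dvd_left hJH).coprime_dvd_right hSidx)
    -- the group `E = H ⟨x⟩`
    set E : Subgroup G := H ⊔ Subgroup.zpowers x with hE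
    have hHE : H ≤ E := le_sup_left
    have hxE : x ∈ E := Subgroup.mem_sup_right (Subgroup.mem_zpowers x)
    have hxS : x ∈ S := Subgroup.mem_sup_right (Subgroup.mem_zpowers x)
    have hSE : S ≤ E := sup_le_sup_right hab _
    have hEidx : H.relIndex E ∣ p := by
      rw [hE, sup_comm, Subgroup.relIndex_sup_right]
      exact (Subgroup.relIndex_dvd_card _ _).trans hD
    have hpS : p ∣ Nat.card S := by
      have h1 : orderOf x = p := orderOf_eq_prime hxp (fun e => hxH (e ▸ H.one_mem))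
      rw [← h1]
      have h2 := orderOf_dvd_natCard (⟨x, hxS⟩ : S)
      rwa [Subgroup.orderOf_mk] at h2
    have hSEidx : ¬ p ∣ (S.subgroupOf E).index := by
      intro hd
      have h1 : Nat.card S * S.relIndex E = Nat.card E := by
        have := Subgroup.relIndex_mul_relIndex (⊥ : Subgroup G) S E bot_le hSE
        rwa [Subgroup.relIndex_bot_left, Subgroup.relIndex_bot_left] at this
      have h2 : Nat.card H * H.relIndex E = Nat.card E := by
        have := Subgroup.relIndex_mul_relIndex (⊥ : Subgroup G) H E bot_le hHE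
        rwa [Subgroup.relIndex_bot_left, Subgroup.relIndex_bot_left] at this
      have h3 : p * p ∣ Nat.card H * p := by
        have h4 : p * p ∣ Nat.card E := by
          rw [← h1]
          exact Nat.mul_dvd_mul hpS hd
        rw [← h2] at h4
        exact h4.trans (Nat.mul_dvd_mul_left _ hEidx)
      have h4 : p ∣ Nat.card H := Nat.dvd_of_mul_dvd_mul_right hp.pos h3
      exact hp.one_lt.ne' (Nat.eq_one_of_dvd_coprimes hcop h4 dvd_rfl)
    have hμ'd : ¬ p ∣ charDegree μ' := by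
      intro hd
      have h1 : charDegree μ' = charDegree μ := by
        apply charDegree_of_eq
        rw [coe_charDegree hμ, ← hμ'μ 1, map_one]
      rw [h1] at hd
      have h2 : p ∣ Nat.card H := (hd.trans (degree_dvd_card hμ)).trans hJH
      exact hp.one_lt.ne' (Nat.eq_one_of_dvd_coprimes hcop h2 dvd_rfl)
    letI := Fintype.ofFinite E
    letI := Fintype.ofFinite (S.subgroupOf E)
    obtain ⟨χ, hχ, hχμ, hχd⟩ := H597.RelThompson.exists_over_not_dvd p (S.subgroupOf E) hSEidx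
      (isIrr_sub hSE hμ') (by
        have e : charDegree (μ' ∘ Subgroup.subgroupOfEquivOfLe hSE) = charDegree μ' :=
          charDegree_comp_one (Subgroup.subgroupOfEquivOfLe hSE).toMonoidHom μ'
        rw [e]; exact hμ'd)
    have hχo : Over (Subgroup.inclusion hSE) χ μ' :=
      (over_iff_sub hSE χ μ').2 ((over_subtype_iff _ _ _).2 hχμ)
    -- restriction to `H`
    obtain ⟨θ, hθ, hχθ⟩ := exists_under (f := Subgroup.inclusion hHE) hχ
    have hd := div_dvd_of_over hHE (le_nrm H E) hχ hθ hχθ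
    have hdd : charDegree χ / charDegree θ = 1 := by
      rcases (Nat.dvd_prime hp).1 (hd.2.trans hEidx) with h1 | h1
      · exact h1
      · exfalso
        apply hχd
        have h2 : charDegree χ / charDegree θ ∣ charDegree χ := Nat.div_dvd_of_dvd hd.1
        rwa [h1] at h2
    have hde : charDegree θ = charDegree χ := by
      have := Nat.div_mul_cancel hd.1
      rwa [hdd, one_mul] at this
    have hres : χ ∘ Subgroup.inclusion hHE = θ := eq_of_over_of_charDegree_eq hχ hθ hχθ hde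
    have hxθ : x ∈ stab θ := mem_stab_of_res hHE hχ (fun k => congrFun hres k) hxE
    obtain ⟨hθ1, hθJ⟩ := hfix θ hθ hxθ
    -- so `χ` is trivial on `J`
    have hone : χ ∘ Subgroup.inclusion (hJS.trans hSE) = 1 := by
      funext j
      have h1 := congrFun hres ⟨j, hab j.2⟩
      rw [hθJ j j.2] at h1
      exact h1
    have hov : Over (Subgroup.inclusion (hJS.trans hSE)) χ μ := by
      have e : Subgroup.inclusion (hJS.trans hSE) =
          (Subgroup.inclusion hSE).comp (Subgroup.inclusion hJS) := rfl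
      rw [e]
      refine (over_comp_iff _ _ (isIrr_isCharacter hχ) hμ).2 ⟨μ', hμ', hχo, ?_⟩
      letI := Fintype.ofFinite (⁅N, N⁆ : Subgroup G)
      rw [over_iff]
      have e2 : μ' ∘ Subgroup.inclusion hJS = μ := funext hμ'μ
      rw [e2, classInner_irr_self hμ]
      exact one_ne_zero
    by_contra hne
    letI := Fintype.ofFinite (⁅N, N⁆ : Subgroup G)
    rw [over_iff, hone] at hov
    exact hov (classInner_irr_ne isIrr_one hμ (Ne.symm hne))
  refine ⟨x, ⟨hN, rfl, hp, hxN, hxp, ?_, hx, inv, cop, anti, g₀, fun h => hg₀ (hab h)⟩⟩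
  intro hd
  exact hp.one_lt.ne' (Nat.eq_one_of_dvd_coprimes hcop (hd.trans hJH) dvd_rfl)

end Cfsg.Agent.H675.Nd
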