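import Mathlib
import Cfsg.Agent.H675.Nd.Main
import Cfsg.Agent.H675.Nd.PA

/-!
# All nonlinear degrees of `N` coincide
-/

set_option autoImplicit false
set_option linter.style.haveILetI false
set_option linter.unusedSectionVars false
open Cfsg

namespace Cfsg.Agent.H675.Nd

open Cfsg.Agent.Characters.Core Cfsg.Agent.Characters.Clifford Cfsg.Agent.H672 Cfsg.Agent.H672.RM
open scoped commutatorElement

universe u v

variable {G : Type u} [Group G] [Finite G] {N J : Subgroup G} {x : G} {p : ℕ}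

/-- The degree of a nonlinear character of `N`, `J` abelian. -/
theorem Hyp.deg_ab (h : Hyp N J x p) (hJ : ⁅J, J⁆ = ⊥) {ψ : N → ℂ} (hψ : IsIrrCharacter N ψ)
    (h1 : charDegree ψ ≠ 1) : ∃ l : J →* ℂˣ, l ≠ 1 ∧ charDegree ψ = (TL N l).relIndex N := by
  haveI := h.nJ
  haveI := h.nN
  obtain ⟨μ, hμ, ho⟩ := exists_under (f := Subgroup.inclusion h.JN) hψ
  have hμ1 := h.under_ne_one hψ h1 hμ ho
  have hd : charDegree μ = 1 := by
    refine lin_of_comm (H := (⊥ : Subgroup G)) (T := J) bot_le hJ.le hμ ?_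
    rintro ⟨k, hk⟩
    rw [Subgroup.mem_bot] at hk
    subst hk
    rfl
  obtain ⟨l, rfl⟩ := exists_hom_of_degree_one hμ hd
  have hl : l ≠ 1 := by
    rintro rfl
    exact hμ1 rfl
  refine ⟨l, hl, ?_⟩
  have hI := h.inertL l
  obtain ⟨η, hη, hηθ, -, hdψ⟩ := hI.exists_eta hψ ho
  obtain ⟨m, hm⟩ := h.lin_ext hI.TU hI.KT l hI.Tstab
  obtain ⟨β, ⟨hβ, hβH⟩, hβη⟩ := (gal hI.KT (le_nrm J _) (isIrr_lf l) (isIrr_lf m)
    (fun j => congrArg Units.val (hm j))).surjOn ⟨hη, hηθ⟩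
  have hβη' : β * lf m = η := hβη
  have hTab : ⁅TL N l, TL N l⁆ ≤ J := (Subgroup.commutator_mono hI.TU hI.TU).trans h.ab
  have hβ1 := lin_of_comm hI.KT hTab hβ hβH
  have hdη : charDegree η = 1 := by
    rw [← hβη', H597.FrobC.charDegree_mul (isIrr_lf m) hβ, hβ1, charDegree_lf]
  rw [hdψ, hdη, mul_one]

theorem case_ab (h : Hyp N J x p) (hJ : ⁅J, J⁆ = ⊥) :
    ∃ m, ∀ ψ : N → ℂ, IsIrrCharacter N ψ → charDegree ψ ≠ 1 → charDegree ψ = m := by
  haveI := h.nJ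
  by_cases hex : ∃ ψ₀ : N → ℂ, IsIrrCharacter N ψ₀ ∧ charDegree ψ₀ ≠ 1
  · obtain ⟨ψ₀, hψ₀, hd₀⟩ := hex
    refine ⟨charDegree ψ₀, fun ψ hψ hd => ?_⟩
    obtain ⟨l, hl, e⟩ := h.deg_ab hJ hψ hd
    obtain ⟨l₀, hl₀, e₀⟩ := h.deg_ab hJ hψ₀ hd₀
    rw [e, e₀, h.TL_eq hl hl₀]
  · push Not at hex
    exact ⟨1, fun ψ hψ hd => absurd (hex ψ hψ) hd⟩

/-- **The degrees of `N`**: `N ⊴ G` with a normal `p`-complement `H`, `p ∤ |G : N|`; the nonlinear
irreducible characters of `N` are `G`-invariant, of degrees divisible by `p` and prime to `|G : N|`,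
an antichain for divisibility; `N / H` is not central in `G / H`. Then there is only one nonlinear
degree of `N`. -/
theorem one_degree {N H : Subgroup G} [hN : N.Normal] [hH : H.Normal] (hHN : H ≤ N) {p : ℕ}
    (hp : p.Prime) (hcop : (Nat.card H).Coprime p) (hidx : ∃ k, H.relIndex N = p ^ k)
    (hpf : ¬ p ∣ N.index) (hnc : ∃ n ∈ N, ∃ g : G, n * g * n⁻¹ * g⁻¹ ∉ H)
    (hdvd : ∀ ψ : N → ℂ, IsIrrCharacter N ψ → charDegree ψ ≠ 1 → p ∣ charDegree ψ)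
    (inv : ∀ ψ : N → ℂ, IsIrrCharacter N ψ → charDegree ψ ≠ 1 → ∀ g : G, tw N g ψ = ψ)
    (cop : ∀ ψ : N → ℂ, IsIrrCharacter N ψ → charDegree ψ ≠ 1 → (charDegree ψ).Coprime N.index)
    (anti : ∀ ψ ψ' : N → ℂ, IsIrrCharacter N ψ → IsIrrCharacter N ψ' → charDegree ψ ≠ 1 →
      charDegree ψ' ≠ 1 → charDegree ψ ∣ charDegree ψ' → charDegree ψ = charDegree ψ') :
    ∃ m, ∀ ψ : N → ℂ, IsIrrCharacter N ψ → charDegree ψ ≠ 1 → charDegree ψ = m := by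
  by_cases hab : ⁅N, N⁆ ≤ H
  · obtain ⟨x, hx⟩ := exists_hyp hHN hp hcop hidx hab hpf hnc hdvd inv cop anti
    exact case_ab hx (thmY _ G N _ x p rfl hx)
  · exact case_nonab hHN hp hcop hidx hab anti

end Cfsg.Agent.H675.Nd
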