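import Mathlib
import Cfsg.Agent.H675.Nd.Fin
import Cfsg.Agent.H597.ThreeDegB
import Cfsg.Agent.H672.Solv

/-!
# Solvable groups whose nonlinear degrees form an antichain for divisibility
-/

set_option autoImplicit false
set_option linter.style.haveILetI false
set_option linter.unusedSectionVars false
open Cfsg

namespace Cfsg.Agent.H675.Nd

open Cfsg.Agent.Characters.Core Cfsg.Agent.Characters.Clifford Cfsg.Agent.H672 Cfsg.Agent.H672.RM
open Cfsg.Agent.H597.FrobA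
open scoped commutatorElement

universe u v

/-- No nonlinear degree divides a larger degree. -/
def Anti (G : Type u) [Group G] : Prop :=
  ∀ χ χ' : G → ℂ, IsIrrCharacter G χ → IsIrrCharacter G χ' → charDegree χ ≠ 1 →
    charDegree χ ∣ charDegree χ' → charDegree χ = charDegree χ'

variable {G : Type u} [Group G] [Finite G]

theorem anti_of (hnd : ∀ a ∈ charDegrees G, ∀ b ∈ charDegrees G, 1 < a → a < b → ¬ a ∣ b) :
    Anti G := by
  intro χ χ' hχ hχ' h1 hd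
  have hp := charDegree_pos hχ
  have hp' := charDegree_pos hχ'
  by_contra hne
  refine hnd _ ⟨⟨χ, hχ⟩, rfl⟩ _ ⟨⟨χ', hχ'⟩, rfl⟩ (by dsimp only; omega) ?_ hd
  exact lt_of_le_of_ne (Nat.le_of_dvd hp' hd) hne

/-- The quotient dichotomy. -/
theorem dich [Group.IsSolvable G] (hab : commutator G ≠ ⊥) : ∃ r : ℕ, r.Prime ∧
    ((∃ K : Subgroup G, K.Normal ∧ (∃ k, K.index = r ^ k) ∧ ∃ β : G → ℂ, IsIrrCharacter G β ∧
      charDegree β ≠ 1 ∧ (∀ x ∈ K, β x = β 1) ∧ ∃ j, charDegree β = r ^ j) ∨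
    ∃ K N : Subgroup G, K.Normal ∧ N.Normal ∧ FrobQ K N r) := by
  classical
  obtain ⟨K, hKmax⟩ := (Set.toFinite {K : Subgroup G | K.Normal ∧ ¬ commutator G ≤ K}).exists_maximal
    ⟨⊥, inferInstance, fun h => hab (le_bot_iff.1 h)⟩
  have hKn : K.Normal := hKmax.prop.1
  obtain ⟨r, hr, ⟨k, hk⟩ | ⟨N, hN, hF⟩⟩ := dichotomy_quot K inferInstance hKmax.prop.2 (by
    intro L hL hKL
    by_contra hcon
    exact hKL.not_ge (hKmax.le_of_ge (y := L) ⟨hL, hcon⟩ hKL.le))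
  · have hex : ∃ θ : (G ⧸ K) → ℂ, IsIrrCharacter (G ⧸ K) θ ∧ charDegree θ ≠ 1 := by
      by_contra hcon
      push Not at hcon
      have h0 := H597.Degrees.comm_of_forall_one hcon
      apply hKmax.prop.2
      rw [_root_.commutator_def, Subgroup.commutator_le]
      intro a _ b _
      rw [← QuotientGroup.eq_one_iff]
      change QuotientGroup.mk' K ⁅a, b⁆ = 1
      rw [map_commutatorElement, commutatorElement_eq_one_iff_mul_comm]
      exact h0 _ _
    obtain ⟨θ, hθ, hθ1⟩ := hex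
    have hβ : IsIrrCharacter G (θ ∘ QuotientGroup.mk' K) :=
      isIrr_comp _ (QuotientGroup.mk'_surjective K) hθ
    have hβd : charDegree (θ ∘ QuotientGroup.mk' K) = charDegree θ :=
      charDegree_comp_one (QuotientGroup.mk' K) θ
    have hdvd : charDegree θ ∣ r ^ k := by
      rw [← hk, Subgroup.index_eq_card]
      exact degree_dvd_card hθ
    obtain ⟨j, -, hj⟩ := (Nat.dvd_prime_pow hr).1 hdvd
    refine ⟨r, hr, Or.inl ⟨K, hKn, ⟨k, hk⟩, _, hβ, by rw [hβd]; exact hθ1, fun x hx => ?_, j,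
      by rw [hβd, hj]⟩⟩
    rw [Function.comp_apply, Function.comp_apply, map_one]
    congr 1
    exact (QuotientGroup.eq_one_iff x).2 hx
  · exact ⟨r, hr, Or.inr ⟨K, N, hKn, hN, hF⟩⟩

/-- In the first case of the dichotomy, all nonlinear degrees are divisible by `r`. -/
theorem typeP (ha : Anti G) {r : ℕ} (hr : r.Prime) {K : Subgroup G} [K.Normal] {k : ℕ}
    (hK : K.index = r ^ k) {β : G → ℂ} (hβ : IsIrrCharacter G β) (hβ1 : charDegree β ≠ 1)
    (hβK : ∀ x ∈ K, β x = β 1) {χ : G → ℂ} (hχ : IsIrrCharacter G χ) (hχ1 : charDegree χ ≠ 1) :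
    r ∣ charDegree χ := by
  letI := Fintype.ofFinite G
  by_contra hχq
  have h1 := H597.Degrees.isIrr_restrict_of_coprime K hχ (by
    rw [hK]
    exact Nat.Coprime.pow_left _ ((hr.coprime_iff_not_dvd).2 hχq))
  have h2 := H597.FrobC.isIrr_mul_of_restrict K hχ h1 hβ hβK
  have h3 := H597.FrobC.charDegree_mul hχ hβ
  have h4 := ha χ _ hχ h2 hχ1 (by rw [h3]; exact Dvd.intro_left _ rfl)
  rw [h3] at h4
  have hp := charDegree_pos hχ
  exact hβ1 (Nat.eq_of_mul_eq_mul_right hp (by rw [← h4, one_mul]))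

section frob

variable {K N : Subgroup G} [hK : K.Normal] [hN : N.Normal] {r : ℕ}

theorem one_lt_index (hF : FrobQ K N r) : 1 < N.index := by
  have h1 : N.index ≠ 0 := Subgroup.index_ne_zero_of_finite
  have h2 : N.index ≠ 1 := fun h => hF.ne_top (Subgroup.index_eq_one.1 h)
  omega

theorem exists_index_degree (hF : FrobQ K N r) :
    ∃ χ : G → ℂ, IsIrrCharacter G χ ∧ charDegree χ = N.index := by
  letI := Fintype.ofFinite G
  obtain ⟨x, hxN, hxK⟩ := SetLike.exists_of_lt hF.lt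
  obtain ⟨χ, hχ, hd⟩ := H597.FrobB.exists_degree_mul hF (ψ := 1) isIrr_one (n₀ := ⟨x, hxN⟩)
    hxK one_ne_zero
  rw [charDegree_one, mul_one] at hd
  exact ⟨χ, hχ, hd⟩

/-- nonlinear characters of `N` have degree divisible by `r`. -/
theorem dvd_of_nonlin (ha : Anti G) (hr : r.Prime) (hF : FrobQ K N r) {ψ : N → ℂ}
    (hψ : IsIrrCharacter N ψ) (hψ1 : charDegree ψ ≠ 1) : r ∣ charDegree ψ := by
  letI := Fintype.ofFinite G
  obtain ⟨k, hk⟩ := hF.rel
  have hKN : K.subgroupOf N ≠ ⊤ := by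
    rw [Ne, Subgroup.subgroupOf_eq_top]
    exact hF.lt.not_ge
  by_cases hv : ∀ n : N, (n : G) ∉ K → ψ n = 0
  · exact H597.FrobC.dvd_of_vanish hr (K.subgroupOf N) hk hKN hψ
      (fun n hn => hv n (fun h => hn (Subgroup.mem_subgroupOf.2 h)))
  · push Not at hv
    obtain ⟨n, hn, hne⟩ := hv
    obtain ⟨χ, hχ, hd⟩ := H597.FrobB.exists_degree_mul hF hψ hn hne
    obtain ⟨χ', hχ', hd'⟩ := exists_index_degree hF
    have hf := one_lt_index hF
    have h4 := ha χ' χ hχ' hχ (by omega) (by rw [hd, hd']; exact Dvd.intro _ rfl)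
    rw [hd, hd'] at h4
    exfalso
    exact hψ1 (Nat.eq_of_mul_eq_mul_left (show 0 < N.index by omega) (by rw [← h4, mul_one]))

/-- The degrees of `G`. -/
theorem cases_degree (ha : Anti G) (hr : r.Prime) (hF : FrobQ K N r) {χ : G → ℂ}
    (hχ : IsIrrCharacter G χ) : charDegree χ = 1 ∨ charDegree χ = N.index ∨
      (charDegree χ ≠ 1 ∧ r ∣ charDegree χ) := by
  obtain ⟨ψ, hψ, ⟨c, hc, hc'⟩, -⟩ := H597.ThreeDegB.exists_under N hχ
  by_cases hψ1 : charDegree ψ = 1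
  · rw [hψ1, one_mul] at hc
    by_cases h1 : charDegree χ = 1
    · exact Or.inl h1
    · obtain ⟨χ', hχ', hd'⟩ := exists_index_degree hF
      right; left
      rw [← hd']
      exact ha χ χ' hχ hχ' h1 (by rw [hc, hd']; exact hc')
  · have h1 := dvd_of_nonlin ha hr hF hψ hψ1
    have h2 : r ∣ charDegree χ := hc ▸ Dvd.dvd.mul_right h1 c
    refine Or.inr (Or.inr ⟨fun h => ?_, h2⟩)
    rw [h] at h2
    exact hr.one_lt.ne' (Nat.dvd_one.1 h2)

/-- characters of `G` nontrivial on `N'`. -/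
theorem dvd_of_nontriv (ha : Anti G) (hr : r.Prime) (hF : FrobQ K N r) {χ : G → ℂ}
    (hχ : IsIrrCharacter G χ) (hx : ∃ x ∈ ⁅N, N⁆, χ x ≠ χ 1) : r ∣ charDegree χ := by
  obtain ⟨x, hx, hne⟩ := hx
  have hxN : x ∈ N := Subgroup.commutator_le_left N N hx
  obtain ⟨ψ, hψ, ⟨c, hc, -⟩, hψx⟩ := H597.ThreeDegB.exists_under_ne N hχ (x := ⟨x, hxN⟩) hne
  rw [hc]
  refine Dvd.dvd.mul_right (dvd_of_nonlin ha hr hF hψ (fun h1 => hψx ?_)) c
  exact H597.Taketa.commutator_le_ker_of_linear hψ h1 _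
    ((H597.IndexP.mem_commutator_iff N).2 hx)

/-- `O^r(N) ≤ K`. -/
theorem Op_le_K (hF : FrobQ K N r) : H597.RelThompson.Op r N ≤ K := by
  obtain ⟨k, hk⟩ := hF.rel
  unfold H597.RelThompson.Op
  rw [Subgroup.closure_le]
  rintro g ⟨hg, hg'⟩
  have h7 := Subgroup.pow_index_mem (K.subgroupOf N) (⟨g, hg⟩ : N)
  rw [Subgroup.mem_subgroupOf] at h7
  have h8 : g ^ K.relIndex N ∈ K := h7
  rw [hk, ← QuotientGroup.eq_one_iff, QuotientGroup.mk_pow] at h8
  have h9 : (g : G ⧸ K) ^ orderOf g = 1 := by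
    rw [← QuotientGroup.mk_pow, pow_orderOf_eq_one, QuotientGroup.mk_one]
  have h5 := pow_gcd_eq_one.2 ⟨h8, h9⟩
  rw [(hg'.symm.pow_left k).gcd_eq_one, pow_one] at h5
  exact (QuotientGroup.eq_one_iff g).1 h5

theorem Op_nc (hF : FrobQ K N r) :
    ∃ n ∈ N, ∃ g : G, n * g * n⁻¹ * g⁻¹ ∉ H597.RelThompson.Op r N := by
  obtain ⟨n, hnN, hnK⟩ := SetLike.exists_of_lt hF.lt
  obtain ⟨g, hg⟩ : ∃ g, g ∉ N := by
    by_contra hcon
    push Not at hcon
    exact hF.ne_top (eq_top_iff.2 fun g _ => hcon g)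
  refine ⟨n, hnN, g, fun h => hnK (hF.fpf g hg n hnN ?_)⟩
  have h1 := K.inv_mem (Op_le_K hF h)
  have e : (n * g * n⁻¹ * g⁻¹)⁻¹ = g * n * g⁻¹ * n⁻¹ := by group
  rwa [e] at h1

theorem Op_coprime (ha : Anti G) (hr : r.Prime) (hF : FrobQ K N r) :
    (Nat.card (H597.RelThompson.Op r N)).Coprime r :=
  H597.RelThompson.card_Op_coprime r hr N (fun _ hχ hx => dvd_of_nontriv ha hr hF hχ hx)

/-- If the degrees divisible by `r` are prime to `|G : N|`, all of them are equal. -/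
theorem one_degree_of_coprime (ha : Anti G) (hr : r.Prime) (hF : FrobQ K N r)
    (hcop : ∀ χ : G → ℂ, IsIrrCharacter G χ → r ∣ charDegree χ → N.index.Coprime (charDegree χ)) :
    ∃ m, ∀ χ : G → ℂ, IsIrrCharacter G χ → r ∣ charDegree χ → charDegree χ = m := by
  classical
  letI := Fintype.ofFinite G
  haveI := Fact.mk hr
  -- characters of `N`
  have key : ∀ ψ : N → ℂ, IsIrrCharacter N ψ → charDegree ψ ≠ 1 →
      ∃ χ : G → ℂ, IsIrrCharacter G χ ∧ (∀ n : N, χ n = ψ n) ∧ charDegree χ = charDegree ψ := by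
    intro ψ hψ hψ1
    obtain ⟨χ, hχ, ho⟩ := exists_over_subtype N hψ
    obtain ⟨h1, h2⟩ := charDegree_dvd_of_over N hχ hψ ho
    have h3 : r ∣ charDegree χ := (dvd_of_nonlin ha hr hF hψ hψ1).trans h1
    have h4 : charDegree χ / charDegree ψ ∣ charDegree χ := Nat.div_dvd_of_dvd h1
    have h5 := Nat.eq_one_of_dvd_coprimes (hcop χ hχ h3) h2 h4
    have h6 : charDegree ψ = charDegree χ := by
      have := Nat.div_mul_cancel h1
      rwa [h5, one_mul] at this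
    have h7 := eq_of_over_of_charDegree_eq hχ hψ ho h6
    exact ⟨χ, hχ, fun n => congrFun h7 n, h6.symm⟩
  obtain ⟨m, hm⟩ := one_degree (H597.RelThompson.Op_le r N) hr (Op_coprime ha hr hF)
    (H597.RelThompson.relIndex_Op r N) hF.idx (Op_nc hF)
    (fun ψ hψ hψ1 => dvd_of_nonlin ha hr hF hψ hψ1)
    (fun ψ hψ hψ1 g => by
      obtain ⟨χ, hχ, hres, -⟩ := key ψ hψ hψ1
      funext n
      rw [tw_apply (mem_nrm N g), ← hres, ← hres]
      exact isIrr_isClassFunction hχ (n : G) g)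
    (fun ψ hψ hψ1 => by
      obtain ⟨χ, hχ, -, hd⟩ := key ψ hψ hψ1
      rw [← hd]
      exact (hcop χ hχ (hd ▸ dvd_of_nonlin ha hr hF hψ hψ1)).symm)
    (fun ψ ψ' hψ hψ' hψ1 hψ'1 hdd => by
      obtain ⟨χ, hχ, -, hd⟩ := key ψ hψ hψ1
      obtain ⟨χ', hχ', -, hd'⟩ := key ψ' hψ' hψ'1
      rw [← hd, ← hd']
      exact ha χ χ' hχ hχ' (by rwa [hd]) (by rwa [hd, hd']))
  refine ⟨m, fun χ hχ hrχ => ?_⟩
  have h1 := H597.Degrees.isIrr_restrict_of_coprime N hχ (hcop χ hχ hrχ)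
  have h2 : charDegree (fun n : N => χ n) = charDegree χ := charDegree_comp_one N.subtype χ
  rw [← h2]
  refine hm _ h1 ?_
  rw [h2]
  intro h
  rw [h] at hrχ
  exact hr.one_lt.ne' (Nat.dvd_one.1 hrχ)

end frob

end Cfsg.Agent.H675.Nd
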