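import Mathlib
import Cfsg.Agent.H675.Nd.Tools2

/-!
# Coprime action of a cyclic quotient on an abelian section
-/

set_option autoImplicit false
set_option linter.style.haveILetI false
set_option linter.unusedSectionVars false
open Cfsg

namespace Cfsg.Agent.H675.Nd

open Cfsg.Agent.Characters.Core Cfsg.Agent.Characters.Clifford Cfsg.Agent.H672 Cfsg.Agent.H672.RM
open Cfsg.Agent.H597.FrobA
open scoped commutatorElement

universe u v w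

section abs

variable {Q : Type u} [Group Q] {A : Subgroup Q} [hA : A.Normal]

/-- The commutators with `y`. -/
def CR (hab : ∀ a ∈ A, ∀ b ∈ A, a * b = b * a) (y : Q) : Subgroup Q where
  carrier := {e | ∃ a ∈ A, e = ⁅a, y⁆}
  one_mem' := ⟨1, A.one_mem, by rw [commutatorElement_one_left]⟩
  mul_mem' := by
    rintro _ _ ⟨a, ha, rfl⟩ ⟨b, hb, rfl⟩
    refine ⟨b * a, A.mul_mem hb ha, ?_⟩
    have h1 : y * b⁻¹ * y⁻¹ ∈ A := hA.conj_mem _ (A.inv_mem hb) y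
    have h2 : a * (y * a⁻¹ * y⁻¹) ∈ A := A.mul_mem ha (hA.conj_mem _ (A.inv_mem ha) y)
    calc ⁅a, y⁆ * ⁅b, y⁆ = (a * (y * a⁻¹ * y⁻¹) * b) * (y * b⁻¹ * y⁻¹) := by
          rw [commutatorElement_def, commutatorElement_def]; group
      _ = (b * (a * (y * a⁻¹ * y⁻¹))) * (y * b⁻¹ * y⁻¹) := by rw [hab _ h2 _ hb]
      _ = ⁅b * a, y⁆ := by rw [commutatorElement_def]; group
  inv_mem' := by
    rintro _ ⟨a, ha, rfl⟩
    refine ⟨a⁻¹, A.inv_mem ha, ?_⟩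
    have h1 : y * a * y⁻¹ ∈ A := hA.conj_mem _ ha y
    calc ⁅a, y⁆⁻¹ = (y * a * y⁻¹) * a⁻¹ := by rw [commutatorElement_def]; group
      _ = a⁻¹ * (y * a * y⁻¹) := hab _ h1 _ (A.inv_mem ha)
      _ = ⁅a⁻¹, y⁆ := by rw [commutatorElement_def]; group

theorem mem_CR (hab : ∀ a ∈ A, ∀ b ∈ A, a * b = b * a) {y e : Q} :
    e ∈ CR hab y ↔ ∃ a ∈ A, e = ⁅a, y⁆ := Iff.rfl

theorem comm_mem_left {a g : Q} (ha : a ∈ A) : ⁅a, g⁆ ∈ A := by
  rw [commutatorElement_def]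
  have h1 := hA.conj_mem _ (A.inv_mem ha) g
  have e : a * g * a⁻¹ * g⁻¹ = a * (g * a⁻¹ * g⁻¹) := by group
  rw [e]
  exact A.mul_mem ha h1

theorem comm_gen (hab : ∀ a ∈ A, ∀ b ∈ A, a * b = b * a) (hQ : ∀ a b : Q, ⁅a, b⁆ ∈ A) {y : Q}
    (hy : ∀ g : Q, ∃ (k : ℤ) (n : Q), n ∈ A ∧ g = y ^ k * n) {e : Q}
    (he : e ∈ ⁅A, (⊤ : Subgroup Q)⁆) : ∃ a ∈ A, e = ⁅a, y⁆ := by
  have hRn : ∀ e ∈ CR hab y, ∀ g : Q, g * e * g⁻¹ ∈ CR hab y := by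
    rintro _ ⟨a, ha, rfl⟩ g
    have ha' := hA.conj_mem a ha g
    refine ⟨g * a * g⁻¹, ha', ?_⟩
    have hc := hQ g y
    have h1 := hab _ ha' _ hc
    have h2 : ⁅g * a * g⁻¹, y⁆ ∈ A := comm_mem_left ha'
    calc g * ⁅a, y⁆ * g⁻¹ = (g * a * g⁻¹) * ⁅g, y⁆ * y * (g * a * g⁻¹)⁻¹ * y⁻¹ * ⁅g, y⁆⁻¹ := by
          simp only [commutatorElement_def]; group
      _ = ⁅g, y⁆ * (g * a * g⁻¹) * y * (g * a * g⁻¹)⁻¹ * y⁻¹ * ⁅g, y⁆⁻¹ := by rw [h1]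
      _ = ⁅g, y⁆ * ⁅g * a * g⁻¹, y⁆ * ⁅g, y⁆⁻¹ := by
          rw [commutatorElement_def (g * a * g⁻¹) y]; group
      _ = ⁅g * a * g⁻¹, y⁆ * ⁅g, y⁆ * ⁅g, y⁆⁻¹ := by rw [hab _ hc _ h2]
      _ = ⁅g * a * g⁻¹, y⁆ := mul_inv_cancel_right _ _
  let S : Subgroup Q :=
    { carrier := {g | ∀ a ∈ A, ⁅a, g⁆ ∈ CR hab y}
      one_mem' := fun a _ => by rw [commutatorElement_one_right]; exact Subgroup.one_mem _
      mul_mem' := fun {g h} hg hh a ha => by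
        have e : ⁅a, g * h⁆ = ⁅a, g⁆ * (g * ⁅a, h⁆ * g⁻¹) := by
          simp only [commutatorElement_def]; group
        rw [e]
        exact Subgroup.mul_mem _ (hg a ha) (hRn _ (hh a ha) g)
      inv_mem' := fun {g} hg a ha => by
        have e : ⁅a, g⁻¹⁆ = g⁻¹ * ⁅a, g⁆⁻¹ * g⁻¹⁻¹ := by
          simp only [commutatorElement_def]; group
        rw [e]
        exact hRn _ (Subgroup.inv_mem _ (hg a ha)) g⁻¹ }
  have hS : ∀ g : Q, g ∈ S := by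
    intro g
    obtain ⟨k, n, hn, rfl⟩ := hy g
    refine S.mul_mem (S.zpow_mem (fun a ha => ⟨a, ha, rfl⟩) k) ?_
    intro a ha
    rw [commutatorElement_eq_one_iff_mul_comm.2 (hab a ha n hn)]
    exact Subgroup.one_mem _
  have hle : ⁅A, (⊤ : Subgroup Q)⁆ ≤ CR hab y := by
    rw [Subgroup.commutator_le]
    intro a ha g _
    exact hS g a ha
  exact hle he

theorem eq_one_of_comm (hab : ∀ a ∈ A, ∀ b ∈ A, a * b = b * a) {y a : Q} (ha : a ∈ A)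
    {f m : ℕ} (hf : y ^ f ∈ A) (hm : ⁅a, y⁆ ^ m = 1) (hcop : m.Coprime f)
    (hc : ⁅a, y⁆ * y = y * ⁅a, y⁆) : ⁅a, y⁆ = 1 := by
  have e1 : a * y * a⁻¹ = ⁅a, y⁆ * y := by rw [commutatorElement_def]; group
  have e2 := comm_pow_right e1 hc f
  have h1 : a * y ^ f * a⁻¹ = y ^ f := by
    rw [hab a ha _ hf, mul_inv_cancel_right]
  rw [h1] at e2
  have h2 : ⁅a, y⁆ ^ f = 1 := by
    have := e2.symm
    rwa [mul_eq_right] at this
  have h3 := pow_gcd_eq_one.2 ⟨hm, h2⟩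
  rwa [hcop.gcd_eq_one, pow_one] at h3

/-- `A = [A, Q] C_A(Q)`. -/
theorem exists_decomp [Finite Q] (hab : ∀ a ∈ A, ∀ b ∈ A, a * b = b * a) {y : Q}
    (hy : ∀ g : Q, ∃ (k : ℤ) (n : Q), n ∈ A ∧ g = y ^ k * n) {f : ℕ} (hf : y ^ f ∈ A)
    (hcop : (Nat.card A).Coprime f) {a : Q} (ha : a ∈ A) :
    ∃ r ∈ ⁅A, (⊤ : Subgroup Q)⁆, ∃ z ∈ A, (∀ g : Q, z * g = g * z) ∧ a = r * z := by
  have hRle : CR hab y ≤ A := by
    rintro _ ⟨a, ha, rfl⟩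
    exact comm_mem_left ha
  have hpow : ∀ e ∈ A, e ^ Nat.card A = 1 := by
    intro e he
    have := pow_card_eq_one' (x := (⟨e, he⟩ : A))
    exact congrArg Subtype.val this
  let δ : CR hab y → CR hab y := fun e => ⟨⁅(e : Q), y⁆, ⟨e, hRle e.2, rfl⟩⟩
  have hmul : ∀ b ∈ A, ∀ c ∈ A, ⁅b * c, y⁆ = ⁅b, y⁆ * ⁅c, y⁆ := by
    intro b hb c hc
    have h1 : ⁅c, y⁆ ∈ A := comm_mem_left hc
    calc ⁅b * c, y⁆ = b * ⁅c, y⁆ * (y * b⁻¹ * y⁻¹) := by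
          simp only [commutatorElement_def]; group
      _ = ⁅c, y⁆ * b * (y * b⁻¹ * y⁻¹) := by rw [hab _ hb _ h1]
      _ = ⁅c, y⁆ * ⁅b, y⁆ := by rw [commutatorElement_def b y]; group
      _ = ⁅b, y⁆ * ⁅c, y⁆ := hab _ h1 _ (comm_mem_left hb)
  have hinv : ∀ b ∈ A, ⁅b⁻¹, y⁆ = ⁅b, y⁆⁻¹ := by
    intro b hb
    have := hmul b⁻¹ (A.inv_mem hb) b hb
    rw [inv_mul_cancel, commutatorElement_one_left] at this
    exact eq_inv_of_mul_eq_one_left this.symm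
  have hinj : Function.Injective δ := by
    intro b c hbc
    have h1 : ⁅(b : Q), y⁆ = ⁅(c : Q), y⁆ := congrArg Subtype.val hbc
    have h2 : ⁅(b : Q) * (c : Q)⁻¹, y⁆ = 1 := by
      rw [hmul _ (hRle b.2) _ (A.inv_mem (hRle c.2)), hinv _ (hRle c.2), h1, mul_inv_cancel]
    have h3 : (b : Q) * (c : Q)⁻¹ ∈ CR hab y := Subgroup.mul_mem _ b.2 (Subgroup.inv_mem _ c.2)
    obtain ⟨d, hd, e⟩ := h3
    have h4 : ⁅d, y⁆ = 1 := by
      refine eq_one_of_comm hab hd hf (hpow _ (comm_mem_left hd)) hcop ?_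
      rw [← e]
      exact commutatorElement_eq_one_iff_mul_comm.1 h2
    rw [h4] at e
    exact Subtype.ext (mul_inv_eq_one.1 e)
  obtain ⟨r, hr⟩ := (Finite.surjective_of_injective hinj) ⟨⁅a, y⁆, ⟨a, ha, rfl⟩⟩
  have hr' : ⁅(r : Q), y⁆ = ⁅a, y⁆ := congrArg Subtype.val hr
  have hrA : (r : Q) ∈ A := hRle r.2
  have hz : (r : Q)⁻¹ * a ∈ A := A.mul_mem (A.inv_mem hrA) ha
  have hzy : ⁅(r : Q)⁻¹ * a, y⁆ = 1 := by
    rw [hmul _ (A.inv_mem hrA) _ ha, hinv _ hrA, hr', inv_mul_cancel]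
  refine ⟨r, ?_, (r : Q)⁻¹ * a, hz, ?_, by group⟩
  · obtain ⟨b, hb, e⟩ := r.2
    rw [e]
    exact Subgroup.commutator_mem_commutator hb (Subgroup.mem_top y)
  · intro g
    let C : Subgroup Q := Subgroup.centralizer {(r : Q)⁻¹ * a}
    have hC : ∀ h : Q, h ∈ C ↔ ((r : Q)⁻¹ * a) * h = h * ((r : Q)⁻¹ * a) := by
      intro h
      rw [Subgroup.mem_centralizer_singleton_iff]
      exact eq_comm
    rw [← hC]
    obtain ⟨k, n, hn, rfl⟩ := hy g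
    refine C.mul_mem (C.zpow_mem ((hC y).2 ?_) k) ((hC n).2 (hab _ hz _ hn))
    exact commutatorElement_eq_one_iff_mul_comm.1 hzy

end abs

section rel

variable {G : Type u} [Group G] [Finite G] {N K : Subgroup G} [hN : N.Normal] [hK : K.Normal]

theorem comm_iff (a g : G) : a * g * a⁻¹ * g⁻¹ ∈ K ↔ (a : G ⧸ K) * (g : G ⧸ K) = g * a := by
  rw [← QuotientGroup.eq_one_iff]
  simp only [QuotientGroup.mk_mul, QuotientGroup.mk_inv]
  rw [mul_inv_eq_one, mul_inv_eq_iff_eq_mul]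

theorem map_ab (hab : ⁅N, N⁆ ≤ K) : ∀ a ∈ N.map (QuotientGroup.mk' K),
    ∀ b ∈ N.map (QuotientGroup.mk' K), a * b = b * a := by
  rintro _ ⟨a, ha, rfl⟩ _ ⟨b, hb, rfl⟩
  have h1 := hab (Subgroup.commutator_mem_commutator ha hb)
  rw [← QuotientGroup.eq_one_iff] at h1
  change QuotientGroup.mk' K ⁅a, b⁆ = 1 at h1
  rw [map_commutatorElement, commutatorElement_eq_one_iff_mul_comm] at h1
  exact h1

theorem map_gen {y : G} (hy : ∀ g : G, ∃ (k : ℤ) (n : G), n ∈ N ∧ g = y ^ k * n) :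
    ∀ g : G ⧸ K, ∃ (k : ℤ) (n : G ⧸ K), n ∈ N.map (QuotientGroup.mk' K) ∧
      g = (y : G ⧸ K) ^ k * n := by
  intro q
  obtain ⟨g, rfl⟩ := QuotientGroup.mk_surjective q
  obtain ⟨k, n, hn, e⟩ := hy g
  refine ⟨k, n, ⟨n, hn, rfl⟩, ?_⟩
  rw [← QuotientGroup.mk_zpow, ← QuotientGroup.mk_mul, ← e]

theorem map_comm_mem (hc : IsCyclic (G ⧸ N)) (a b : G ⧸ K) :
    ⁅a, b⁆ ∈ N.map (QuotientGroup.mk' K) := by
  obtain ⟨a, rfl⟩ := QuotientGroup.mk'_surjective K a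
  obtain ⟨b, rfl⟩ := QuotientGroup.mk'_surjective K b
  rw [← map_commutatorElement]
  exact ⟨_, cyc_comm hc a b, rfl⟩

theorem map_E_mem {e : G} (he : e ∈ ⁅N, (⊤ : Subgroup G)⁆ ⊔ K) :
    (e : G ⧸ K) ∈ ⁅N.map (QuotientGroup.mk' K), (⊤ : Subgroup (G ⧸ K))⁆ := by
  have h1 : (⁅N, (⊤ : Subgroup G)⁆ ⊔ K).map (QuotientGroup.mk' K) =
      ⁅N.map (QuotientGroup.mk' K), (⊤ : Subgroup (G ⧸ K))⁆ := by
    have h2 : K.map (QuotientGroup.mk' K) = ⊥ := by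
      rw [Subgroup.map_eq_bot_iff, QuotientGroup.ker_mk']
    rw [Subgroup.map_sup, Subgroup.map_commutator, h2, sup_bot_eq,
      Subgroup.map_top_of_surjective _ (QuotientGroup.mk'_surjective K)]
  rw [← h1]
  exact ⟨e, he, rfl⟩

/-- `[N, G] K ∩ Z_G(N mod K) ≤ K`. -/
theorem inf_NZ_le (hab : ⁅N, N⁆ ≤ K) (hc : IsCyclic (G ⧸ N))
    (hcop : (K.relIndex N).Coprime N.index) {e : G} (he : e ∈ ⁅N, (⊤ : Subgroup G)⁆ ⊔ K)
    (hz : e ∈ NZ N K) : e ∈ K := by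
  obtain ⟨y, hy⟩ := exists_gen hc
  have hπ := QuotientGroup.mk'_surjective K
  haveI : (N.map (QuotientGroup.mk' K)).Normal := Subgroup.Normal.map inferInstance _ hπ
  obtain ⟨a, ha, hea⟩ := comm_gen (map_ab hab) (map_comm_mem hc) (map_gen hy) (map_E_mem he)
  rw [mem_NZ] at hz
  rw [← QuotientGroup.eq_one_iff, hea]
  refine eq_one_of_comm (f := N.index) (m := K.relIndex N) (map_ab hab) ha ?_ ?_ hcop ?_
  · exact ⟨y ^ N.index, Subgroup.pow_index_mem N y, rfl⟩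
  · rw [← hea, ← QuotientGroup.mk_pow, QuotientGroup.eq_one_iff]
    have h7 := Subgroup.pow_index_mem (K.subgroupOf N) (⟨e, hz.1⟩ : N)
    rw [Subgroup.mem_subgroupOf] at h7
    exact h7
  · rw [← hea]
    exact (comm_iff e y).1 (hz.2 y)

/-- `N = [N, G] K ⬝ Z_G(N mod K)`. -/
theorem exists_NZ_mul (hKN : K ≤ N) (hab : ⁅N, N⁆ ≤ K) (hc : IsCyclic (G ⧸ N))
    (hcop : (K.relIndex N).Coprime N.index) {n : G} (hn : n ∈ N) :
    ∃ e ∈ ⁅N, (⊤ : Subgroup G)⁆ ⊔ K, ∃ z ∈ NZ N K, n = e * z := by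
  obtain ⟨y, hy⟩ := exists_gen hc
  have hπ := QuotientGroup.mk'_surjective K
  haveI : (N.map (QuotientGroup.mk' K)).Normal := Subgroup.Normal.map inferInstance _ hπ
  have hcard : Nat.card (N.map (QuotientGroup.mk' K)) = K.relIndex N := by
    have : (QuotientGroup.mk' K).ker.relIndex N = Nat.card (N.map (QuotientGroup.mk' K)) := by
      rw [Subgroup.relIndex_ker]
    rw [QuotientGroup.ker_mk'] at this
    exact this.symm
  obtain ⟨r, hr, z, hz, hzc, e⟩ := exists_decomp (map_ab hab) (map_gen hy)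
    (f := N.index) ⟨y ^ N.index, Subgroup.pow_index_mem N y, rfl⟩ (by rw [hcard]; exact hcop)
    (a := (n : G ⧸ K)) ⟨n, hn, rfl⟩
  have h1 : (⁅N, (⊤ : Subgroup G)⁆).map (QuotientGroup.mk' K) =
      ⁅N.map (QuotientGroup.mk' K), (⊤ : Subgroup (G ⧸ K))⁆ := by
    rw [Subgroup.map_commutator, Subgroup.map_top_of_surjective _ hπ]
  rw [← h1] at hr
  obtain ⟨r, hr, rfl⟩ := hr
  obtain ⟨z, hz, rfl⟩ := hz
  have e' : ((r * z : G) : G ⧸ K) = n := e.symm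
  rw [QuotientGroup.eq] at e'
  refine ⟨r, Subgroup.mem_sup_left hr, z * ((r * z)⁻¹ * n), ?_, by group⟩
  rw [mem_NZ]
  refine ⟨N.mul_mem hz (hKN e'), fun g => ?_⟩
  rw [comm_iff]
  have h2 : ((z * ((r * z)⁻¹ * n) : G) : G ⧸ K) = (z : G ⧸ K) := by
    rw [QuotientGroup.mk_mul, (QuotientGroup.eq_one_iff _).2 e', mul_one]
  rw [h2]
  exact hzc g

end rel

end Cfsg.Agent.H675.Nd
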