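import Mathlib
import Cfsg.Agent.H675.Nd.Tools2

/-!
# The case of an abelian Sylow subgroup: the hypothesis `HB`
-/

set_option autoImplicit false
set_option linter.style.haveILetI false
set_option linter.unusedSectionVars false
open Cfsg

namespace Cfsg.Agent.H675.Nd

open Cfsg.Agent.Characters.Core Cfsg.Agent.Characters.Clifford Cfsg.Agent.H672 Cfsg.Agent.H672.RM
open Cfsg.Agent.H597.FrobA
open scoped commutatorElement

universe u v w

section general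

variable {G : Type u} [Group G] [Finite G] {N K : Subgroup G} [hN : N.Normal] [hK : K.Normal]

theorem ne_top_index {T : Subgroup G} (hT : T ≠ ⊤) : T.index ≠ 1 :=
  fun h => hT (Subgroup.index_eq_one.1 h)

theorem index_pos (T : Subgroup G) : 0 < T.index := Nat.pos_of_ne_zero Subgroup.index_ne_zero_of_finite

/-- The degree of a character over a linear character of `N`. -/
theorem lin_deg (hc : IsCyclic (G ⧸ N)) (l : N →* ℂˣ) : ∃ ψ : G → ℂ, IsIrrCharacter G ψ ∧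
    Over N.subtype ψ (lf l) ∧ charDegree ψ = (stab (lf l : N → ℂ)).index := by
  obtain ⟨χ, hχ, hext⟩ := ext_cyc (N := N) (M := N) (T := stab (lf l : N → ℂ))
    (le_stab' (isIrr_lf l)) hc (fun t ht => Iff.rfl) (isIrr_lf l) le_rfl
  obtain ⟨ψ, hψ, -, ho, hd⟩ := lift_top (isIrr_lf l) hχ
    (over_of_ext (le_stab' (isIrr_lf l)) (isIrr_lf l) hext)
  refine ⟨ψ, hψ, ho, ?_⟩
  rw [hd, charDegree_ext (le_stab' (isIrr_lf l)) hext, charDegree_lf, mul_one]

/-- A linear character of `N` fixed by some `g ∉ N` is `G`-invariant. -/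
theorem hfix_of (ha : Anti G) (hc : IsCyclic (G ⧸ N))
    (hf : ∃ χ : G → ℂ, IsIrrCharacter G χ ∧ charDegree χ = N.index) (l : N →* ℂˣ) {g : G}
    (hg : g ∉ N) (hl : cl g l = l) (g' : G) : cl g' l = l := by
  by_contra hcon
  obtain ⟨ψ, hψ, -, hd⟩ := lin_deg hc l
  obtain ⟨χ, hχ, hf⟩ := hf
  have hne : stab (lf l : N → ℂ) ≠ ⊤ := by
    intro h
    apply hcon
    apply mem_stab_iff.1
    rw [h]
    exact Subgroup.mem_top g'
  have hle : N ≤ stab (lf l : N → ℂ) := le_stab' (isIrr_lf l)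
  have h1 := ha ψ χ hψ hχ (by rw [hd]; exact ne_top_index hne)
    (by rw [hd, hf]; exact Subgroup.index_dvd_of_le hle)
  rw [hd, hf] at h1
  have h2 := Subgroup.relIndex_mul_index hle
  rw [h1] at h2
  have h3 : N.relIndex (stab (lf l : N → ℂ)) = 1 :=
    Nat.eq_of_mul_eq_mul_right (index_pos N) (by rw [h2, one_mul])
  have h4 : stab (lf l : N → ℂ) ≤ N := Subgroup.relIndex_eq_one.1 h3
  exact hg (h4 (mem_stab_iff.2 hl))

/-- Multiplicativity of the index with the image in `G / N`. -/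
theorem index_mul (T : Subgroup G) : T.index * N.relIndex T = N.index * T.relIndex N := by
  have h1 := Subgroup.relIndex_mul_index (inf_le_left : N ⊓ T ≤ N)
  have h2 := Subgroup.relIndex_mul_index (inf_le_right : N ⊓ T ≤ T)
  rw [Subgroup.inf_relIndex_right] at h2
  rw [inf_comm, Subgroup.inf_relIndex_right] at h1
  rw [mul_comm, h2, mul_comm, h1, inf_comm]

end general

structure HB {G : Type u} [Group G] [Finite G] (N J : Subgroup G) [N.Normal] [J.Normal] (x : G)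
    (p : ℕ) : Prop where
  eJ : J = ⁅N, N⁆
  cyc : IsCyclic (G ⧸ N)
  pr : p.Prime
  xN : x ∈ N
  xp : x ^ p = 1
  pJ : ¬ p ∣ Nat.card J
  pf : ¬ p ∣ N.index
  hx : ∀ μ : J → ℂ, IsIrrCharacter J μ → x ∈ stab μ → μ = 1
  anti : Anti G
  hfix : ∀ l : N →* ℂˣ, ∀ g : G, g ∉ N → cl g l = l → ∀ g' : G, cl g' l = l
  nc : ∃ g : G, x * g * x⁻¹ * g⁻¹ ∉ J
  xn : ∀ g : G, ∃ k : ℕ, ∃ j ∈ J, g * x * g⁻¹ = x ^ k * j

section basic

variable {G : Type u} [Group G] [Finite G] {N J : Subgroup G} [hN : N.Normal] [hJ : J.Normal]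
  {x : G} {p : ℕ}

theorem HB.JN (h : HB N J x p) : J ≤ N := by
  rw [h.eJ]; exact Subgroup.commutator_le_left N N

theorem HB.ab (h : HB N J x p) : ⁅N, N⁆ ≤ J := h.eJ.ge

theorem HB.zl (h : HB N J x p) {n g : G} (hn : n ∈ N) (hg : g ∉ N)
    (hc : n * g * n⁻¹ * g⁻¹ ∈ J) : ∀ g' : G, n * g' * n⁻¹ * g'⁻¹ ∈ J :=
  zlem h.JN h.ab h.cyc (fun l _ g hg hl => h.hfix l g hg hl) hn hg hc

theorem HB.fpf (h : HB N J x p) {g : G} (hg : g ∉ N) : x * g * x⁻¹ * g⁻¹ ∉ J := by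
  intro hc
  obtain ⟨g', hg'⟩ := h.nc
  exact hg' (h.zl h.xN hg hc g')

theorem HB.ne_top (h : HB N J x p) : N ≠ ⊤ := by
  rintro rfl
  obtain ⟨g, hg⟩ := h.nc
  apply hg
  have := h.ab (Subgroup.commutator_mem_commutator (Subgroup.mem_top x) (Subgroup.mem_top g))
  rwa [commutatorElement_def] at this

/-- `|G : N|` is a character degree. -/
theorem HB.fdeg (h : HB N J x p) : ∃ χ : G → ℂ, IsIrrCharacter G χ ∧ charDegree χ = N.index := by
  obtain ⟨g, hg⟩ := h.nc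
  have hm : x * g * x⁻¹ * g⁻¹ ∈ N := by
    have h1 := hN.conj_mem _ (N.inv_mem h.xN) g
    have e : x * g * x⁻¹ * g⁻¹ = x * (g * x⁻¹ * g⁻¹) := by group
    rw [e]
    exact N.mul_mem h.xN h1
  obtain ⟨l, -, hl⟩ := exists_LK_ne h.JN h.ab hm hg
  have hle : stab (lf l : N → ℂ) = N := by
    refine le_antisymm ?_ (le_stab' (isIrr_lf l))
    intro s hs
    by_contra hsN
    have h1 := h.hfix l s hsN (mem_stab_iff.1 hs) g
    apply hl
    have e : (⟨x * g * x⁻¹ * g⁻¹, hm⟩ : N) =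
        ⟨x, h.xN⟩ * ⟨g * x * g⁻¹, hN.conj_mem x h.xN g⟩⁻¹ := by
      apply Subtype.ext
      change x * g * x⁻¹ * g⁻¹ = x * (g * x * g⁻¹)⁻¹
      group
    rw [e, map_mul, map_inv]
    have h2 := DFunLike.congr_fun h1 ⟨x, h.xN⟩
    rw [cl_apply] at h2
    rw [h2, mul_inv_cancel]
  obtain ⟨ψ, hψ, -, hd⟩ := lin_deg h.cyc l
  rw [hle] at hd
  exact ⟨ψ, hψ, hd⟩

/-- `C_J(x) = 1`. -/
theorem HB.fix (h : HB N J x p) {j : G} (hj : j ∈ J) (hc : x * j = j * x) : j = 1 := by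
  classical
  let α : J ≃* J := cj (mem_nrm J x)
  have hα : ∀ k : J, ((α k : J) : G) = x * k * x⁻¹ := fun _ => rfl
  have h1 := S0173.result α
  have h2 : Nat.card {χ : IrrCharacter J // (χ : J → ℂ) ∘ α = (χ : J → ℂ)} = 1 := by
    rw [Nat.card_eq_one_iff_unique]
    refine ⟨⟨fun a b => ?_⟩, ⟨⟨⟨1, isIrr_one⟩, rfl⟩⟩⟩
    have key : ∀ a : {χ : IrrCharacter J // (χ : J → ℂ) ∘ α = (χ : J → ℂ)},
        ((a : IrrCharacter J) : J → ℂ) = 1 := by
      intro a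
      refine h.hx _ a.1.2 ⟨mem_nrm J x, ?_⟩
      rw [tw_eq_comp (mem_nrm J x)]
      exact a.2
    exact Subtype.ext (Subtype.ext ((key a).trans (key b).symm))
  rw [h2, Nat.card_eq_one_iff_unique] at h1
  obtain ⟨h3, -⟩ := h1
  have h4 : ConjClasses.map α.toMonoidHom (ConjClasses.mk (⟨j, hj⟩ : J)) =
      ConjClasses.mk (⟨j, hj⟩ : J) := by
    change ConjClasses.mk (α ⟨j, hj⟩) = _
    congr 1
    apply Subtype.ext
    rw [hα]
    change x * j * x⁻¹ = j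
    rw [hc, mul_inv_cancel_right]
  have h5 : ConjClasses.map α.toMonoidHom (ConjClasses.mk (1 : J)) =
      ConjClasses.mk (1 : J) := by
    change ConjClasses.mk (α 1) = _
    rw [map_one]
  have h6 := h3.elim (⟨_, h4⟩ : {C : ConjClasses J // ConjClasses.map α.toMonoidHom C = C}) ⟨_, h5⟩
  have h7 : ConjClasses.mk (⟨j, hj⟩ : J) = ConjClasses.mk 1 := congrArg Subtype.val h6
  rw [ConjClasses.mk_eq_mk_iff_isConj, isConj_comm, isConj_iff] at h7
  obtain ⟨c, hc'⟩ := h7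
  have h8 : (⟨j, hj⟩ : J) = 1 := by rw [← hc']; group
  exact congrArg Subtype.val h8

theorem HB.pow_mem (h : HB N J x p) {k : ℤ} (hk : x ^ k ∈ J) : x ^ k = 1 := by
  have h1 : (x ^ k) ^ p = 1 := by
    rw [← zpow_natCast, ← zpow_mul, mul_comm, zpow_mul, zpow_natCast, h.xp, one_zpow]
  have h2 : (x ^ k) ^ Nat.card J = 1 := by
    have := pow_card_eq_one' (x := (⟨x ^ k, hk⟩ : J))
    exact congrArg Subtype.val this
  have h3 := pow_gcd_eq_one.2 ⟨h1, h2⟩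
  rwa [((Nat.Prime.coprime_iff_not_dvd h.pr).2 h.pJ).gcd_eq_one, pow_one] at h3

/-- `C_J(x ^ k) = 1` if `p ∤ k`. -/
theorem HB.fix_pow (h : HB N J x p) {k : ℕ} (hk : ¬ p ∣ k) {j : G} (hj : j ∈ J)
    (hc : x ^ k * j = j * x ^ k) : j = 1 := by
  refine h.fix hj ?_
  have hcop : Nat.Coprime k p := ((Nat.Prime.coprime_iff_not_dvd h.pr).2 hk).symm
  obtain ⟨t, ht⟩ := Nat.exists_mul_mod_eq_one_of_coprime hcop h.pr.one_lt
  have h1 : (x ^ k) ^ t = x := by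
    rw [← pow_mul]
    have h3 : k * t ≡ 1 [MOD p] := by rw [Nat.ModEq, ht.2, Nat.mod_eq_of_lt h.pr.one_lt]
    have h4 : k * t ≡ 1 [MOD orderOf x] := h3.of_dvd (orderOf_dvd_of_pow_eq_one h.xp)
    rw [pow_eq_pow_iff_modEq.2 h4, pow_one]
  have h2 : Commute (x ^ k) j := hc
  have h3 := h2.pow_left t
  rw [h1] at h3
  exact h3

/-- Conjugates of powers of `x` in `J ⟨x⟩`. -/
theorem HB.exists_conj (h : HB N J x p) {k : ℕ} (hk : ¬ p ∣ k) {z : G} (hz : z ∈ J) :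
    ∃ j ∈ J, x ^ k * z = j⁻¹ * x ^ k * j := by
  let f : J → J := fun j => ⟨(x ^ k)⁻¹ * (j : G)⁻¹ * x ^ k * j, by
    have h1 := hJ.conj_mem (j : G)⁻¹ (J.inv_mem j.2) (x ^ k)⁻¹
    rw [inv_inv] at h1
    exact J.mul_mem h1 j.2⟩
  have hf : Function.Injective f := by
    intro a b hab
    have h1 : (x ^ k)⁻¹ * (a : G)⁻¹ * x ^ k * a = (x ^ k)⁻¹ * (b : G)⁻¹ * x ^ k * b :=
      congrArg Subtype.val hab
    have h2 : x ^ k * ((b : G) * (a : G)⁻¹) = ((b : G) * (a : G)⁻¹) * x ^ k := by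
      have h3 : (a : G)⁻¹ * x ^ k * a = (b : G)⁻¹ * x ^ k * b := by
        have := congrArg (fun y => x ^ k * y) h1
        simpa [mul_assoc] using this
      have h4 : (b : G) * ((a : G)⁻¹ * x ^ k * a) * (a : G)⁻¹ =
          (b : G) * ((b : G)⁻¹ * x ^ k * b) * (a : G)⁻¹ := by
        rw [h3]
      have h5 : (b : G) * ((a : G)⁻¹ * x ^ k * a) * (a : G)⁻¹ = (b : G) * (a : G)⁻¹ * x ^ k := by
        group
      have h6 : (b : G) * ((b : G)⁻¹ * x ^ k * b) * (a : G)⁻¹ = x ^ k * ((b : G) * (a : G)⁻¹) := by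
        group
      rw [h5, h6] at h4
      exact h4.symm
    have h3 := h.fix_pow hk (J.mul_mem b.2 (J.inv_mem a.2)) h2
    exact Subtype.ext (mul_inv_eq_one.1 h3).symm
  obtain ⟨j, hj⟩ := (Finite.surjective_of_injective hf) ⟨z, hz⟩
  have h2 : (x ^ k)⁻¹ * (j : G)⁻¹ * x ^ k * j = z := congrArg Subtype.val hj
  refine ⟨j, j.2, ?_⟩
  rw [← h2]
  group

/-- The complement `Y = N_G(⟨x⟩)`. -/
def YY (x : G) : Subgroup G := Subgroup.normalizer (Subgroup.zpowers x : Set G)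

theorem HB.frat (h : HB N J x p) (g : G) : ∃ j ∈ J, ∃ y ∈ YY x, g = y * j := by
  obtain ⟨k, z, hz, e⟩ := h.xn g⁻¹
  rw [inv_inv] at e
  have hk : ¬ p ∣ k := by
    rintro ⟨c, rfl⟩
    rw [pow_mul, h.xp, one_pow, one_mul] at e
    have h1 : x ∈ J := by
      have h2 := hJ.conj_mem z hz g
      rw [← e] at h2
      have e2 : g * (g⁻¹ * x * g) * g⁻¹ = x := by group
      rwa [e2] at h2
    have h2 := h.pow_mem (k := 1) (by rwa [zpow_one])
    rw [zpow_one] at h2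
    obtain ⟨g', hg'⟩ := h.nc
    apply hg'
    rw [h2]
    simp [J.one_mem]
  obtain ⟨j, hj, e2⟩ := h.exists_conj hk hz
  refine ⟨j, hj, g * j⁻¹, ?_, by group⟩
  have e3 : (g * j⁻¹)⁻¹ * x * (g * j⁻¹) = x ^ k := by
    have : g⁻¹ * x * g = j⁻¹ * x ^ k * j := e.trans e2
    calc (g * j⁻¹)⁻¹ * x * (g * j⁻¹) = j * (g⁻¹ * x * g) * j⁻¹ := by group
      _ = x ^ k := by rw [this]; group
  have h3 : (g * j⁻¹)⁻¹ ∈ YY x := by
    apply mem_normalizer_of_map_conj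
    rw [MonoidHom.map_zpowers]
    have h1 : Subgroup.zpowers ((MulAut.conj (g * j⁻¹)⁻¹).toMonoidHom x) ≤
        Subgroup.zpowers x := by
      rw [Subgroup.zpowers_le]
      change (g * j⁻¹)⁻¹ * x * ((g * j⁻¹)⁻¹)⁻¹ ∈ Subgroup.zpowers x
      rw [inv_inv, e3]
      exact Subgroup.pow_mem _ (Subgroup.mem_zpowers x) k
    refine Subgroup.eq_of_le_of_card_ge h1 ?_
    rw [Nat.card_zpowers, Nat.card_zpowers, orderOf_injective (MulAut.conj (g * j⁻¹)⁻¹).toMonoidHom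
      (MulAut.conj (g * j⁻¹)⁻¹).injective]
  have h4 := (YY x).inv_mem h3
  rwa [inv_inv] at h4

theorem HB.Y_cap (h : HB N J x p) {y : G} (hy : y ∈ YY x) (hyJ : y ∈ J) : y = 1 := by
  obtain ⟨k, hk⟩ := Subgroup.mem_zpowers_iff.1
    ((Subgroup.mem_normalizer_iff.1 hy x).1 (Subgroup.mem_zpowers x))
  have h1 : x ^ (k - 1) ∈ J := by
    rw [zpow_sub_one, hk]
    have h2 := hJ.conj_mem _ (J.inv_mem hyJ) x
    have e : y * x * y⁻¹ * x⁻¹ = y * (x * y⁻¹ * x⁻¹) := by group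
    rw [e]
    exact J.mul_mem hyJ h2
  have h2 := h.pow_mem h1
  rw [zpow_sub_one, mul_inv_eq_one, hk] at h2
  exact h.fix hyJ (mul_inv_eq_iff_eq_mul.1 h2).symm

/-- Every element of `N` is the product of an element of `J` and an element centralizing `x`. -/
theorem HB.exists_mul (h : HB N J x p) {n : G} (hn : n ∈ N) :
    ∃ j ∈ J, ∃ c ∈ N, x * c = c * x ∧ n = c * j := by
  have h1 : x⁻¹ * (n⁻¹ * x * n) ∈ J := by
    have h2 : ⁅x⁻¹, n⁻¹⁆ ∈ J := h.ab (Subgroup.commutator_mem_commutator (N.inv_mem h.xN)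
      (N.inv_mem hn))
    rw [commutatorElement_def, inv_inv, inv_inv] at h2
    simpa [mul_assoc] using h2
  obtain ⟨j, hj, e⟩ := h.exists_conj (k := 1) (fun hd => h.pr.one_lt.ne' (Nat.dvd_one.1 hd)) h1
  rw [pow_one, mul_inv_cancel_left] at e
  refine ⟨j, hj, n * j⁻¹, N.mul_mem hn (N.inv_mem (h.JN hj)), ?_, by group⟩
  have h4 : n * (n⁻¹ * x * n) * j⁻¹ = n * (j⁻¹ * x * j) * j⁻¹ := by rw [e]
  have h5 : n * (n⁻¹ * x * n) * j⁻¹ = x * (n * j⁻¹) := by group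
  have h6 : n * (j⁻¹ * x * j) * j⁻¹ = n * j⁻¹ * x := by group
  rw [h5, h6] at h4
  exact h4

/-- Elements of `N` centralizing `x` commute. -/
theorem HB.comm_cent (h : HB N J x p) {a b : G} (ha : a ∈ N) (hb : b ∈ N) (hxa : x * a = a * x)
    (hxb : x * b = b * x) : a * b = b * a := by
  have h1 : ⁅a, b⁆ ∈ J := h.ab (Subgroup.commutator_mem_commutator ha hb)
  have h2 := h.fix h1 (by
    have e1 : Commute x a := hxa
    have e2 : Commute x b := hxb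
    rw [commutatorElement_def]
    exact ((e1.mul_right e2).mul_right e1.inv_right).mul_right e2.inv_right)
  exact commutatorElement_eq_one_iff_mul_comm.1 h2

/-- An invariant linear character of `J` extends. -/
theorem HB.lin_ext (h : HB N J x p) {T : Subgroup G} (hJT : J ≤ T)
    (l : J →* ℂˣ) (hT : T ≤ stab (lf l : J → ℂ)) :
    ∃ m : T →* ℂˣ, ∀ j : J, m (Subgroup.inclusion hJT j) = l j := by
  let W : Subgroup T := (YY x).subgroupOf T
  have h1 : J.subgroupOf T ⊓ W = ⊥ := by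
    rw [eq_bot_iff]
    rintro t ⟨h1, h2⟩
    exact Subtype.ext (h.Y_cap h2 h1)
  have h2 : J.subgroupOf T ⊔ W = ⊤ := by
    rw [eq_top_iff]
    intro t _
    obtain ⟨j, hj, c, hc, e⟩ := h.frat (t : G)
    have hcT : c ∈ T := by
      have : c = t * j⁻¹ := by rw [e]; group
      rw [this]
      exact T.mul_mem t.2 (T.inv_mem (hJT hj))
    have e' : t = (⟨c, hcT⟩ : T) * ⟨j, hJT hj⟩ := Subtype.ext e
    rw [e']
    refine Subgroup.mul_mem _ (Subgroup.mem_sup_right hc) (Subgroup.mem_sup_left ?_)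
    exact hj
  obtain ⟨F, hF, -⟩ := OddOrderCharacters.SplitExtension.exists_hom_of_complement
    (J.subgroupOf T) W h1 h2 (l.comp (Subgroup.subgroupOfEquivOfLe hJT).toMonoidHom) 1 (by
      intro w n
      rw [MonoidHom.one_apply, one_mul, inv_one, mul_one]
      exact (mem_stab_lf.1 (hT w.1.2)) ⟨n, n.2⟩)
  exact ⟨F, fun j => hF ⟨⟨j, hJT j.2⟩, j.2⟩⟩

end basic

section deg

variable {G : Type u} [Group G] [Finite G] {N J : Subgroup G} [hN : N.Normal] [hJ : J.Normal]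
  {x : G} {p : ℕ}

theorem HB.x_not (h : HB N J x p) {μ : J → ℂ} (hμ : IsIrrCharacter J μ) (hμ1 : μ ≠ 1) :
    x ∉ stab μ := fun hx => hμ1 (h.hx μ hμ hx)

theorem HB.stab_ne (h : HB N J x p) {μ : J → ℂ} (hμ : IsIrrCharacter J μ) (hμ1 : μ ≠ 1) :
    (stab μ).index * charDegree μ ≠ 1 := by
  intro e
  have h1 := Nat.eq_one_of_mul_eq_one_right e
  rw [Subgroup.index_eq_one] at h1
  exact h.x_not hμ hμ1 (h1 ▸ Subgroup.mem_top x)

/-- The stabilizer of an extendible nontrivial character is not contained in `N`. -/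
theorem HB.exists_out (h : HB N J x p) {μ : J → ℂ} (hμ : IsIrrCharacter J μ) (hμ1 : μ ≠ 1)
    {χ : stab μ → ℂ} (hχ : IsIrrCharacter (stab μ) χ)
    (hext : ∀ k : J, χ (Subgroup.inclusion (le_stab' hμ) k) = μ k) : ∃ g ∈ stab μ, g ∉ N := by
  by_contra hcon
  push Not at hcon
  have hle : stab μ ≤ N := hcon
  obtain ⟨⟨ψ, hψ, -, hd⟩, -, -⟩ := GT h.anti hμ hχ hext (h.stab_ne hμ hμ1)
  obtain ⟨χf, hχf, hf⟩ := h.fdeg
  have h1 := h.anti χf ψ hχf hψ (by rw [hf]; exact ne_top_index h.ne_top)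
    (by rw [hf, hd]; exact (Subgroup.index_dvd_of_le hle).mul_right _)
  rw [hf, hd, ← Subgroup.relIndex_mul_index hle] at h1
  have h2 : (stab μ).relIndex N * charDegree μ = 1 := by
    have h3 := index_pos N
    refine Nat.eq_of_mul_eq_mul_right h3 ?_
    rw [one_mul]
    conv_rhs => rw [h1]
    ring
  have h3 : N ≤ stab μ := Subgroup.relIndex_eq_one.1 (Nat.eq_one_of_mul_eq_one_right h2)
  exact h.x_not hμ hμ1 (h3 h.xN)

theorem HB.central (h : HB N J x p) {μ : J → ℂ} (hμ : IsIrrCharacter J μ) (hμ1 : μ ≠ 1)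
    {χ : stab μ → ℂ} (hχ : IsIrrCharacter (stab μ) χ)
    (hext : ∀ k : J, χ (Subgroup.inclusion (le_stab' hμ) k) = μ k) :
    ∀ t ∈ N ⊓ stab μ, ∀ g : G, t * g * t⁻¹ * g⁻¹ ∈ J := by
  intro t ht
  obtain ⟨s, hs, hsN⟩ := h.exists_out hμ hμ1 hχ hext
  obtain ⟨-, -, hab⟩ := GT h.anti hμ hχ hext (h.stab_ne hμ hμ1)
  refine h.zl ht.1 hsN ?_
  have := hab (Subgroup.commutator_mem_commutator ht.2 hs)
  rwa [commutatorElement_def] at this

theorem HB.extL (h : HB N J x p) (l : J →* ℂˣ) : ∃ χ : stab (lf l : J → ℂ) → ℂ,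
    IsIrrCharacter (stab (lf l : J → ℂ)) χ ∧
    ∀ k : J, χ (Subgroup.inclusion (le_stab' (isIrr_lf l)) k) = (lf l : J → ℂ) k := by
  obtain ⟨m, hm⟩ := h.lin_ext (le_stab' (isIrr_lf l)) l le_rfl
  exact ⟨lf m, isIrr_lf m, fun j => congrArg Units.val (hm j)⟩

theorem HB.GTL (h : HB N J x p) {l : J →* ℂˣ} (hl : l ≠ 1) :
    (∃ ψ : G → ℂ, IsIrrCharacter G ψ ∧ Over J.subtype ψ (lf l) ∧
      charDegree ψ = (stab (lf l : J → ℂ)).index) ∧
    (∀ ψ : G → ℂ, IsIrrCharacter G ψ → Over J.subtype ψ (lf l) →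
      charDegree ψ = (stab (lf l : J → ℂ)).index) ∧
    ⁅stab (lf l : J → ℂ), stab (lf l : J → ℂ)⁆ ≤ J := by
  obtain ⟨χ, hχ, hext⟩ := h.extL l
  have h1 := GT h.anti (isIrr_lf l) hχ hext (h.stab_ne (isIrr_lf l) (lf_ne_one hl))
  rwa [charDegree_lf, mul_one] at h1

theorem HB.outL (h : HB N J x p) {l : J →* ℂˣ} (hl : l ≠ 1) :
    ∃ g ∈ stab (lf l : J → ℂ), g ∉ N := by
  obtain ⟨χ, hχ, hext⟩ := h.extL l
  exact h.exists_out (isIrr_lf l) (lf_ne_one hl) hχ hext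

theorem HB.centralL (h : HB N J x p) {l : J →* ℂˣ} (hl : l ≠ 1) :
    ∀ t ∈ N ⊓ stab (lf l : J → ℂ), ∀ g : G, t * g * t⁻¹ * g⁻¹ ∈ J := by
  obtain ⟨χ, hχ, hext⟩ := h.extL l
  exact h.central (isIrr_lf l) (lf_ne_one hl) hχ hext

theorem HB.index_ne (h : HB N J x p) {l : J →* ℂˣ} (hl : l ≠ 1) :
    (stab (lf l : J → ℂ)).index ≠ 1 := by
  have := h.stab_ne (isIrr_lf l) (lf_ne_one hl)
  rwa [charDegree_lf, mul_one] at this

/-- Divisibility of the indices of the stabilizers implies equality. -/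
theorem HB.index_eq_of_dvd (h : HB N J x p) {l m : J →* ℂˣ} (hl : l ≠ 1) (hm : m ≠ 1)
    (hd : (stab (lf l : J → ℂ)).index ∣ (stab (lf m : J → ℂ)).index) :
    (stab (lf l : J → ℂ)).index = (stab (lf m : J → ℂ)).index := by
  obtain ⟨ψ, hψ, -, e⟩ := (h.GTL hl).1
  obtain ⟨ψ', hψ', -, e'⟩ := (h.GTL hm).1
  rw [← e, ← e'] at hd ⊢
  exact h.anti ψ ψ' hψ hψ' (by rw [e]; exact h.index_ne hl) hd

theorem eq_of_le_of_index_eq {A B : Subgroup G} (hle : A ≤ B) (he : A.index = B.index) : A = B := by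
  have h1 := Subgroup.relIndex_mul_index hle
  rw [he] at h1
  have h2 : A.relIndex B = 1 :=
    Nat.eq_of_mul_eq_mul_right (index_pos B) (by rw [h1, one_mul])
  exact le_antisymm hle (Subgroup.relIndex_eq_one.1 h2)

theorem HB.stab_of_le (h : HB N J x p) {l m : J →* ℂˣ} (hl : l ≠ 1) (hm : m ≠ 1)
    (hle : stab (lf l : J → ℂ) ≤ stab (lf m : J → ℂ)) :
    stab (lf l : J → ℂ) = stab (lf m : J → ℂ) :=
  eq_of_le_of_index_eq hle (h.index_eq_of_dvd hm hl (Subgroup.index_dvd_of_le hle)).symm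

/-- Elements of `N` central modulo `J` commute with everything in the action. -/
theorem cl_comm_of {t g : G} (h : t * g * t⁻¹ * g⁻¹ ∈ J) (l : J →* ℂˣ) :
    cl (t * g) l = cl (g * t) l := by
  have e : t * g = (t * g * t⁻¹ * g⁻¹) * (g * t) := by group
  rw [e, cl_mul, cl_of_mem h]

theorem HB.TL_le (h : HB N J x p) {l m : J →* ℂˣ} (hl : l ≠ 1) (hm : m ≠ 1) :
    N ⊓ stab (lf l : J → ℂ) ≤ N ⊓ stab (lf m : J → ℂ) := by
  intro t ht
  refine ⟨ht.1, ?_⟩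
  exact stab_of_comm ⊤ (fun _ _ _ => Subgroup.mem_top _)
    (fun a _ b _ ha hb hab => h.stab_of_le ha hb hab) (Subgroup.mem_top l) (Subgroup.mem_top m)
    hl hm ht.2 (fun g κ _ => cl_comm_of (h.centralL hl t ht g) κ)

theorem HB.TL_eq (h : HB N J x p) {l m : J →* ℂˣ} (hl : l ≠ 1) (hm : m ≠ 1) :
    N ⊓ stab (lf l : J → ℂ) = N ⊓ stab (lf m : J → ℂ) :=
  le_antisymm (h.TL_le hl hm) (h.TL_le hm hl)

theorem HB.fix_all (h : HB N J x p) {l : J →* ℂˣ} (hl : l ≠ 1) {t : G}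
    (ht : t ∈ N ⊓ stab (lf l : J → ℂ)) (m : J →* ℂˣ) : cl t m = m := by
  by_cases hm : m = 1
  · rw [hm, cl_hone]
  · exact mem_stab_iff.1 (h.TL_le hl hm ht).2

end deg

end Cfsg.Agent.H675.Nd
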