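import Mathlib
import Cfsg.Agent.H675.Nd.HB1

/-!
# The degrees over the linear characters of `J` coincide
-/

set_option autoImplicit false
set_option linter.style.haveILetI false
set_option linter.unusedSectionVars false
open Cfsg

namespace Cfsg.Agent.H675.Nd

open Cfsg.Agent.Characters.Core Cfsg.Agent.Characters.Clifford Cfsg.Agent.H672 Cfsg.Agent.H672.RM
open Cfsg.Agent.H597.FrobA
open scoped commutatorElement

universe u v w

section norm

variable {A : Type u} [CommGroup A] (σ : A →* A)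

/-- the norm of `a` with respect to `σ` -/
def Nm (k : ℕ) : A →* A where
  toFun a := ∏ i ∈ Finset.range k, (σ^[i]) a
  map_one' := by
    refine Finset.prod_eq_one fun i _ => ?_
    exact iterate_map_one σ i
  map_mul' a b := by
    rw [← Finset.prod_mul_distrib]
    refine Finset.prod_congr rfl fun i _ => ?_
    exact iterate_map_mul σ i a b

theorem Nm_apply (k : ℕ) (a : A) : Nm σ k a = ∏ i ∈ Finset.range k, (σ^[i]) a := rfl

theorem Nm_succ (k : ℕ) (a : A) : Nm σ (k + 1) a = σ (Nm σ k a) * a := by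
  rw [Nm_apply, Nm_apply, Finset.prod_range_succ', map_prod]
  congr 1
  refine Finset.prod_congr rfl fun i _ => ?_
  exact Function.iterate_succ_apply' _ _ _

theorem Nm_iter (k j : ℕ) (a : A) : Nm σ k (σ^[j] a) = σ^[j] (Nm σ k a) := by
  induction j with
  | zero => rfl
  | succ j ih =>
    rw [Function.iterate_succ_apply', Function.iterate_succ_apply', ← ih, Nm_apply, Nm_apply, map_prod]
    refine Finset.prod_congr rfl fun i _ => ?_
    rw [← Function.iterate_succ_apply, ← Function.iterate_succ_apply' σ]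

theorem Nm_add (i j : ℕ) (a : A) : Nm σ (i + j) a = σ^[j] (Nm σ i a) * Nm σ j a := by
  induction i with
  | zero =>
    rw [zero_add]
    have : Nm σ 0 a = 1 := by rw [Nm_apply]; simp
    rw [this, iterate_map_one, one_mul]
  | succ i ih =>
    rw [show i + 1 + j = (i + j) + 1 by ring, Nm_succ, ih, Nm_succ, map_mul, iterate_map_mul,
      ← Function.iterate_succ_apply' σ, Function.iterate_succ_apply]
    have e : σ (Nm σ j a) * a = σ^[j] a * Nm σ j a := by
      rw [← Nm_succ, Nm_apply, Finset.prod_range_succ, mul_comm]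
      rfl
    rw [mul_assoc, e, mul_assoc]

theorem Nm_fixed {b : A} (h : σ b = b) (k : ℕ) : Nm σ k b = b ^ k := by
  rw [Nm_apply, Finset.prod_congr rfl (fun i _ => Function.iterate_fixed h i), Finset.prod_const,
    Finset.card_range]

theorem Nm_comp {τ : A →* A} {k : ℕ} (hτ : ∀ a, τ a = σ^[k] a) (m : ℕ) (a : A) :
    Nm σ k (Nm τ m a) = Nm σ (k * m) a := by
  induction m with
  | zero =>
    rw [mul_zero]
    have h1 : Nm τ 0 a = 1 := by rw [Nm_apply]; simp
    have h2 : Nm σ 0 a = 1 := by rw [Nm_apply]; simp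
    rw [h1, h2, map_one]
  | succ m ih =>
    rw [Nm_succ, map_mul, hτ, Nm_iter, ih, mul_add, mul_one, Nm_add]

end norm

section normgrp

variable {Q : Type u} [Group Q] (A : Subgroup Q) [hAn : A.Normal]

/-- conjugation -/
def sg (h : Q) : A →* A := (MulAut.conjNormal h⁻¹ : MulAut A).toMonoidHom

theorem coe_sg (h : Q) (a : A) : (sg A h a : Q) = h⁻¹ * a * h := by
  change h⁻¹ * (a : Q) * (h⁻¹)⁻¹ = _
  rw [inv_inv]

theorem coe_sg_iter (h : Q) (i : ℕ) (a : A) : (((sg A h)^[i] a : A) : Q) = (h ^ i)⁻¹ * a * h ^ i := by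
  induction i with
  | zero => simp
  | succ i ih =>
    rw [Function.iterate_succ_apply', coe_sg, ih, pow_succ]
    group

theorem norm_main (hA : ∀ a ∈ A, ∀ b ∈ A, a * b = b * a) (h : Q) {M k m k' m' : ℕ} (hM : M = k * m)
    (hM' : M = k' * m') (hcop : k.Coprime k') {n n' : Q} (hnA : n ∈ A) (hnA' : n' ∈ A)
    (hn : (h ^ k * n) ^ m = 1) (hn' : (h ^ k' * n') ^ m' = 1) (hb : h ^ M ∈ A) :
    ∃ c ∈ A, (h * c) ^ M = 1 := by
  letI : CommGroup A :=
    { (inferInstance : Group A) with mul_comm := fun a b => Subtype.ext (hA a a.2 b b.2) }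
  have hpow : ∀ (g : Q) (a : A) (i : ℕ), (g * (a : Q)) ^ i = g ^ i * (Nm (sg A g) i a : A) := by
    intro g a i
    induction i with
    | zero =>
      rw [pow_zero, pow_zero, one_mul, Nm_apply]
      simp
    | succ i ih =>
      rw [pow_succ, ih, Nm_succ, Subgroup.coe_mul, coe_sg, pow_succ]
      group
  set b : A := ⟨h ^ M, hb⟩ with hbdef
  have hσb : sg A h b = b := by
    apply Subtype.ext
    rw [coe_sg, hbdef]
    change h⁻¹ * h ^ M * h = h ^ M
    rw [mul_assoc, ← pow_succ, pow_succ', inv_mul_cancel_left]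
  have key : ∀ (k m : ℕ) (n : Q) (hnA : n ∈ A), M = k * m → (h ^ k * n) ^ m = 1 →
      Nm (sg A h) M ⟨n, hnA⟩ = (b⁻¹) ^ k := by
    intro k m n hnA hM hn
    have h1 := hpow (h ^ k) ⟨n, hnA⟩ m
    change (h ^ k * n) ^ m = _ at h1
    rw [hn, ← pow_mul, ← hM] at h1
    have h2 : Nm (sg A (h ^ k)) m ⟨n, hnA⟩ = b⁻¹ := by
      apply Subtype.ext
      rw [Subgroup.coe_inv, hbdef]
      exact eq_inv_of_mul_eq_one_right h1.symm
    have h3 := Nm_comp (sg A h) (τ := sg A (h ^ k)) (k := k) (fun a => by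
      apply Subtype.ext
      rw [coe_sg, coe_sg_iter]) m ⟨n, hnA⟩
    rw [h2, ← hM] at h3
    rw [← h3]
    exact Nm_fixed _ (by rw [map_inv, hσb]) k
  have h1 := key k m n hnA hM hn
  have h2 := key k' m' n' hnA' hM' hn'
  let c : A := ⟨n, hnA⟩ ^ (Nat.gcdA k k') * ⟨n', hnA'⟩ ^ (Nat.gcdB k k')
  have h3 : Nm (sg A h) M c = b⁻¹ := by
    rw [map_mul, map_zpow, map_zpow, h1, h2, ← zpow_natCast, ← zpow_natCast, ← zpow_mul,
      ← zpow_mul, ← zpow_add, ← Nat.gcd_eq_gcd_ab, hcop.gcd_eq_one]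
    simp
  refine ⟨c, c.2, ?_⟩
  rw [hpow, h3, hbdef, Subgroup.coe_inv]
  exact mul_inv_cancel _

end normgrp

section cyclic

variable {G : Type u} [Group G] [Finite G] {N : Subgroup G} [hN : N.Normal]

/-- A generator `y`, with the orders in `G / N`. -/
theorem exists_gen' (hc : IsCyclic (G ⧸ N)) : ∃ y : G,
    orderOf (y : G ⧸ N) = N.index ∧ (∀ T : Subgroup G, N.relIndex T ∣ N.index ∧
      ∃ g ∈ T, ∃ n ∈ N, g = y ^ (N.index / N.relIndex T) * n) := by
  obtain ⟨q, hq⟩ := hc.exists_generator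
  obtain ⟨y, rfl⟩ := QuotientGroup.mk_surjective q
  have hord : orderOf (y : G ⧸ N) = N.index := by
    rw [Subgroup.index_eq_card, ← Nat.card_zpowers]
    exact (Subgroup.card_eq_iff_eq_top _).2 (eq_top_iff.2 fun z _ => hq z)
  refine ⟨y, hord, fun T => ?_⟩
  have hcard : Nat.card (T.map (QuotientGroup.mk' N)) = N.relIndex T := by
    rw [← Subgroup.relIndex_ker, QuotientGroup.ker_mk']
  have hdvd : N.relIndex T ∣ N.index := by
    rw [← hcard, Subgroup.index_eq_card]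
    exact Subgroup.card_subgroup_dvd_card _
  refine ⟨hdvd, ?_⟩
  have hpos := index_pos N
  have hrpos : 0 < N.relIndex T := Nat.pos_of_dvd_of_pos hdvd hpos
  have hz : Nat.card (Subgroup.zpowers ((y : G ⧸ N) ^ (N.index / N.relIndex T))) =
      N.relIndex T := by
    rw [Nat.card_zpowers, orderOf_pow_of_dvd, hord]
    · exact Nat.div_div_self hdvd hpos.ne'
    · exact (Nat.div_pos (Nat.le_of_dvd hpos hdvd) hrpos).ne'
    · rw [hord]
      exact Nat.div_dvd_of_dvd hdvd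
  have heq := H348.eq_of_card_eq_of_isCyclic hc (hcard.trans hz.symm)
  have hmem : (y : G ⧸ N) ^ (N.index / N.relIndex T) ∈ T.map (QuotientGroup.mk' N) := by
    rw [heq]
    exact Subgroup.mem_zpowers _
  obtain ⟨g, hg, hgy⟩ := hmem
  have h1 : ((y ^ (N.index / N.relIndex T) : G) : G ⧸ N) = (g : G ⧸ N) := by
    rw [QuotientGroup.mk_pow]
    exact hgy.symm
  rw [QuotientGroup.eq] at h1
  exact ⟨g, hg, _, h1, by group⟩

theorem dvd_relIndex {T : Subgroup G} {t : G} (ht : t ∈ T) :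
    orderOf (t : G ⧸ N) ∣ N.relIndex T := by
  have hcard : Nat.card (T.map (QuotientGroup.mk' N)) = N.relIndex T := by
    rw [← Subgroup.relIndex_ker, QuotientGroup.ker_mk']
  rw [← hcard]
  have h1 : (t : G ⧸ N) ∈ T.map (QuotientGroup.mk' N) := ⟨t, ht, rfl⟩
  have h2 := orderOf_dvd_natCard (⟨_, h1⟩ : T.map (QuotientGroup.mk' N))
  rwa [Subgroup.orderOf_mk] at h2

end cyclic

section main

variable {G : Type u} [Group G] [Finite G] {N J : Subgroup G} [hN : N.Normal] [hJ : J.Normal]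
  {x : G} {p : ℕ}

theorem rel_inf (T : Subgroup G) : (N ⊓ T).relIndex N = T.relIndex N := by
  rw [inf_comm, Subgroup.inf_relIndex_right]

theorem HB.conj_pow (h : HB N J x p) (g : G) (j : ℕ) : ∃ k : ℕ, ∃ z ∈ J,
    g * x ^ j * g⁻¹ = x ^ k * z := by
  obtain ⟨k, z, hz, e⟩ := h.xn g
  refine ⟨k * j, ?_⟩
  have h1 : ((g * x ^ j * g⁻¹ : G) : G ⧸ J) = ((x ^ (k * j) : G) : G ⧸ J) := by
    rw [← _root_.conj_pow, e, QuotientGroup.mk_pow, QuotientGroup.mk_mul,
      (QuotientGroup.eq_one_iff z).2 hz, mul_one, pow_mul, QuotientGroup.mk_pow,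
      QuotientGroup.mk_pow, QuotientGroup.mk_pow]
  have h2 := h1.symm
  rw [QuotientGroup.eq] at h2
  exact ⟨_, h2, by group⟩

/-- Powers of `t ∉ N` do not commute with powers of `x` in the action on the characters of a
normal subgroup `K` on which `x` acts without fixed points. -/
theorem HB.noncomm (h : HB N J x p) {K : Subgroup G} [hK : K.Normal]
    (hJK : ∀ j ∈ J, ∀ l : K →* ℂˣ, cl j l = l) (hxK : ∃ l : K →* ℂˣ, cl x l ≠ l) {g : G}
    (hg : g ∉ N) {j : ℕ} (hc : ∀ l : K →* ℂˣ, cl (g * x ^ j) l = cl (x ^ j * g) l) : p ∣ j := by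
  by_contra hj
  obtain ⟨k, z, hz, e⟩ := h.conj_pow g j
  -- `x ^ k` and `x ^ j` act in the same way
  have h1 : ∀ l : K →* ℂˣ, cl (x ^ k) l = cl (x ^ j) l := by
    intro l
    have h2 : cl (g * x ^ j * g⁻¹) l = cl (x ^ j) l := by
      rw [cl_mul, hc, ← cl_mul, mul_inv_cancel_right]
    rw [← h2, e, cl_mul, hJK z hz]
  -- so `p ∣ k - j`
  have h3 : x ^ k = x ^ j := by
    by_contra hne
    obtain ⟨l, hl⟩ := hxK
    apply hl
    -- `x ^ (k - j)` acts trivially and generates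
    have h4 : ∀ l : K →* ℂˣ, cl (x ^ ((k : ℤ) - j)) l = l := by
      intro l
      rw [zpow_sub, zpow_natCast, zpow_natCast, cl_mul, h1, ← cl_mul, mul_inv_cancel, cl_one]
    have h5 : ¬ (p : ℤ) ∣ (k : ℤ) - j := by
      rintro ⟨c, hc⟩
      apply hne
      have h6 : x ^ ((k : ℤ) - j) = 1 := by
        rw [hc, zpow_mul, zpow_natCast, h.xp, one_zpow]
      rw [zpow_sub, zpow_natCast, zpow_natCast, mul_inv_eq_one] at h6
      exact h6
    have h6 : IsCoprime (p : ℤ) ((k : ℤ) - j) :=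
      (Int.isCoprime_iff_gcd_eq_one).2 (by
        have := (Nat.Prime.coprime_iff_not_dvd h.pr).2
          (fun hd : p ∣ ((k : ℤ) - j).natAbs => h5 (Int.natCast_dvd.2 hd))
        exact this)
    obtain ⟨a, b, hab⟩ := h6
    have h7 : x = (x ^ ((k : ℤ) - j)) ^ b := by
      rw [← zpow_mul, mul_comm]
      have h8 : x ^ (a * (p : ℤ)) = 1 := by
        rw [mul_comm, zpow_mul, zpow_natCast, h.xp, one_zpow]
      calc x = x ^ (a * (p : ℤ) + b * ((k : ℤ) - j)) := by rw [hab, zpow_one]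
        _ = x ^ (b * ((k : ℤ) - j)) := by rw [zpow_add, h8, one_mul]
    have h8 : ∀ (w : G), (∀ l : K →* ℂˣ, cl w l = l) → ∀ (i : ℤ) (l : K →* ℂˣ), cl (w ^ i) l = l := by
      intro w hw i l
      let S : Subgroup G :=
        { carrier := {s | ∀ l : K →* ℂˣ, cl s l = l}
          one_mem' := fun l => cl_one l
          mul_mem' := fun {a b} ha hb l => by rw [cl_mul, ha, hb]
          inv_mem' := fun {a} ha l => fix_inv_iff.2 (ha l) }
      exact S.zpow_mem (x := w) hw i l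
    rw [h7]
    exact h8 _ h4 b l
  have h4 : x ^ j * g * (x ^ j)⁻¹ * g⁻¹ ∈ J := by
    have h5 : g * x ^ j * g⁻¹ = x ^ j * z := by rw [e, h3]
    have h6 : x ^ j * g * (x ^ j)⁻¹ * g⁻¹ = x ^ j * (x ^ j * z)⁻¹ := by
      rw [← h5]; group
    rw [h6, mul_inv_rev]
    have h7 := hJ.conj_mem _ (J.inv_mem hz) (x ^ j)
    rwa [← mul_assoc]
  have h5 := h.zl (N.pow_mem h.xN j) hg h4
  obtain ⟨g', hg'⟩ := h.nc
  apply hg'
  obtain ⟨t, ht⟩ := Nat.exists_mul_mod_eq_one_of_coprime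
    ((Nat.Prime.coprime_iff_not_dvd h.pr).2 hj).symm h.pr.one_lt
  have h6 : x = (x ^ j) ^ t := by
    rw [← pow_mul]
    have h7 : j * t ≡ 1 [MOD p] := by rw [Nat.ModEq, ht.2, Nat.mod_eq_of_lt h.pr.one_lt]
    have h8 : j * t ≡ 1 [MOD orderOf x] := h7.of_dvd (orderOf_dvd_of_pow_eq_one h.xp)
    rw [pow_eq_pow_iff_modEq.2 h8, pow_one]
  have h7 : Commute ((x ^ j : G) : G ⧸ J) (g' : G ⧸ J) := by
    have h8 := h5 g'
    rw [← QuotientGroup.eq_one_iff] at h8
    simp only [QuotientGroup.mk_mul, QuotientGroup.mk_inv] at h8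
    rw [mul_inv_eq_one, mul_inv_eq_iff_eq_mul] at h8
    exact h8
  have h8 := h7.pow_left t
  rw [← QuotientGroup.mk_pow, ← h6] at h8
  rw [← QuotientGroup.eq_one_iff]
  simp only [QuotientGroup.mk_mul, QuotientGroup.mk_inv]
  rw [h8.eq]
  group

/-- **Frobenius fixed points**, for `t` with `t ^ M` acting trivially on `Lin K`, `M` the order of
`t N`. -/
theorem HB.frob (h : HB N J x p) {K : Subgroup G} [hK : K.Normal]
    (hJK : ∀ j ∈ J, ∀ l : K →* ℂˣ, cl j l = l) (hxK : ∀ l : K →* ℂˣ, cl x l = l → l = 1)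
    (hK1 : ∃ l : K →* ℂˣ, l ≠ 1) {t : G} {M : ℕ} (hM : orderOf (t : G ⧸ N) = M)
    (ht : ∀ l : K →* ℂˣ, cl (t ^ M) l = l) :
    Nat.card (K →* ℂˣ) = Nat.card {l : K →* ℂˣ // cl t l = l} ^ M := by
  refine frob_fix h.pr (fun l => by rw [h.xp, cl_one]) hxK ht ?_ ?_
  · obtain ⟨k, z, hz, e⟩ := h.xn t
    refine ⟨k, fun l => ?_⟩
    have e1 : t * x = x ^ k * t * (t⁻¹ * z * t) := by
      calc t * x = (t * x * t⁻¹) * t := by group
        _ = x ^ k * z * t := by rw [e]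
        _ = _ := by group
    have hz' : t⁻¹ * z * t ∈ J := by
      have := hJ.conj_mem z hz t⁻¹
      rwa [inv_inv] at this
    rw [e1, cl_mul, hJK _ hz']
  · intro i j hi hc
    obtain ⟨l, hl⟩ := hK1
    refine h.noncomm hJK ⟨l, fun e => hl (hxK l e)⟩ (g := t ^ i) ?_ hc
    intro hmem
    apply hi
    rw [← hM]
    apply orderOf_dvd_of_pow_eq_one
    rw [← QuotientGroup.mk_pow]
    exact (QuotientGroup.eq_one_iff _).2 hmem

theorem exists_fixed_of_card {K : Subgroup G} [K.Normal] {t : G} {M : ℕ}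
    (hK1 : ∃ l : K →* ℂˣ, l ≠ 1)
    (hc : Nat.card (K →* ℂˣ) = Nat.card {l : K →* ℂˣ // cl t l = l} ^ M) :
    ∃ κ : K →* ℂˣ, κ ≠ 1 ∧ cl t κ = κ := by
  by_contra hcon
  push Not at hcon
  haveI := finite_lin K
  have h1 : Nat.card {l : K →* ℂˣ // cl t l = l} = 1 := by
    rw [Nat.card_eq_one_iff_unique]
    refine ⟨⟨fun a b => ?_⟩, ⟨⟨1, cl_hone t⟩⟩⟩
    have key : ∀ a : {l : K →* ℂˣ // cl t l = l}, a.1 = 1 := by
      intro a
      by_contra ha
      exact hcon a.1 ha a.2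
    exact Subtype.ext ((key a).trans (key b).symm)
  rw [h1, one_pow, Nat.card_eq_one_iff_unique] at hc
  obtain ⟨l, hl⟩ := hK1
  exact hl (hc.1.elim l 1)

theorem HB.act_triv (_h : HB N J x p) : ∀ j ∈ J, ∀ l : J →* ℂˣ, cl j l = l :=
  fun j hj l => cl_of_mem hj l

theorem HB.x_fix (h : HB N J x p) : ∀ l : J →* ℂˣ, cl x l = l → l = 1 := by
  intro l hl
  by_contra hne
  exact h.x_not (isIrr_lf l) (lf_ne_one hne) (mem_stab_iff.2 hl)

theorem HB.fixed (h : HB N J x p) {l : J →* ℂˣ} (hl : l ≠ 1) {t : G} {M : ℕ}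
    (hM : orderOf (t : G ⧸ N) = M) (ht : t ^ M ∈ N ⊓ stab (lf l : J → ℂ)) :
    ∃ κ : J →* ℂˣ, κ ≠ 1 ∧ cl t κ = κ :=
  exists_fixed_of_card ⟨l, hl⟩ (h.frob h.act_triv h.x_fix ⟨l, hl⟩ hM (h.fix_all hl ht))

theorem HB.N1_normal (h : HB N J x p) {l : J →* ℂˣ} (hl : l ≠ 1) :
    (N ⊓ stab (lf l : J → ℂ)).Normal :=
  normal_of_central' (le_inf h.JN (le_stab' (isIrr_lf l))) (h.centralL hl)

theorem HB.exists_common (h : HB N J x p) {l l' : J →* ℂˣ} (hl : l ≠ 1) (hl' : l' ≠ 1) :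
    ∃ κ : J →* ℂˣ, κ ≠ 1 ∧ N.relIndex (stab (lf l : J → ℂ)) ∣ N.relIndex (stab (lf κ : J → ℂ)) ∧
      N.relIndex (stab (lf l' : J → ℂ)) ∣ N.relIndex (stab (lf κ : J → ℂ)) := by
  obtain ⟨y, hy, hgen⟩ := exists_gen' h.cyc
  obtain ⟨hmf, g, hg, n, hn, e⟩ := hgen (stab (lf l : J → ℂ))
  obtain ⟨hmf', g', hg', n', hn', e'⟩ := hgen (stab (lf l' : J → ℂ))
  set m := N.relIndex (stab (lf l : J → ℂ)) with hm
  set m' := N.relIndex (stab (lf l' : J → ℂ)) with hm'
  have hfpos := index_pos N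
  have hmpos : 0 < m := Nat.pos_of_dvd_of_pos hmf hfpos
  have hmpos' : 0 < m' := Nat.pos_of_dvd_of_pos hmf' hfpos
  set N1 : Subgroup G := N ⊓ stab (lf l : J → ℂ) with hN1
  haveI : N1.Normal := h.N1_normal hl
  have hJN1 : J ≤ N1 := le_inf h.JN (le_stab' (isIrr_lf l))
  obtain ⟨k, hk⟩ := Nat.gcd_dvd_left m m'
  obtain ⟨k', hk'⟩ := Nat.gcd_dvd_right m m'
  have hdpos : 0 < m.gcd m' := Nat.gcd_pos_of_pos_left _ hmpos
  have hcop : k'.Coprime k := by
    have := Nat.coprime_div_gcd_div_gcd hdpos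
    have e1 : m / m.gcd m' = k := Nat.div_eq_of_eq_mul_right hdpos hk
    have e2 : m' / m.gcd m' = k' := Nat.div_eq_of_eq_mul_right hdpos hk'
    rw [e1, e2] at this
    exact this.symm
  set M := m * k' with hMdef
  have hM1 : M = k' * m := by rw [hMdef]; ring
  have hM2 : M = k * m' := by
    have e1 : m * k' = (m.gcd m' * k) * k' := congrArg (· * k') hk
    have e2 : k * m' = k * (m.gcd m' * k') := congrArg (k * ·) hk'
    rw [hMdef, e1, e2]
    ring
  have hMf : M ∣ N.index := by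
    have h1 : Nat.lcm m m' ∣ N.index := Nat.lcm_dvd hmf hmf'
    have h2 : Nat.lcm m m' = M := by
      have h3 := Nat.gcd_mul_lcm m m'
      have h4 : m.gcd m' * M = m * m' := by
        rw [hMdef]
        conv_rhs => rw [hk']
        ring
      exact Nat.eq_of_mul_eq_mul_left hdpos (h3.trans h4.symm)
    rwa [h2] at h1
  obtain ⟨e0, he0⟩ := hMf
  have hMpos : 0 < M := Nat.pos_of_dvd_of_pos ⟨e0, he0⟩ hfpos
  have he0pos : 0 < e0 := Nat.pos_of_mul_pos_left (a := M) (by rw [← he0]; exact hfpos)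
  have hd1 : N.index / m = e0 * k' := by
    rw [he0, hM1]
    rw [show k' * m * e0 = (e0 * k') * m by ring]
    exact Nat.mul_div_cancel _ hmpos
  have hd2 : N.index / m' = e0 * k := by
    rw [he0, hM2]
    rw [show k * m' * e0 = (e0 * k) * m' by ring]
    exact Nat.mul_div_cancel _ hmpos'
  let ρ := QuotientGroup.mk' N1
  have hρ : Function.Surjective ρ := QuotientGroup.mk'_surjective N1
  haveI : (N.map ρ).Normal := Subgroup.Normal.map hN ρ hρ
  have hyf : y ^ N.index ∈ N := Subgroup.pow_index_mem N y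
  have hpowN : ∀ (s n₀ : G) (a b : ℕ), n₀ ∈ N → s = y ^ a * n₀ → N.index ∣ a * b → s ^ b ∈ N := by
    intro s n₀ a b hn₀ hs hab
    rw [← QuotientGroup.eq_one_iff, QuotientGroup.mk_pow, hs, QuotientGroup.mk_mul,
      (QuotientGroup.eq_one_iff n₀).2 hn₀, mul_one, QuotientGroup.mk_pow, ← pow_mul]
    apply orderOf_dvd_iff_pow_eq_one.1
    rw [hy]
    exact hab
  obtain ⟨_, ⟨c, hc, rfl⟩, hcM⟩ := norm_main (N.map ρ) (by
      rintro _ ⟨a, ha, rfl⟩ _ ⟨b, hb, rfl⟩
      have h1 := hJN1 (h.ab (Subgroup.commutator_mem_commutator ha hb))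
      rw [← QuotientGroup.eq_one_iff] at h1
      change ρ ⁅a, b⁆ = 1 at h1
      rw [map_commutatorElement, commutatorElement_eq_one_iff_mul_comm] at h1
      exact h1) (ρ (y ^ e0)) hM1 hM2 hcop (n := ρ n) (n' := ρ n') ⟨n, hn, rfl⟩ ⟨n', hn', rfl⟩ (by
      rw [← map_pow, ← map_mul, ← pow_mul, ← hd1, ← e, ← map_pow]
      refine (QuotientGroup.eq_one_iff _).2 ⟨?_, (stab (lf l : J → ℂ)).pow_mem hg m⟩
      exact hpowN g n _ m hn e (by rw [Nat.div_mul_cancel hmf])) (by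
      rw [← map_pow, ← map_mul, ← pow_mul, ← hd2, ← e', ← map_pow]
      refine (QuotientGroup.eq_one_iff _).2 (h.TL_le hl' hl ⟨?_, (stab (lf l' : J → ℂ)).pow_mem hg' m'⟩)
      exact hpowN g' n' _ m' hn' e' (by rw [Nat.div_mul_cancel hmf'])) (by
      refine ⟨y ^ N.index, hyf, ?_⟩
      rw [he0, mul_comm M e0, pow_mul, map_pow])
  rw [← map_mul, ← map_pow] at hcM
  have ht : (y ^ e0 * c) ^ M ∈ N1 := (QuotientGroup.eq_one_iff _).1 hcM
  have hord : orderOf ((y ^ e0 * c : G) : G ⧸ N) = M := by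
    rw [QuotientGroup.mk_mul, (QuotientGroup.eq_one_iff c).2 hc, mul_one, QuotientGroup.mk_pow,
      orderOf_pow_of_dvd he0pos.ne' (by rw [hy]; exact ⟨M, by rw [he0]; ring⟩), hy, he0]
    exact Nat.mul_div_cancel _ he0pos
  obtain ⟨κ, hκ, hκ'⟩ := h.fixed hl hord ht
  have h1 := dvd_relIndex (N := N) (mem_stab_iff.2 hκ')
  rw [hord] at h1
  exact ⟨κ, hκ, (Dvd.intro_left _ hM1.symm).trans h1, (Dvd.intro_left _ hM2.symm).trans h1⟩

/-- **All degrees over nontrivial linear characters of `J` coincide.** -/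
theorem HB.index_eq (h : HB N J x p) {l l' : J →* ℂˣ} (hl : l ≠ 1) (hl' : l' ≠ 1) :
    (stab (lf l : J → ℂ)).index = (stab (lf l' : J → ℂ)).index := by
  obtain ⟨κ, hκ, h1, h2⟩ := h.exists_common hl hl'
  have key : ∀ m : J →* ℂˣ, m ≠ 1 → N.relIndex (stab (lf m : J → ℂ)) ∣
      N.relIndex (stab (lf κ : J → ℂ)) →
      (stab (lf κ : J → ℂ)).index = (stab (lf m : J → ℂ)).index := by
    intro m hm hd
    refine h.index_eq_of_dvd hκ hm ?_
    have e1 := index_mul (N := N) (stab (lf m : J → ℂ))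
    have e2 := index_mul (N := N) (stab (lf κ : J → ℂ))
    have e3 : (stab (lf m : J → ℂ)).relIndex N = (stab (lf κ : J → ℂ)).relIndex N := by
      rw [← rel_inf, ← rel_inf (stab (lf κ : J → ℂ)), h.TL_eq hm hκ]
    rw [e3, ← e2] at e1
    obtain ⟨c, hc⟩ := hd
    rw [hc] at e1
    have hpos : 0 < N.relIndex (stab (lf m : J → ℂ)) :=
      Nat.pos_of_ne_zero Subgroup.index_ne_zero_of_finite
    refine ⟨c, ?_⟩
    refine Nat.eq_of_mul_eq_mul_right hpos ?_
    rw [e1]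
    ring
  rw [← key l hl h1, ← key l' hl' h2]

/-- The index of `stab l` relative to `N` (the order of its image). -/
theorem HB.rel_eq (h : HB N J x p) {l l' : J →* ℂˣ} (hl : l ≠ 1) (hl' : l' ≠ 1) :
    N.relIndex (stab (lf l : J → ℂ)) = N.relIndex (stab (lf l' : J → ℂ)) := by
  have e1 := index_mul (N := N) (stab (lf l : J → ℂ))
  have e2 := index_mul (N := N) (stab (lf l' : J → ℂ))
  have e3 : (stab (lf l : J → ℂ)).relIndex N = (stab (lf l' : J → ℂ)).relIndex N := by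
    rw [← rel_inf, ← rel_inf (stab (lf l' : J → ℂ)), h.TL_eq hl hl']
  rw [e3, ← e2, h.index_eq hl hl'] at e1
  exact Nat.eq_of_mul_eq_mul_left (index_pos _) e1

end main

end Cfsg.Agent.H675.Nd
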