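import Mathlib
import Cfsg.Agent.H675.Nd.HB3

/-!
# `J` is abelian: the count
-/

set_option autoImplicit false
set_option linter.style.haveILetI false
set_option linter.unusedSectionVars false
open Cfsg

namespace Cfsg.Agent.H675.Nd

open Cfsg.Agent.Characters.Core Cfsg.Agent.Characters.Clifford Cfsg.Agent.H672 Cfsg.Agent.H672.RM
open Cfsg.Agent.H597.FrobA
open scoped commutatorElement

universe u v w

/-- The arithmetic of the count. -/
theorem arith {r m g a b : ℕ} (hr : r.Prime) (hb : b ≠ 0) (hab : b < a) (hg : g ∣ m)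
    (hgm : g < m) (hle : ((r ^ a) ^ m - 1) * (r ^ b - 1) ≤ g * (r ^ a - 1) * ((r ^ b) ^ m - 1)) :
    False := by
  set L : ℤ := (r : ℤ) ^ a with hL
  set K : ℤ := (r : ℤ) ^ b with hK
  have hr2 : (2 : ℤ) ≤ r := by exact_mod_cast hr.two_le
  have hK2 : 2 ≤ K := by
    have h1 : (r : ℤ) ^ 1 ≤ (r : ℤ) ^ b := pow_le_pow_right₀ (by omega) (by omega)
    rw [pow_one] at h1
    omega
  have hLK : 2 * K ≤ L := by
    have h1 : (r : ℤ) ^ (b + 1) ≤ (r : ℤ) ^ a := pow_le_pow_right₀ (by omega) (by omega)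
    have h2 : (r : ℤ) ^ (b + 1) = r * K := by rw [pow_succ, hK]; ring
    rw [h2] at h1
    nlinarith
  have hm2 : 2 * g ≤ m := by
    obtain ⟨c, rfl⟩ := hg
    have hc : c ≠ 0 := by rintro rfl; omega
    have hc1 : c ≠ 1 := by rintro rfl; omega
    have : 2 ≤ c := by omega
    nlinarith
  have hle' : (L ^ m - 1) * (K - 1) ≤ g * (L - 1) * (K ^ m - 1) := by
    have h1 : 1 ≤ (r ^ a) ^ m := Nat.one_le_pow _ _ (pow_pos hr.pos a)
    have h2 : 1 ≤ r ^ b := Nat.one_le_pow _ _ hr.pos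
    have h3 : 1 ≤ r ^ a := Nat.one_le_pow _ _ hr.pos
    have h4 : 1 ≤ (r ^ b) ^ m := Nat.one_le_pow _ _ (pow_pos hr.pos b)
    have h5 : ((((r ^ a) ^ m - 1) * (r ^ b - 1) : ℕ) : ℤ) ≤
        ((g * (r ^ a - 1) * ((r ^ b) ^ m - 1) : ℕ) : ℤ) := by exact_mod_cast hle
    rw [Nat.cast_mul, Nat.cast_mul, Nat.cast_mul, Nat.cast_sub h1, Nat.cast_sub h2,
      Nat.cast_sub h3, Nat.cast_sub h4] at h5
    push_cast at h5
    exact h5
  have hSL := geom_sum_mul L m
  have hSK := geom_sum_mul K m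
  set SL : ℤ := ∑ i ∈ Finset.range m, L ^ i with hSLd
  set SK : ℤ := ∑ i ∈ Finset.range m, K ^ i with hSKd
  have h1 : SL ≤ g * SK := by
    have h2 : SL * ((L - 1) * (K - 1)) ≤ (g * SK) * ((L - 1) * (K - 1)) := by
      calc SL * ((L - 1) * (K - 1)) = (SL * (L - 1)) * (K - 1) := by ring
        _ = (L ^ m - 1) * (K - 1) := by rw [hSL]
        _ ≤ g * (L - 1) * (K ^ m - 1) := hle'
        _ = g * (L - 1) * (SK * (K - 1)) := by rw [hSK]
        _ = (g * SK) * ((L - 1) * (K - 1)) := by ring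
    have h3 : 0 < (L - 1) * (K - 1) := mul_pos (by omega) (by omega)
    exact le_of_mul_le_mul_right h2 h3
  have hm1 : m ≠ 0 := by omega
  obtain ⟨m', rfl⟩ := Nat.exists_eq_succ_of_ne_zero hm1
  have h2 : L ^ m' ≤ SL := by
    rw [hSLd, Finset.sum_range_succ]
    have : 0 ≤ ∑ i ∈ Finset.range m', L ^ i := Finset.sum_nonneg fun i _ => by positivity
    omega
  have h3 : SK < 2 * K ^ m' := by
    have h4 : SK * (K - 1) = K ^ (m' + 1) - 1 := hSK
    have h5 : K ^ (m' + 1) = K ^ m' * K := pow_succ K m'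
    have h6 : 0 < K ^ m' := by positivity
    rw [h5] at h4
    by_contra hcon
    push Not at hcon
    have h7 : 2 * K ^ m' * (K - 1) ≤ SK * (K - 1) :=
      mul_le_mul_of_nonneg_right hcon (by omega)
    nlinarith
  have h4 : (2 * K) ^ m' ≤ L ^ m' := pow_le_pow_left₀ (by omega) hLK m'
  rw [mul_pow] at h4
  have h5 : ((m' + 1 : ℕ) : ℤ) ≤ 2 ^ m' := by
    have : m' + 1 ≤ 2 ^ m' := Nat.lt_two_pow_self
    exact_mod_cast this
  have h6 : 0 < K ^ m' := by positivity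
  have h7 : (2 * g : ℤ) ≤ ((m' + 1 : ℕ) : ℤ) := by exact_mod_cast hm2
  have hg0 : (0 : ℤ) ≤ g := by positivity
  have h8 : (g : ℤ) * SK ≤ g * (2 * K ^ m') := mul_le_mul_of_nonneg_left h3.le hg0
  have h9 : (g : ℤ) * (2 * K ^ m') ≤ ((m' + 1 : ℕ) : ℤ) * K ^ m' := by nlinarith
  have h10 : ((m' + 1 : ℕ) : ℤ) * K ^ m' ≤ 2 ^ m' * K ^ m' :=
    mul_le_mul_of_nonneg_right h5 h6.le
  have hgpos : 0 < g := by
    rcases Nat.eq_zero_or_pos g with h0 | h0
    · rw [h0] at hg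
      exact absurd (Nat.eq_zero_of_zero_dvd hg) (Nat.succ_ne_zero m')
    · exact h0
  have h11 : (g : ℤ) * SK < g * (2 * K ^ m') := by
    have : (0 : ℤ) < g := by exact_mod_cast hgpos
    nlinarith
  omega

theorem card_pow_le {R : Type u} [Group R] [Fintype R] [DecidableEq R] (hc : IsCyclic R) (m : ℕ) :
    (Finset.univ.filter fun a : R => a ^ m = 1).card ≤ Nat.gcd m (Nat.card R) := by
  have hpos : 0 < Nat.gcd m (Nat.card R) := Nat.gcd_pos_of_pos_right _ Nat.card_pos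
  refine le_trans (Finset.card_le_card ?_) (IsCyclic.card_pow_eq_one_le (α := R) hpos)
  intro a ha
  rw [Finset.mem_filter] at ha ⊢
  exact ⟨Finset.mem_univ _, pow_gcd_eq_one.2 ⟨ha.2, pow_card_eq_one'⟩⟩

/-- Roots in `N₂ / N₁`, acting semiregularly. -/
theorem count_abs {G : Type u} {V : Type v} [Group G] [Finite G] [CommGroup V] [Finite V]
    [Nontrivial V] [MulDistribMulAction G V] {N1 N2 : Subgroup G} (_hle : N1 ≤ N2)
    (h1 : ∀ g ∈ N2, g ∉ N1 → ∀ v : V, g • v = v → v = 1)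
    (h2 : ∀ g ∈ N1, ∀ v : V, g • v = v)
    (h3 : ∀ a ∈ N2, ∀ b ∈ N2, ∀ v : V, (a * b) • v = (b * a) • v) (m : ℕ) :
    Nat.card {w : G // w ∈ N2 ∧ w ^ m ∈ N1} ≤ Nat.gcd m (N1.relIndex N2) * Nat.card N1 := by
  classical
  letI := Fintype.ofFinite G
  let ρ := MulDistribMulAction.toMulAut G V
  have hρ : ∀ (g : G) (v : V), ρ g v = g • v := fun _ _ => rfl
  have hρ1 : ∀ g ∈ N2, ρ g = 1 ↔ g ∈ N1 := by
    intro g hg
    constructor
    · intro e
      by_contra hg1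
      obtain ⟨v, hv⟩ := exists_ne (1 : V)
      exact hv (h1 g hg hg1 v (DFunLike.congr_fun e v))
    · intro hg1
      apply MulEquiv.ext
      intro v
      exact h2 g hg1 v
  haveI : Finite (MulAut V) := inferInstance
  let R : Subgroup (MulAut V) := N2.map ρ
  have hcomm : ∀ a b : R, a * b = b * a := by
    rintro ⟨_, a, ha, rfl⟩ ⟨_, b, hb, rfl⟩
    apply Subtype.ext
    change ρ a * ρ b = ρ b * ρ a
    rw [← map_mul, ← map_mul]
    apply MulEquiv.ext
    intro v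
    exact h3 a ha b hb v
  have hR : H348.HasFPF R := by
    refine hasFPF_of V R.subtype ?_
    rintro ⟨_, a, ha, rfl⟩ hne v hv
    by_contra hv1
    apply hne
    apply Subtype.ext
    change ρ a = 1
    rw [hρ1 a ha]
    by_contra ha1
    exact hv1 (h1 a ha ha1 v hv)
  have hcyc : IsCyclic R := hR.isCyclic hcomm
  have hcardR : Nat.card R = N1.relIndex N2 := by
    have h1 : ρ.ker.relIndex N2 = N1.relIndex N2 := by
      rw [← Subgroup.inf_relIndex_right ρ.ker N2, ← Subgroup.inf_relIndex_right N1 N2]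
      have e : ρ.ker ⊓ N2 = N1 ⊓ N2 := by
        ext g
        rw [Subgroup.mem_inf, Subgroup.mem_inf, MonoidHom.mem_ker]
        exact and_congr_left fun hg => hρ1 g hg
      rw [e]
    rw [← h1, Subgroup.relIndex_ker]
  letI := Fintype.ofFinite R
  have key := card_pow_le hcyc m
  rw [hcardR] at key
  have e1 : Nat.card {w : G // w ∈ N2 ∧ w ^ m ∈ N1} =
      (Finset.univ.filter fun w : G => w ∈ N2 ∧ w ^ m ∈ N1).card := by
    rw [Nat.card_eq_fintype_card, Fintype.card_subtype]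
  have e2 : Nat.card N1 = (Finset.univ.filter fun w : G => w ∈ N1).card := by
    rw [Nat.card_eq_fintype_card, ← Fintype.card_subtype]
  rw [e1, mul_comm]
  refine le_trans ?_ (Nat.mul_le_mul_left (Nat.card N1) key)
  let f : G → R := fun w => if hw : w ∈ N2 then ⟨ρ w, w, hw, rfl⟩ else 1
  have hf : ∀ w (hw : w ∈ N2), f w = ⟨ρ w, w, hw, rfl⟩ := fun w hw => dif_pos hw
  refine Finset.card_le_mul_card_image_of_maps_to (f := f) ?_ _ ?_
  · intro w hw
    rw [Finset.mem_filter] at hw ⊢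
    refine ⟨Finset.mem_univ _, ?_⟩
    rw [hf w hw.2.1]
    apply Subtype.ext
    change (ρ w) ^ m = 1
    rw [← map_pow, hρ1 _ (N2.pow_mem hw.2.1 m)]
    exact hw.2.2
  · intro b _
    by_cases hne : ((Finset.univ.filter fun w : G => w ∈ N2 ∧ w ^ m ∈ N1).filter
        fun a => f a = b).Nonempty
    · obtain ⟨w₀, hw₀⟩ := hne
      rw [Finset.mem_filter, Finset.mem_filter] at hw₀
      obtain ⟨⟨-, hw₀2, -⟩, hw₀b⟩ := hw₀
      rw [e2]
      refine Finset.card_le_card_of_injOn (fun w => w₀⁻¹ * w) ?_ ?_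
      · intro w hw
        rw [Finset.mem_coe, Finset.mem_filter, Finset.mem_filter] at hw
        obtain ⟨⟨-, hw2, -⟩, hwb⟩ := hw
        rw [Finset.mem_coe, Finset.mem_filter]
        refine ⟨Finset.mem_univ _, ?_⟩
        have h2 : w₀⁻¹ * w ∈ N2 := N2.mul_mem (N2.inv_mem hw₀2) hw2
        rw [← hρ1 _ h2, map_mul, map_inv]
        rw [hf w hw2, ← hw₀b, hf w₀ hw₀2] at hwb
        have h3 : ρ w = ρ w₀ := congrArg Subtype.val hwb
        rw [h3, inv_mul_cancel]
      · intro a _ b _ hab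
        exact mul_left_cancel hab
    · rw [Finset.not_nonempty_iff_eq_empty] at hne
      rw [hne, Finset.card_empty]
      exact Nat.zero_le _

variable {G : Type u} [Group G] [Finite G] {N J : Subgroup G} {x : G} {p : ℕ} [hN : N.Normal]
  [hJn : J.Normal]

theorem HB.count_le (h : HB N J x p) {l : J →* ℂˣ} (hl : l ≠ 1) {N2 : Subgroup G} (hN2 : N2 ≤ N)
    (hle : N ⊓ stab (lf l : J → ℂ) ≤ N2) (m : ℕ) :
    Nat.card {w : G // w ∈ N2 ∧ w ^ m ∈ N ⊓ stab (lf l : J → ℂ)} ≤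
      Nat.gcd m ((N ⊓ stab (lf l : J → ℂ)).relIndex N2) *
        Nat.card (N ⊓ stab (lf l : J → ℂ) : Subgroup G) := by
  haveI := finite_lin J
  letI := clDist J
  haveI : Nontrivial (J →* ℂˣ) := ⟨⟨l, 1, hl⟩⟩
  refine count_abs (V := J →* ℂˣ) hle ?_ ?_ ?_ m
  · intro g hg hg1 v hv
    by_contra hv1
    apply hg1
    rw [h.TL_eq hl hv1]
    exact ⟨hN2 hg, mem_stab_iff.2 (fix_inv_iff.1 hv)⟩
  · intro g hg v
    exact fix_inv_iff.2 (h.fix_all hl hg v)
  · intro a ha b hb v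
    change cl (a * b)⁻¹ v = cl (b * a)⁻¹ v
    rw [mul_inv_rev, mul_inv_rev]
    have h1 : ⁅b⁻¹, a⁻¹⁆ ∈ J := h.ab (Subgroup.commutator_mem_commutator (N.inv_mem (hN2 hb))
      (N.inv_mem (hN2 ha)))
    rw [commutatorElement_def] at h1
    exact cl_comm_of h1 v

/-- Double counting. -/
theorem dcount {A B : Type*} [Fintype A] [Fintype B] [DecidableEq A] [DecidableEq B]
    (s : Finset A) (t : Finset B) (R : A → B → Prop) [∀ a b, Decidable (R a b)] :
    ∑ a ∈ s, (t.filter fun b => R a b).card = ∑ b ∈ t, (s.filter fun a => R a b).card :=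
  Finset.sum_card_bipartiteAbove_eq_sum_card_bipartiteBelow R

theorem card_ne_one (K : Type u) [Group K] [Finite K] [Fintype (K →* ℂˣ)]
    [DecidableEq (K →* ℂˣ)] :
    (Finset.univ.filter fun l : K →* ℂˣ => l ≠ 1).card = Nat.card (K →* ℂˣ) - 1 := by
  rw [Finset.filter_ne' Finset.univ (1 : K →* ℂˣ), Finset.card_erase_of_mem (Finset.mem_univ _),
    Finset.card_univ, Nat.card_eq_fintype_card]

theorem card_fixed_ne_one {K : Subgroup G} [K.Normal] [Fintype (K →* ℂˣ)]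
    [DecidableEq (K →* ℂˣ)] (t : G) [DecidablePred fun l : K →* ℂˣ => cl t l = l] :
    ((Finset.univ.filter fun l : K →* ℂˣ => l ≠ 1).filter fun l => cl t l = l).card =
      Nat.card {l : K →* ℂˣ // cl t l = l} - 1 := by
  have e : (Finset.univ.filter fun l : K →* ℂˣ => l ≠ 1).filter (fun l => cl t l = l) =
      (Finset.univ.filter fun l : K →* ℂˣ => cl t l = l).erase 1 := by
    ext l
    simp only [Finset.mem_filter, Finset.mem_erase, Finset.mem_univ, true_and]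
  rw [e, Finset.card_erase_of_mem (by simp [cl_hone]), Nat.card_eq_fintype_card,
    Fintype.card_subtype]

theorem MB.false (h : MB N J x p) : False := by
  classical
  obtain ⟨r, hr, hJr⟩ := h.isPGroup
  haveI := Fact.mk hr
  obtain ⟨l₀, hl₀⟩ := h.exists_lin
  obtain ⟨z, hz, hz1⟩ : ∃ z ∈ ⁅J, J⁆, z ≠ 1 := by
    by_contra hcon
    push Not at hcon
    exact h.hne (by rw [eq_bot_iff]; exact fun z hz => Subgroup.mem_bot.2 (hcon z hz))
  obtain ⟨γ₀, -, hγ₀'⟩ := exists_lin_ne (x := (⟨z, hz⟩ : (⁅J, J⁆ : Subgroup G))) bot_le h.GG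
    (by rw [Subgroup.mem_bot]; exact hz1)
  have hγ₀ : γ₀ ≠ 1 := fun e => hγ₀' (by rw [e]; rfl)
  haveI := finite_lin J
  haveI := finite_lin (⁅J, J⁆ : Subgroup G)
  letI := Fintype.ofFinite G
  letI := Fintype.ofFinite (J →* ℂˣ)
  letI := Fintype.ofFinite ((⁅J, J⁆ : Subgroup G) →* ℂˣ)
  set N1 : Subgroup G := N ⊓ stab (lf l₀ : J → ℂ) with hN1
  set N2 : Subgroup G := N ⊓ stab (lf γ₀ : (⁅J, J⁆ : Subgroup G) → ℂ) with hN2
  have hN12 : N1 ≤ N2 := h.N1_le hl₀ γ₀
  set m := N.relIndex (stab (lf l₀ : J → ℂ)) with hm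
  have hmall : ∀ l : J →* ℂˣ, l ≠ 1 → N.relIndex (stab (lf l : J → ℂ)) = m :=
    fun l hl => h.hyp.rel_eq hl hl₀
  obtain ⟨y, hy, hgen⟩ := exists_gen' h.hyp.cyc
  have hfpos := index_pos N
  have hmf : m ∣ N.index := (hgen _).1
  have hmpos : 0 < m := Nat.pos_of_dvd_of_pos hmf hfpos
  have hqpos : 0 < N.index / m := Nat.div_pos (Nat.le_of_dvd hfpos hmf) hmpos
  set h0 : G := y ^ (N.index / m) with hh0
  have hord0 : orderOf ((h0 : G) : G ⧸ N) = m := by
    rw [hh0, QuotientGroup.mk_pow, orderOf_pow_of_dvd hqpos.ne'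
      (by rw [hy]; exact Nat.div_dvd_of_dvd hmf), hy]
    exact Nat.div_div_self hmf hfpos.ne'
  have hJJ : ∀ j ∈ J, ∀ γ : (⁅J, J⁆ : Subgroup G) →* ℂˣ, cl j γ = γ := fun j hj γ =>
    mem_stab_iff.1 (c2_J_le_stab h.central' γ hj)
  have hxJ : ∀ γ : (⁅J, J⁆ : Subgroup G) →* ℂˣ, cl x γ = γ → γ = 1 := by
    intro γ hγ
    by_contra hne
    obtain ⟨g, hg⟩ := h.hyp.nc
    exact hg (h.centralG hne x ⟨h.hyp.xN, mem_stab_iff.2 hγ⟩ g)
  -- the two sets
  let A1 : Finset G := Finset.univ.filter fun t => (t : G ⧸ N) = (h0 : G ⧸ N) ∧ t ^ m ∈ N1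
  let A2 : Finset G := Finset.univ.filter fun t => (t : G ⧸ N) = (h0 : G ⧸ N) ∧ t ^ m ∈ N2
  have hA1 : ∀ t, t ∈ A1 ↔ (t : G ⧸ N) = (h0 : G ⧸ N) ∧ t ^ m ∈ N1 := fun t => by
    simp [A1]
  have hA2 : ∀ t, t ∈ A2 ↔ (t : G ⧸ N) = (h0 : G ⧸ N) ∧ t ^ m ∈ N2 := fun t => by
    simp [A2]
  have e1 : Nat.card N1 = (Finset.univ.filter fun w : G => w ∈ N1).card := by
    rw [Nat.card_eq_fintype_card, ← Fintype.card_subtype]
  have e2 : Nat.card N2 = (Finset.univ.filter fun w : G => w ∈ N2).card := by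
    rw [Nat.card_eq_fintype_card, ← Fintype.card_subtype]
  obtain ⟨⟨a, ha0, ha⟩, hsub⟩ := card_lin_pow hr hJr ⟨l₀, hl₀⟩
  have hΓr : IsPGroup r (⁅J, J⁆ : Subgroup G) := hJr.to_le (comm_le J)
  obtain ⟨⟨a', ha0', ha'⟩, hsub'⟩ := card_lin_pow hr hΓr ⟨γ₀, hγ₀⟩
  -- fixed points of `t ∈ A1` on `Lin J`
  have hL : ∀ t ∈ A1, Nat.card (J →* ℂˣ) = Nat.card {l : J →* ℂˣ // cl t l = l} ^ m := by
    intro t ht
    obtain ⟨ht1, ht2⟩ := (hA1 t).1 ht
    exact h.hyp.frob h.hyp.act_triv h.hyp.x_fix ⟨l₀, hl₀⟩ (by rw [ht1]; exact hord0)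
      (h.hyp.fix_all hl₀ ht2)
  have hK : ∀ t ∈ A2, Nat.card ((⁅J, J⁆ : Subgroup G) →* ℂˣ) =
      Nat.card {γ : (⁅J, J⁆ : Subgroup G) →* ℂˣ // cl t γ = γ} ^ m := by
    intro t ht
    obtain ⟨ht1, ht2⟩ := (hA2 t).1 ht
    exact h.hyp.frob hJJ hxJ ⟨γ₀, hγ₀⟩ (by rw [ht1]; exact hord0)
      (fun γ => mem_stab_iff.1 (h.TG_le (γ' := γ) hγ₀ ht2).2)
  -- elements of `A1`
  have hl_elt : ∀ l : J →* ℂˣ, l ≠ 1 →
      (A1.filter fun t => cl t l = l).card = Nat.card N1 := by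
    intro l hl
    obtain ⟨-, g, hg, n, hn, e⟩ := hgen (stab (lf l : J → ℂ))
    rw [hmall l hl] at e
    have hg' : (g : G ⧸ N) = (h0 : G ⧸ N) := by
      rw [e, QuotientGroup.mk_mul, (QuotientGroup.eq_one_iff n).2 hn, mul_one]
    rw [e1]
    symm
    refine Finset.card_bij (fun w _ => g * w) ?_ ?_ ?_
    · intro w hw
      rw [Finset.mem_filter] at hw
      have hw1 : w ∈ N ⊓ stab (lf l : J → ℂ) := h.hyp.TL_le hl₀ hl hw.2
      have hgw : g * w ∈ stab (lf l : J → ℂ) := (stab (lf l : J → ℂ)).mul_mem hg hw1.2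
      have hgwN : ((g * w : G) : G ⧸ N) = (h0 : G ⧸ N) := by
        rw [QuotientGroup.mk_mul, (QuotientGroup.eq_one_iff w).2 hw1.1, mul_one, hg']
      rw [Finset.mem_filter, hA1]
      refine ⟨⟨hgwN, ?_⟩, mem_stab_iff.1 hgw⟩
      refine h.hyp.TL_le hl hl₀ ⟨?_, (stab (lf l : J → ℂ)).pow_mem hgw m⟩
      change (g * w) ^ m ∈ N
      rw [← QuotientGroup.eq_one_iff, QuotientGroup.mk_pow, hgwN, ← hord0]
      exact pow_orderOf_eq_one _
    · intro a _ b _ hab
      exact mul_left_cancel hab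
    · intro t ht
      rw [Finset.mem_filter, hA1] at ht
      refine ⟨g⁻¹ * t, ?_, by group⟩
      rw [Finset.mem_filter]
      refine ⟨Finset.mem_univ _, h.hyp.TL_le hl hl₀ ⟨?_, ?_⟩⟩
      · exact QuotientGroup.eq.1 (hg'.trans ht.1.1.symm)
      · exact (stab (lf l : J → ℂ)).mul_mem ((stab (lf l : J → ℂ)).inv_mem hg)
          (mem_stab_iff.2 ht.2)
  have hγ_elt : ∀ γ : (⁅J, J⁆ : Subgroup G) →* ℂˣ, γ ≠ 1 →
      (A2.filter fun t => cl t γ = γ).card ≤ Nat.card N2 := by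
    intro γ hγ
    by_cases hne : (A2.filter fun t => cl t γ = γ).Nonempty
    · obtain ⟨t₀, ht₀⟩ := hne
      rw [Finset.mem_filter, hA2] at ht₀
      rw [e2]
      refine Finset.card_le_card_of_injOn (fun t => t₀⁻¹ * t) ?_ (fun a _ b _ hab =>
        mul_left_cancel hab)
      intro t ht
      rw [Finset.mem_coe, Finset.mem_filter, hA2] at ht
      rw [Finset.mem_coe, Finset.mem_filter]
      refine ⟨Finset.mem_univ _, h.TG_le hγ ⟨?_, ?_⟩⟩
      · exact QuotientGroup.eq.1 (ht₀.1.1.trans ht.1.1.symm)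
      · exact (stab (lf γ : (⁅J, J⁆ : Subgroup G) → ℂ)).mul_mem
          ((stab (lf γ : (⁅J, J⁆ : Subgroup G) → ℂ)).inv_mem (mem_stab_iff.2 ht₀.2))
          (mem_stab_iff.2 ht.2)
    · rw [Finset.not_nonempty_iff_eq_empty] at hne
      rw [hne, Finset.card_empty]
      exact Nat.zero_le _
  -- an element of `A1`
  obtain ⟨t₀, ht₀⟩ : A1.Nonempty := by
    have h1 := hl_elt l₀ hl₀
    have h2 : 0 < Nat.card N1 := Nat.card_pos
    rw [← h1, Finset.card_pos] at h2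
    obtain ⟨t, ht⟩ := h2
    exact ⟨t, (Finset.mem_filter.1 ht).1⟩
  have ht₀2 : t₀ ∈ A2 := (hA2 t₀).2 ⟨((hA1 t₀).1 ht₀).1, hN12 ((hA1 t₀).1 ht₀).2⟩
  -- the numbers `L` and `K`
  let FL (t : G) : Subgroup (J →* ℂˣ) :=
    { carrier := {l | cl t l = l}
      one_mem' := cl_hone t
      mul_mem' := fun {a b} ha hb => by
        change cl t (a * b) = a * b
        rw [cl_hmul, ha, hb]
      inv_mem' := fun {a} ha => by
        change cl t a⁻¹ = a⁻¹
        rw [cl_hinv, ha] }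
  let FK (t : G) : Subgroup ((⁅J, J⁆ : Subgroup G) →* ℂˣ) :=
    { carrier := {l | cl t l = l}
      one_mem' := cl_hone t
      mul_mem' := fun {a b} ha hb => by
        change cl t (a * b) = a * b
        rw [cl_hmul, ha, hb]
      inv_mem' := fun {a} ha => by
        change cl t a⁻¹ = a⁻¹
        rw [cl_hinv, ha] }
  obtain ⟨b, hb⟩ := hsub (FL t₀)
  obtain ⟨b', hb'⟩ := hsub' (FK t₀)
  have hLt₀ := hL t₀ ht₀
  have hKt₀ := hK t₀ ht₀2
  have hb1 : Nat.card {l : J →* ℂˣ // cl t₀ l = l} = r ^ b := hb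
  have hb1' : Nat.card {γ : (⁅J, J⁆ : Subgroup G) →* ℂˣ // cl t₀ γ = γ} = r ^ b' := hb'
  have hLall : ∀ t ∈ A1, Nat.card {l : J →* ℂˣ // cl t l = l} = r ^ b := by
    intro t ht
    rw [← hb1]
    exact Nat.pow_left_injective hmpos.ne' (((hL t ht).symm.trans hLt₀))
  have hKall : ∀ t ∈ A2, Nat.card {γ : (⁅J, J⁆ : Subgroup G) →* ℂˣ // cl t γ = γ} = r ^ b' := by
    intro t ht
    rw [← hb1']
    exact Nat.pow_left_injective hmpos.ne' (((hK t ht).symm.trans hKt₀))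
  rw [hb1] at hLt₀
  rw [hb1'] at hKt₀
  -- first count
  have c1 : (Nat.card (J →* ℂˣ) - 1) * Nat.card N1 = A1.card * (r ^ b - 1) := by
    have h1 := dcount (Finset.univ.filter fun l : J →* ℂˣ => l ≠ 1) A1 (fun l t => cl t l = l)
    rw [Finset.sum_congr rfl (fun l hl => hl_elt l (Finset.mem_filter.1 hl).2), Finset.sum_const,
      card_ne_one, smul_eq_mul] at h1
    rw [h1, Finset.sum_congr rfl (fun t ht => by
      rw [card_fixed_ne_one, hLall t ht]), Finset.sum_const, smul_eq_mul]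
  -- second count
  have c2 : A2.card * (r ^ b' - 1) ≤
      (Nat.card ((⁅J, J⁆ : Subgroup G) →* ℂˣ) - 1) * Nat.card N2 := by
    have h1 := dcount (Finset.univ.filter fun l : (⁅J, J⁆ : Subgroup G) →* ℂˣ => l ≠ 1) A2
      (fun l t => cl t l = l)
    have h2 : ∑ t ∈ A2, ((Finset.univ.filter fun l : (⁅J, J⁆ : Subgroup G) →* ℂˣ =>
        l ≠ 1).filter fun l => cl t l = l).card = A2.card * (r ^ b' - 1) := by
      rw [Finset.sum_congr rfl (fun t ht => by
        rw [card_fixed_ne_one, hKall t ht]), Finset.sum_const, smul_eq_mul]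
    rw [← h2, ← h1, ← card_ne_one, ← smul_eq_mul, ← Finset.sum_const]
    exact Finset.sum_le_sum fun γ hγ => hγ_elt γ (Finset.mem_filter.1 hγ).2
  -- elements of `N2` are central modulo `J`
  have hcomw : ∀ w ∈ N2, ∀ t : G, Commute (t : G ⧸ J) (w : G ⧸ J) := by
    intro w hw t
    have h1 := h.centralG hγ₀ w hw t
    rw [← QuotientGroup.eq_one_iff] at h1
    simp only [QuotientGroup.mk_mul, QuotientGroup.mk_inv] at h1
    rw [mul_inv_eq_one, mul_inv_eq_iff_eq_mul] at h1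
    exact h1.symm
  have hpow : ∀ w ∈ N2, ∀ t : G, (t ^ m * w ^ m)⁻¹ * (t * w) ^ m ∈ J := by
    intro w hw t
    rw [← QuotientGroup.eq]
    have h1 := (hcomw w hw t).mul_pow m
    rw [← QuotientGroup.mk_mul, ← QuotientGroup.mk_pow, ← QuotientGroup.mk_pow,
      ← QuotientGroup.mk_pow, ← QuotientGroup.mk_mul] at h1
    exact h1.symm
  have hJN1 : J ≤ N1 := le_inf h.hyp.JN (le_stab' (isIrr_lf l₀))
  haveI hN1n : N1.Normal := h.hyp.N1_normal hl₀
  -- third count
  have c3 : A1.card * Nat.card N2 ≤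
      (Nat.gcd m (N1.relIndex N2) * Nat.card N1) * A2.card := by
    rw [e2, ← Finset.card_product]
    refine Finset.card_le_mul_card_image_of_maps_to (f := fun q : G × G => q.1 * q.2) ?_ _ ?_
    · rintro ⟨t, w⟩ hq
      rw [Finset.mem_product, hA1, Finset.mem_filter] at hq
      obtain ⟨⟨ht1, ht2⟩, -, hw⟩ := hq
      rw [hA2]
      have htw : ((t * w : G) : G ⧸ N) = (h0 : G ⧸ N) := by
        rw [QuotientGroup.mk_mul, (QuotientGroup.eq_one_iff w).2 hw.1, mul_one, ht1]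
      refine ⟨htw, ⟨?_, ?_⟩⟩
      · change (t * w) ^ m ∈ N
        rw [← QuotientGroup.eq_one_iff, QuotientGroup.mk_pow, htw, ← hord0]
        exact pow_orderOf_eq_one _
      · have h3 : (t * w) ^ m = (t ^ m * w ^ m) * ((t ^ m * w ^ m)⁻¹ * (t * w) ^ m) := by group
        change (t * w) ^ m ∈ stab _
        rw [h3]
        exact (stab _).mul_mem ((stab _).mul_mem (hN12 ht2).2 (N2.pow_mem hw m).2)
          (c2_J_le_stab h.central' γ₀ (hpow w hw t))
    · intro s _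
      by_cases hne : ((A1 ×ˢ (Finset.univ.filter fun w : G => w ∈ N2)).filter
          fun q : G × G => q.1 * q.2 = s).Nonempty
      · obtain ⟨⟨t₁, w₁⟩, hq₁⟩ := hne
        rw [Finset.mem_filter, Finset.mem_product, hA1, Finset.mem_filter] at hq₁
        obtain ⟨⟨⟨ht1, ht2⟩, -, hw1⟩, hs1⟩ := hq₁
        refine le_trans ?_ (h.hyp.count_le hl₀ (inf_le_left : N2 ≤ N) hN12 m)
        have e3 : Nat.card {w : G // w ∈ N2 ∧ w ^ m ∈ N ⊓ stab (lf l₀ : J → ℂ)} =
            (Finset.univ.filter fun w : G => w ∈ N2 ∧ w ^ m ∈ N1).card := by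
          rw [Nat.card_eq_fintype_card, Fintype.card_subtype]
        rw [e3]
        refine Finset.card_le_card_of_injOn (fun q => q.2 * w₁⁻¹) ?_ ?_
        · rintro ⟨t, w⟩ hq
          rw [Finset.mem_coe, Finset.mem_filter, Finset.mem_product, hA1, Finset.mem_filter] at hq
          obtain ⟨⟨⟨ht1', ht2'⟩, -, hw⟩, hs⟩ := hq
          rw [Finset.mem_coe, Finset.mem_filter]
          refine ⟨Finset.mem_univ _, N2.mul_mem hw (N2.inv_mem hw1), ?_⟩
          have k1 : ∀ u : G, ∀ v ∈ N2, u ^ m ∈ N1 →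
              (((u * v) ^ m : G) : G ⧸ N1) = ((v ^ m : G) : G ⧸ N1) := by
            intro u v hv hu
            have h4 := hJN1 (hpow v hv u)
            rw [← QuotientGroup.eq, QuotientGroup.mk_mul, (QuotientGroup.eq_one_iff _).2 hu,
              one_mul] at h4
            exact h4.symm
          have k2 : ((w ^ m : G) : G ⧸ N1) = ((w₁ ^ m : G) : G ⧸ N1) := by
            rw [← k1 t w hw ht2', ← k1 t₁ w₁ hw1 ht2]
            congr 2
            exact hs.trans hs1.symm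
          have k3 : (((w * w₁⁻¹) ^ m : G) : G ⧸ N1) = 1 := by
            have h5 : (((w * w₁⁻¹) ^ m : G) : G ⧸ N1) = (w ^ m * w₁⁻¹ ^ m : G) :=
              ((QuotientGroup.eq (s := N1)).2 (hJN1 (hpow w₁⁻¹ (N2.inv_mem hw1) w))).symm
            rw [h5, QuotientGroup.mk_mul, k2, inv_pow, QuotientGroup.mk_inv, mul_inv_cancel]
          exact (QuotientGroup.eq_one_iff _).1 k3
        · rintro ⟨t, w⟩ hq ⟨t', w'⟩ hq' hww
          rw [Finset.mem_coe, Finset.mem_filter] at hq hq'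
          have h1 : w = w' := mul_right_cancel hww
          have h2 : t * w = t' * w' := hq.2.trans hq'.2.symm
          rw [h1] at h2
          rw [mul_right_cancel h2, h1]
      · rw [Finset.not_nonempty_iff_eq_empty] at hne
        rw [hne, Finset.card_empty]
        exact Nat.zero_le _
  -- the greatest common divisor
  set g := Nat.gcd m (N1.relIndex N2) with hg
  have hgm : g ∣ m := Nat.gcd_dvd_left _ _
  have hglt : g < m := by
    rcases lt_or_eq_of_le (Nat.le_of_dvd hmpos hgm) with h1 | h1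
    · exact h1
    · exfalso
      have h2 : m ∣ N1.relIndex N2 := by rw [← h1]; exact Nat.gcd_dvd_right _ _
      have h3 : m ∣ N1.relIndex N := by
        have h4 : N1.relIndex N2 * N2.relIndex N = N1.relIndex N :=
          Subgroup.relIndex_mul_relIndex _ _ _ hN12 inf_le_left
        exact h2.trans ⟨_, h4.symm⟩
      have h5 := index_mul (N := N) (stab (lf l₀ : J → ℂ))
      rw [← hm, ← rel_inf, ← hN1] at h5
      obtain ⟨c, hc⟩ := h3
      have h6 : (stab (lf l₀ : J → ℂ)).index = N.index * c := by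
        rw [hc] at h5
        have h7 : (stab (lf l₀ : J → ℂ)).index * m = N.index * c * m := by rw [h5]; ring
        exact Nat.eq_of_mul_eq_mul_right hmpos h7
      obtain ⟨χ, hχ, hχd⟩ := h.hyp.fdeg
      obtain ⟨ψ, hψ, -, hψd⟩ := (h.hyp.GTL hl₀).1
      have hNi : N.index ≠ 1 := fun e => h.hyp.ne_top (Subgroup.index_eq_one.1 e)
      have h8 := h.hyp.anti χ ψ hχ hψ (by rw [hχd]; exact hNi)
        (by rw [hχd, hψd, h6]; exact Dvd.intro _ rfl)
      rw [hχd, hψd, h6] at h8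
      have hc1 : c = 1 := by
        have h9 : N.index * c = N.index * 1 := by rw [mul_one]; exact h8.symm
        exact Nat.eq_of_mul_eq_mul_left hfpos h9
      rw [hc1, mul_one] at hc
      apply h.hyp.pf
      refine dvd_trans ?_ hmf
      rw [← hc]
      -- `p ∣ |N : N1|`
      have hxN1 : x ∉ N1 := fun hx => h.hyp.x_not (isIrr_lf l₀) (lf_ne_one hl₀) hx.2
      haveI : (N1.subgroupOf N).Normal := hN1n.subgroupOf N
      have h10 : orderOf (((⟨x, h.hyp.xN⟩ : N) : N) : N ⧸ N1.subgroupOf N) = p := by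
        haveI := Fact.mk h.hyp.pr
        refine orderOf_eq_prime ?_ ?_
        · rw [← QuotientGroup.mk_pow]
          have : (⟨x, h.hyp.xN⟩ : N) ^ p = 1 := Subtype.ext h.hyp.xp
          rw [this, QuotientGroup.mk_one]
        · intro h11
          exact hxN1 ((QuotientGroup.eq_one_iff (N := N1.subgroupOf N)
            (⟨x, h.hyp.xN⟩ : N)).1 h11)
      rw [← h10]
      exact orderOf_dvd_natCard _
  -- `b' ≠ 0`
  have hb'0 : b' ≠ 0 := by
    rintro rfl
    rw [pow_zero, one_pow] at hKt₀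
    haveI : Nontrivial ((⁅J, J⁆ : Subgroup G) →* ℂˣ) := ⟨⟨γ₀, 1, hγ₀⟩⟩
    have : 1 < Nat.card ((⁅J, J⁆ : Subgroup G) →* ℂˣ) := Finite.one_lt_card
    omega
  have hbb : b' < b := by
    have h1 := h.card_lt
    rw [hLt₀, hKt₀] at h1
    by_contra hcon
    push Not at hcon
    have h2 : (r ^ b) ^ m ≤ (r ^ b') ^ m :=
      Nat.pow_le_pow_left (Nat.pow_le_pow_right hr.pos hcon) m
    omega
  refine arith hr hb'0 hbb hgm hglt (b := b') (a := b) (m := m) ?_
  rw [hLt₀] at c1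
  rw [hKt₀] at c2
  have hN1pos : 0 < Nat.card N1 := Nat.card_pos
  have hN2pos : 0 < Nat.card N2 := Nat.card_pos
  have hpos : 0 < Nat.card N1 * Nat.card N2 := Nat.mul_pos hN1pos hN2pos
  refine Nat.le_of_mul_le_mul_right ?_ hpos
  calc ((r ^ b) ^ m - 1) * (r ^ b' - 1) * (Nat.card N1 * Nat.card N2)
      = (((r ^ b) ^ m - 1) * Nat.card N1) * ((r ^ b' - 1) * Nat.card N2) := by ring
    _ = (A1.card * (r ^ b - 1)) * ((r ^ b' - 1) * Nat.card N2) := by rw [c1]
    _ = (A1.card * Nat.card N2) * ((r ^ b - 1) * (r ^ b' - 1)) := by ring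
    _ ≤ ((g * Nat.card N1) * A2.card) * ((r ^ b - 1) * (r ^ b' - 1)) :=
        Nat.mul_le_mul_right _ c3
    _ = (A2.card * (r ^ b' - 1)) * (g * Nat.card N1 * (r ^ b - 1)) := by ring
    _ ≤ (((r ^ b') ^ m - 1) * Nat.card N2) * (g * Nat.card N1 * (r ^ b - 1)) :=
        Nat.mul_le_mul_right _ c2
    _ = g * (r ^ b - 1) * ((r ^ b') ^ m - 1) * (Nat.card N1 * Nat.card N2) := by ring

end Cfsg.Agent.H675.Nd
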