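import Mathlib
import Cfsg.Agent.H675.Nd.HB4

/-!
# `J` is abelian: conclusion
-/

set_option autoImplicit false
set_option linter.style.haveILetI false
set_option linter.unusedSectionVars false
open Cfsg

namespace Cfsg.Agent.H675.Nd

open Cfsg.Agent.Characters.Core Cfsg.Agent.Characters.Clifford Cfsg.Agent.H672 Cfsg.Agent.H672.RM
open Cfsg.Agent.H597.FrobA
open scoped commutatorElement

universe u v w

theorem Anti.quot {G : Type u} [Group G] [Finite G] (h : Anti G) (M : Subgroup G) [M.Normal] :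
    Anti (G ⧸ M) := by
  intro χ χ' hχ hχ' h1 hd
  have hπ := QuotientGroup.mk'_surjective M
  have hdeg : ∀ ψ : (G ⧸ M) → ℂ, charDegree (ψ ∘ QuotientGroup.mk' M) = charDegree ψ := fun ψ =>
    charDegree_comp_one _ ψ
  have h2 := h _ _ (isIrr_comp _ hπ hχ) (isIrr_comp _ hπ hχ') (by rwa [hdeg]) (by rwa [hdeg, hdeg])
  rwa [hdeg, hdeg] at h2

variable {G : Type u} [Group G] [Finite G] {N J : Subgroup G} {x : G} {p : ℕ} [hN : N.Normal]
  [hJn : J.Normal]

theorem HB.quot (h : HB N J x p) (M : Subgroup G) [hM : M.Normal] (hMN : M ≤ N)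
    (hnc : ∃ g : G, x * g * x⁻¹ * g⁻¹ ∉ J ⊔ M) [hN' : (N.map (QuotientGroup.mk' M)).Normal]
    [hJ' : (J.map (QuotientGroup.mk' M)).Normal] :
    HB (N.map (QuotientGroup.mk' M)) (J.map (QuotientGroup.mk' M)) (QuotientGroup.mk' M x) p := by
  have hπ := QuotientGroup.mk'_surjective M
  have hidx : (N.map (QuotientGroup.mk' M)).index = N.index := by
    rw [Subgroup.index_map, QuotientGroup.ker_mk', sup_of_le_left hMN,
      MonoidHom.range_eq_top.2 hπ, Subgroup.index_top, mul_one]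
  have hmem : ∀ g : G, QuotientGroup.mk' M g ∈ N.map (QuotientGroup.mk' M) → g ∈ N := by
    rintro g ⟨n, hn, e⟩
    have h1 := QuotientGroup.eq.1 e
    have h2 := N.mul_mem hn (hMN h1)
    rwa [mul_inv_cancel_left] at h2
  refine ⟨?_, ?_, h.pr, ⟨x, h.xN, rfl⟩, ?_, ?_, ?_, ?_, h.anti.quot M, ?_, ?_, ?_⟩
  · rw [← Subgroup.map_commutator, ← h.eJ]
  · have e := QuotientGroup.quotientQuotientEquivQuotient M N hMN
    haveI := h.cyc
    exact isCyclic_of_surjective e.symm e.symm.surjective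
  · rw [← map_pow, h.xp, map_one]
  · intro hd
    exact h.pJ (hd.trans (Subgroup.card_dvd_of_surjective _
      ((QuotientGroup.mk' M).subgroupMap_surjective J)))
  · rw [hidx]
    exact h.pf
  · intro μ hμ hx
    have h1 := h.hx _ (isIrr_map (QuotientGroup.mk' M) J hμ) (by
      refine ⟨mem_nrm J x, ?_⟩
      rw [tw_map _ _ _ (mem_nrm J x) (mem_nrm _ _), hx.2])
    exact ((QuotientGroup.mk' M).subgroupMap_surjective J).injective_comp_right (h1.trans rfl)
  · intro l q hq hl q'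
    obtain ⟨g, rfl⟩ := hπ q
    obtain ⟨g', rfl⟩ := hπ q'
    have hg : g ∉ N := fun hg => hq ⟨g, hg, rfl⟩
    have hsur := (QuotientGroup.mk' M).subgroupMap_surjective N
    have key : ∀ a : G, cl a (l.comp ((QuotientGroup.mk' M).subgroupMap N)) =
        (cl (QuotientGroup.mk' M a) l).comp ((QuotientGroup.mk' M).subgroupMap N) := by
      intro a
      apply MonoidHom.ext
      intro n
      rw [MonoidHom.comp_apply, cl_apply, cl_apply, MonoidHom.comp_apply]
      congr 1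
    have h1 := h.hfix (l.comp ((QuotientGroup.mk' M).subgroupMap N)) g hg (by rw [key, hl]) g'
    rw [key] at h1
    apply MonoidHom.ext
    intro n
    obtain ⟨m, rfl⟩ := hsur n
    exact DFunLike.congr_fun h1 m
  · obtain ⟨g, hg⟩ := hnc
    refine ⟨QuotientGroup.mk' M g, ?_⟩
    rintro ⟨j, hj, e⟩
    apply hg
    rw [← map_inv, ← map_inv, ← map_mul, ← map_mul, ← map_mul] at e
    have h1 := QuotientGroup.eq.1 e
    have h2 := (J ⊔ M).mul_mem (Subgroup.mem_sup_left hj) (Subgroup.mem_sup_right h1)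
    rwa [mul_inv_cancel_left] at h2
  · intro q
    obtain ⟨g, rfl⟩ := hπ q
    obtain ⟨k, j, hj, e⟩ := h.xn g
    refine ⟨k, QuotientGroup.mk' M j, ⟨j, hj, rfl⟩, ?_⟩
    rw [← map_inv, ← map_mul, ← map_mul, e, map_mul, map_pow]

/-- **`J` is abelian.** -/
theorem thmB (n : ℕ) : ∀ (G : Type u) [Group G] [Finite G] (N J : Subgroup G) (x : G) (p : ℕ)
    [N.Normal] [J.Normal], Nat.card G = n → HB N J x p → ⁅J, J⁆ = ⊥ := by
  induction n using Nat.strong_induction_on with
  | _ n ih =>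
  intro G _ _ N J x p hN hJ hn h
  by_contra hne
  have hq : ∀ M : Subgroup G, M.Normal → M ≠ ⊥ → M ≤ N →
      (∃ g : G, x * g * x⁻¹ * g⁻¹ ∉ J ⊔ M) → ⁅J, J⁆ ≤ M := by
    intro M hM hM1 hMN hnc
    have hπ := QuotientGroup.mk'_surjective M
    haveI hNn : (N.map (QuotientGroup.mk' M)).Normal := Subgroup.Normal.map inferInstance _ hπ
    haveI hJn : (J.map (QuotientGroup.mk' M)).Normal := Subgroup.Normal.map inferInstance _ hπ
    have h1 := h.quot M hMN hnc
    have hlt : Nat.card (G ⧸ M) < n := by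
      rw [← hn, ← Subgroup.index_eq_card, ← M.index_mul_card]
      refine lt_mul_of_one_lt_right (Nat.pos_of_ne_zero Subgroup.index_ne_zero_of_finite) ?_
      rw [Subgroup.one_lt_card_iff_ne_bot]
      exact hM1
    have h2 := ih _ hlt (G ⧸ M) _ _ _ p rfl h1
    rw [← Subgroup.map_commutator, Subgroup.map_eq_bot_iff, QuotientGroup.ker_mk'] at h2
    exact h2
  refine MB.false (N := N) (J := J) (x := x) (p := p) ⟨h, hne, ?_, ?_⟩
  · intro M hM hM1 hMJ
    obtain ⟨g, hg⟩ := h.nc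
    exact hq M hM hM1 (hMJ.trans h.JN) ⟨g, by rwa [sup_of_le_left hMJ]⟩
  · intro u hu huc r hr hrp hur
    by_contra hu1
    have hun : (Subgroup.zpowers u).Normal := by
      constructor
      rintro _ ⟨i, rfl⟩ g
      have h1 : g * u ^ i = u ^ i * g :=
        Subgroup.mem_center_iff.1 ((Subgroup.center G).zpow_mem huc i) g
      change g * u ^ i * g⁻¹ ∈ _
      rw [h1, mul_inv_cancel_right]
      exact Subgroup.zpow_mem_zpowers u i
    have hnc : ∃ g : G, x * g * x⁻¹ * g⁻¹ ∉ J ⊔ Subgroup.zpowers u := by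
      obtain ⟨g, hg⟩ := h.nc
      refine ⟨g, fun hmem => hg ?_⟩
      obtain ⟨j, hj, w, ⟨i, hw⟩, e⟩ := Subgroup.mem_sup_of_normal_left.1 hmem
      have hw' : u ^ i = w := hw
      have h1 : (w : G ⧸ J) ^ r = 1 := by
        rw [← QuotientGroup.mk_pow, ← hw', ← zpow_natCast, ← zpow_mul, mul_comm, zpow_mul,
          zpow_natCast, hur, one_zpow]
        rfl
      have h2 : ((x * g * x⁻¹ * g⁻¹ : G) : G ⧸ J) = w := by
        rw [← e, QuotientGroup.mk_mul, (QuotientGroup.eq_one_iff j).2 hj, one_mul]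
      have h3 : (w : G ⧸ J) ^ p = 1 := by
        have hy : g * x⁻¹ * g⁻¹ ∈ N := hN.conj_mem _ (N.inv_mem h.xN) g
        have h4 : Commute (x : G ⧸ J) ((g * x⁻¹ * g⁻¹ : G) : G ⧸ J) := by
          have h5 := h.ab (Subgroup.commutator_mem_commutator h.xN hy)
          rw [← QuotientGroup.eq_one_iff] at h5
          change QuotientGroup.mk' J ⁅x, g * x⁻¹ * g⁻¹⁆ = 1 at h5
          rw [map_commutatorElement, commutatorElement_eq_one_iff_mul_comm] at h5
          exact h5
        have h5 : (w : G ⧸ J) = (x : G ⧸ J) * ((g * x⁻¹ * g⁻¹ : G) : G ⧸ J) := by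
          rw [← h2, ← QuotientGroup.mk_mul]
          congr 1
          group
        rw [h5, h4.mul_pow, ← QuotientGroup.mk_pow, ← QuotientGroup.mk_pow, h.xp, conj_pow,
          inv_pow, h.xp, inv_one, mul_one, mul_inv_cancel]
        simp
      have h4 : (w : G ⧸ J) = 1 := by
        have h5 := pow_gcd_eq_one.2 ⟨h1, h3⟩
        rwa [((Nat.coprime_primes hr h.pr).2 hrp).gcd_eq_one, pow_one] at h5
      rw [← QuotientGroup.eq_one_iff, h2, h4]
    have h1 := hq (Subgroup.zpowers u) hun (by rwa [Ne, Subgroup.zpowers_eq_bot])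
      (Subgroup.zpowers_le.2 hu) hnc
    apply hne
    rw [eq_bot_iff]
    intro z hz
    rw [Subgroup.mem_bot]
    refine h.fix (comm_le J hz) ?_
    obtain ⟨i, hi⟩ := h1 hz
    have hi' : u ^ i = z := hi
    rw [← hi']
    exact Subgroup.mem_center_iff.1 ((Subgroup.center G).zpow_mem huc i) x

theorem over_one_top {χ : G → ℂ} (hχ : IsIrrCharacter G χ) :
    Over J.subtype χ (1 : J → ℂ) ↔ ∀ j : J, χ j = χ 1 := by
  have e : (χ ∘ (Subgroup.topEquiv (G := G))) ∘ (Subgroup.topEquiv (G := G)).symm = χ := by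
    funext x; simp
  have h1 := over_top_iff (χ ∘ (Subgroup.topEquiv (G := G))) (1 : J → ℂ)
  have h2 : Over J.subtype χ (1 : J → ℂ) ↔
      Over (Subgroup.inclusion (le_top : J ≤ ⊤)) (χ ∘ (Subgroup.topEquiv (G := G))) 1 := by
    rw [← h1]
    rw [e]
  rw [h2, over_one_iff le_top (le_nrm J ⊤) (isIrr_top' hχ)]
  rfl

theorem HB.comm (h : HB N J x p) : ⁅J, J⁆ = ⊥ := thmB _ G N J x p rfl h

/-- All characters nontrivial on `J` have the same degree. -/
theorem HB.one_deg (h : HB N J x p) : ∃ a, ∀ χ : G → ℂ, IsIrrCharacter G χ →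
    (∃ j ∈ J, χ j ≠ χ 1) → charDegree χ = a := by
  classical
  have key : ∀ χ : G → ℂ, IsIrrCharacter G χ → (∃ j ∈ J, χ j ≠ χ 1) →
      ∃ l : J →* ℂˣ, l ≠ 1 ∧ charDegree χ = (stab (lf l : J → ℂ)).index := by
    rintro χ hχ ⟨j, hj, hne⟩
    obtain ⟨μ, hμ, ho⟩ := exists_under (f := J.subtype) hχ
    have hd : charDegree μ = 1 := by
      refine lin_of_comm (H := (⊥ : Subgroup G)) (T := J) bot_le h.comm.le hμ ?_
      rintro ⟨k, hk⟩
      rw [Subgroup.mem_bot] at hk
      subst hk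
      rfl
    obtain ⟨l, rfl⟩ := exists_hom_of_degree_one hμ hd
    have hl : l ≠ 1 := by
      rintro rfl
      exact hne ((over_one_top hχ).1 ho ⟨j, hj⟩)
    exact ⟨l, hl, (h.GTL hl).2.1 χ hχ ho⟩
  by_cases hex : ∃ l : J →* ℂˣ, l ≠ 1
  · obtain ⟨l₀, hl₀⟩ := hex
    refine ⟨(stab (lf l₀ : J → ℂ)).index, fun χ hχ hj => ?_⟩
    obtain ⟨l, hl, e⟩ := key χ hχ hj
    rw [e, h.index_eq hl hl₀]
  · refine ⟨0, fun χ hχ hj => ?_⟩
    obtain ⟨l, hl, -⟩ := key χ hχ hj
    exact absurd ⟨l, hl⟩ hex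

end Cfsg.Agent.H675.Nd
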