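import Mathlib
import Cfsg.Agent.H675.Nd.PG1

/-!
# The Sylow subgroup: basic facts
-/

set_option autoImplicit false
set_option linter.style.haveILetI false
set_option linter.unusedSectionVars false
open Cfsg

namespace Cfsg.Agent.H675.Nd

open Cfsg.Agent.Characters.Core Cfsg.Agent.Characters.Clifford Cfsg.Agent.H672 Cfsg.Agent.H672.RM
open Cfsg.Agent.H597.FrobA
open scoped commutatorElement

universe u v w

section L

variable {G : Type u} [Group G]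

/-- Three subgroups lemma modulo a normal subgroup. -/
theorem tsl {D A B C : Subgroup G} [hD : D.Normal] (h1 : ⁅⁅B, C⁆, A⁆ ≤ D) (h2 : ⁅⁅C, A⁆, B⁆ ≤ D) :
    ⁅⁅A, B⁆, C⁆ ≤ D := by
  have e : ∀ A B C : Subgroup G, ⁅⁅A, B⁆, C⁆ ≤ D ↔
      ⁅⁅A.map (QuotientGroup.mk' D), B.map (QuotientGroup.mk' D)⁆, C.map (QuotientGroup.mk' D)⁆ =
        ⊥ := by
    intro A B C
    rw [← Subgroup.map_commutator, ← Subgroup.map_commutator, Subgroup.map_eq_bot_iff,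
      QuotientGroup.ker_mk']
  rw [e] at h1 h2 ⊢
  exact Subgroup.commutator_commutator_eq_bot_of_rotate h1 h2

/-- The lower central series of `P`. -/
abbrev L (P : Subgroup G) (n : ℕ) : Subgroup G := P.lowerCentralSeries n

variable (P : Subgroup G) [hP : P.Normal]

theorem L_le (n : ℕ) : L P n ≤ P := P.lowerCentralSeries_le_self n

theorem L_anti {m n : ℕ} (h : m ≤ n) : L P n ≤ L P m := P.lowerCentralSeries_antitone h

theorem comm_L (m n : ℕ) : ⁅L P m, L P n⁆ ≤ L P (m + n + 1) := by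
  induction n generalizing m with
  | zero => exact le_rfl
  | succ n ih =>
    have h0 : L P (n + 1) = ⁅L P n, P⁆ := rfl
    rw [h0, Subgroup.commutator_comm]
    refine tsl ?_ ?_
    · rw [Subgroup.commutator_comm P]
      have h1 : ⁅L P m, P⁆ = L P (m + 1) := rfl
      rw [h1]
      refine (ih (m + 1)).trans (L_anti P ?_)
      omega
    · refine (Subgroup.commutator_mono (ih m) le_rfl).trans ?_
      have h1 : ⁅L P (m + n + 1), P⁆ = L P (m + n + 1 + 1) := rfl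
      rw [h1]
      exact L_anti P (by omega)

theorem mem_L_succ {n : ℕ} {a b : G} (ha : a ∈ L P n) (hb : b ∈ P) : ⁅a, b⁆ ∈ L P (n + 1) :=
  Subgroup.commutator_mem_commutator ha hb

theorem mem_L_succ' {n : ℕ} {a b : G} (ha : a ∈ P) (hb : b ∈ L P n) : ⁅a, b⁆ ∈ L P (n + 1) := by
  have h0 : L P (n + 1) = ⁅P, L P n⁆ := Subgroup.commutator_comm _ _
  rw [h0]
  exact Subgroup.commutator_mem_commutator ha hb

theorem mem_L_one {a b : G} (ha : a ∈ P) (hb : b ∈ P) : ⁅a, b⁆ ∈ L P 1 :=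
  Subgroup.commutator_mem_commutator ha hb

/-- `C`: the elements of `P` central modulo `P'`. -/
def CC (P : Subgroup G) [P.Normal] : Subgroup G := NZ P (L P 1)

/-- `E = [P, G]`. -/
def EE (P : Subgroup G) : Subgroup G := ⁅P, (⊤ : Subgroup G)⁆

variable {P}

theorem mem_CC {c : G} : c ∈ CC P ↔ c ∈ P ∧ ∀ g, ⁅c, g⁆ ∈ L P 1 := by
  rw [CC, mem_NZ]
  simp only [commutatorElement_def]

theorem CC_le : CC P ≤ P := fun _ hc => (mem_CC.1 hc).1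

theorem CC_comm {c : G} (hc : c ∈ CC P) (g : G) : ⁅c, g⁆ ∈ L P 1 := (mem_CC.1 hc).2 g

theorem CC_comm' {c : G} (hc : c ∈ CC P) (g : G) : ⁅g, c⁆ ∈ L P 1 := comm_swap_mem (CC_comm hc g)

theorem L1_le_CC : L P 1 ≤ CC P := by
  intro c hc
  rw [mem_CC]
  refine ⟨L_le P 1 hc, fun g => ?_⟩
  have h1 : (L P 1).Normal := inferInstance
  have e : ⁅c, g⁆ = c * (g * c⁻¹ * g⁻¹) := by rw [commutatorElement_def]; group
  rw [e]
  exact (L P 1).mul_mem hc (h1.conj_mem _ ((L P 1).inv_mem hc) g)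

instance CC_normal [Finite G] : (CC P).Normal :=
  normal_of_central' L1_le_CC fun c hc g => by
    have := CC_comm hc g
    rwa [commutatorElement_def] at this

instance EE_normal : (EE P).Normal := by
  unfold EE; infer_instance

theorem EE_le : EE P ≤ P := Subgroup.commutator_le_left P ⊤

theorem L1_le_EE : L P 1 ≤ EE P := Subgroup.commutator_mono le_rfl le_top

theorem mem_EE {a g : G} (ha : a ∈ P) : ⁅a, g⁆ ∈ EE P :=
  Subgroup.commutator_mem_commutator ha (Subgroup.mem_top g)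

theorem mem_EE' {a g : G} (ha : a ∈ P) : ⁅g, a⁆ ∈ EE P := comm_swap_mem (mem_EE ha)

/-- Conjugates of elements of `C`. -/
theorem CC_conj {c : G} (hc : c ∈ CC P) (g : G) : ∃ d ∈ L P 1, g * c * g⁻¹ = c * d := by
  refine ⟨c⁻¹ * (g * c * g⁻¹), ?_, by group⟩
  have := CC_comm ((CC P).inv_mem hc) g
  rw [commutatorElement_def, inv_inv] at this
  simpa [mul_assoc] using this

theorem mem_LK_ev [Finite G] {N K : Subgroup G} [N.Normal] [K.Normal] (hKN : K ≤ N) {l : N →* ℂˣ} :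
    l ∈ LK N K ↔ ∀ k ∈ K, ev l k = 1 := by
  rw [mem_LK]
  constructor
  · intro h k hk
    rw [ev_of_mem l (hKN hk)]
    exact h k _ hk
  · intro h k hN hk
    rw [← ev_of_mem l hN]
    exact h k hk

/-- `P` acts trivially on the linear characters of `γ_n / γ_{n+1}`. -/
theorem P_fix {n : ℕ} {ν : L P n →* ℂˣ} (hν : ∀ k ∈ L P (n + 1), ev ν k = 1) {x : G} (hx : x ∈ P) :
    cl x ν = ν := by
  rw [cl_eq_iff]
  intro d hd
  have e : x * d * x⁻¹ = ⁅x, d⁆ * d := by rw [commutatorElement_def]; group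
  have h1 : ⁅x, d⁆ ∈ L P (n + 1) := mem_L_succ' P hx hd
  rw [e, ev_mul ν (L_anti P (Nat.le_succ n) h1) hd, hν _ h1, one_mul]

end L

/-- The hypothesis on the Sylow subgroup. -/
structure PS {G : Type u} [Group G] [Finite G] (P K : Subgroup G) [P.Normal] [K.Normal] (p : ℕ) :
    Prop where
  anti : Anti G
  pr : p.Prime
  hF : FrobQ K P p
  pg : IsPGroup p P

section ps

variable {G : Type u} [Group G] [Finite G] {P K : Subgroup G} [hP : P.Normal] [hK : K.Normal]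
  {p : ℕ}

theorem PS.cyc (h : PS P K p) : IsCyclic (G ⧸ P) := cyc_of_frobQ h.hF

theorem PS.f (h : PS P K p) : ∃ χ : G → ℂ, IsIrrCharacter G χ ∧ charDegree χ = P.index :=
  exists_index_degree h.hF

theorem PS.cop (h : PS P K p) : (Nat.card P).Coprime P.index := by
  haveI := Fact.mk h.pr
  obtain ⟨n, hn⟩ := IsPGroup.iff_card.1 h.pg
  rw [hn]
  exact Nat.Coprime.pow_left n ((Nat.Prime.coprime_iff_not_dvd h.pr).2 h.hF.idx)

theorem PS.L1_le_K (h : PS P K p) : L P 1 ≤ K := h.hF.comm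

theorem PS.zl (h : PS P K p) {M : Subgroup G} [M.Normal] (hM : L P 1 ≤ M) (hMP : M ≤ P) {n g : G}
    (hn : n ∈ P) (hg : g ∉ P) (hc : ⁅n, g⁆ ∈ M) (g' : G) : ⁅n, g'⁆ ∈ M := by
  rw [commutatorElement_def] at hc ⊢
  exact zlem hMP hM h.cyc (fun l _ g hg hl => hfix_of h.anti h.cyc h.f l hg hl) hn hg hc g'

theorem PS.relcop (h : PS P K p) (M : Subgroup G) : (M.relIndex P).Coprime P.index :=
  h.cop.coprime_dvd_left (Subgroup.relIndex_dvd_card M P)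

theorem PS.EC_inf (h : PS P K p) {e : G} (he : e ∈ EE P) (hc : e ∈ CC P) : e ∈ L P 1 :=
  inf_NZ_le (N := P) (K := L P 1) le_rfl h.cyc (h.relcop _) (Subgroup.mem_sup_left he) hc

theorem PS.exists_EC (h : PS P K p) {x : G} (hx : x ∈ P) : ∃ e ∈ EE P, ∃ c ∈ CC P, x = e * c := by
  obtain ⟨e, he, c, hc, hx⟩ := exists_NZ_mul (L_le P 1) le_rfl h.cyc (h.relcop _) hx
  have : ⁅P, (⊤ : Subgroup G)⁆ ⊔ L P 1 = EE P := sup_of_le_left L1_le_EE
  rw [this] at he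
  exact ⟨e, he, c, hc, hx⟩

theorem PS.fpE (h : PS P K p) {e g : G} (he : e ∈ EE P) (hg : g ∉ P) (hc : ⁅g, e⁆ ∈ L P 1) :
    e ∈ L P 1 := by
  refine h.EC_inf he (mem_CC.2 ⟨EE_le he, fun g' => ?_⟩)
  exact h.zl le_rfl (L_le P 1) (EE_le he) hg (comm_swap_mem hc) g'

theorem PS.ontoE (h : PS P K p) {M : Subgroup G} (hME : M ≤ EE P) {g : G}
    (hg : g ∉ P) (hgM : ∀ m ∈ M, g * m * g⁻¹ ∈ M) {m : G} (hm : m ∈ M) :
    ∃ m' ∈ M, (g * m' * g⁻¹ * m'⁻¹)⁻¹ * m ∈ L P 1 := by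
  have hMP : M ≤ P := hME.trans EE_le
  refine exists_comm_mul (Subgroup.commutator_mono hMP hMP) hgM ?_ hm
  intro m hm hc
  exact h.fpE (hME hm) hg (by rw [commutatorElement_def]; exact hc)

theorem PS.E_ne (h : PS P K p) : ∃ e ∈ EE P, e ∉ L P 1 := by
  obtain ⟨x, hx, hxK⟩ := SetLike.exists_of_lt h.hF.lt
  obtain ⟨g, hg⟩ : ∃ g, g ∉ P := by
    by_contra hcon
    push Not at hcon
    exact h.hF.ne_top (eq_top_iff.2 fun g _ => hcon g)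
  refine ⟨⁅g, x⁆, mem_EE' hx, fun hc => hxK (h.hF.fpf g hg x hx ?_)⟩
  rw [← commutatorElement_def]
  exact h.L1_le_K hc

theorem over_nonlin {n : ℕ} (hn : 1 ≤ n) {ν : L P n →* ℂˣ} (hν1 : ν ≠ 1) {ω : P → ℂ}
    (hω : IsIrrCharacter P ω) (ho : Over (Subgroup.inclusion (L_le P n)) ω (lf ν)) :
    charDegree ω ≠ 1 :=
  nonlin_of_over (L_le P n) (L_anti P hn) hω (isIrr_lf ν) (lf_ne_one hν1) ho

theorem P_le_stab {n : ℕ} {ν : L P n →* ℂˣ} (hν : ∀ k ∈ L P (n + 1), ev ν k = 1) :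
    P ≤ stab (lf ν : L P n → ℂ) := fun _ hx => mem_stab_iff.2 (P_fix hν hx)

/-- Elements of `stab ω` fix `ν`, for `ω` over `ν ∈ Lin(γ_n / γ_{n+1})`. -/
theorem stab_le_nu {n : ℕ} {ν : L P n →* ℂˣ} (hν : ∀ k ∈ L P (n + 1), ev ν k = 1) {ω : P → ℂ}
    (hω : IsIrrCharacter P ω) (ho : Over (Subgroup.inclusion (L_le P n)) ω (lf ν)) :
    stab ω ≤ stab (lf ν : L P n → ℂ) := fun g hg =>
  stab_of_inv (L_le P n) (P_le_stab hν) (isIrr_lf ν) hω ho hg (mem_nrm _ g)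

theorem PS.out (h : PS P K p) {n : ℕ} (hn : 1 ≤ n) {ν : L P n →* ℂˣ} (hν1 : ν ≠ 1) {ω : P → ℂ}
    (hω : IsIrrCharacter P ω) (ho : Over (Subgroup.inclusion (L_le P n)) ω (lf ν)) :
    ∃ g ∈ stab ω, g ∉ P :=
  out_omega h.anti h.cyc h.f h.hF.ne_top hω (over_nonlin hn hν1 hω ho)

theorem PS.exists_fix (h : PS P K p) {n : ℕ} (hn : 1 ≤ n) {ν : L P n →* ℂˣ} (hν1 : ν ≠ 1)
    (hν : ∀ k ∈ L P (n + 1), ev ν k = 1) : ∃ g, g ∉ P ∧ cl g ν = ν := by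
  obtain ⟨ω, hω, ho⟩ := exists_over_incl (L_le P n) (isIrr_lf ν)
  obtain ⟨g, hg, hgP⟩ := h.out hn hν1 hω ho
  exact ⟨g, hgP, mem_stab_iff.1 (stab_le_nu hν hω ho hg)⟩

/-- Extracting a linear character of `Z` below `ω`, above `δ`. -/
theorem exists_lin_under {B Z T : Subgroup G} (hBZ : B ≤ Z) (hZT : Z ≤ T) {δ : B →* ℂˣ}
    (hδ : T ≤ stab (lf δ : B → ℂ)) (hZZ : ⁅Z, Z⁆ ≤ B) (hδ1 : ∀ z ∈ ⁅Z, Z⁆, ev δ z = 1) {ω : T → ℂ}
    (hω : IsIrrCharacter T ω) (ho : Over (Subgroup.inclusion (hBZ.trans hZT)) ω (lf δ)) :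
    ∃ l : Z →* ℂˣ, Over (Subgroup.inclusion hZT) ω (lf l) ∧ ∀ b ∈ B, ev l b = ev δ b := by
  obtain ⟨θ, hθ, hθo⟩ := exists_under (f := Subgroup.inclusion hZT) hω
  obtain ⟨δ', hδ', hδo⟩ := exists_under (f := Subgroup.inclusion hBZ) hθ
  have h1 := over_trans hBZ hZT hω hθ hδ' hθo hδo
  obtain ⟨t, ht, h2⟩ := exists_tw_of_over (hBZ.trans hZT) (hδ.trans (stab_le _)) hω (isIrr_lf δ)
    hδ' ho h1
  rw [(hδ ht).2] at h2
  subst h2
  have hZst : Z ≤ stab (lf δ : B → ℂ) := hZT.trans hδ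
  have h3 := res_lin hBZ hZst hθ hδo
  have hd : charDegree θ = 1 := by
    refine lin_of_comm (H := ⁅Z, Z⁆) (hZZ.trans hBZ) le_rfl hθ ?_
    intro k
    have h4 := h3 ⟨k, hZZ k.2⟩
    rw [← ev_coe, hδ1 _ k.2, Units.val_one, mul_one] at h4
    exact h4
  obtain ⟨l, rfl⟩ := exists_hom_of_degree_one hθ hd
  refine ⟨l, hθo, fun b hb => ?_⟩
  have h4 := h3 ⟨b, hb⟩
  have h5 : ((l ⟨b, hBZ hb⟩ : ℂˣ) : ℂ) = lf l 1 * (δ ⟨b, hb⟩ : ℂ) := h4
  rw [lf_apply, map_one, Units.val_one, one_mul] at h5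
  rw [ev_of_mem l (hBZ hb), ev_of_mem δ hb]
  exact Units.ext h5

/-- Vanishing of a commutator pairing, from an element acting without fixed points on one side. -/
theorem pair_fix {D : Subgroup G} [hD : D.Normal] {δ : D →* ℂˣ} {A B0 : Subgroup G} {g c : G}
    (hg : cl g δ = δ) (hA : ∀ a ∈ A, cl a δ = δ) (hAc : ∀ a ∈ A, ⁅a, c⁆ ∈ D)
    (hgA : ∀ a ∈ A, g * a * g⁻¹ ∈ A)
    (hc : ∀ a ∈ A, ev δ ⁅a, g * c * g⁻¹⁆ = ev δ ⁅a, c⁆) (hB0A : B0 ≤ A)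
    (hB0 : ∀ b ∈ B0, ev δ ⁅b, c⁆ = 1)
    (honto : ∀ a ∈ A, ∃ a' ∈ A, (g * a' * g⁻¹ * a'⁻¹)⁻¹ * a ∈ B0) : ∀ a ∈ A, ev δ ⁅a, c⁆ = 1 := by
  intro a ha
  obtain ⟨a', ha', hb⟩ := honto a ha
  have h1 : g * a' * g⁻¹ ∈ A := hgA a' ha'
  have h2 : a'⁻¹ ∈ A := A.inv_mem ha'
  have e : a = (g * a' * g⁻¹) * (a'⁻¹ * ((g * a' * g⁻¹ * a'⁻¹)⁻¹ * a)) := by group
  have h3 : (g * a' * g⁻¹ * a'⁻¹)⁻¹ * a ∈ A := hB0A hb
  have hm : a'⁻¹ * ((g * a' * g⁻¹ * a'⁻¹)⁻¹ * a) ∈ A := A.mul_mem h2 h3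
  rw [e, ev_comm_mul_left (hA _ h1) (hAc _ h1) (hAc _ hm),
    ev_comm_mul_left (hA _ h2) (hAc _ h2) (hAc _ h3), hB0 _ hb, mul_one]
  have h4 := ev_comm_conj hg (hAc a' ha')
  rw [hc _ h1] at h4
  have h5 : ev δ ⁅a' * a'⁻¹, c⁆ = 1 := by
    rw [mul_inv_cancel, commutatorElement_one_left, ev_one]
  rw [ev_comm_mul_left (hA _ ha') (hAc _ ha') (hAc _ h2)] at h5
  rw [h4]
  exact h5

/-- Vanishing of a commutator pairing between a group containing elements outside `P` and a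
subgroup of `P`. -/
theorem PS.pair_coprime (h : PS P K p) {D : Subgroup G} [hD : D.Normal] {δ : D →* ℂˣ}
    {A B : Subgroup G} (hA : ∀ a ∈ A, cl a δ = δ) (hB : ∀ b ∈ B, cl b δ = δ) (hBP : B ≤ P)
    (hAB : ∀ a ∈ A, ∀ b ∈ B, ⁅a, b⁆ ∈ D)
    (hP1 : ∀ a ∈ A, a ∈ P → ∀ b ∈ B, ev δ ⁅a, b⁆ = 1) : ∀ a ∈ A, ∀ b ∈ B, ev δ ⁅a, b⁆ = 1 := by
  intro a ha b hb
  let φ := cpair A B δ hAB hA hB
  have hφ : ∀ (a : A) (b : B), φ a b = ev δ ⁅(a : G), (b : G)⁆ := fun _ _ => rfl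
  have e1 : (ev δ ⁅a, b⁆) ^ P.index = 1 := by
    have h1 : φ ((⟨a, ha⟩ : A) ^ P.index) ⟨b, hb⟩ = (ev δ ⁅a, b⁆) ^ P.index := by
      rw [map_pow]; rfl
    rw [← h1, hφ]
    exact hP1 _ (A.pow_mem ha _) (Subgroup.pow_index_mem P a) b hb
  have e2 : (ev δ ⁅a, b⁆) ^ Nat.card P = 1 := by
    have h1 : φ ⟨a, ha⟩ ((⟨b, hb⟩ : B) ^ Nat.card P) = (ev δ ⁅a, b⁆) ^ Nat.card P := by
      rw [map_pow]; rfl
    rw [← h1]
    have h2 : (⟨b, hb⟩ : B) ^ Nat.card P = 1 := by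
      apply Subtype.ext
      change b ^ Nat.card P = 1
      have := congrArg Subtype.val (pow_card_eq_one' (x := (⟨b, hBP hb⟩ : P)))
      exact this
    rw [h2, map_one]
  exact coprime_eq_one e2 e1 h.cop

end ps

end Cfsg.Agent.H675.Nd
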