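import Mathlib
import Cfsg.Agent.H675.Nd.PG3

/-!
# The Sylow subgroup: the dichotomy
-/

set_option autoImplicit false
set_option linter.style.haveILetI false
set_option linter.unusedSectionVars false
open Cfsg

namespace Cfsg.Agent.H675.Nd

open Cfsg.Agent.Characters.Core Cfsg.Agent.Characters.Clifford Cfsg.Agent.H672 Cfsg.Agent.H672.RM
open Cfsg.Agent.H597.FrobA
open scoped commutatorElement

universe u v w

section sep

variable {G : Type u} [Group G] [Finite G] {P K : Subgroup G} [hP : P.Normal] [hK : K.Normal]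
  {p : ℕ}

/-- Separation by linear characters. -/
theorem sep_L {n : ℕ} {x : G} (hx : x ∈ L P n)
    (h : ∀ ν : L P n →* ℂˣ, (∀ k ∈ L P (n + 1), ev ν k = 1) → ev ν x = 1) : x ∈ L P (n + 1) := by
  by_contra hcon
  obtain ⟨ν, hν, hν'⟩ := exists_LK_ne (N := L P n) (K := L P (n + 1)) (L_anti P (Nat.le_succ n))
    ((comm_L P n n).trans (L_anti P (by omega))) hx hcon
  apply hν'
  rw [← ev_of_mem ν hx]
  exact h ν ((mem_LK_ev (L_anti P (Nat.le_succ n))).1 hν)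

theorem sep_le {M : Subgroup G} (hM : M ≤ L P 1) (hMM : L P 2 ≤ M)
    (h : ∀ ν : L P 1 →* ℂˣ, (∀ k ∈ L P 2, ev ν k = 1) → (∀ k ∈ M, ev ν k = 1) → ν = 1) :
    L P 1 ≤ M := by
  intro x hx
  by_contra hcon
  have h1 : ⁅L P 1, L P 1⁆ ≤ M := ((comm_L P 1 1).trans (L_anti P (by omega))).trans hMM
  obtain ⟨β, hβ, hβ'⟩ := exists_lin_ne (x := (⟨x, hx⟩ : L P 1)) hM h1 hcon
  have h2 : ∀ k ∈ M, ev β k = 1 := by
    intro k hk
    rw [ev_of_mem β (hM hk)]
    exact hβ ⟨k, hk⟩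
  apply hβ'
  rw [h β (fun k hk => h2 k (hMM hk)) h2]
  rfl

/-- If there is no nontrivial character at level `n`, the series stops. -/
theorem PS.L_bot (h : PS P K p) {n : ℕ}
    (hn : ∀ ν : L P n →* ℂˣ, (∀ k ∈ L P (n + 1), ev ν k = 1) → ν = 1) : L P n = ⊥ := by
  haveI := Fact.mk h.pr
  have h1 : L P n = L P (n + 1) := by
    refine le_antisymm (fun x hx => sep_L hx fun ν hν => ?_) (L_anti P (Nat.le_succ n))
    rw [hn ν hν, ev_hone]
  have h2 : ∀ m, L P (n + m) = L P n := by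
    intro m
    induction m with
    | zero => rfl
    | succ m ih =>
      have : L P (n + (m + 1)) = ⁅L P (n + m), P⁆ := rfl
      rw [this, ih]
      exact h1.symm
  have h3 : Group.IsNilpotent P := h.pg.isNilpotent
  obtain ⟨m, hm⟩ := (Subgroup.isNilpotent_iff_lowerCentralSeries P).1 h3
  have h4 : L P (n + m) ≤ L P m := L_anti P (by omega)
  rw [h2] at h4
  rw [eq_bot_iff]
  exact h4.trans hm.le

/-- A nonlinear character of `P` lies over a nontrivial character of some level. -/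
theorem PS.exists_level (h : PS P K p) {ω : P → ℂ} (hω : IsIrrCharacter P ω)
    (h1 : charDegree ω ≠ 1) : ∃ n, 1 ≤ n ∧ ∃ ν : L P n →* ℂˣ, ν ≠ 1 ∧
      (∀ k ∈ L P (n + 1), ev ν k = 1) ∧ Over (Subgroup.inclusion (L_le P n)) ω (lf ν) := by
  classical
  haveI := Fact.mk h.pr
  have h3 : Group.IsNilpotent P := h.pg.isNilpotent
  obtain ⟨m, hm⟩ := (Subgroup.isNilpotent_iff_lowerCentralSeries P).1 h3
  let Q : ℕ → Prop := fun n => ∀ k : L P n, ω (Subgroup.inclusion (L_le P n) k) = ω 1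
  have hQ : ∃ n, Q n := by
    refine ⟨m, ?_⟩
    rintro ⟨k, hk⟩
    have hk' : k ∈ P.lowerCentralSeries m := hk
    rw [hm, Subgroup.mem_bot] at hk'
    subst hk'
    rfl
  have hn := Nat.find_spec hQ
  have hmin : ∀ j, j < Nat.find hQ → ¬ Q j := fun j hj => Nat.find_min hQ hj
  set N := Nat.find hQ with hN
  have hN0 : N ≠ 0 := by
    intro e
    rw [e] at hn
    apply h1
    refine lin_of_comm (H := L P 1) (L_le P 1) le_rfl hω ?_
    intro k
    exact hn ⟨k, L_le P 1 k.2⟩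
  have hN1 : N ≠ 1 := by
    intro e
    rw [e] at hn
    exact h1 (lin_of_comm (H := L P 1) (L_le P 1) le_rfl hω hn)
  obtain ⟨n, hnN⟩ : ∃ n, N = n + 1 := ⟨N - 1, by omega⟩
  rw [hnN] at hn
  have hn1 : 1 ≤ n := by omega
  obtain ⟨θ, hθ, ho⟩ := exists_under (f := Subgroup.inclusion (L_le P n)) hω
  have hθ1 : ∀ k : L P (n + 1), θ (Subgroup.inclusion (L_anti P (Nat.le_succ n)) k) = θ 1 := by
    have h4 : Over (Subgroup.inclusion (L_le P (n + 1))) ω 1 :=
      (over_one_iff (L_le P (n + 1)) (le_nrm _ _) hω).2 hn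
    obtain ⟨τ, hτ, hτo⟩ := exists_under
      (f := Subgroup.inclusion (L_anti P (Nat.le_succ n) : L P (n + 1) ≤ L P n)) hθ
    have h5 := over_trans (L_anti P (Nat.le_succ n)) (L_le P n) hω hθ hτ ho hτo
    obtain ⟨t, ht, h6⟩ := exists_tw_of_over (L_le P (n + 1)) (le_nrm _ _) hω isIrr_one hτ h4 h5
    have h7 : τ = 1 := by
      rw [h6]
      funext k
      rw [tw_apply (mem_nrm _ t)]
      rfl
    rw [h7] at hτo
    exact (over_one_iff (L_anti P (Nat.le_succ n)) (le_nrm _ _) hθ).1 hτo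
  have hθd : charDegree θ = 1 :=
    lin_of_comm (H := L P (n + 1)) (L_anti P (Nat.le_succ n))
      ((comm_L P n n).trans (L_anti P (by omega))) hθ hθ1
  obtain ⟨ν, rfl⟩ := exists_hom_of_degree_one hθ hθd
  refine ⟨n, hn1, ν, ?_, ?_, ho⟩
  · rintro rfl
    apply hmin n (by omega)
    exact (over_one_iff (L_le P n) (le_nrm _ _) hω).1 ho
  · intro k hk
    have h8 := hθ1 ⟨k, hk⟩
    have h9 : ((ν ⟨k, L_anti P (Nat.le_succ n) hk⟩ : ℂˣ) : ℂ) = ((ν 1 : ℂˣ) : ℂ) := h8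
    rw [map_one] at h9
    rw [ev_of_mem ν (L_anti P (Nat.le_succ n) hk)]
    exact Units.ext h9

/-- Without invariant characters at level `n`, every character is a quotient of conjugates. -/
theorem PS.surj (h : PS P K p) {n : ℕ}
    (hno : ∀ ν : L P n →* ℂˣ, (∀ k ∈ L P (n + 1), ev ν k = 1) → (∀ g, cl g ν = ν) → ν = 1)
    {ν : L P n →* ℂˣ} (hν : ∀ k ∈ L P (n + 1), ev ν k = 1) :
    ∃ (y : G) (ν' : L P n →* ℂˣ), (∀ k ∈ L P (n + 1), ev ν' k = 1) ∧ ν = cl y ν' * ν'⁻¹ := by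
  classical
  haveI := finite_lin (L P n)
  obtain ⟨y, hy⟩ := exists_gen h.cyc
  have hle : L P (n + 1) ≤ L P n := L_anti P (Nat.le_succ n)
  let Λ := LK (L P n) (L P (n + 1))
  have hΛ : ∀ l, l ∈ Λ ↔ ∀ k ∈ L P (n + 1), ev l k = 1 := fun l => mem_LK_ev hle
  let f : Λ → Λ := fun l => ⟨Df y l.1, Λ.mul_mem (cl_mem_LK y l.2) (Λ.inv_mem l.2)⟩
  have hf : Function.Injective f := by
    intro a b hab
    have h1 : Df y a.1 = Df y b.1 := congrArg Subtype.val hab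
    have h3 : cl y (a.1 * b.1⁻¹) = a.1 * b.1⁻¹ := by
      apply ev_ext
      intro d _
      have h6 := congrArg (fun l => ev l d) h1
      simp only [Df_apply, ev_hmul, ev_hinv] at h6
      rw [cl_hmul, cl_hinv, ev_hmul, ev_hmul, ev_hinv, ev_hinv, ← div_eq_mul_inv,
        ← div_eq_mul_inv, div_eq_div_iff_mul_eq_mul]
      rw [← div_eq_mul_inv, ← div_eq_mul_inv, div_eq_div_iff_mul_eq_mul] at h6
      rw [h6, mul_comm]
    have h4 : a.1 * b.1⁻¹ ∈ Λ := Λ.mul_mem a.2 (Λ.inv_mem b.2)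
    have h5 : a.1 * b.1⁻¹ = 1 := by
      refine hno _ ((hΛ _).1 h4) fun g => ?_
      rw [← mem_stab_iff]
      exact gen_top hy (P_le_stab ((hΛ _).1 h4)) (mem_stab_iff.2 h3) g
    exact Subtype.ext (lin_mul_inv_eq_one h5)
  obtain ⟨l, hl⟩ := Finite.surjective_of_injective hf ⟨ν, (hΛ ν).2 hν⟩
  refine ⟨y, l.1, (hΛ _).1 l.2, ?_⟩
  exact (congrArg Subtype.val hl).symm

theorem CC_conj_comm {c c' : G} (hc : c ∈ CC P) (hc' : c' ∈ CC P) (g : G) {ν : L P 1 →* ℂˣ}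
    (hν : ∀ k ∈ L P 2, ev ν k = 1) : ev (cl g ν) ⁅c, c'⁆ = ev ν ⁅c, c'⁆ := by
  have hm : ⁅c, c'⁆ ∈ L P 1 := CC_comm hc c'
  rw [ev_cl g ν hm]
  have e : g * ⁅c, c'⁆ * g⁻¹ = ⁅g * c * g⁻¹, g * c' * g⁻¹⁆ := by
    simp only [commutatorElement_def]; group
  obtain ⟨d, hd, hd'⟩ := CC_conj hc g
  obtain ⟨b, hb, hb'⟩ := CC_conj hc' g
  have h1 : ⁅c, b⁆ ∈ L P 2 := mem_L_succ' P (CC_le hc) hb
  have h2 : ⁅d, c' * b⁆ ∈ L P 2 := mem_L_succ P hd (P.mul_mem (CC_le hc') (L_le P 1 hb))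
  have h12 : L P 2 ≤ L P 1 := L_anti P (by omega)
  have h3 : ⁅c, c' * b⁆ ∈ L P 1 := CC_comm hc _
  rw [e, hd', hb', ev_comm_mul_left (P_fix hν (CC_le hc)) h3 (h12 h2), hν _ h2, mul_one,
    ev_comm_mul_right (P_fix hν (CC_le hc')) hm (h12 h1), hν _ h1, mul_one]

/-- elements of the radical, in terms of `C` -/
theorem PS.mem_Zn_CC (h : PS P K p) {ν : L P 1 →* ℂˣ} {hν : ∀ k ∈ L P 2, ev ν k = 1} {x : G}
    (hx : x ∈ CC P) : x ∈ Zn ν hν ↔ ∀ c ∈ CC P, ev ν ⁅x, c⁆ = 1 := by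
  rw [mem_Zn]
  constructor
  · intro h1 c hc
    exact h1.2 c (CC_le hc)
  · intro h1
    refine ⟨CC_le hx, fun y hy => ?_⟩
    obtain ⟨e, he, c, hc, rfl⟩ := h.exists_EC hy
    have h2 : ⁅e, x⁆ ∈ L P 1 := CC_comm' hx e
    rw [ev_comm_mul_right (P_fix hν (EE_le he)) (CC_comm hx e) (CC_comm hx c), h1 c hc, mul_one,
      ev_comm_swap ν h2, h.ev_EC hν he hx, inv_one]

/-- **Case I**: an invariant character at level `1` forces all of them to be invariant. -/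
theorem PS.caseI_inv (h : PS P K p) {ν₁ : L P 1 →* ℂˣ} (hν₁ : ∀ k ∈ L P 2, ev ν₁ k = 1)
    (hne : ν₁ ≠ 1) (hinv : ∀ g, cl g ν₁ = ν₁) {ν : L P 1 →* ℂˣ} (hν : ∀ k ∈ L P 2, ev ν k = 1)
    (g : G) : cl g ν = ν := by
  -- first, characters trivial on `[C, C]`
  have key : ∀ ν₀ : L P 1 →* ℂˣ, (∀ k ∈ L P 2, ev ν₀ k = 1) →
      (∀ c ∈ CC P, ∀ c' ∈ CC P, ev ν₀ ⁅c, c'⁆ = 1) → ∀ g, cl g ν₀ = ν₀ := by
    intro ν₀ hν₀ hC g
    by_cases h1 : ν₁ * ν₀ = 1
    · have e : ν₀ = ν₁⁻¹ := by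
        apply ev_ext
        intro d _
        have h6 := congrArg (fun l => ev l d) h1
        simp only [ev_hmul, ev_hone] at h6
        rw [ev_hinv]
        exact eq_inv_of_mul_eq_one_right h6
      rw [e, cl_hinv, hinv]
    · have hν' : ∀ k ∈ L P 2, ev (ν₁ * ν₀) k = 1 := by
        intro k hk
        rw [ev_hmul, hν₁ k hk, hν₀ k hk, one_mul]
      have hZ : Zn (ν₁ * ν₀) hν' = Zn ν₁ hν₁ := by
        ext x
        constructor
        · intro hx
          have hxC := h.Zn_le_CC h1 hx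
          rw [h.mem_Zn_CC hxC] at hx ⊢
          intro c hc
          have := hx c hc
          rwa [ev_hmul, hC x hxC c hc, mul_one] at this
        · intro hx
          have hxC := h.Zn_le_CC hne hx
          rw [h.mem_Zn_CC hxC] at hx ⊢
          intro c hc
          rw [ev_hmul, hx c hc, hC x hxC c hc, mul_one]
      obtain ⟨ω, hω, ho⟩ := exists_over_incl (L_le P 1) (isIrr_lf (ν₁ * ν₀))
      obtain ⟨ω₁, hω₁, ho₁⟩ := exists_over_incl (L_le P 1) (isIrr_lf ν₁)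
      have hd : charDegree ω₁ = charDegree ω := by
        have h2 := deg_nu (hν := hν') hω ho
        rw [hZ, ← deg_nu (hν := hν₁) hω₁ ho₁] at h2
        exact (Nat.pow_left_injective two_ne_zero h2).symm
      have hst : stab ω₁ = ⊤ := by
        rw [h.stab_nu (hν := hν₁) hne hω₁ ho₁, eq_top_iff]
        exact fun g _ => mem_stab_iff.2 (hinv g)
      obtain ⟨h3, -⟩ := anti_omega h.anti h.cyc hω₁ hω (over_nonlin le_rfl hne hω₁ ho₁)
        (by rw [hd]) (by rw [hst]; exact le_top)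
      rw [hst, h.stab_nu (hν := hν') h1 hω ho] at h3
      have h4 : cl g (ν₁ * ν₀) = ν₁ * ν₀ := by
        rw [← mem_stab_iff, h3]
        exact Subgroup.mem_top g
      rw [cl_hmul, hinv] at h4
      exact mul_left_cancel h4
  -- the quotients `ν^g / ν`
  have hδ : ∀ a b : G, cl b (cl a ν * ν⁻¹) = cl a ν * ν⁻¹ := by
    intro a
    refine key _ ?_ ?_
    · intro k hk
      rw [ev_hmul, ev_hinv, ev_cl a ν (L_anti P (by omega : 1 ≤ 2) hk), hν k hk, inv_one, mul_one]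
      exact hν _ ((inferInstance : (L P 2).Normal).conj_mem k hk a)
    · intro c hc c' hc'
      rw [ev_hmul, ev_hinv, CC_conj_comm hc hc' a hν, mul_inv_cancel]
  set δ := cl g ν * ν⁻¹ with hδ'
  have h4 : δ = 1 := by
    apply ev_ext
    intro d hd
    rw [ev_hone]
    have h1 : ∀ k : ℕ, ev (cl (g ^ k) ν) d = ev ν d * (ev δ d) ^ k := by
      intro k
      induction k with
      | zero => rw [pow_zero, cl_one, pow_zero, mul_one]
      | succ k ih =>
        have h2 : ev (cl (g ^ k) δ) d = ev δ d := by rw [hδ' , hδ g (g ^ k)]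
        have h3 : ev (cl (g ^ k) δ) d = ev (cl (g * g ^ k) ν) d * (ev (cl (g ^ k) ν) d)⁻¹ := by
          rw [hδ', cl_hmul, cl_hinv, ev_hmul, ev_hinv, cl_mul]
        rw [pow_succ' g, pow_succ, ← mul_assoc, ← ih, ← h2, h3, mul_comm, inv_mul_cancel_right]
    have h2 := h1 P.index
    rw [P_fix hν (Subgroup.pow_index_mem P g)] at h2
    have h5 : (ev δ d) ^ P.index = 1 := mul_eq_left.1 h2.symm
    have h6 : (ev δ d) ^ Nat.card P = 1 := by
      rw [← ev_pow δ hd]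
      have h7 : d ^ Nat.card P = 1 :=
        congrArg Subtype.val (pow_card_eq_one' (x := (⟨d, L_le P 1 hd⟩ : P)))
      rw [h7, ev_one]
    exact coprime_eq_one h6 h5 h.cop
  exact lin_mul_inv_eq_one (hδ' ▸ h4)

end sep

end Cfsg.Agent.H675.Nd
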