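import Mathlib
import Cfsg.Agent.H675.Nd.PG4

/-!
# The Sylow subgroup: Case I
-/

set_option autoImplicit false
set_option linter.style.haveILetI false
set_option linter.unusedSectionVars false
open Cfsg

namespace Cfsg.Agent.H675.Nd

open Cfsg.Agent.Characters.Core Cfsg.Agent.Characters.Clifford Cfsg.Agent.H672 Cfsg.Agent.H672.RM
open Cfsg.Agent.H597.FrobA
open scoped commutatorElement

universe u v w

section caseI

variable {G : Type u} [Group G] [Finite G] {P K : Subgroup G} [hP : P.Normal] [hK : K.Normal]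
  {p : ℕ}

theorem PS.EC_comm (h : PS P K p) {e c : G} (he : e ∈ EE P) (hc : c ∈ CC P) : ⁅e, c⁆ ∈ L P 2 :=
  sep_L (mem_L_one P (EE_le he) (CC_le hc)) fun _ hν => h.ev_EC hν he hc

theorem PS.L1_le (h : PS P K p) : L P 1 ≤ ⁅EE P, EE P⁆ ⊔ L P 2 := by
  refine sep_le (sup_le (Subgroup.commutator_mono EE_le EE_le) (L_anti P (by omega)))
    le_sup_right fun ν hν hM => ?_
  by_contra hν1
  obtain ⟨e, he, he'⟩ := h.E_ne
  apply he'
  refine h.Zn_inf (hν := hν) hν1 ⟨⟨EE_le he, fun y hy => ?_⟩, he⟩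
  obtain ⟨e', he', c, hc, rfl⟩ := h.exists_EC hy
  rw [ev_comm_mul_right (P_fix hν (EE_le he')) (mem_L_one P (EE_le he) (EE_le he'))
    (mem_L_one P (EE_le he) (CC_le hc)), h.ev_EC hν he hc, mul_one]
  exact hM _ (Subgroup.mem_sup_left (Subgroup.commutator_mem_commutator he he'))

theorem PS.L1_CC (h : PS P K p) {z c : G} (hz : z ∈ L P 1) (hc : c ∈ CC P) : ⁅z, c⁆ ∈ L P 3 := by
  have hEC : ⁅EE P, CC P⁆ ≤ L P 2 := by
    rw [Subgroup.commutator_le]
    intro e he c hc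
    exact h.EC_comm he hc
  have h1 : ⁅⁅EE P, EE P⁆, CC P⁆ ≤ L P 3 := by
    refine tsl ((Subgroup.commutator_mono hEC EE_le).trans (comm_L P 2 0)) ?_
    rw [Subgroup.commutator_comm (CC P)]
    exact (Subgroup.commutator_mono hEC EE_le).trans (comm_L P 2 0)
  obtain ⟨x, hx, y, hy, rfl⟩ := Subgroup.mem_sup_of_normal_right.1 (h.L1_le hz)
  have e : ⁅x * y, c⁆ = (x * ⁅y, c⁆ * x⁻¹) * ⁅x, c⁆ := by
    simp only [commutatorElement_def]; group
  rw [e]
  exact (L P 3).mul_mem ((inferInstance : (L P 3).Normal).conj_mem _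
    (mem_L_succ P hy (CC_le hc)) x) (h1 (Subgroup.commutator_mem_commutator hx hc))

/-- In Case I the class of `P` is two. -/
theorem PS.caseI_L2 (h : PS P K p)
    (hI : ∀ ν : L P 1 →* ℂˣ, (∀ k ∈ L P 2, ev ν k = 1) → ∀ g, cl g ν = ν) : L P 2 = ⊥ := by
  apply h.L_bot
  intro μ hμ
  by_contra hμ1
  obtain ⟨g, hgP, hg⟩ := h.exists_fix (by omega) hμ1 hμ
  have h12 : L P 2 ≤ L P 1 := L_anti P (by omega)
  have h0 : ∀ z ∈ L P 1, z⁻¹ * (g * z * g⁻¹) ∈ L P 2 := by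
    intro z hz
    have hz' : g * z * g⁻¹ ∈ L P 1 := (inferInstance : (L P 1).Normal).conj_mem z hz g
    refine sep_L ((L P 1).mul_mem ((L P 1).inv_mem hz) hz') fun ν hν => ?_
    rw [ev_mul ν ((L P 1).inv_mem hz) hz', ev_inv ν hz, ev_conj (hI ν hν g) hz, inv_mul_cancel]
  have h1 : ∀ e ∈ EE P, ∀ z ∈ L P 1, ev μ ⁅e, z⁆ = 1 := by
    intro e he z hz
    refine pair_fix (A := EE P) (B0 := L P 1) hg (fun a ha => P_fix hμ (EE_le ha))
      (fun a ha => mem_L_succ' P (EE_le ha) hz) (fun a ha => (EE_normal).conj_mem a ha g) ?_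
      L1_le_EE (fun b hb => hμ _ (comm_L P 1 1 (Subgroup.commutator_mem_commutator hb hz)))
      (fun a ha => h.ontoE le_rfl hgP (fun m hm => (EE_normal).conj_mem m hm g) ha) e he
    intro a ha
    have h2 := h0 z hz
    have h3 := mem_L_succ' P (EE_le ha) h2
    have e : g * z * g⁻¹ = z * (z⁻¹ * (g * z * g⁻¹)) := by group
    rw [e, ev_comm_mul_right (P_fix hμ (L_le P 1 hz)) (mem_L_succ' P (EE_le ha) hz)
      (L_anti P (Nat.le_succ 2) h3), hμ _ h3, mul_one]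
  apply hμ1
  apply ev_ext
  intro d hd
  rw [ev_hone]
  have hle : ⁅L P 1, P⁆ ≤ L P 2 := le_rfl
  refine ev_comm_sub (S := L P 1) (T := P) (D := L P 2) (δ := μ) hle ?_ d hd
  intro z hz x hx
  obtain ⟨e, he, c, hc, rfl⟩ := h.exists_EC hx
  rw [ev_comm_mul_right (P_fix hμ (EE_le he)) (mem_L_succ P hz (EE_le he))
    (mem_L_succ P hz (CC_le hc)), hμ _ (h.L1_CC hz hc), mul_one,
    ev_comm_swap μ (mem_L_succ' P (EE_le he) hz), h1 e he z hz, inv_one]

theorem PS.deg_pow (h : PS P K p) {ω : P → ℂ} (hω : IsIrrCharacter P ω) :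
    ∃ n, charDegree ω = p ^ n := by
  haveI := Fact.mk h.pr
  obtain ⟨n, hn⟩ := IsPGroup.iff_card.1 h.pg
  have h1 := degree_dvd_card hω
  rw [hn] at h1
  obtain ⟨k, -, hk⟩ := (Nat.dvd_prime_pow h.pr).1 h1
  exact ⟨k, hk⟩

theorem pow_dvd_or {p a b : ℕ} (ha : ∃ n, a = p ^ n) (hb : ∃ n, b = p ^ n) : a ∣ b ∨ b ∣ a := by
  obtain ⟨n, rfl⟩ := ha
  obtain ⟨m, rfl⟩ := hb
  rcases le_total n m with h | h
  · exact Or.inl (pow_dvd_pow p h)
  · exact Or.inr (pow_dvd_pow p h)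

/-- **Case I**: nonlinear characters of `P` are invariant, of one degree. -/
theorem PS.caseI (h : PS P K p) {ν₁ : L P 1 →* ℂˣ} (hν₁ : ∀ k ∈ L P 2, ev ν₁ k = 1)
    (hne : ν₁ ≠ 1) (hinv : ∀ g, cl g ν₁ = ν₁) :
    (∀ ω : P → ℂ, IsIrrCharacter P ω → charDegree ω ≠ 1 → stab ω = ⊤) ∧
    (∀ ω ω' : P → ℂ, IsIrrCharacter P ω → IsIrrCharacter P ω' → charDegree ω ≠ 1 →
      charDegree ω' ≠ 1 → charDegree ω = charDegree ω') := by
  have hI := fun (ν : L P 1 →* ℂˣ) hν g => h.caseI_inv hν₁ hne hinv (ν := ν) hν g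
  have hL2 := h.caseI_L2 hI
  have key : ∀ ω : P → ℂ, IsIrrCharacter P ω → charDegree ω ≠ 1 → stab ω = ⊤ := by
    intro ω hω h1
    obtain ⟨n, hn, ν, hν1, hν, ho⟩ := h.exists_level hω h1
    have hn1 : n = 1 := by
      by_contra hcon
      apply hν1
      apply ev_ext
      intro d hd
      have h2 : d ∈ L P 2 := L_anti P (by omega : 2 ≤ n) hd
      rw [hL2, Subgroup.mem_bot] at h2
      rw [h2, ev_one, ev_one]
    subst hn1
    rw [h.stab_nu (hν := hν) hν1 hω ho, eq_top_iff]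
    exact fun g _ => mem_stab_iff.2 (hI ν hν g)
  refine ⟨key, fun ω ω' hω hω' h1 h1' => ?_⟩
  rcases pow_dvd_or (h.deg_pow hω) (h.deg_pow hω') with h2 | h2
  · exact (anti_omega h.anti h.cyc hω hω' h1 h2 (by rw [key ω hω h1]; exact le_top)).2
  · exact (anti_omega h.anti h.cyc hω' hω h1' h2 (by rw [key ω' hω' h1']; exact le_top)).2.symm

end caseI

end Cfsg.Agent.H675.Nd
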