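import Mathlib
import Cfsg.Agent.H675.Nd.PG5

/-!
# The Sylow subgroup: general facts on the levels
-/

set_option autoImplicit false
set_option linter.style.haveILetI false
set_option linter.unusedSectionVars false
open Cfsg

namespace Cfsg.Agent.H675.Nd

open Cfsg.Agent.Characters.Core Cfsg.Agent.Characters.Clifford Cfsg.Agent.H672 Cfsg.Agent.H672.RM
open Cfsg.Agent.H597.FrobA
open scoped commutatorElement

universe u v w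

section lev

variable {G : Type u} [Group G] [Finite G] {P K : Subgroup G} [hP : P.Normal] [hK : K.Normal]
  {p : ℕ}

theorem surj_of_fp {n : ℕ} {g : G}
    (hg : ∀ ν : L P n →* ℂˣ, (∀ k ∈ L P (n + 1), ev ν k = 1) → cl g ν = ν → ν = 1)
    {ν : L P n →* ℂˣ} (hν : ∀ k ∈ L P (n + 1), ev ν k = 1) :
    ∃ ν' : L P n →* ℂˣ, (∀ k ∈ L P (n + 1), ev ν' k = 1) ∧ ν = cl g ν' * ν'⁻¹ := by
  classical
  haveI := finite_lin (L P n)
  have hle : L P (n + 1) ≤ L P n := L_anti P (Nat.le_succ n)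
  let Λ := LK (L P n) (L P (n + 1))
  have hΛ : ∀ l, l ∈ Λ ↔ ∀ k ∈ L P (n + 1), ev l k = 1 := fun l => mem_LK_ev hle
  let f : Λ → Λ := fun l => ⟨Df g l.1, Λ.mul_mem (cl_mem_LK g l.2) (Λ.inv_mem l.2)⟩
  have hf : Function.Injective f := by
    intro a b hab
    have h1 : Df g a.1 = Df g b.1 := congrArg Subtype.val hab
    have h3 : cl g (a.1 * b.1⁻¹) = a.1 * b.1⁻¹ := by
      apply ev_ext
      intro d _
      have h6 := congrArg (fun l => ev l d) h1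
      simp only [Df_apply, ev_hmul, ev_hinv] at h6
      rw [cl_hmul, cl_hinv, ev_hmul, ev_hmul, ev_hinv, ev_hinv, ← div_eq_mul_inv,
        ← div_eq_mul_inv, div_eq_div_iff_mul_eq_mul]
      rw [← div_eq_mul_inv, ← div_eq_mul_inv, div_eq_div_iff_mul_eq_mul] at h6
      rw [h6, mul_comm]
    have h4 : a.1 * b.1⁻¹ ∈ Λ := Λ.mul_mem a.2 (Λ.inv_mem b.2)
    have h5 : a.1 * b.1⁻¹ = 1 := hg _ ((hΛ _).1 h4) h3
    exact Subtype.ext (lin_mul_inv_eq_one h5)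
  obtain ⟨l, hl⟩ := Finite.surjective_of_injective hf ⟨ν, (hΛ ν).2 hν⟩
  refine ⟨l.1, (hΛ _).1 l.2, ?_⟩
  exact (congrArg Subtype.val hl).symm

/-- An element without nontrivial fixed points on `Lin(γ_n / γ_{n+1})`. -/
theorem fp_L {n : ℕ} {g : G}
    (hg : ∀ ν : L P n →* ℂˣ, (∀ k ∈ L P (n + 1), ev ν k = 1) → cl g ν = ν → ν = 1) {z : G}
    (hz : z ∈ L P n) (hc : g * z * g⁻¹ * z⁻¹ ∈ L P (n + 1)) : z ∈ L P (n + 1) := by
  refine sep_L hz fun ν hν => ?_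
  obtain ⟨ν', hν', rfl⟩ := surj_of_fp hg hν
  have hz' : g * z * g⁻¹ ∈ L P n := (inferInstance : (L P n).Normal).conj_mem z hz g
  rw [ev_hmul, ev_hinv, ev_cl g ν' hz, ← ev_inv ν' hz, ← ev_mul ν' hz' ((L P n).inv_mem hz)]
  exact hν' _ hc

/-- An element acting trivially on `Lin(γ_n / γ_{n+1})`. -/
theorem triv_L {n : ℕ} {g : G}
    (hg : ∀ ν : L P n →* ℂˣ, (∀ k ∈ L P (n + 1), ev ν k = 1) → cl g ν = ν) {z : G}
    (hz : z ∈ L P n) : z⁻¹ * (g * z * g⁻¹) ∈ L P (n + 1) := by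
  have hz' : g * z * g⁻¹ ∈ L P n := (inferInstance : (L P n).Normal).conj_mem z hz g
  refine sep_L ((L P n).mul_mem ((L P n).inv_mem hz) hz') fun ν hν => ?_
  rw [ev_mul ν ((L P n).inv_mem hz) hz', ev_inv ν hz, ev_conj (hg ν hν) hz, inv_mul_cancel]

theorem fix_of_stab_top {n : ℕ} {ν : L P n →* ℂˣ} (h : stab (lf ν : L P n → ℂ) = ⊤) (g : G) :
    cl g ν = ν := by
  rw [← mem_stab_iff, h]
  exact Subgroup.mem_top g

theorem card_LK {A B : Subgroup G} [hA : A.Normal] [hB : B.Normal] (hBA : B ≤ A)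
    (hAA : ⁅A, A⁆ ≤ B) : Nat.card (LK A B) = B.relIndex A := by
  haveI := finite_lin A
  haveI : Finite (LK A B) := inferInstance
  let φ : LK A B →* (A →* ℂˣ) := (LK A B).subtype
  have h1 := card_pair φ
  have h2 : φ.ker = ⊥ := (MonoidHom.ker_eq_bot_iff φ).2 Subtype.coe_injective
  have h3 : φ.flip.ker = B.subgroupOf A := by
    ext a
    rw [MonoidHom.mem_ker, Subgroup.mem_subgroupOf]
    constructor
    · intro h
      by_contra hcon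
      obtain ⟨l, hl, hl'⟩ := exists_LK_ne hBA hAA a.2 hcon
      exact hl' (DFunLike.congr_fun h ⟨l, hl⟩)
    · intro h
      apply MonoidHom.ext
      intro l
      exact l.2 a a.2 h
  rw [h2, h3, Subgroup.index_bot] at h1
  exact h1

theorem card_LKL (n : ℕ) : Nat.card (LK (L P n) (L P (n + 1))) = (L P (n + 1)).relIndex (L P n) :=
  card_LK (L_anti P (Nat.le_succ n)) ((comm_L P n n).trans (L_anti P (by omega)))

/-- The radical on the side of `γ_n`. -/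
theorem PS.rad_L (h : PS P K p) {n : ℕ} (hn : 1 ≤ n) {μ : L P (n + 1) →* ℂˣ}
    (hμ : ∀ k ∈ L P (n + 1 + 1), ev μ k = 1) (hμ1 : μ ≠ 1)
    (hS : ∀ g, g ∉ P → cl g μ = μ → ∀ ν : L P n →* ℂˣ, (∀ k ∈ L P (n + 1), ev ν k = 1) →
      cl g ν = ν → ν = 1) {z : G} (hz : z ∈ L P n) (hz' : ∀ x ∈ P, ev μ ⁅z, x⁆ = 1) :
    z ∈ L P (n + 1) := by
  have hA : ∀ a ∈ L P n, cl a μ = μ := fun a ha => P_fix hμ (L_le P n ha)
  have hAB : ∀ a ∈ L P n, ∀ b ∈ P, ⁅a, b⁆ ∈ L P (n + 1) := fun a ha b hb => mem_L_succ P ha hb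
  have hBZ : L P (n + 1) ≤ rd (L P n) P μ hA hAB := fun b hb =>
    ⟨L_anti P (Nat.le_succ n) hb, fun x hx => hμ _ (mem_L_succ P hb hx)⟩
  have hZP : rd (L P n) P μ hA hAB ≤ P := rd_le.trans (L_le P n)
  have hnrm : stab (lf μ : L P (n + 1) → ℂ) ≤
      Subgroup.normalizer ((rd (L P n) P μ hA hAB : Subgroup G) : Set G) := fun g hg =>
    rd_nrm (mem_nrm _ g) (mem_nrm P g) (mem_stab_iff.1 hg)
  have hst : ∀ l : rd (L P n) P μ hA hAB →* ℂˣ,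
      (∀ b : L P (n + 1), l (Subgroup.inclusion hBZ b) = μ b) →
      P ≤ stab (lf l : rd (L P n) P μ hA hAB → ℂ) := by
    intro l hl x hx
    rw [mem_stab_ev]
    refine ⟨hnrm (P_le_stab hμ hx), fun d hd => ?_⟩
    have e : x * d * x⁻¹ = ⁅x, d⁆ * d := by rw [commutatorElement_def]; group
    have hm : ⁅x, d⁆ ∈ L P (n + 1) := mem_L_succ' P hx hd.1
    have h1 : ev l ⁅x, d⁆ = ev μ ⁅x, d⁆ := by
      rw [ev_of_mem l (hBZ hm), ev_of_mem μ hm]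
      exact hl ⟨_, hm⟩
    rw [e, ev_mul l (hBZ hm) hd, h1, ev_comm_swap μ (comm_swap_mem hm), hd.2 x hx, inv_one,
      one_mul]
  have hZZ : ⁅rd (L P n) P μ hA hAB, rd (L P n) P μ hA hAB⁆ ≤ L P (n + 1 + 1) :=
    (Subgroup.commutator_mono rd_le rd_le).trans ((comm_L P n n).trans (L_anti P (by omega)))
  refine rad_le (Q := P) (D := stab (lf μ : L P (n + 1) → ℂ)) hBZ μ le_rfl hnrm
    (fun a _ b _ => cyc_comm h.cyc a b) (hZZ.trans (L_anti P (Nat.le_succ _))) ?_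
    (fun l hl g hg => hst l hl hg) ?_ ?_ (⟨hz, hz'⟩ : z ∈ rd (L P n) P μ hA hAB)
  · intro z hz
    exact (ev_of_mem μ _).symm.trans (hμ z (hZZ hz))
  · intro l hl
    obtain ⟨ω, hω, ho⟩ := exists_over_incl hZP (isIrr_lf l)
    have ho' : Over (Subgroup.inclusion (L_le P (n + 1))) ω (lf μ) :=
      over_trans hBZ hZP hω (isIrr_lf l) (isIrr_lf μ) ho (over_of_ext hBZ (isIrr_lf μ)
        fun k => congrArg Units.val (hl k))
    obtain ⟨g, hg, hgP⟩ := h.out (by omega) hμ1 hω ho'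
    have hgμ := stab_le_nu hμ hω ho' hg
    exact ⟨g, hgμ, hgP, stab_of_inv hZP (hst l hl) (isIrr_lf l) hω ho hg (hnrm hgμ)⟩
  · intro g hg hgP z hz hc
    exact fp_L (hS g hgP (mem_stab_iff.1 hg)) hz.1 hc

/-- `μ([z, ·]) ` is onto `Lin(γ_n / γ_{n+1})` -/
theorem PS.rd_index (h : PS P K p) {n : ℕ} (hn : 1 ≤ n) {μ : L P (n + 1) →* ℂˣ}
    (hμ : ∀ k ∈ L P (n + 1 + 1), ev μ k = 1) (hμ1 : μ ≠ 1)
    (hS : ∀ g, g ∉ P → cl g μ = μ → ∀ ν : L P n →* ℂˣ, (∀ k ∈ L P (n + 1), ev ν k = 1) →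
      cl g ν = ν → ν = 1) {hA : ∀ a ∈ P, cl a μ = μ} {hAB : ∀ a ∈ P, ∀ b ∈ L P n, ⁅a, b⁆ ∈
        L P (n + 1)} : (rd P (L P n) μ hA hAB).relIndex P = Nat.card (LK (L P n) (L P (n + 1))) := by
  have hA' : ∀ a ∈ L P n, cl a μ = μ := fun a ha => P_fix hμ (L_le P n ha)
  have hAB' : ∀ a ∈ L P n, ∀ b ∈ P, ⁅a, b⁆ ∈ L P (n + 1) := fun a ha b hb => mem_L_succ P ha hb
  rw [rd_dual (hA := hA) (hAB := hAB) hA' hAB', card_LKL]
  congr 1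
  refine le_antisymm (fun z hz => h.rad_L hn hμ hμ1 hS hz.1 hz.2) fun b hb =>
    ⟨L_anti P (Nat.le_succ n) hb, fun x hx => hμ _ (mem_L_succ P hb hx)⟩

/-- Every element of `Lin(γ_n / γ_{n+1})` is `μ([x, ·])`, `x ∈ P`. -/
theorem PS.exists_x (h : PS P K p) {n : ℕ} (hn : 1 ≤ n) {μ : L P (n + 1) →* ℂˣ}
    (hμ : ∀ k ∈ L P (n + 1 + 1), ev μ k = 1) (hμ1 : μ ≠ 1)
    (hS : ∀ g, g ∉ P → cl g μ = μ → ∀ ν : L P n →* ℂˣ, (∀ k ∈ L P (n + 1), ev ν k = 1) →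
      cl g ν = ν → ν = 1) {ν : L P n →* ℂˣ} (hν : ∀ k ∈ L P (n + 1), ev ν k = 1) :
    ∃ x ∈ P, ∀ z ∈ L P n, ev ν z = ev μ ⁅x, z⁆ := by
  classical
  haveI := finite_lin (L P n)
  have hA : ∀ a ∈ P, cl a μ = μ := fun a ha => P_fix hμ ha
  have hAB : ∀ a ∈ P, ∀ b ∈ L P n, ⁅a, b⁆ ∈ L P (n + 1) := fun a ha b hb => mem_L_succ' P ha hb
  have hA' : ∀ a ∈ L P n, cl a μ = μ := fun a ha => P_fix hμ (L_le P n ha)
  let φ := cpair P (L P n) μ hAB hA hA'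
  have hr : φ.range ≤ LK (L P n) (L P (n + 1)) := by
    rintro _ ⟨x, rfl⟩
    rw [mem_LK_ev (L_anti P (Nat.le_succ n))]
    intro k hk
    rw [ev_of_mem _ (L_anti P (Nat.le_succ n) hk)]
    exact hμ _ (mem_L_succ' P x.2 hk)
  have hcard : Nat.card φ.range = Nat.card (LK (L P n) (L P (n + 1))) := by
    rw [← Subgroup.index_ker, ← h.rd_index hn hμ hμ1 hS (hA := hA) (hAB := hAB), rd_relIndex hA']
  have heq := Subgroup.eq_of_le_of_card_ge hr hcard.ge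
  have hm : ν ∈ φ.range := by
    rw [heq]
    exact (mem_LK_ev (L_anti P (Nat.le_succ n))).2 hν
  obtain ⟨x, hx⟩ := hm
  refine ⟨x, x.2, fun z hz => ?_⟩
  rw [← hx, ev_of_mem _ hz]
  rfl

/-- Stabilizers of nontrivial elements of `Lin(γ_n / γ_{n+1})` coincide. -/
theorem PS.stab_const (h : PS P K p) {n : ℕ} (hn : 1 ≤ n)
    (hdeg : ∀ (ν ν' : L P n →* ℂˣ), (∀ k ∈ L P (n + 1), ev ν k = 1) →
      (∀ k ∈ L P (n + 1), ev ν' k = 1) → ν ≠ 1 → ν' ≠ 1 → ∀ ω ω' : P → ℂ, IsIrrCharacter P ω →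
      IsIrrCharacter P ω' → Over (Subgroup.inclusion (L_le P n)) ω (lf ν) →
      Over (Subgroup.inclusion (L_le P n)) ω' (lf ν') → charDegree ω = charDegree ω')
    (hstab : ∀ (ν : L P n →* ℂˣ), (∀ k ∈ L P (n + 1), ev ν k = 1) → ν ≠ 1 → ∀ ω : P → ℂ,
      IsIrrCharacter P ω → Over (Subgroup.inclusion (L_le P n)) ω (lf ν) →
      stab ω = stab (lf ν : L P n → ℂ)) {ν ν' : L P n →* ℂˣ}
    (hν : ∀ k ∈ L P (n + 1), ev ν k = 1) (hν' : ∀ k ∈ L P (n + 1), ev ν' k = 1) (h1 : ν ≠ 1)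
    (h1' : ν' ≠ 1) : stab (lf ν : L P n → ℂ) = stab (lf ν' : L P n → ℂ) := by
  have hle : L P (n + 1) ≤ L P n := L_anti P (Nat.le_succ n)
  have key : ∀ {l m : L P n →* ℂˣ}, (∀ k ∈ L P (n + 1), ev l k = 1) →
      (∀ k ∈ L P (n + 1), ev m k = 1) → l ≠ 1 → m ≠ 1 →
      stab (lf l : L P n → ℂ) ≤ stab (lf m : L P n → ℂ) := by
    intro l m hl hm hl1 hm1 t ht
    refine stab_of_comm (LK (L P n) (L P (n + 1))) (fun g l hl => cl_mem_LK g hl) ?_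
      ((mem_LK_ev hle).2 hl) ((mem_LK_ev hle).2 hm) hl1 hm1 ht ?_
    · intro a ha b hb ha1 hb1 hab
      rw [mem_LK_ev hle] at ha hb
      obtain ⟨ωa, hωa, hoa⟩ := exists_over_incl (L_le P n) (isIrr_lf a)
      obtain ⟨ωb, hωb, hob⟩ := exists_over_incl (L_le P n) (isIrr_lf b)
      have e1 := hstab a ha ha1 ωa hωa hoa
      have e2 := hstab b hb hb1 ωb hωb hob
      have e3 := hdeg b a hb ha hb1 ha1 ωb ωa hωb hωa hob hoa
      have := (anti_omega h.anti h.cyc hωb hωa (over_nonlin hn hb1 hωb hob) (by rw [e3])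
        (by rw [e1, e2]; exact hab)).1
      rwa [e1, e2] at this
    · intro g κ hκ
      rw [mem_LK_ev hle] at hκ
      have e : t * g = ⁅t, g⁆ * (g * t) := by rw [commutatorElement_def]; group
      rw [e, cl_mul, P_fix hκ (cyc_comm h.cyc t g)]
  exact le_antisymm (key hν hν' h1 h1') (key hν' hν h1' h1)

end lev

section jac

variable {G : Type u} [Group G] {D : Subgroup G} [hD : D.Normal]

theorem ev_comm_inv_left {δ : D →* ℂˣ} {a b : G} (ha : cl a δ = δ) (h1 : ⁅a, b⁆ ∈ D)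
    (h2 : ⁅a⁻¹, b⁆ ∈ D) : ev δ ⁅a⁻¹, b⁆ = (ev δ ⁅a, b⁆)⁻¹ := by
  have h := ev_comm_mul_left ha h1 h2
  rw [mul_inv_cancel, commutatorElement_one_left, ev_one] at h
  exact eq_inv_of_mul_eq_one_right h.symm

theorem ev_comm_inv_right {δ : D →* ℂˣ} {a b : G} (hb : cl b δ = δ) (h1 : ⁅a, b⁆ ∈ D)
    (h2 : ⁅a, b⁻¹⁆ ∈ D) : ev δ ⁅a, b⁻¹⁆ = (ev δ ⁅a, b⁆)⁻¹ := by
  have h := ev_comm_mul_right hb h1 h2
  rw [mul_inv_cancel, commutatorElement_one_right, ev_one] at h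
  exact eq_inv_of_mul_eq_one_right h.symm

variable {P : Subgroup G} [hP : P.Normal]

/-- `⁅a⁻¹, b⁻¹⁆ ≡ ⁅a, b⁆`. -/
theorem comm_inv_inv {m n : ℕ} {a b : G} (ha : a ∈ L P m) (hb : b ∈ L P n) :
    ∃ d ∈ L P (m + n + 2), ⁅a⁻¹, b⁻¹⁆ = ⁅a, b⁆ * d := by
  have h1 : ⁅a, b⁆ ∈ L P (m + n + 1) := comm_L P m n (Subgroup.commutator_mem_commutator ha hb)
  have hab : b * a ∈ P := P.mul_mem (L_le P n hb) (L_le P m ha)
  refine ⟨⁅⁅a, b⁆⁻¹, (b * a)⁻¹⁆, mem_L_succ P ((L P _).inv_mem h1) (P.inv_mem hab), ?_⟩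
  simp only [commutatorElement_def]
  group

/-- **Jacobi identity.** -/
theorem jac {a b c n : ℕ} (hn : n ≤ a + b + c + 2) {x y z : G} (hx : x ∈ L P a)
    (hy : y ∈ L P b) (hz : z ∈ L P c) {μ : L P n →* ℂˣ} (hμ : ∀ k ∈ L P (n + 1), ev μ k = 1) :
    ev μ ⁅z, ⁅x, y⁆⁆ * ev μ ⁅y, ⁅z, x⁆⁆ * ev μ ⁅x, ⁅y, z⁆⁆ = 1 := by
  have hcom : ∀ {i j : ℕ} {a b : G}, a ∈ L P i → b ∈ L P j → ⁅a, b⁆ ∈ L P (i + j + 1) :=
    fun ha hb => comm_L P _ _ (Subgroup.commutator_mem_commutator ha hb)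
  have hxP := L_le P a hx
  have hyP := L_le P b hy
  have hzP := L_le P c hz
  have h1 : ∀ {i j : ℕ} {u v : G}, u ∈ L P i → v ∈ L P j → n ≤ i + j + 1 → ⁅u, v⁆ ∈ L P n :=
    fun hu hv hle => L_anti P hle (hcom hu hv)
  obtain ⟨d, hd, ed⟩ := comm_inv_inv (P := P) hz hx
  have hid : ⁅z, ⁅x, y⁆⁆ = (x * z) * (⁅y, ⁅z⁻¹, x⁻¹⁆⁆⁻¹ * ((z⁻¹ * y) * ⁅x⁻¹, ⁅y⁻¹, z⁆⁆⁻¹ *
      (z⁻¹ * y)⁻¹)) * (x * z)⁻¹ := by
    simp only [commutatorElement_def]; group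
  have hz' := (L P c).inv_mem hz
  have hx' := (L P a).inv_mem hx
  have hy' := (L P b).inv_mem hy
  have m1 : ⁅y, ⁅z⁻¹, x⁻¹⁆⁆ ∈ L P n := h1 hy (hcom hz' hx') (by omega)
  have m2 : ⁅x⁻¹, ⁅y⁻¹, z⁆⁆ ∈ L P n := h1 hx' (hcom hy' hz) (by omega)
  have m2' := (L P n).inv_mem m2
  have hn' : (L P n).Normal := inferInstance
  have m3 := hn'.conj_mem _ m2' (z⁻¹ * y)
  have e1 : ev μ ⁅z, ⁅x, y⁆⁆ = (ev μ ⁅y, ⁅z⁻¹, x⁻¹⁆⁆)⁻¹ * (ev μ ⁅x⁻¹, ⁅y⁻¹, z⁆⁆)⁻¹ := by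
    rw [hid, ev_conj (P_fix hμ (P.mul_mem hxP hzP)) ((L P n).mul_mem ((L P n).inv_mem m1) m3),
      ev_mul μ ((L P n).inv_mem m1) m3, ev_conj (P_fix hμ (P.mul_mem (P.inv_mem hzP) hyP)) m2',
      ev_inv μ m1, ev_inv μ m2]
  have e2 : ev μ ⁅y, ⁅z⁻¹, x⁻¹⁆⁆ = ev μ ⁅y, ⁅z, x⁆⁆ := by
    have h3 : ⁅y, d⁆ ∈ L P (n + 1) := L_anti P (by omega) (hcom hy hd)
    rw [ed, ev_comm_mul_right (P_fix hμ (L_le P _ (hcom hz hx))) (h1 hy (hcom hz hx) (by omega))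
      (L_anti P (Nat.le_succ n) h3), hμ _ h3, mul_one]
  have e3 : ev μ ⁅x⁻¹, ⁅y⁻¹, z⁆⁆ = ev μ ⁅x, ⁅y, z⁆⁆ := by
    have h4 : ⁅y⁻¹, z⁆ = ⁅y, z⁆⁻¹ * ⁅⁅y, z⁆, y⁻¹⁆ := by
      simp only [commutatorElement_def]; group
    have h5 : ⁅⁅y, z⁆, y⁻¹⁆ ∈ L P (b + c + 1 + 1) := mem_L_succ P (hcom hy hz) (P.inv_mem hyP)
    have h6 : ⁅x⁻¹, ⁅⁅y, z⁆, y⁻¹⁆⁆ ∈ L P (n + 1) := L_anti P (by omega) (hcom hx' h5)
    have h7 := (L P _).inv_mem (hcom hy hz)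
    rw [h4, ev_comm_mul_right (P_fix hμ (L_le P _ h7)) (h1 hx' h7 (by omega))
      (L_anti P (Nat.le_succ n) h6), hμ _ h6, mul_one,
      ev_comm_inv_right (P_fix hμ (L_le P _ (hcom hy hz))) (h1 hx' (hcom hy hz) (by omega))
        (h1 hx' h7 (by omega)),
      ev_comm_inv_left (P_fix hμ hxP) (h1 hx (hcom hy hz) (by omega))
        (h1 hx' (hcom hy hz) (by omega)), inv_inv]
  rw [e1, e2, e3, mul_assoc, mul_assoc]
  rw [mul_comm (ev μ ⁅x, ⁅y, z⁆⁆)⁻¹, mul_assoc, mul_inv_cancel, mul_one, inv_mul_cancel]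

end jac

end Cfsg.Agent.H675.Nd
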