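import Mathlib
import Cfsg.Agent.H675.Nd.PG10
import Cfsg.Agent.Blocks.Deflate

/-!
# From the Sylow subgroup to the group: quotients, characters over invariant characters
-/

set_option autoImplicit false
set_option linter.style.haveILetI false
set_option linter.unusedSectionVars false
open Cfsg

namespace Cfsg.Agent.H675.Nd

open Cfsg.Agent.Characters.Core Cfsg.Agent.Characters.Clifford Cfsg.Agent.H672 Cfsg.Agent.H672.RM
open Cfsg.Agent.H597.FrobA
open scoped commutatorElement

universe u v w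

/-- Deflation along a surjective homomorphism. -/
theorem exists_defl {A : Type u} {B : Type v} [Group A] [Finite A] [Group B] (f : A →* B)
    (hf : Function.Surjective f) {χ : A → ℂ} (hχ : IsIrrCharacter A χ)
    (hker : ∀ k ∈ f.ker, χ k = χ 1) : ∃ ω : B → ℂ, IsIrrCharacter B ω ∧ χ = ω ∘ f := by
  classical
  letI := Fintype.ofFinite f.ker
  have hsum : ∑ n : f.ker, χ n ≠ 0 := by
    rw [Finset.sum_congr rfl (fun (n : f.ker) _ => hker n n.2), Finset.sum_const, Finset.card_univ,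
      nsmul_eq_mul]
    refine mul_ne_zero ?_ (isIrr_apply_one_ne_zero hχ)
    exact Nat.cast_ne_zero.2 Fintype.card_ne_zero
  obtain ⟨⟨χ', hχ'⟩, h⟩ := Cfsg.Agent.Blocks.Deflate.exists_deflation f.ker χ hχ hsum
  let e := QuotientGroup.quotientKerEquivOfSurjective f hf
  refine ⟨χ' ∘ e.symm, isIrr_comp e.symm.toMonoidHom e.symm.surjective hχ', ?_⟩
  funext a
  rw [h]
  change χ' (QuotientGroup.mk a) = χ' (e.symm (f a))
  congr 1
  rw [MulEquiv.eq_symm_apply]
  rfl

section quot

variable {G : Type u} [Group G] [Finite G] {N K H : Subgroup G} [hN : N.Normal] [hK : K.Normal]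
  [hH : H.Normal] {p : ℕ}

instance map_mk_normal (N H : Subgroup G) [hN : N.Normal] [H.Normal] :
    (N.map (QuotientGroup.mk' H)).Normal :=
  Subgroup.Normal.map hN _ (QuotientGroup.mk'_surjective H)

theorem mem_map_mk (hHN : H ≤ N) {g : G} :
    QuotientGroup.mk' H g ∈ N.map (QuotientGroup.mk' H) ↔ g ∈ N := by
  constructor
  · rintro ⟨n, hn, e⟩
    have h1 := QuotientGroup.eq.1 e
    have h2 := N.mul_mem hn (hHN h1)
    rwa [mul_inv_cancel_left] at h2
  · intro h
    exact ⟨g, h, rfl⟩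

theorem index_map_mk (hHN : H ≤ N) : (N.map (QuotientGroup.mk' H)).index = N.index := by
  rw [Subgroup.index_map, QuotientGroup.ker_mk', sup_of_le_left hHN,
    MonoidHom.range_eq_top.2 (QuotientGroup.mk'_surjective H), Subgroup.index_top, mul_one]

theorem frobQ_map (hF : FrobQ K N p) (hHK : H ≤ K) :
    FrobQ (K.map (QuotientGroup.mk' H)) (N.map (QuotientGroup.mk' H)) p := by
  have hHN : H ≤ N := hHK.trans hF.lt.le
  have hπ := QuotientGroup.mk'_surjective H
  refine ⟨?_, ?_, ?_, ?_, ?_, ?_, ?_⟩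
  · refine lt_of_le_of_ne (Subgroup.map_mono hF.lt.le) fun e => ?_
    apply hF.lt.not_ge
    intro n hn
    rw [← mem_map_mk hHK, e]
    exact ⟨n, hn, rfl⟩
  · rw [← Subgroup.map_commutator]
    exact Subgroup.map_mono hF.comm
  · have : commutator (G ⧸ H) = (commutator G).map (QuotientGroup.mk' H) := by
      rw [_root_.commutator_def, _root_.commutator_def, Subgroup.map_commutator,
        Subgroup.map_top_of_surjective _ hπ]
    rw [this]
    exact Subgroup.map_mono hF.le
  · obtain ⟨k, hk⟩ := hF.rel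
    refine ⟨k, ?_⟩
    rw [Subgroup.relIndex_map_map, QuotientGroup.ker_mk', sup_of_le_left hHN, sup_of_le_left hHK,
      hk]
  · rw [index_map_mk hHN]
    exact hF.idx
  · intro q hq n hn hc
    obtain ⟨g, rfl⟩ := hπ q
    obtain ⟨m, hm, rfl⟩ := hn
    rw [← map_inv, ← map_inv, ← map_mul, ← map_mul, ← map_mul, mem_map_mk hHK] at hc
    rw [mem_map_mk hHN] at hq
    exact ⟨m, hF.fpf g hq m hm hc, rfl⟩
  · intro e
    apply hF.ne_top
    rw [eq_top_iff]
    intro g _
    rw [← mem_map_mk hHN, e]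
    exact Subgroup.mem_top _

theorem PS_quot (ha : Anti G) (hp : p.Prime) (hF : FrobQ K N p) (hHK : H ≤ K)
    (hidx : ∃ k, H.relIndex N = p ^ k) :
    PS (N.map (QuotientGroup.mk' H)) (K.map (QuotientGroup.mk' H)) p := by
  haveI := Fact.mk hp
  refine ⟨ha.quot H, hp, frobQ_map hF hHK, ?_⟩
  obtain ⟨k, hk⟩ := hidx
  rw [IsPGroup.iff_card]
  refine ⟨k, ?_⟩
  have h1 : (QuotientGroup.mk' H).ker.relIndex N = Nat.card (N.map (QuotientGroup.mk' H)) := by
    rw [Subgroup.relIndex_ker]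
  rw [QuotientGroup.ker_mk'] at h1
  rw [← h1, hk]

theorem stab_map {ω : N.map (QuotientGroup.mk' H) → ℂ} {g : G} :
    g ∈ stab (ω ∘ (QuotientGroup.mk' H).subgroupMap N) ↔ QuotientGroup.mk' H g ∈ stab ω := by
  constructor
  · rintro ⟨hg, h⟩
    refine ⟨mem_nrm _ _, ?_⟩
    rw [tw_map _ _ _ hg (mem_nrm _ _)] at h
    exact ((QuotientGroup.mk' H).subgroupMap_surjective N).injective_comp_right h
  · rintro ⟨hg, h⟩
    refine ⟨mem_nrm _ _, ?_⟩
    rw [tw_map _ _ _ (mem_nrm _ _) hg, h]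

theorem stab_map_eq {ω : N.map (QuotientGroup.mk' H) → ℂ} :
    stab (ω ∘ (QuotientGroup.mk' H).subgroupMap N) =
      (stab ω).comap (QuotientGroup.mk' H) := by
  ext g
  rw [stab_map, Subgroup.mem_comap]

theorem index_stab_map {ω : N.map (QuotientGroup.mk' H) → ℂ} :
    (stab (ω ∘ (QuotientGroup.mk' H).subgroupMap N)).index = (stab ω).index := by
  rw [stab_map_eq, Subgroup.index_comap_of_surjective _ (QuotientGroup.mk'_surjective H)]

theorem charDegree_map {ω : N.map (QuotientGroup.mk' H) → ℂ} :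
    charDegree (ω ∘ (QuotientGroup.mk' H).subgroupMap N) = charDegree ω :=
  charDegree_comp_one ((QuotientGroup.mk' H).subgroupMap N) ω

/-- **Characters over `N`-invariant characters of the `p`-complement.** -/
theorem caseA (ha : Anti G) (hp : p.Prime) (hF : FrobQ K N p) (hHN : H ≤ N)
    (hcop : (Nat.card H).Coprime p) (hidx : ∃ k, H.relIndex N = p ^ k) {χ : G → ℂ}
    (hχ : IsIrrCharacter G χ) (hd : p ∣ charDegree χ) {θ : H → ℂ} (hθ : IsIrrCharacter H θ)
    (ho : Over H.subtype χ θ) (hNθ : N ≤ stab θ) :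
    ∃ ω : N.map (QuotientGroup.mk' H) → ℂ, IsIrrCharacter _ ω ∧ charDegree ω ≠ 1 ∧
      charDegree χ = (stab ω).index * charDegree ω := by
  have hc := cyc_of_frobQ hF
  obtain ⟨k, hk⟩ := hidx
  obtain ⟨χ', hχ', hext, hinv⟩ := exists_canon hHN hθ hNθ (by rw [hk]; exact hcop.pow_right k)
  have hdeg : charDegree χ' = charDegree θ := charDegree_ext hHN hext
  have h1 : charDegree χ' = 1 := by
    by_contra hne
    have h2 := dvd_of_nonlin ha hp hF hχ' hne
    rw [hdeg] at h2
    have h3 := Nat.Coprime.coprime_dvd_left (degree_dvd_card hθ) hcop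
    exact hp.one_lt.ne' (Nat.eq_one_of_dvd_coprimes h3 h2 dvd_rfl)
  obtain ⟨l, rfl⟩ := exists_hom_of_degree_one hχ' h1
  have e0 : H.subtype = N.subtype.comp (Subgroup.inclusion hHN) := rfl
  rw [e0] at ho
  obtain ⟨ψ, hψ, hψo, hψθ⟩ := (over_comp_iff _ _ (isIrr_isCharacter hχ) hθ).1 ho
  have hψ1 : charDegree ψ ≠ 1 := by
    intro e
    have h2 := (charDegree_dvd_of_over N hχ hψ hψo).2
    rw [e, Nat.div_one] at h2
    exact hF.idx (hd.trans h2)
  obtain ⟨β, ⟨hβ, hβH⟩, hβψ⟩ := (gal hHN (le_nrm H N) hθ hχ' hext).surjOn ⟨hψ, hψθ⟩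
  have hβψ' : β * lf l = ψ := hβψ
  have hβd : charDegree ψ = charDegree β := by
    rw [← hβψ', H597.FrobC.charDegree_mul hχ' hβ, h1, mul_one]
  have hst : stab ψ ≤ stab β := by
    intro g hg
    have h2 : g ∈ stab θ := stab_of_inv hHN hNθ hθ hψ hψθ hg (mem_nrm H g)
    have h3 := hinv g h2 (mem_nrm N g)
    refine ⟨mem_nrm N g, ?_⟩
    have h4 := hg.2
    rw [← hβψ'] at h4
    funext n
    have h5 := congrFun h4 n
    have h6 := congrFun h3 n
    rw [tw_apply (mem_nrm N g)] at h5 h6 ⊢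
    rw [Pi.mul_apply, Pi.mul_apply, h6] at h5
    exact mul_right_cancel₀ (Units.ne_zero (l n)) h5
  have hβ1 : charDegree β ≠ 1 := by rw [← hβd]; exact hψ1
  obtain ⟨h7, h8⟩ := anti_omega ha hc hβ hψ hβ1 (by rw [hβd]) hst
  obtain ⟨ω, hω, rfl⟩ := exists_defl ((QuotientGroup.mk' H).subgroupMap N)
    ((QuotientGroup.mk' H).subgroupMap_surjective N) hβ (by
      intro n hn
      have h9 : (n : G) ∈ H := by
        rw [MonoidHom.mem_ker] at hn
        have h10 := congrArg Subtype.val hn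
        change ((n : G) : G ⧸ H) = 1 at h10
        exact (QuotientGroup.eq_one_iff _).1 h10
      exact hβH ⟨n, h9⟩)
  refine ⟨ω, hω, ?_, ?_⟩
  · rw [← charDegree_map (N := N) (H := H)]
    exact hβ1
  · rw [(GTc ha hc hψ (mul_ne_one hψ1)).2 χ hχ hψo, h7, hβd, index_stab_map, charDegree_map]

/-- A degree of `G` from a character of `N / H`. -/
theorem exists_deg_quot (ha : Anti G) (hc : IsCyclic (G ⧸ N))
    {ω : N.map (QuotientGroup.mk' H) → ℂ} (hω : IsIrrCharacter _ ω) (h1 : charDegree ω ≠ 1) :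
    ∃ χ : G → ℂ, IsIrrCharacter G χ ∧ charDegree χ = (stab ω).index * charDegree ω := by
  have h2 := isIrr_map (QuotientGroup.mk' H) N hω
  obtain ⟨⟨ψ, hψ, -, hd⟩, -⟩ := GTc ha hc h2 (mul_ne_one (by rw [charDegree_map]; exact h1))
  refine ⟨ψ, hψ, ?_⟩
  rw [hd, index_stab_map, charDegree_map]

/-- The index in a normal subgroup divides the index. -/
theorem relIndex_dvd_relIndex {T S : Subgroup G} (hT : T ≤ S) (hNS : N ≤ S) :
    T.relIndex N ∣ T.relIndex S := by
  have key : ∀ A B : Subgroup G, A ≤ B → Nat.card A * A.relIndex B = Nat.card B := by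
    intro A B hAB
    have := Subgroup.relIndex_mul_relIndex (⊥ : Subgroup G) A B bot_le hAB
    rwa [Subgroup.relIndex_bot_left, Subgroup.relIndex_bot_left] at this
  have h1 := key T (T ⊔ N) le_sup_left
  have h2 := key N (T ⊔ N) le_sup_right
  have h3 := key (T ⊓ N) T inf_le_left
  have h4 := key (T ⊓ N) N inf_le_right
  have h5 : N.relIndex (T ⊔ N) = (T ⊓ N).relIndex T := by
    rw [Subgroup.relIndex_sup_right, inf_comm, Subgroup.inf_relIndex_right]
  have h6 : T.relIndex N = (T ⊓ N).relIndex N := (Subgroup.inf_relIndex_right T N).symm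
  have h7 : T.relIndex (T ⊔ N) = T.relIndex N := by
    rw [h6]
    have hp1 : 0 < Nat.card T := Nat.card_pos
    apply Nat.eq_of_mul_eq_mul_left hp1
    rw [h1, ← h2, h5]
    conv_lhs => rw [← h4]
    rw [mul_right_comm, h3]
  rw [← h7]
  exact Dvd.intro _ (Subgroup.relIndex_mul_relIndex T (T ⊔ N) S le_sup_left (sup_le hT hNS))

end quot

end Cfsg.Agent.H675.Nd
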