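import Mathlib
import Cfsg.Agent.H675.Nd.PH2

/-!
# Case II for the group: the `p`-complement is central
-/

set_option autoImplicit false
set_option linter.style.haveILetI false
set_option linter.unusedSectionVars false
open Cfsg

namespace Cfsg.Agent.H675.Nd

open Cfsg.Agent.Characters.Core Cfsg.Agent.Characters.Clifford Cfsg.Agent.H672 Cfsg.Agent.H672.RM
open Cfsg.Agent.H597.FrobA
open scoped commutatorElement

universe u v w

variable {G : Type u} [Group G] [Finite G] {N K H : Subgroup G} [hN : N.Normal] [hK : K.Normal]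
  [hH : H.Normal] {p : ℕ}

/-- From `H` to a normal subgroup `J`. -/
theorem hx_of' {J : Subgroup G} [hJ : J.Normal] (hab : J ≤ H) {p : ℕ} (hp : p.Prime)
    (hcop : (Nat.card H).Coprime p) {x : G} (hxp : x ^ p = 1) (hxH : x ∉ H)
    (hfix : ∀ θ : H → ℂ, IsIrrCharacter H θ → x ∈ stab θ →
      charDegree θ = 1 ∧ ∀ j (hj : j ∈ J), θ ⟨j, hab hj⟩ = 1)
    {μ : J → ℂ} (hμ : IsIrrCharacter _ μ) (hxμ : x ∈ stab μ) : μ = 1 := by
  classical
  haveI := Fact.mk hp
  have hJH : Nat.card J ∣ Nat.card H := Subgroup.card_dvd_of_le hab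
  have hD : Nat.card (Subgroup.zpowers x) ∣ p := by
    rw [Nat.card_zpowers]; exact orderOf_dvd_of_pow_eq_one hxp
  -- extension to `S = J ⟨x⟩`
  set S : Subgroup G := J ⊔ Subgroup.zpowers x with hS
  have hJS : J ≤ S := le_sup_left
  have hSst : S ≤ stab μ :=
    sup_le (le_stab (isIrr_isClassFunction hμ)) (Subgroup.zpowers_le.2 hxμ)
  have hSidx : J.relIndex S ∣ p := by
    rw [hS, sup_comm, Subgroup.relIndex_sup_right]
    exact (Subgroup.relIndex_dvd_card _ _).trans hD
  obtain ⟨μ', hμ', hμ'μ⟩ := exists_ext hJS hμ hSst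
    ((hcop.coprime_dvd_left hJH).coprime_dvd_right hSidx)
  -- the group `E = H ⟨x⟩`
  set E : Subgroup G := H ⊔ Subgroup.zpowers x with hE
  have hHE : H ≤ E := le_sup_left
  have hxE : x ∈ E := Subgroup.mem_sup_right (Subgroup.mem_zpowers x)
  have hxS : x ∈ S := Subgroup.mem_sup_right (Subgroup.mem_zpowers x)
  have hSE : S ≤ E := sup_le_sup_right hab _
  have hEidx : H.relIndex E ∣ p := by
    rw [hE, sup_comm, Subgroup.relIndex_sup_right]
    exact (Subgroup.relIndex_dvd_card _ _).trans hD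
  have hpS : p ∣ Nat.card S := by
    have h1 : orderOf x = p := orderOf_eq_prime hxp (fun e => hxH (e ▸ H.one_mem))
    rw [← h1]
    have h2 := orderOf_dvd_natCard (⟨x, hxS⟩ : S)
    rwa [Subgroup.orderOf_mk] at h2
  have hSEidx : ¬ p ∣ (S.subgroupOf E).index := by
    intro hd
    have h1 : Nat.card S * S.relIndex E = Nat.card E := by
      have := Subgroup.relIndex_mul_relIndex (⊥ : Subgroup G) S E bot_le hSE
      rwa [Subgroup.relIndex_bot_left, Subgroup.relIndex_bot_left] at this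
    have h2 : Nat.card H * H.relIndex E = Nat.card E := by
      have := Subgroup.relIndex_mul_relIndex (⊥ : Subgroup G) H E bot_le hHE
      rwa [Subgroup.relIndex_bot_left, Subgroup.relIndex_bot_left] at this
    have h3 : p * p ∣ Nat.card H * p := by
      have h4 : p * p ∣ Nat.card E := by
        rw [← h1]
        exact Nat.mul_dvd_mul hpS hd
      rw [← h2] at h4
      exact h4.trans (Nat.mul_dvd_mul_left _ hEidx)
    have h4 : p ∣ Nat.card H := Nat.dvd_of_mul_dvd_mul_right hp.pos h3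
    exact hp.one_lt.ne' (Nat.eq_one_of_dvd_coprimes hcop h4 dvd_rfl)
  have hμ'd : ¬ p ∣ charDegree μ' := by
    intro hd
    have h1 : charDegree μ' = charDegree μ := by
      apply charDegree_of_eq
      rw [coe_charDegree hμ, ← hμ'μ 1, map_one]
    rw [h1] at hd
    have h2 : p ∣ Nat.card H := (hd.trans (degree_dvd_card hμ)).trans hJH
    exact hp.one_lt.ne' (Nat.eq_one_of_dvd_coprimes hcop h2 dvd_rfl)
  letI := Fintype.ofFinite E
  letI := Fintype.ofFinite (S.subgroupOf E)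
  obtain ⟨χ, hχ, hχμ, hχd⟩ := H597.RelThompson.exists_over_not_dvd p (S.subgroupOf E) hSEidx
    (isIrr_sub hSE hμ') (by
      have e : charDegree (μ' ∘ Subgroup.subgroupOfEquivOfLe hSE) = charDegree μ' :=
        charDegree_comp_one (Subgroup.subgroupOfEquivOfLe hSE).toMonoidHom μ'
      rw [e]; exact hμ'd)
  have hχo : Over (Subgroup.inclusion hSE) χ μ' :=
    (over_iff_sub hSE χ μ').2 ((over_subtype_iff _ _ _).2 hχμ)
  -- restriction to `H`
  obtain ⟨θ, hθ, hχθ⟩ := exists_under (f := Subgroup.inclusion hHE) hχ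
  have hd := div_dvd_of_over hHE (le_nrm H E) hχ hθ hχθ
  have hdd : charDegree χ / charDegree θ = 1 := by
    rcases (Nat.dvd_prime hp).1 (hd.2.trans hEidx) with h1 | h1
    · exact h1
    · exfalso
      apply hχd
      have h2 : charDegree χ / charDegree θ ∣ charDegree χ := Nat.div_dvd_of_dvd hd.1
      rwa [h1] at h2
  have hde : charDegree θ = charDegree χ := by
    have := Nat.div_mul_cancel hd.1
    rwa [hdd, one_mul] at this
  have hres : χ ∘ Subgroup.inclusion hHE = θ := eq_of_over_of_charDegree_eq hχ hθ hχθ hde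
  have hxθ : x ∈ stab θ := mem_stab_of_res hHE hχ (fun k => congrFun hres k) hxE
  obtain ⟨hθ1, hθJ⟩ := hfix θ hθ hxθ
  -- so `χ` is trivial on `J`
  have hone : χ ∘ Subgroup.inclusion (hJS.trans hSE) = 1 := by
    funext j
    have h1 := congrFun hres ⟨j, hab j.2⟩
    rw [hθJ j j.2] at h1
    exact h1
  have hov : Over (Subgroup.inclusion (hJS.trans hSE)) χ μ := by
    have e : Subgroup.inclusion (hJS.trans hSE) =
        (Subgroup.inclusion hSE).comp (Subgroup.inclusion hJS) := rfl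
    rw [e]
    refine (over_comp_iff _ _ (isIrr_isCharacter hχ) hμ).2 ⟨μ', hμ', hχo, ?_⟩
    letI := Fintype.ofFinite J
    rw [over_iff]
    have e2 : μ' ∘ Subgroup.inclusion hJS = μ := funext hμ'μ
    rw [e2, classInner_irr_self hμ]
    exact one_ne_zero
  by_contra hne
  letI := Fintype.ofFinite J
  rw [over_iff, hone] at hov
  exact hov (classInner_irr_ne isIrr_one hμ (Ne.symm hne))


/-- `N`-invariant characters of the `p`-complement are linear, trivial on `⁅H, N⁆`. -/
theorem lin_of_inv' (ha : Anti G) (hp : p.Prime) (hF : FrobQ K N p) (hHN : H ≤ N)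
    (hcop : (Nat.card H).Coprime p) (hidx : ∃ k, H.relIndex N = p ^ k)
    (hJH : ⁅H, N⁆ ≤ H) {θ : H → ℂ} (hθ : IsIrrCharacter H θ) (hNθ : N ≤ stab θ) :
    charDegree θ = 1 ∧ ∀ j (hj : j ∈ ⁅H, N⁆), θ ⟨j, hJH hj⟩ = 1 := by
  obtain ⟨k, hk⟩ := hidx
  obtain ⟨χ', hχ', hext⟩ := exists_ext hHN hθ hNθ (by rw [hk]; exact hcop.pow_right k)
  have hdeg : charDegree χ' = charDegree θ := charDegree_ext hHN hext
  have h1 : charDegree θ = 1 := by
    by_contra hne
    have h2 := dvd_of_nonlin ha hp hF hχ' (by rw [hdeg]; exact hne)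
    rw [hdeg] at h2
    have h3 := Nat.Coprime.coprime_dvd_left (degree_dvd_card hθ) hcop
    exact hp.one_lt.ne' (Nat.eq_one_of_dvd_coprimes h3 h2 dvd_rfl)
  refine ⟨h1, ?_⟩
  obtain ⟨l, rfl⟩ := exists_hom_of_degree_one hθ h1
  intro j hj
  have h2 : ev l j = 1 := by
    refine ev_comm_sub hJH (fun a ha b hb => ?_) j hj
    have h3 : b * a⁻¹ * b⁻¹ ∈ H := hH.conj_mem _ (H.inv_mem ha) b
    have e : ⁅a, b⁆ = a * (b * a⁻¹ * b⁻¹) := by rw [commutatorElement_def]; group
    rw [e, ev_mul l ha h3, ev_conj (mem_stab_iff.1 (hNθ hb)) (H.inv_mem ha), ev_inv l ha,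
      mul_inv_cancel]
  have h3 := ev_coe l ⟨j, hJH hj⟩
  rw [← h3]
  change ((ev l j : ℂˣ) : ℂ) = 1
  rw [h2, Units.val_one]

/-- **Non-invariant characters of the `p`-complement in Case II.** -/
theorem caseII_inf (ha : Anti G) (hp : p.Prime) (hF : FrobQ K N p) (hHN : H ≤ N)
    (hcop : (Nat.card H).Coprime p) (hidx : ∃ k, H.relIndex N = p ^ k)
    (h : PC (N.map (QuotientGroup.mk' H)) (K.map (QuotientGroup.mk' H)) p) {θ : H → ℂ}
    (hθ : IsIrrCharacter H θ) (hne : ¬ N ≤ stab θ) {x : G} (hxN : x ∈ N)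
    (hxE : QuotientGroup.mk' H x ∈ EE (N.map (QuotientGroup.mk' H))) (hx : x ∈ stab θ) :
    x ∈ H := by
  have hc := cyc_of_frobQ hF
  obtain ⟨k, hk⟩ := hidx
  obtain ⟨⟨s, hs, hsN⟩, hab, ⟨ψ, hψ, hψo, hψd⟩, -⟩ := inertia_of_not ha hc hHN
    (by rw [hk]; exact hcop.pow_right k) (exists_index_degree hF) hF.ne_top hθ hne
  set π := QuotientGroup.mk' H with hπd
  have hπ : Function.Surjective π := QuotientGroup.mk'_surjective H
  have hπ1 : ∀ {g : G}, π g = 1 ↔ g ∈ H := fun {g} => QuotientGroup.eq_one_iff g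
  have hcom : ∀ a ∈ stab θ, ∀ b ∈ stab θ, ⁅π a, π b⁆ = 1 := by
    intro a ha b hb
    rw [← map_commutatorElement, hπ1]
    exact hab (Subgroup.commutator_mem_commutator ha hb)
  -- the inertia group in `N`
  have hC : ∀ n ∈ N, n ∈ stab θ → π n ∈ CC (N.map π) := by
    intro n hn hn'
    refine mem_CC.2 ⟨⟨n, hn, rfl⟩, h.zl le_rfl (L_le _ 1) ⟨n, hn, rfl⟩ (g := π s) ?_ ?_⟩
    · rw [hπd, mem_map_mk hHN]
      exact hsN
    · rw [hcom n hn' s hs]
      exact Subgroup.one_mem _
  have hHT : H ≤ N ⊓ stab θ := le_inf hHN (le_stab' hθ)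
  have hle : (CC (N.map π)).relIndex (N.map π) ∣ (N ⊓ stab θ).relIndex N := by
    rw [← Subgroup.relIndex_comap]
    have h1 : N ⊓ stab θ ≤ (CC (N.map π)).comap π := fun n hn => hC n hn.1 hn.2
    have h2 : (CC (N.map π)).comap π ≤ N := by
      intro n hn
      have h3 : π n ∈ N.map π := CC_le hn
      rwa [hπd, mem_map_mk hHN] at h3
    exact Dvd.intro_left _ (Subgroup.relIndex_mul_relIndex _ _ N h1 h2)
  have hpk : (N ⊓ stab θ).relIndex N ∣ p ^ k := by
    rw [← hk]
    exact Dvd.intro_left _ (Subgroup.relIndex_mul_relIndex H (N ⊓ stab θ) N hHT inf_le_left)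
  obtain ⟨i, -, hi⟩ := (Nat.dvd_prime_pow hp).1 hpk
  have hTN : (N ⊓ stab θ).relIndex N = (stab θ).relIndex N := by
    rw [inf_comm, Subgroup.inf_relIndex_right]
  have hpos : 0 < (N ⊓ stab θ).relIndex N := index_pos _
  -- `stab θ` is not contained in the stabilizers of small characters
  have hout : ∀ ω : N.map π → ℂ, IsIrrCharacter _ ω → charDegree ω ≠ 1 →
      charDegree ω < (CC (N.map π)).relIndex (N.map π) → ∃ t ∈ stab θ, π t ∉ stab ω := by
    intro ω hω hω1 hlt
    by_contra hcon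
    push Not at hcon
    have h1 : stab θ ≤ (stab ω).comap π := hcon
    have h2 : N ≤ (stab ω).comap π := by
      intro n hn
      exact le_stab' hω ⟨n, hn, rfl⟩
    have h3 := relIndex_dvd_relIndex (N := N) h1 h2
    have h4 : charDegree ω < (N ⊓ stab θ).relIndex N := lt_of_lt_of_le hlt (Nat.le_of_dvd hpos hle)
    have h5 : charDegree ω ∣ (stab θ).relIndex ((stab ω).comap π) := by
      refine Dvd.dvd.trans ?_ h3
      rw [← hTN]
      rcases pow_dvd_or (h.deg_pow hω) ⟨i, hi⟩ with h6 | h6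
      · exact h6
      · exact absurd (Nat.le_of_dvd (charDegree_pos hω) h6) (not_le.2 h4)
    have h6 : (stab θ).relIndex ((stab ω).comap π) * ((stab ω).comap π).index = (stab θ).index :=
      Subgroup.relIndex_mul_index h1
    have h7 : ((stab ω).comap π).index = (stab ω).index :=
      Subgroup.index_comap_of_surjective _ hπ
    rw [h7] at h6
    obtain ⟨χ₀, hχ₀, hd₀⟩ := exists_deg_quot ha hc hω hω1
    have h8 := ha χ₀ ψ hχ₀ hψ (by rw [hd₀]; exact mul_ne_one hω1) (by
      rw [hd₀, hψd, ← h6, mul_comm (stab ω).index]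
      exact (Nat.mul_dvd_mul_right h5 _).mul_right _)
    rw [hd₀, hψd, ← h6, mul_comm (stab ω).index, mul_right_comm] at h8
    have h9 := Nat.eq_of_mul_eq_mul_right (index_pos (stab ω)) h8
    have h10 : (stab θ).relIndex N ≤ (stab θ).relIndex ((stab ω).comap π) :=
      Nat.le_of_dvd (index_pos _) h3
    have h11 : (stab θ).relIndex ((stab ω).comap π) ≤ charDegree ω := by
      rw [h9]
      exact Nat.le_mul_of_pos_right _ (charDegree_pos hθ)
    rw [hTN] at h4
    omega
  -- down the lower central series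
  have h1 : π x ∈ L (N.map π) 1 := h.EC_inf hxE (hC x hxN hx)
  have hdown : ∀ t ∈ stab θ, π t * π x * (π t)⁻¹ * (π x)⁻¹ = 1 := by
    intro t ht
    rw [← commutatorElement_def]
    exact hcom t ht x hx
  have h2 : π x ∈ L (N.map π) 2 := by
    by_cases hex : ∃ ν : L (N.map π) 1 →* ℂˣ, (∀ k ∈ L (N.map π) 2, ev ν k = 1) ∧ ν ≠ 1
    · obtain ⟨ν, hν, hν1⟩ := hex
      obtain ⟨ω, hω, ho⟩ := exists_over_incl (L_le (N.map π) 1) (isIrr_lf ν)
      obtain ⟨t, ht, ht'⟩ := hout ω hω (over_nonlin le_rfl hν1 hω ho) (h.lt1 hν hν1 hω ho)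
      rw [h.stab_nu (hν := hν) hν1 hω ho] at ht'
      refine fp_L (g := π t) ?_ h1 (by rw [hdown t ht]; exact Subgroup.one_mem _)
      intro ν' hν' hfix
      by_contra hν'1
      apply ht'
      rw [h.const1 ν ν' hν hν' hν1 hν'1]
      exact mem_stab_iff.2 hfix
    · push Not at hex
      rw [h.L_bot hex, Subgroup.mem_bot] at h1
      rw [h1]
      exact Subgroup.one_mem _
  have h3 : π x ∈ L (N.map π) 3 := by
    by_cases hex : ∃ ν : L (N.map π) 2 →* ℂˣ, (∀ k ∈ L (N.map π) 3, ev ν k = 1) ∧ ν ≠ 1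
    · obtain ⟨ν, hν, hν1⟩ := hex
      obtain ⟨ω, hω, ho⟩ := exists_over_incl (L_le (N.map π) 2) (isIrr_lf ν)
      obtain ⟨t, ht, ht'⟩ := hout ω hω (over_nonlin (by omega) hν1 hω ho) (h.lt2 hν hν1 hω ho)
      rw [h.stab2 hν hν1 hω ho] at ht'
      refine fp_L (g := π t) ?_ h2 (by rw [hdown t ht]; exact Subgroup.one_mem _)
      intro ν' hν' hfix
      by_contra hν'1
      apply ht'
      rw [h.const2 ν ν' hν hν' hν1 hν'1]
      exact mem_stab_iff.2 hfix
    · push Not at hex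
      rw [h.L_bot hex, Subgroup.mem_bot] at h2
      rw [h2]
      exact Subgroup.one_mem _
  rw [h.L3_bot, Subgroup.mem_bot] at h3
  exact hπ1.1 h3

end Cfsg.Agent.H675.Nd
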