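import Mathlib
import Cfsg.Agent.H675.Nd.PH4

/-!
# Solvable groups without divisibility among degrees: at most four degrees, `G''' = 1`
-/

set_option autoImplicit false
set_option linter.style.haveILetI false
set_option linter.unusedSectionVars false
open Cfsg

namespace Cfsg.Agent.H675.Nd

open Cfsg.Agent.Characters.Core Cfsg.Agent.Characters.Clifford Cfsg.Agent.H672 Cfsg.Agent.H672.RM
open Cfsg.Agent.H597.FrobA
open scoped commutatorElement

universe u v w

variable {G : Type u} [Group G] [Finite G]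

theorem card_le_four {a b c : ℕ} (h : ∀ χ : G → ℂ, IsIrrCharacter G χ →
    charDegree χ = 1 ∨ charDegree χ = a ∨ charDegree χ = b ∨ charDegree χ = c) :
    Nat.card ↥(charDegrees G) ≤ 4 := by
  classical
  have hsub : charDegrees G ⊆ (({1, a, b, c} : Finset ℕ) : Set ℕ) := by
    rintro _ ⟨⟨χ, hχ⟩, rfl⟩
    have := h χ hχ
    simpa using this
  rw [Nat.card_coe_set_eq]
  refine (Set.ncard_le_ncard hsub (Finset.finite_toSet _)).trans ?_
  rw [Set.ncard_coe_finset]
  exact Finset.card_le_four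

theorem of_three [Group.IsSolvable G] {a b : ℕ} (h : ∀ χ : G → ℂ, IsIrrCharacter G χ →
    charDegree χ = 1 ∨ charDegree χ = a ∨ charDegree χ = b) :
    Nat.card ↥(charDegrees G) ≤ 4 ∧ derivedSeries G 3 = ⊥ := by
  refine ⟨card_le_four (a := a) (b := b) (c := b) fun χ hχ => ?_,
    H597.ThreeDegB.solvable_case inferInstance a b h⟩
  rcases h χ hχ with h1 | h1 | h1
  · exact Or.inl h1
  · exact Or.inr (Or.inl h1)
  · exact Or.inr (Or.inr (Or.inl h1))

/-- Type P: all nonlinear degrees coincide. -/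
theorem typeP_one (ha : Anti G) {r : ℕ} (hr : r.Prime) {K : Subgroup G} [K.Normal] {k : ℕ}
    (hK : K.index = r ^ k) {β : G → ℂ} (hβ : IsIrrCharacter G β) (hβ1 : charDegree β ≠ 1)
    (hβK : ∀ x ∈ K, β x = β 1) :
    ∃ m, ∀ χ : G → ℂ, IsIrrCharacter G χ → charDegree χ ≠ 1 → charDegree χ = m := by
  haveI := Fact.mk hr
  have h0 : ∀ χ : G → ℂ, IsIrrCharacter G χ → charDegree χ ≠ 1 → r ∣ charDegree χ :=
    fun χ => typeP ha hr hK hβ hβ1 hβK
  have hcop : (Nat.card (H597.RelThompson.Op r (⊤ : Subgroup G))).Coprime r := by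
    refine H597.RelThompson.card_Op_coprime r hr ⊤ ?_
    rintro χ hχ ⟨x, hx, hne⟩
    refine h0 χ hχ fun h1 => hne ?_
    exact H597.Taketa.commutator_le_ker_of_linear hχ h1 _ hx
  have hOK : H597.RelThompson.Op r (⊤ : Subgroup G) ≤ K := by
    unfold H597.RelThompson.Op
    rw [Subgroup.closure_le]
    rintro g ⟨-, hg'⟩
    have h8 := Subgroup.pow_index_mem K g
    rw [hK, ← QuotientGroup.eq_one_iff, QuotientGroup.mk_pow] at h8
    have h9 : (g : G ⧸ K) ^ orderOf g = 1 := by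
      rw [← QuotientGroup.mk_pow, pow_orderOf_eq_one, QuotientGroup.mk_one]
    have h5 := pow_gcd_eq_one.2 ⟨h8, h9⟩
    rw [(hg'.symm.pow_left k).gcd_eq_one, pow_one] at h5
    exact (QuotientGroup.eq_one_iff g).1 h5
  have hna : ¬ ⁅(⊤ : Subgroup G), (⊤ : Subgroup G)⁆ ≤ H597.RelThompson.Op r (⊤ : Subgroup G) := by
    intro hle
    apply hβ1
    refine H597.RelThompson.charDegree_eq_one hβ fun x hx => hβK x (hOK (hle ?_))
    rwa [_root_.commutator_def] at hx
  obtain ⟨m, hm⟩ := case_nonab (N := (⊤ : Subgroup G)) (H := H597.RelThompson.Op r (⊤ : Subgroup G))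
    le_top hr hcop (H597.RelThompson.relIndex_Op r ⊤) hna (fun ψ ψ' hψ hψ' h1 _ hd => by
      have h2 := ha _ _ (isIrr_top hψ) (isIrr_top hψ') (by rw [charDegree_top]; exact h1)
        (by rw [charDegree_top, charDegree_top]; exact hd)
      rwa [charDegree_top, charDegree_top] at h2)
  refine ⟨m, fun χ hχ h1 => ?_⟩
  have h5 : charDegree (χ ∘ (Subgroup.topEquiv (G := G))) = charDegree χ :=
    charDegree_comp_one (Subgroup.topEquiv (G := G)).toMonoidHom χ
  rw [← h5]
  exact hm _ (isIrr_top' hχ) (by rw [h5]; exact h1)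

/-- **Solvable groups without divisibility among degrees.** -/
theorem main [Group.IsSolvable G] (ha : Anti G) :
    Nat.card ↥(charDegrees G) ≤ 4 ∧ derivedSeries G 3 = ⊥ := by
  classical
  by_cases hab : commutator G = ⊥
  · refine of_three (a := 1) (b := 1) fun χ hχ => Or.inl ?_
    refine H597.RelThompson.charDegree_eq_one hχ fun k hk => ?_
    rw [hab, Subgroup.mem_bot] at hk
    rw [hk]
  obtain ⟨r, hr, ⟨K, hK, ⟨k, hk⟩, β, hβ, hβ1, hβK, -⟩ | ⟨K, N, hK, hN, hF⟩⟩ := dich hab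
  · obtain ⟨m, hm⟩ := typeP_one ha hr hk hβ hβ1 hβK
    refine of_three (a := m) (b := m) fun χ hχ => ?_
    by_cases h1 : charDegree χ = 1
    · exact Or.inl h1
    · exact Or.inr (Or.inl (hm χ hχ h1))
  haveI := Fact.mk hr
  have hone : (∃ m, ∀ χ : G → ℂ, IsIrrCharacter G χ → r ∣ charDegree χ → charDegree χ = m) →
      Nat.card ↥(charDegrees G) ≤ 4 ∧ derivedSeries G 3 = ⊥ := by
    rintro ⟨m, hm⟩
    refine of_three (a := N.index) (b := m) fun χ hχ => ?_
    rcases cases_degree ha hr hF hχ with h1 | h1 | ⟨-, h1⟩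
    · exact Or.inl h1
    · exact Or.inr (Or.inl h1)
    · exact Or.inr (Or.inr (hm χ hχ h1))
  by_cases hNab : ⁅N, N⁆ ≤ H597.RelThompson.Op r N
  · exact hone (case_b2 ha hr hF hNab)
  have hcop := Op_coprime ha hr hF
  have hidx := H597.RelThompson.relIndex_Op r N
  have hHK := Op_le_K hF
  by_cases hex : ∃ ν : L (N.map (QuotientGroup.mk' (H597.RelThompson.Op r N))) 1 →* ℂˣ,
      (∀ k ∈ L (N.map (QuotientGroup.mk' (H597.RelThompson.Op r N))) 2, ev ν k = 1) ∧
        (∀ g, cl g ν = ν) ∧ ν ≠ 1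
  · obtain ⟨ν, hν, hinv, hν1⟩ := hex
    exact hone (G_caseI ha hr hF hHK hcop hidx hν hν1 hinv)
  · push Not at hex
    have hPC : PC (N.map (QuotientGroup.mk' (H597.RelThompson.Op r N)))
        (K.map (QuotientGroup.mk' (H597.RelThompson.Op r N))) r :=
      { PS_quot ha hr hF hHK hidx with no := hex }
    obtain ⟨⟨d₁, d₂, hd⟩, h3⟩ := G_caseII ha hr hF (H597.RelThompson.Op_le r N) hcop hidx hNab hPC
    refine ⟨card_le_four (a := N.index) (b := d₁) (c := d₂) fun χ hχ => ?_, h3⟩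
    rcases cases_degree ha hr hF hχ with h1 | h1 | ⟨-, h1⟩
    · exact Or.inl h1
    · exact Or.inr (Or.inl h1)
    · exact Or.inr (Or.inr (hd χ hχ h1))

end Cfsg.Agent.H675.Nd
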